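import Mathlib
import Cfsg.Prelude
import Cfsg.Agent.Lib.H18.CharInd
import Cfsg.Agent.Lib.H77.Degree

set_option autoImplicit false
set_option linter.unusedSectionVars false

/-! Character degree graphs: helpers (groups of order 6048, tensor products, permutation characters). -/

namespace H17.DG1

open Cfsg H18.CharBasic H18.CharOrtho

universe u v

theorem mem_charDegrees {G : Type u} [Group G] {χ : G → ℂ} (h : IsIrrCharacter G χ) {d : ℕ}
    (hd : χ 1 = d) : d ∈ charDegrees G := ⟨⟨χ, h⟩, by simp [charDegree, hd]⟩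

theorem dvd_of_mem {G : Type u} [Group G] [Finite G] {d : ℕ} (hd : d ∈ charDegrees G) :
    d ∣ Nat.card G := by
  have := Fintype.ofFinite G
  obtain ⟨χ, h⟩ := hd
  obtain ⟨n, hn, h1⟩ := exists_degree_pos χ.2
  have : charDegree (χ : G → ℂ) = n := by simp [charDegree, h1]
  rw [this] at h
  subst h
  exact H77.Degree.degree_dvd_card χ.2 h1

/-- the complete graph on `{2, 3, 7}` -/
def gr : SimpleGraph ℕ where
  Adj p q := p ≠ q ∧ (p = 2 ∨ p = 3 ∨ p = 7) ∧ (q = 2 ∨ q = 3 ∨ q = 7)
  symm := ⟨fun _ _ h => ⟨h.1.symm, h.2.2, h.2.1⟩⟩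
  loopless := ⟨fun _ h => h.1 rfl⟩

theorem prime_cases {p : ℕ} (hp : p.Prime) (h : p ∣ 6048) : p = 2 ∨ p = 3 ∨ p = 7 := by
  have h1 : (6048 : ℕ) = 2 ^ 5 * (3 ^ 3 * 7) := by norm_num
  rw [h1] at h
  rcases (Nat.Prime.dvd_mul hp).mp h with h | h
  · left; exact (Nat.prime_dvd_prime_iff_eq hp Nat.prime_two).mp (hp.dvd_of_dvd_pow h)
  · rcases (Nat.Prime.dvd_mul hp).mp h with h | h
    · right; left; exact (Nat.prime_dvd_prime_iff_eq hp Nat.prime_three).mp (hp.dvd_of_dvd_pow h)
    · right; right; exact (Nat.prime_dvd_prime_iff_eq hp (by norm_num)).mp h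

theorem graph_eq {G : Type u} [Group G] [Finite G] (hG : Nat.card G = 6048)
    (h6 : ∃ d ∈ charDegrees G, 6 ∣ d) (h14 : ∃ d ∈ charDegrees G, 14 ∣ d)
    (h21 : ∃ d ∈ charDegrees G, 21 ∣ d) :
    degreePrimes G = {p | p = 2 ∨ p = 3 ∨ p = 7} ∧ degreeGraph G = gr := by
  constructor
  · ext p
    constructor
    · rintro ⟨hp, d, hd, hpd⟩
      exact prime_cases hp (hpd.trans (hG ▸ dvd_of_mem hd))
    · rintro (rfl | rfl | rfl)
      · obtain ⟨d, hd, h⟩ := h6
        exact ⟨Nat.prime_two, d, hd, (by norm_num : 2 ∣ 6).trans h⟩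
      · obtain ⟨d, hd, h⟩ := h6
        exact ⟨Nat.prime_three, d, hd, (by norm_num : 3 ∣ 6).trans h⟩
      · obtain ⟨d, hd, h⟩ := h14
        exact ⟨by norm_num, d, hd, (by norm_num : 7 ∣ 14).trans h⟩
  · ext p q
    change (p ≠ q ∧ p.Prime ∧ q.Prime ∧ ∃ d ∈ charDegrees G, p * q ∣ d) ↔
      (p ≠ q ∧ (p = 2 ∨ p = 3 ∨ p = 7) ∧ (q = 2 ∨ q = 3 ∨ q = 7))
    constructor
    · rintro ⟨hne, hp, hq, d, hd, hpq⟩
      have h := hpq.trans (hG ▸ dvd_of_mem hd)
      exact ⟨hne, prime_cases hp ((Dvd.intro _ rfl).trans h),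
        prime_cases hq ((Dvd.intro_left _ rfl).trans h)⟩
    · rintro ⟨hne, hp, hq⟩
      have h7 : Nat.Prime 7 := by norm_num
      rcases hp with rfl | rfl | rfl <;> rcases hq with rfl | rfl | rfl
      · exact absurd rfl hne
      · exact ⟨hne, Nat.prime_two, Nat.prime_three, h6⟩
      · exact ⟨hne, Nat.prime_two, h7, h14⟩
      · exact ⟨hne, Nat.prime_three, Nat.prime_two, h6⟩
      · exact absurd rfl hne
      · exact ⟨hne, Nat.prime_three, h7, h21⟩
      · exact ⟨hne, h7, Nat.prime_two, h14⟩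
      · exact ⟨hne, h7, Nat.prime_three, h21⟩
      · exact absurd rfl hne

/-- The permutation representation on functions. -/
noncomputable def permRep (G : Type u) [Group G] (X : Type v) [MulAction G X] :
    Representation ℂ G (X → ℂ) where
  toFun g := LinearMap.funLeft ℂ ℂ (fun x : X => g⁻¹ • x)
  map_one' := by
    apply LinearMap.ext; intro f; funext x
    simp [LinearMap.funLeft_apply]
  map_mul' g h := by
    apply LinearMap.ext; intro f; funext x
    simp [LinearMap.funLeft_apply, mul_smul]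

theorem permRep_apply {G : Type u} [Group G] {X : Type v} [MulAction G X] (g : G) (f : X → ℂ)
    (x : X) : permRep G X g f x = f (g⁻¹ • x) := rfl

/-- If `E` is idempotent and commutes with the representation, then `g ↦ tr (ρ g E)` is a character. -/
theorem isCharacter_idem {G : Type u} [Group G] {V : Type v} [AddCommGroup V] [Module ℂ V]
    [FiniteDimensional ℂ V] (ρ : Representation ℂ G V) (E : V →ₗ[ℂ] V) (hE : E ∘ₗ E = E)
    (hc : ∀ g, ρ g ∘ₗ E = E ∘ₗ ρ g) :
    IsCharacter G (fun g => LinearMap.trace ℂ V (ρ g ∘ₗ E)) := by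
  have hinv : ∀ g, ∀ x ∈ LinearMap.range E, ρ g x ∈ LinearMap.range E := by
    rintro g _ ⟨y, rfl⟩
    exact ⟨ρ g y, (LinearMap.congr_fun (hc g) y).symm⟩
  let σ : Representation ℂ G (LinearMap.range E) :=
    { toFun := fun g => (ρ g).restrict (hinv g)
      map_one' := by
        apply LinearMap.ext; intro x; apply Subtype.ext
        simp
      map_mul' := by
        intro g h
        apply LinearMap.ext; intro x; apply Subtype.ext
        simp [LinearMap.restrict_apply] }
  have h := isCharacter_of_rep σ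
  have h2 : σ.character = fun g => LinearMap.trace ℂ V (ρ g ∘ₗ E) := by
    funext g
    have hf : ∀ x, (ρ g ∘ₗ E) x ∈ LinearMap.range E := fun x => hinv g _ ⟨x, rfl⟩
    rw [← LinearMap.trace_restrict_eq_of_forall_mem (LinearMap.range E) (ρ g ∘ₗ E) hf]
    change LinearMap.trace ℂ _ (σ g) = _
    congr 1
    apply LinearMap.ext
    rintro ⟨_, y, rfl⟩
    apply Subtype.ext
    change ρ g (E y) = ρ g (E (E y))
    rw [show E (E y) = E y from LinearMap.congr_fun hE y]
  rw [← h2]
  exact h

theorem trace_funLeft {X : Type v} [Fintype X] [DecidableEq X] (s : X → X) (M : Matrix X X ℂ) :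
    LinearMap.trace ℂ (X → ℂ) (LinearMap.funLeft ℂ ℂ s ∘ₗ Matrix.toLin' M) =
      ∑ x, M (s x) x := by
  rw [LinearMap.trace_eq_matrix_trace ℂ (Pi.basisFun ℂ X), Matrix.trace]
  apply Finset.sum_congr rfl
  intro x _
  rw [Matrix.diag_apply, LinearMap.toMatrix_apply]
  simp [LinearMap.funLeft_apply]

/-- outer product -/
theorem inner_prod {G : Type u} {H : Type v} [Group G] [Group H] [Fintype G] [Fintype H]
    (f : G → ℂ) (f' : H → ℂ) :
    classInner (fun x : G × H => f x.1 * f' x.2) (fun x : G × H => f x.1 * f' x.2) =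
      classInner f f * classInner f' f' := by
  unfold classInner
  rw [Nat.card_prod, Nat.cast_mul, mul_inv, Fintype.sum_prod_type]
  have : ∑ x : G, ∑ y : H, (f (x, y).1 * f' (x, y).2) * (starRingEnd ℂ) (f (x, y).1 * f' (x, y).2) =
      (∑ x : G, f x * (starRingEnd ℂ) (f x)) * ∑ y : H, f' y * (starRingEnd ℂ) (f' y) := by
    rw [Finset.sum_mul_sum]
    apply Finset.sum_congr rfl
    intro x _
    apply Finset.sum_congr rfl
    intro y _
    rw [map_mul]; ring
  rw [this]
  ring

theorem irr_prod {G : Type u} {H : Type v} [Group G] [Group H] [Finite G] [Finite H]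
    {f : G → ℂ} {f' : H → ℂ} (h : IsIrrCharacter G f) (h' : IsIrrCharacter H f') :
    IsIrrCharacter (G × H) (fun x => f x.1 * f' x.2) := by
  have := Fintype.ofFinite G
  have := Fintype.ofFinite H
  rw [isIrr_iff]
  constructor
  · exact isCharacter_mul (isCharacter_comp (MonoidHom.fst G H) (isCharacter_of_isIrr h))
      (isCharacter_comp (MonoidHom.snd G H) (isCharacter_of_isIrr h'))
  · rw [inner_prod, inner_irr_self h, inner_irr_self h', one_mul]

end H17.DG1
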