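import Cfsg.Agent.Lib.H17.DG2

set_option autoImplicit false
set_option linter.unusedSectionVars false

/-! A solvable group of order 6048 with an irreducible character of degree 42. -/

namespace H17.DG3

open Cfsg H18.CharBasic H18.CharOrtho H17.DG1 H17.DG2

/-! ### affine groups of lines -/

/-- the affine group of a field -/
@[ext] structure Aff (F : Type*) [Field F] where
  a : Fˣ
  b : F

namespace Aff

variable {F : Type*} [Field F]

instance : Mul (Aff F) := ⟨fun g h => ⟨g.a * h.a, g.a * h.b + g.b⟩⟩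
instance : One (Aff F) := ⟨⟨1, 0⟩⟩
instance : Inv (Aff F) := ⟨fun g => ⟨g.a⁻¹, -(↑(g.a⁻¹) * g.b)⟩⟩

@[simp] theorem mul_a (g h : Aff F) : (g * h).a = g.a * h.a := rfl
@[simp] theorem mul_b (g h : Aff F) : (g * h).b = g.a * h.b + g.b := rfl
@[simp] theorem one_a : (1 : Aff F).a = 1 := rfl
@[simp] theorem one_b : (1 : Aff F).b = 0 := rfl
@[simp] theorem inv_a (g : Aff F) : (g⁻¹).a = g.a⁻¹ := rfl
@[simp] theorem inv_b (g : Aff F) : (g⁻¹).b = -(↑(g.a⁻¹) * g.b) := rfl

instance : Group (Aff F) := Group.ofLeftAxioms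
  (fun g h k => by
    apply Aff.ext
    · simp [mul_assoc]
    · simp only [mul_b, mul_a, Units.val_mul]; ring)
  (fun g => by apply Aff.ext <;> simp)
  (fun g => by
    apply Aff.ext
    · simp
    · simp)

/-- the underlying type -/
def equiv (F : Type*) [Field F] : Aff F ≃ Fˣ × F where
  toFun g := (g.a, g.b)
  invFun x := ⟨x.1, x.2⟩
  left_inv _ := rfl
  right_inv _ := rfl

instance : MulAction (Aff F) F where
  smul g x := g.a * x + g.b
  one_smul x := by change ((1 : Fˣ) : F) * x + 0 = x; simp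
  mul_smul g h x := by
    change ((g.a * h.a : Fˣ) : F) * x + (g.a * h.b + g.b) = g.a * (h.a * x + h.b) + g.b
    rw [Units.val_mul]; ring

theorem smul_def (g : Aff F) (x : F) : g • x = g.a * x + g.b := rfl

/-- the linear part -/
def lin (F : Type*) [Field F] : Aff F →* Fˣ where
  toFun g := g.a
  map_one' := rfl
  map_mul' _ _ := rfl

theorem solvable : Group.IsSolvable (Aff F) := by
  have h1 : Group.IsSolvable (lin F).ker := Group.isSolvable_of_comm (by
    rintro ⟨g, hg⟩ ⟨h, hh⟩
    apply Subtype.ext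
    have hg' : g.a = 1 := hg
    have hh' : h.a = 1 := hh
    change g * h = h * g
    apply Aff.ext
    · simp [hg', hh']
    · simp [hg', hh', add_comm])
  exact Group.isSolvable_of_ker_le_range (lin F).ker.subtype (lin F) (by rw [Subgroup.range_subtype])

theorem card [Finite F] : Nat.card (Aff F) = (Nat.card F - 1) * Nat.card F := by
  rw [Nat.card_congr (equiv F), Nat.card_prod, Nat.card_units]

theorem irr [Finite F] (hF : 2 < Nat.card F) :
    IsIrrCharacter (Aff F) (fun g => fixN F g - 1) := by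
  have : Finite (Aff F) := Finite.of_equiv _ (equiv F).symm
  have := Fintype.ofFinite (Aff F)
  have hc : IsCharacter (Aff F) (fixN F) := isCharacter_fixN F
  have h1 : IsGeneralizedCharacter (Aff F) (fun g => fixN F g - 1) :=
    isGen_sub (isGen_of_isCharacter hc) isGen_one
  have hne : ∃ x y : F, x ≠ y := ⟨0, 1, zero_ne_one⟩
  -- two orbits on pairs
  have h2 : Nat.card (MulAction.orbitRel.Quotient (Aff F) (F × F)) ≤ 2 := by
    classical
    apply card_orbits_le (fun x y => if x = y then (0 : Fin 2) else 1)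
    intro x y x' y' h
    by_cases hxy : x = y
    · by_cases hxy' : x' = y'
      · subst hxy; subst hxy'
        refine ⟨⟨1, x' - x⟩, ?_, ?_⟩ <;> simp [smul_def]
      · simp [hxy, hxy'] at h
    · by_cases hxy' : x' = y'
      · simp [hxy, hxy'] at h
      · have h3 : x - y ≠ 0 := sub_ne_zero.mpr hxy
        have h4 : x' - y' ≠ 0 := sub_ne_zero.mpr hxy'
        refine ⟨⟨Units.mk0 ((x' - y') / (x - y)) (div_ne_zero h4 h3), x' - (x' - y') / (x - y) * x⟩, ?_, ?_⟩
        · rw [smul_def, Units.val_mk0]; ring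
        · rw [smul_def, Units.val_mk0]; field_simp; ring
  have h3 := inner_fixN (G := Aff F) F
  -- inner product with one
  obtain ⟨m, hm⟩ := inner_char_natCast hc (isCharacter_one (G := Aff F))
  obtain ⟨m', hm'⟩ := inner_char_natCast (isCharacter_one (G := Aff F)) hc
  have h11 : classInner (fun _ => 1 : Aff F → ℂ) (fun _ => 1) = 1 := inner_irr_self isIrrCharacter_one
  have hmm : m' = m := by
    have := inner_conj_symm (fixN F : Aff F → ℂ) (fun _ => 1)
    rw [hm, hm', Complex.conj_natCast] at this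
    exact_mod_cast this.symm
  have hm1 : 1 ≤ m := by
    by_contra hcon
    have hm0 : m = 0 := by omega
    rw [hm0, Nat.cast_zero] at hm
    unfold classInner at hm
    have h5 : ∑ g : Aff F, fixN F g * (starRingEnd ℂ) (1 : ℂ) = 0 := by
      rcases mul_eq_zero.mp hm with h6 | h6
      · exact absurd h6 (inv_ne_zero card_ne_zero')
      · exact h6
    have h6 : ∑ g : Aff F, Nat.card {x : F // g • x = x} = 0 := by
      have h7 : ((∑ g : Aff F, Nat.card {x : F // g • x = x} : ℕ) : ℂ) = 0 := by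
        rw [Nat.cast_sum, ← h5]
        apply Finset.sum_congr rfl
        intro g _
        rw [map_one, mul_one]; rfl
      exact_mod_cast h7
    have h8 := (Finset.sum_eq_zero_iff.mp h6) 1 (Finset.mem_univ _)
    have h9 : Nat.card {x : F // (1 : Aff F) • x = x} = Nat.card F :=
      Nat.card_congr (Equiv.subtypeUnivEquiv (fun x => one_smul _ x))
    rw [h9] at h8
    omega
  have hdeg : (fixN F (1 : Aff F)) = (Nat.card F : ℂ) := by
    rw [fixN]
    congr 1
    exact Nat.card_congr (Equiv.subtypeUnivEquiv (fun x => one_smul _ x))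
  set N := Nat.card (MulAction.orbitRel.Quotient (Aff F) (F × F)) with hN
  have hfun : (fun g : Aff F => fixN F g - 1) = (fixN F : Aff F → ℂ) - (fun _ : Aff F => (1 : ℂ)) := rfl
  have h4 : classInner (fun g : Aff F => fixN F g - 1) (fun g : Aff F => fixN F g - 1) =
      (N : ℂ) - m - m + 1 := by
    rw [hfun, H18.CharOrtho.inner_sub_left, H18.CharOrtho.inner_sub_right,
      H18.CharOrtho.inner_sub_right, h3, hm, hm', h11, hmm]
    ring
  have hreal : 0 ≤ ((N : ℝ) - m - m + 1) := by
    have h5 := inner_self_re_nonneg (fun g : Aff F => fixN F g - 1)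
    rw [h4] at h5
    simpa using h5
  have hne0 : (N : ℂ) - m - m + 1 ≠ 0 := by
    intro h5
    rw [h5, H18.CharOrtho.inner_self_eq_zero] at h4
    have h6 := congrFun h4 1
    change fixN F (1 : Aff F) - 1 = 0 at h6
    rw [hdeg, sub_eq_zero] at h6
    have : Nat.card F = 1 := by exact_mod_cast h6
    omega
  have hN1 : (N : ℤ) - m - m + 1 = 1 := by
    have h5 : (0 : ℤ) ≤ (N : ℤ) - m - m + 1 := by exact_mod_cast hreal
    have h6 : (N : ℤ) - m - m + 1 ≠ 0 := by exact_mod_cast hne0
    omega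
  apply isIrr_of_gen_norm_one h1
  · rw [h4]; exact_mod_cast hN1
  · change 0 < (fixN F (1 : Aff F) - 1).re
    rw [hdeg]
    simp only [Complex.sub_re, Complex.natCast_re, Complex.one_re]
    have : (2 : ℝ) < Nat.card F := by exact_mod_cast hF
    linarith

end Aff

/-! ### the group of order 54 -/

/-- `(x, y) ↦ (x + a, e y + b + c x)` -/
@[ext] structure K54 where
  a : ZMod 3
  b : ZMod 3
  c : ZMod 3
  e : (ZMod 3)ˣ

namespace K54

instance : Mul K54 := ⟨fun g h => ⟨g.a + h.a, g.e * h.b + g.b + g.c * h.a, g.e * h.c + g.c, g.e * h.e⟩⟩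
instance : One K54 := ⟨⟨0, 0, 0, 1⟩⟩
instance : Inv K54 := ⟨fun g => ⟨-g.a, -(↑(g.e⁻¹) * g.b) + ↑(g.e⁻¹) * g.c * g.a, -(↑(g.e⁻¹) * g.c), g.e⁻¹⟩⟩

@[simp] theorem mul_a (g h : K54) : (g * h).a = g.a + h.a := rfl
@[simp] theorem mul_b (g h : K54) : (g * h).b = g.e * h.b + g.b + g.c * h.a := rfl
@[simp] theorem mul_c (g h : K54) : (g * h).c = g.e * h.c + g.c := rfl
@[simp] theorem mul_e (g h : K54) : (g * h).e = g.e * h.e := rfl
@[simp] theorem one_a : (1 : K54).a = 0 := rfl
@[simp] theorem one_b : (1 : K54).b = 0 := rfl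
@[simp] theorem one_c : (1 : K54).c = 0 := rfl
@[simp] theorem one_e : (1 : K54).e = 1 := rfl
@[simp] theorem inv_a (g : K54) : (g⁻¹).a = -g.a := rfl
@[simp] theorem inv_b (g : K54) : (g⁻¹).b = -(↑(g.e⁻¹) * g.b) + ↑(g.e⁻¹) * g.c * g.a := rfl
@[simp] theorem inv_c (g : K54) : (g⁻¹).c = -(↑(g.e⁻¹) * g.c) := rfl
@[simp] theorem inv_e (g : K54) : (g⁻¹).e = g.e⁻¹ := rfl

instance : Group K54 := Group.ofLeftAxioms
  (fun g h k => by
    apply K54.ext
    · simp [add_assoc]
    · simp only [mul_b, mul_a, mul_e, mul_c, Units.val_mul]; ring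
    · simp only [mul_e, mul_c, Units.val_mul]; ring
    · simp [mul_assoc])
  (fun g => by apply K54.ext <;> simp)
  (fun g => by
    apply K54.ext
    · simp
    · simp only [mul_b, inv_b, inv_e, inv_c, one_b]; ring
    · simp only [mul_c, inv_e, inv_c, one_c]; ring
    · simp)

/-- the underlying type -/
def equiv : K54 ≃ ZMod 3 × ZMod 3 × ZMod 3 × (ZMod 3)ˣ where
  toFun g := (g.a, g.b, g.c, g.e)
  invFun x := ⟨x.1, x.2.1, x.2.2.1, x.2.2.2⟩
  left_inv _ := rfl
  right_inv _ := rfl

instance : Fintype K54 := Fintype.ofEquiv _ equiv.symm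

theorem card : Nat.card K54 = 54 := by
  rw [Nat.card_congr equiv, Nat.card_eq_fintype_card]
  decide +kernel

/-- the nine points -/
@[ext] structure P9 where
  x : ZMod 3
  y : ZMod 3

/-- the three blocks -/
@[ext] structure P3 where
  x : ZMod 3

/-- the underlying type -/
def eq9 : P9 ≃ ZMod 3 × ZMod 3 where
  toFun p := (p.x, p.y)
  invFun p := ⟨p.1, p.2⟩
  left_inv _ := rfl
  right_inv _ := rfl

/-- the underlying type -/
def eq3 : P3 ≃ ZMod 3 where
  toFun p := p.x
  invFun p := ⟨p⟩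
  left_inv _ := rfl
  right_inv _ := rfl

instance : Finite P9 := Finite.of_equiv _ eq9.symm
instance : Finite P3 := Finite.of_equiv _ eq3.symm

instance : MulAction K54 P9 where
  smul g p := ⟨p.x + g.a, g.e * p.y + g.b + g.c * p.x⟩
  one_smul p := by
    change (⟨p.x + (0 : ZMod 3), ((1 : (ZMod 3)ˣ) : ZMod 3) * p.y + 0 + 0 * p.x⟩ : P9) = p
    apply P9.ext <;> simp
  mul_smul g h p := by
    change (⟨p.x + (g.a + h.a), ((g.e * h.e : (ZMod 3)ˣ) : ZMod 3) * p.y +
      (g.e * h.b + g.b + g.c * h.a) + (g.e * h.c + g.c) * p.x⟩ : P9) =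
      ⟨p.x + h.a + g.a, g.e * (h.e * p.y + h.b + h.c * p.x) + g.b + g.c * (p.x + h.a)⟩
    apply P9.ext
    · change p.x + (g.a + h.a) = p.x + h.a + g.a
      ring
    · change ((g.e * h.e : (ZMod 3)ˣ) : ZMod 3) * p.y +
        (g.e * h.b + g.b + g.c * h.a) + (g.e * h.c + g.c) * p.x =
        g.e * (h.e * p.y + h.b + h.c * p.x) + g.b + g.c * (p.x + h.a)
      rw [Units.val_mul]; ring

instance : MulAction K54 P3 where
  smul g p := ⟨p.x + g.a⟩
  one_smul p := by
    change (⟨p.x + 0⟩ : P3) = p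
    apply P3.ext; simp
  mul_smul g h p := by
    change (⟨p.x + (g.a + h.a)⟩ : P3) = ⟨p.x + h.a + g.a⟩
    apply P3.ext
    change p.x + (g.a + h.a) = p.x + h.a + g.a
    ring

/-- the values of the character of degree six -/
def val (g : K54) : ℤ := if g.a = 0 ∧ g.c = 0 ∧ g.e = 1 then (if g.b = 0 then 6 else -3) else 0

theorem fix9 (g : K54) : Nat.card {x : P9 // g • x = x} =
    (Finset.univ.filter (fun x : ZMod 3 × ZMod 3 => x.1 + g.a = x.1 ∧
      g.e * x.2 + g.b + g.c * x.1 = x.2)).card := by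
  have h : ∀ p : P9, (g • p = p ↔ ((eq9 p).1 + g.a = (eq9 p).1 ∧
      g.e * (eq9 p).2 + g.b + g.c * (eq9 p).1 = (eq9 p).2)) := by
    intro p
    change (⟨p.x + g.a, g.e * p.y + g.b + g.c * p.x⟩ : P9) = p ↔ _
    rw [P9.ext_iff]
    rfl
  rw [Nat.card_congr (Equiv.subtypeEquiv (q := fun x : ZMod 3 × ZMod 3 => x.1 + g.a = x.1 ∧
      g.e * x.2 + g.b + g.c * x.1 = x.2) eq9 h), Nat.card_eq_fintype_card,
    Fintype.card_subtype]

theorem fix3 (g : K54) : Nat.card {x : P3 // g • x = x} =
    (Finset.univ.filter (fun x : ZMod 3 => x + g.a = x)).card := by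
  have h : ∀ p : P3, (g • p = p ↔ (eq3 p + g.a = eq3 p)) := by
    intro p
    change (⟨p.x + g.a⟩ : P3) = p ↔ _
    rw [P3.ext_iff]
    rfl
  rw [Nat.card_congr (Equiv.subtypeEquiv (q := fun x : ZMod 3 => x + g.a = x) eq3 h),
    Nat.card_eq_fintype_card, Fintype.card_subtype]

theorem comp : ∀ (a b c : ZMod 3) (e : (ZMod 3)ˣ),
    ((Finset.univ.filter (fun x : ZMod 3 × ZMod 3 => x.1 + a = x.1 ∧
      e * x.2 + b + c * x.1 = x.2)).card : ℤ) -
      ((Finset.univ.filter (fun x : ZMod 3 => x + a = x)).card : ℤ) =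
      if a = 0 ∧ c = 0 ∧ e = 1 then (if b = 0 then 6 else -3) else 0 := by
  decide +kernel

theorem val_eq (g : K54) : (fixN P9 g : ℂ) - fixN P3 g = (val g : ℂ) := by
  have h := comp g.a g.b g.c g.e
  rw [← fix9, ← fix3] at h
  rw [fixN, fixN, val, ← h]
  push_cast
  rfl

theorem sum_val : ∑ x : ZMod 3 × ZMod 3 × ZMod 3 × (ZMod 3)ˣ,
    (if x.1 = 0 ∧ x.2.2.1 = 0 ∧ x.2.2.2 = 1 then (if x.2.1 = 0 then 6 else -3) else (0 : ℤ)) ^ 2 = 54 := by
  decide +kernel

theorem irr : IsIrrCharacter K54 (fun g => (val g : ℂ)) := by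
  have h1 : IsGeneralizedCharacter K54 (fun g => (val g : ℂ)) := by
    have h2 : (fun g : K54 => (val g : ℂ)) = (fixN P9 : K54 → ℂ) - (fixN P3 : K54 → ℂ) := by
      funext g
      exact (val_eq g).symm
    rw [h2]
    exact isGen_sub (isGen_of_isCharacter (isCharacter_fixN P9)) (isGen_of_isCharacter (isCharacter_fixN P3))
  apply isIrr_of_gen_norm_one h1
  · unfold classInner
    rw [card]
    have h3 : ∑ g : K54, (val g : ℂ) * (starRingEnd ℂ) (val g : ℂ) = 54 := by
      have h4 : ∑ g : K54, (val g) ^ 2 = 54 := by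
        rw [← sum_val]
        exact Fintype.sum_equiv equiv _ _ (fun g => rfl)
      have h5 : ((∑ g : K54, (val g) ^ 2 : ℤ) : ℂ) = 54 := by rw [h4]; norm_num
      rw [← h5]
      push_cast
      apply Finset.sum_congr rfl
      intro g _
      rw [map_intCast]; ring
    rw [h3]; norm_num
  · have : val 1 = 6 := by
      rw [val]; simp
    change 0 < ((val 1 : ℤ) : ℂ).re
    rw [this]; norm_num

theorem val_one : val 1 = 6 := by
  rw [val]; simp

/-- the quotient -/
def qu : K54 →* Multiplicative (ZMod 3) × (ZMod 3)ˣ where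
  toFun g := (Multiplicative.ofAdd g.a, g.e)
  map_one' := rfl
  map_mul' _ _ := rfl

theorem solvable : Group.IsSolvable K54 := by
  have h1 : Group.IsSolvable qu.ker := Group.isSolvable_of_comm (by
    rintro ⟨g, hg⟩ ⟨h, hh⟩
    apply Subtype.ext
    have hg' : g.a = 0 := congrArg Prod.fst hg
    have hg2 : g.e = 1 := congrArg Prod.snd hg
    have hh' : h.a = 0 := congrArg Prod.fst hh
    have hh2 : h.e = 1 := congrArg Prod.snd hh
    change g * h = h * g
    apply K54.ext
    · simp [hg', hh']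
    · simp [hg', hh', hg2, hh2, add_comm]
    · simp [hg2, hh2, add_comm]
    · simp [hg2, hh2])
  exact Group.isSolvable_of_ker_le_range qu.ker.subtype qu (by rw [Subgroup.range_subtype])

end K54

/-- the solvable group of order 6048 -/
abbrev HH : Type := (Aff (GaloisField 2 3) × K54) × Multiplicative (ZMod 2)

theorem card_F8 : Nat.card (GaloisField 2 3) = 8 := by
  rw [GaloisField.card 2 3 (by norm_num)]; norm_num

instance : Finite (Aff (GaloisField 2 3)) := Finite.of_equiv _ (Aff.equiv _).symm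

theorem card_HH : Nat.card HH = 6048 := by
  rw [Nat.card_prod, Nat.card_prod, Aff.card, card_F8, K54.card]
  simp

theorem solvable_HH : Group.IsSolvable HH := by
  have := Aff.solvable (F := GaloisField 2 3)
  have := K54.solvable
  infer_instance

theorem deg_HH : 42 ∈ charDegrees HH := by
  have h1 := irr_prod (Aff.irr (F := GaloisField 2 3) (by rw [card_F8]; norm_num)) K54.irr
  have h2 := isIrrCharacter_comp (MonoidHom.fst (Aff (GaloisField 2 3) × K54) (Multiplicative (ZMod 2)))
    Prod.fst_surjective h1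
  refine mem_charDegrees h2 ?_
  change (fixN (GaloisField 2 3) (1 : Aff (GaloisField 2 3)) - 1) * ((K54.val 1 : ℤ) : ℂ) = _
  rw [K54.val_one]
  have hdeg : (fixN (GaloisField 2 3) (1 : Aff (GaloisField 2 3))) = 8 := by
    rw [fixN, Nat.card_congr (Equiv.subtypeUnivEquiv (fun x => one_smul _ x)), card_F8]
    norm_num
  rw [hdeg]
  norm_num

end H17.DG3
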