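import Cfsg.Agent.Lib.H17.DG9
import Cfsg.Agent.Lib.H17.DG3

set_option autoImplicit false
set_option linter.unusedSectionVars false

/-! Conclusion: `PSU(3,3)` and a solvable group with the same degree graph. -/

namespace H17.DG10

open Cfsg H17.DG1 H18.CharBasic H18.CharOrtho

universe u v

theorem charDegrees_le {G : Type u} {H : Type v} [Group G] [Group H] (e : G ≃* H) :
    charDegrees H ⊆ charDegrees G := by
  rintro d ⟨χ, hd⟩
  exact ⟨⟨_, isIrrCharacter_comp e.toMonoidHom e.surjective χ.2⟩, by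
    rw [← hd]
    simp [charDegree]⟩

theorem charDegrees_eq {G : Type u} {H : Type v} [Group G] [Group H] (e : G ≃* H) :
    charDegrees G = charDegrees H :=
  Set.Subset.antisymm (charDegrees_le e.symm) (charDegrees_le e)

variable {F : Type*} [Field F] [Fintype F] (hF : Fintype.card F = 9)

include hF

theorem psu_equiv : Nonempty (SU 3 F 3 ≃* PSU 3 F 3) := by
  have h := H7.UnitSU.card_center (K := F) (q := 3) (n := 3) (by rw [hF]; norm_num) (by norm_num)
  have h2 : Nat.card (Subgroup.center (SU 3 F 3)) = 1 := by rw [h]; norm_num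
  have h3 : Subgroup.center (SU 3 F 3) = ⊥ := Subgroup.card_eq_one.mp h2
  exact ⟨(QuotientGroup.quotientBot.symm).trans (QuotientGroup.quotientMulEquivOfEq h3.symm)⟩

theorem final : ∃ (H : Type) (_ : Group H) (_ : Fintype H), Group.IsSolvable H ∧ Nat.card H = 6048 ∧
    degreePrimes H = degreePrimes (PSU 3 F 3) ∧ degreeGraph H = degreeGraph (PSU 3 F 3) := by
  have : Finite H17.DG3.HH := Nat.finite_of_card_ne_zero (by rw [H17.DG3.card_HH]; norm_num)
  refine ⟨H17.DG3.HH, inferInstance, Fintype.ofFinite _, H17.DG3.solvable_HH, H17.DG3.card_HH, ?_⟩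
  obtain ⟨e⟩ := psu_equiv hF
  have h1 := H17.DG9.main hF
  have h2 : degreePrimes (PSU 3 F 3) = degreePrimes (SU 3 F 3) := by
    unfold degreePrimes
    rw [charDegrees_eq e]
  have h3 : degreeGraph (PSU 3 F 3) = degreeGraph (SU 3 F 3) := by
    unfold degreeGraph
    simp only [charDegrees_eq e]
  have h4 := graph_eq H17.DG3.card_HH ⟨42, H17.DG3.deg_HH, by norm_num⟩
    ⟨42, H17.DG3.deg_HH, by norm_num⟩ ⟨42, H17.DG3.deg_HH, by norm_num⟩
  rw [h2, h3, h1.1, h1.2]
  exact h4

end H17.DG10
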