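import Cfsg.Agent.Lib.H17.DG1

set_option autoImplicit false
set_option linter.unusedSectionVars false

/-! Permutation characters: they are characters, and their norm is the number of orbits on pairs. -/

namespace H17.DG2

open Cfsg H18.CharBasic H18.CharOrtho H17.DG1

universe u v

variable {G : Type u} [Group G]

/-- number of fixed points -/
noncomputable def fixN (X : Type v) [MulAction G X] (g : G) : ℂ := (Nat.card {x : X // g • x = x} : ℂ)

theorem isCharacter_fixN (X : Type v) [Finite X] [MulAction G X] : IsCharacter G (fixN (G := G) X) := by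
  classical
  have := Fintype.ofFinite X
  have h := isCharacter_idem (permRep G X) LinearMap.id rfl (fun _ => rfl)
  have h2 : (fun g => LinearMap.trace ℂ (X → ℂ) (permRep G X g ∘ₗ LinearMap.id)) = fixN (G := G) X := by
    funext g
    have h3 := trace_funLeft (X := X) (fun x => g⁻¹ • x) 1
    rw [Matrix.toLin'_one] at h3
    change LinearMap.trace ℂ (X → ℂ) (LinearMap.funLeft ℂ ℂ (fun x : X => g⁻¹ • x) ∘ₗ LinearMap.id) = _
    rw [h3]
    simp only [Matrix.one_apply]
    rw [Finset.sum_boole, fixN, Nat.card_eq_fintype_card, Fintype.card_subtype]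
    congr 2
    ext x
    simp only [Finset.mem_filter, Finset.mem_univ, true_and]
    rw [inv_smul_eq_iff, eq_comm]
  rw [← h2]
  exact h

theorem inner_fixN [Fintype G] (X : Type v) [Finite X] [MulAction G X] :
    classInner (fixN (G := G) X) (fixN (G := G) X) =
      (Nat.card (MulAction.orbitRel.Quotient G (X × X)) : ℂ) := by
  classical
  have := Fintype.ofFinite X
  have := Fintype.ofFinite (Quotient (MulAction.orbitRel G (X × X)))
  have h := MulAction.sum_card_fixedBy_eq_card_orbits_mul_card_group G (X × X)
  unfold classInner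
  have h1 : ∀ g : G, fixN (G := G) X g * (starRingEnd ℂ) (fixN (G := G) X g) =
      ((Fintype.card (MulAction.fixedBy (X × X) g) : ℕ) : ℂ) := by
    intro g
    have h2 : Fintype.card (MulAction.fixedBy (X × X) g) =
        Nat.card {x : X // g • x = x} * Nat.card {x : X // g • x = x} := by
      rw [← Nat.card_eq_fintype_card, ← Nat.card_prod]
      apply Nat.card_congr
      exact
        { toFun := fun x => (⟨x.1.1, congrArg Prod.fst x.2⟩, ⟨x.1.2, congrArg Prod.snd x.2⟩)
          invFun := fun x => ⟨(x.1.1, x.2.1), Prod.ext x.1.2 x.2.2⟩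
          left_inv := fun x => rfl
          right_inv := fun x => rfl }
    rw [h2, fixN, Complex.conj_natCast, Nat.cast_mul]
  rw [Finset.sum_congr rfl (fun g _ => h1 g), ← Nat.cast_sum, h, Nat.cast_mul,
    ← Nat.card_eq_fintype_card (α := G), ← Nat.card_eq_fintype_card]
  have h3 : (Nat.card G : ℂ) ≠ 0 := card_ne_zero' 
  field_simp

theorem card_orbits_le [Finite G] {X : Type v} [Finite X] [MulAction G X] {n : ℕ} (t : X → X → Fin n)
    (h : ∀ x y x' y', t x y = t x' y' → ∃ g : G, g • x = x' ∧ g • y = y') :
    Nat.card (MulAction.orbitRel.Quotient G (X × X)) ≤ n := by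
  classical
  let s : MulAction.orbitRel.Quotient G (X × X) → X × X := Quotient.out
  have hs : ∀ q, (Quotient.mk'' (s q) : MulAction.orbitRel.Quotient G (X × X)) = q := fun q =>
    Quotient.out_eq' q
  have hinj : Function.Injective (fun q => t (s q).1 (s q).2) := by
    intro q q' hq
    obtain ⟨g, h1, h2⟩ := h _ _ _ _ hq
    rw [← hs q, ← hs q']
    apply Quotient.sound'
    change (s q) ∈ MulAction.orbit G (s q')
    refine ⟨g⁻¹, ?_⟩
    change g⁻¹ • (s q') = s q
    rw [inv_smul_eq_iff]
    exact (Prod.ext h1 h2).symm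
  have := Nat.card_le_card_of_injective _ hinj
  rwa [Nat.card_fin] at this

/-- If a character of norm at most `n` is a sum of `n` nonzero characters, these are irreducible. -/
theorem irr_of_sum [Fintype G] {n : ℕ} (χ : Fin n → G → ℂ) (h : ∀ i, IsCharacter G (χ i))
    (h0 : ∀ i, χ i 1 ≠ 0) (N : ℕ) (hN : N ≤ n)
    (hs : classInner (∑ i, χ i) (∑ i, χ i) = N) (i : Fin n) : IsIrrCharacter G (χ i) := by
  classical
  rw [isIrr_iff]
  refine ⟨h i, ?_⟩
  have h1 : ∀ i j, ∃ m : ℕ, classInner (χ i) (χ j) = m := fun i j => inner_char_natCast (h i) (h j)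
  choose m hm using h1
  have hpos : ∀ i, 1 ≤ m i i := by
    intro i
    rcases Nat.eq_zero_or_pos (m i i) with h2 | h2
    · exfalso
      have h3 := hm i i
      rw [h2, Nat.cast_zero, H18.CharOrtho.inner_self_eq_zero] at h3
      exact h0 i (by rw [h3]; rfl)
    · exact h2
  have h2 : ∑ i, ∑ j, m i j = N := by
    have h3 : classInner (∑ i, χ i) (∑ i, χ i) = ∑ i, ∑ j, (m i j : ℂ) := by
      rw [inner_sum_left]
      apply Finset.sum_congr rfl
      intro i _
      rw [inner_sum_right]
      exact Finset.sum_congr rfl fun j _ => hm i j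
    rw [hs] at h3
    exact_mod_cast h3.symm
  have h3 : ∀ i, m i i ≤ ∑ j, m i j := fun i =>
    Finset.single_le_sum (f := fun j => m i j) (fun _ _ => Nat.zero_le _) (Finset.mem_univ i)
  have h4 : ∑ i, m i i ≤ N := by
    rw [← h2]
    exact Finset.sum_le_sum fun i _ => h3 i
  have h5 : m i i = 1 := by
    by_contra hne
    have h6 : 2 ≤ m i i := by have := hpos i; omega
    have h7 : ∑ j : Fin n, (if j = i then 2 else 1) ≤ ∑ j, m j j := by
      apply Finset.sum_le_sum
      intro j _
      split_ifs with hj
      · rw [hj]; exact h6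
      · exact hpos j
    have h8 : ∑ j : Fin n, (if j = i then 2 else 1) = n + 1 := by
      have : ∀ j : Fin n, (if j = i then 2 else 1) = 1 + if j = i then 1 else 0 := by
        intro j; split_ifs <;> rfl
      rw [Finset.sum_congr rfl (fun j _ => this j), Finset.sum_add_distrib]
      simp
    omega
  rw [hm, h5, Nat.cast_one]

end H17.DG2
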