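import Mathlib
import Cfsg.Prelude
import Cfsg.Agent.Lib.H61.SpecSU3

set_option autoImplicit false
set_option linter.unusedSectionVars false

/-! The group `SU(3,3)`: explicit elements and transitivity on pairs of nonisotropic points. -/

namespace H17.DG4

open Cfsg Matrix

variable {F : Type*} [Field F]

/-- the form -/
abbrev hf (u v : Fin 3 → F) : F := hermForm 3 F 3 u v

theorem hf_eq (u v : Fin 3 → F) : hf u v = u 0 * v 0 ^ 3 + u 1 * v 1 ^ 3 + u 2 * v 2 ^ 3 := by
  change ∑ i, u i * (v i) ^ 3 = _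
  rw [Fin.sum_univ_three]

variable [Fintype F] (hF : Fintype.card F = 9)

include hF

theorem three0 : (3 : F) = 0 := by
  have hC := H61.SpecSU3.charP_three hF
  exact_mod_cast CharP.cast_eq_zero F 3

theorem p9 (x : F) : x ^ 9 = x := by
  have := FiniteField.pow_card x
  rwa [hF] at this

theorem p33 (x : F) : (x ^ 3) ^ 3 = x := by rw [← pow_mul]; exact p9 hF x

theorem add3 (x y : F) : (x + y) ^ 3 = x ^ 3 + y ^ 3 := by
  linear_combination (x ^ 2 * y + x * y ^ 2) * three0 hF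

theorem sub3 (x y : F) : (x - y) ^ 3 = x ^ 3 - y ^ 3 := by
  linear_combination (-x ^ 2 * y + x * y ^ 2) * three0 hF

theorem nm_cases (x : F) : x ^ 4 = 0 ∨ x ^ 4 = 1 ∨ x ^ 4 = 2 := by
  have h1 : x ^ 4 * (x ^ 4 - 1) * (x ^ 4 + 1) = 0 := by
    have := p9 hF x
    linear_combination x ^ 3 * this
  rcases mul_eq_zero.mp h1 with h2 | h2
  · rcases mul_eq_zero.mp h2 with h3 | h3
    · exact Or.inl h3
    · exact Or.inr (Or.inl (sub_eq_zero.mp h3))
  · right; right
    linear_combination h2 - three0 hF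

theorem exists_tau : ∃ t : F, t ^ 4 = 2 := by
  obtain ⟨i, hi, -⟩ := H61.SpecSU3.exists_i hF
  refine ⟨1 + i, ?_⟩
  linear_combination (i ^ 2 + 4 * i + 5) * hi - 2 * three0 hF

theorem two_ne : (2 : F) ≠ 0 := by
  intro h
  have := three0 hF
  exact one_ne_zero (show (1 : F) = 0 by linear_combination this - h)

theorem hf_swap (u v : Fin 3 → F) : hf v u = (hf u v) ^ 3 := by
  rw [hf_eq, hf_eq, add3 hF, add3 hF, mul_pow, mul_pow, mul_pow, p33 hF, p33 hF, p33 hF]
  ring

theorem hf_mul (u v : Fin 3 → F) : hf u v * hf v u = (hf u v) ^ 4 := by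
  rw [hf_swap hF u v]; ring

theorem hf_smul_left (c : F) (u v : Fin 3 → F) : hf (c • u) v = c * hf u v := by
  rw [hf_eq, hf_eq]; simp only [Pi.smul_apply, smul_eq_mul]; ring

theorem hf_smul_right (c : F) (u v : Fin 3 → F) : hf u (c • v) = c ^ 3 * hf u v := by
  rw [hf_eq, hf_eq]; simp only [Pi.smul_apply, smul_eq_mul]; ring

theorem hf_add_left (u u' v : Fin 3 → F) : hf (u + u') v = hf u v + hf u' v := by
  rw [hf_eq, hf_eq, hf_eq]; simp only [Pi.add_apply]; ring

theorem hf_add_right (u v v' : Fin 3 → F) : hf u (v + v') = hf u v + hf u v' := by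
  rw [hf_eq, hf_eq, hf_eq]; simp only [Pi.add_apply, add3 hF]; ring

theorem hf_sub_left (u u' v : Fin 3 → F) : hf (u - u') v = hf u v - hf u' v := by
  rw [hf_eq, hf_eq, hf_eq]; simp only [Pi.sub_apply]; ring

theorem hf_sub_right (u v v' : Fin 3 → F) : hf u (v - v') = hf u v - hf u v' := by
  rw [hf_eq, hf_eq, hf_eq]; simp only [Pi.sub_apply, sub3 hF]; ring

omit hF in
/-- the conjugate cross product -/
def cr (u e : Fin 3 → F) : Fin 3 → F :=
  ![(u 1 * e 2 - u 2 * e 1) ^ 3, (u 2 * e 0 - u 0 * e 2) ^ 3, (u 0 * e 1 - u 1 * e 0) ^ 3]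

omit hF in
/-- the matrix with given columns -/
def col (u e f : Fin 3 → F) : Matrix (Fin 3) (Fin 3) F := !![u 0, e 0, f 0; u 1, e 1, f 1; u 2, e 2, f 2]

omit hF in
theorem col_mulVec (u e f w : Fin 3 → F) : col u e f *ᵥ w = w 0 • u + w 1 • e + w 2 • f := by
  funext i
  fin_cases i <;> simp [col, Matrix.mulVec, dotProduct, Fin.sum_univ_three] <;> ring

theorem det_col {u e : Fin 3 → F} (hu : hf u u = 1) (he : hf e e = 1) (hue : hf u e = 0) :
    (col u e (cr u e)).det = 1 := by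
  have heu : hf e u = 0 := by rw [hf_swap hF u e, hue]; ring
  rw [hf_eq] at hu he hue heu
  rw [Matrix.det_fin_three]
  simp only [col, cr, Matrix.of_apply, Matrix.cons_val', Matrix.cons_val_zero, Matrix.cons_val_one,
    Matrix.cons_val_fin_one, Matrix.cons_val, sub3 hF, mul_pow]
  linear_combination (e 0 * e 0 ^ 3 + e 1 * e 1 ^ 3 + e 2 * e 2 ^ 3) * hu + he -
    (e 0 * u 0 ^ 3 + e 1 * u 1 ^ 3 + e 2 * u 2 ^ 3) * hue

omit hF in
/-- the element with given matrix -/
def sl (A : Matrix (Fin 3) (Fin 3) F) (h : A.det = 1) : Matrix.SpecialLinearGroup (Fin 3) F := ⟨A, h⟩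

theorem mem_col {u e : Fin 3 → F} (hu : hf u u = 1) (he : hf e e = 1) (hue : hf u e = 0) :
    sl (col u e (cr u e)) (det_col hF hu he hue) ∈ SU 3 F 3 := by
  have hC := H61.SpecSU3.charP_three hF
  have heu : hf e u = 0 := by rw [hf_swap hF u e, hue]; ring
  rw [hf_eq] at hu he hue heu
  rw [H61.SpecSU3.mem_SU_iff]
  change (col u e (cr u e))ᵀ * (col u e (cr u e)).map (frobenius F 3) = 1
  have q0 : (u 0 ^ 3) ^ 3 = u 0 := p33 hF _
  have q1 : (u 1 ^ 3) ^ 3 = u 1 := p33 hF _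
  have q2 : (u 2 ^ 3) ^ 3 = u 2 := p33 hF _
  have r0 : (e 0 ^ 3) ^ 3 = e 0 := p33 hF _
  have r1 : (e 1 ^ 3) ^ 3 = e 1 := p33 hF _
  have r2 : (e 2 ^ 3) ^ 3 = e 2 := p33 hF _
  ext i j
  rw [Matrix.mul_apply, Fin.sum_univ_three]
  fin_cases i <;> fin_cases j <;>
    simp only [col, cr, Matrix.transpose_apply, Matrix.map_apply, Matrix.of_apply, Matrix.cons_val',
      Matrix.cons_val_zero, Matrix.cons_val_one, Matrix.cons_val_fin_one, Matrix.cons_val,
      frobenius_def, sub3 hF, mul_pow, Fin.zero_eta, Fin.mk_one, Fin.reduceFinMk, Fin.isValue,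
      Matrix.one_apply_eq, ne_eq, Fin.reduceEq, not_false_eq_true, Matrix.one_apply_ne,
      q0, q1, q2, r0, r1, r2, zero_ne_one, one_ne_zero]
  · exact hu
  · exact hue
  · ring
  · exact heu
  · exact he
  · ring
  · linear_combination 0 * hu
  · linear_combination 0 * hu
  · linear_combination (e 0 * e 0 ^ 3 + e 1 * e 1 ^ 3 + e 2 * e 2 ^ 3) * hu + he -
      (e 0 * u 0 ^ 3 + e 1 * u 1 ^ 3 + e 2 * u 2 ^ 3) * hue

end H17.DG4
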