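import Cfsg.Agent.Lib.H17.DG4
import Cfsg.Agent.Lib.H17.DG2

set_option autoImplicit false
set_option linter.unusedSectionVars false

/-! The action of `SU(3,3)` on the 63 nonisotropic points. -/

namespace H17.DG5

open Cfsg Matrix H17.DG4

variable {F : Type*} [Field F]

/-- the projection matrix of a unit vector -/
def pj (u : Fin 3 → F) : Matrix (Fin 3) (Fin 3) F := vecMulVec u (fun j => u j ^ 3)

theorem pj_apply (u : Fin 3 → F) (i j : Fin 3) : pj u i j = u i * u j ^ 3 := rfl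

variable (F) in
/-- the 63 points -/
def Om : Type _ := {P : Matrix (Fin 3) (Fin 3) F // ∃ u, hf u u = 1 ∧ P = pj u}

/-- the matrix -/
abbrev mt (g : SU 3 F 3) : Matrix (Fin 3) (Fin 3) F := g.1.1

theorem mt_mul (g h : SU 3 F 3) : mt (g * h) = mt g * mt h := rfl

theorem mt_one : mt (1 : SU 3 F 3) = 1 := rfl

theorem mt_inv_mul (g : SU 3 F 3) : mt g⁻¹ * mt g = 1 := by
  rw [← mt_mul, inv_mul_cancel, mt_one]

theorem mt_mul_inv (g : SU 3 F 3) : mt g * mt g⁻¹ = 1 := by
  rw [← mt_mul, mul_inv_cancel, mt_one]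

theorem hf_mt (g : SU 3 F 3) (u v : Fin 3 → F) : hf (mt g *ᵥ u) (mt g *ᵥ v) = hf u v := g.2 u v

variable [Fintype F] (hF : Fintype.card F = 9)

include hF

theorem mt_inv (g : SU 3 F 3) : mt g⁻¹ = ((mt g).map (fun x => x ^ 3))ᵀ := by
  have hC := H61.SpecSU3.charP_three hF
  have h1 : (mt g)ᵀ * (mt g).map (frobenius F 3) = 1 := (H61.SpecSU3.mem_SU_iff g.1).mp g.2
  have h2 : ((mt g).map (fun x => x ^ 3))ᵀ * mt g = 1 := by
    have := congrArg Matrix.transpose h1
    rw [Matrix.transpose_mul, Matrix.transpose_transpose, Matrix.transpose_one] at this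
    exact this
  calc mt g⁻¹ = (((mt g).map (fun x => x ^ 3))ᵀ * mt g) * mt g⁻¹ := by rw [h2, Matrix.one_mul]
    _ = _ := by rw [Matrix.mul_assoc, mt_mul_inv, Matrix.mul_one]

theorem conj_pj (g : SU 3 F 3) (u : Fin 3 → F) : mt g * pj u * mt g⁻¹ = pj (mt g *ᵥ u) := by
  have hC := H61.SpecSU3.charP_three hF
  have : Fact (Nat.Prime 3) := ⟨Nat.prime_three⟩
  rw [mt_inv hF, pj, Matrix.mul_vecMulVec, Matrix.vecMulVec_mul, Matrix.vecMul_transpose, pj]
  congr 1
  funext i
  exact (RingHom.map_mulVec (frobenius F 3) (mt g) u i).symm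

omit hF in
theorem trace_pj (u v : Fin 3 → F) : (pj u * pj v).trace = hf u v * hf v u := by
  rw [hf_eq, hf_eq, Matrix.trace, Fin.sum_univ_three]
  simp only [Matrix.diag_apply, Matrix.mul_apply, Fin.sum_univ_three, pj_apply]
  ring

theorem trace_pj' (u v : Fin 3 → F) : (pj u * pj v).trace = (hf u v) ^ 4 := by
  rw [trace_pj, hf_mul hF]

omit hF in
theorem pj_mulVec (u w : Fin 3 → F) : pj u *ᵥ w = hf w u • u := by
  funext i
  simp only [Matrix.mulVec, dotProduct, Fin.sum_univ_three, pj_apply, Pi.smul_apply, smul_eq_mul, hf_eq]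
  ring

theorem pj_smul (c : F) (hc : c ^ 4 = 1) (u : Fin 3 → F) : pj (c • u) = pj u := by
  ext i j
  simp only [pj_apply, Pi.smul_apply, smul_eq_mul]
  linear_combination (u i * u j ^ 3) * hc

theorem eq_of_pj {u v : Fin 3 → F} (hu : hf u u = 1) (hv : hf v v = 1) (h : pj u = pj v) :
    v = hf v u • u ∧ (hf v u) ^ 4 = 1 := by
  have h1 : v = hf v u • u := by
    rw [← pj_mulVec, h, pj_mulVec, hv, one_smul]
  refine ⟨h1, ?_⟩
  have h2 := trace_pj' hF v u
  rw [← h, trace_pj' hF, hu, one_pow] at h2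
  exact h2.symm

/-- the action -/
@[reducible] noncomputable def act : MulAction (SU 3 F 3) (Om F) where
  smul g P := ⟨mt g * P.1 * mt g⁻¹, by
    obtain ⟨u, hu, hP⟩ := P.2
    refine ⟨mt g *ᵥ u, ?_, ?_⟩
    · rw [hf_mt]; exact hu
    · rw [hP]; exact conj_pj hF g u⟩
  one_smul P := by
    apply Subtype.ext
    change mt (1 : SU 3 F 3) * P.1 * mt (1 : SU 3 F 3)⁻¹ = P.1
    rw [inv_one, mt_one, Matrix.one_mul, Matrix.mul_one]
  mul_smul g h P := by
    apply Subtype.ext
    change mt (g * h) * P.1 * mt (g * h)⁻¹ = mt g * (mt h * P.1 * mt h⁻¹) * mt g⁻¹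
    rw [_root_.mul_inv_rev, mt_mul, mt_mul]
    simp only [Matrix.mul_assoc]

omit hF in
/-- the point of a unit vector -/
def pt (u : Fin 3 → F) (hu : hf u u = 1) : Om F := ⟨pj u, u, hu, rfl⟩

omit hF in
/-- the invariant of a pair of points -/
def tr (P Q : Om F) : F := (P.1 * Q.1).trace

theorem tr_smul (g : SU 3 F 3) (P Q : Om F) :
    letI := act hF
    tr (g • P) (g • Q) = tr P Q := by
  letI := act hF
  change (mt g * P.1 * mt g⁻¹ * (mt g * Q.1 * mt g⁻¹)).trace = _
  have : mt g * P.1 * mt g⁻¹ * (mt g * Q.1 * mt g⁻¹) = mt g * (P.1 * Q.1) * mt g⁻¹ := by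
    calc _ = mt g * P.1 * (mt g⁻¹ * mt g) * Q.1 * mt g⁻¹ := by simp only [Matrix.mul_assoc]
      _ = _ := by rw [mt_inv_mul, Matrix.mul_one]; simp only [Matrix.mul_assoc]
  rw [this, Matrix.trace_mul_comm, ← Matrix.mul_assoc, mt_inv_mul, Matrix.one_mul]
  rfl

omit hF in
theorem tr_comm (P Q : Om F) : tr P Q = tr Q P := Matrix.trace_mul_comm _ _

theorem tr_cases (P Q : Om F) : tr P Q = 0 ∨ tr P Q = 1 ∨ tr P Q = 2 := by
  obtain ⟨u, hu, hP⟩ := P.2
  obtain ⟨v, hv, hQ⟩ := Q.2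
  have : tr P Q = (hf u v) ^ 4 := by rw [tr, hP, hQ, trace_pj' hF]
  rw [this]
  exact nm_cases hF _

theorem smul_pt (g : SU 3 F 3) (u : Fin 3 → F) (hu : hf u u = 1) :
    letI := act hF
    g • pt u hu = pt (mt g *ᵥ u) (by rw [hf_mt]; exact hu) := by
  apply Subtype.ext
  exact conj_pj hF g u

/-- there is a unit vector orthogonal to a given one -/
theorem exists_perp {u : Fin 3 → F} (hu : hf u u = 1) : ∃ e, hf e e = 1 ∧ hf u e = 0 := by
  have h3 := three0 hF
  -- some coordinate has norm different from one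
  obtain ⟨i, hi⟩ : ∃ i, (u i) ^ 4 ≠ 1 := by
    by_contra hcon
    push Not at hcon
    rw [hf_eq] at hu
    have h0 := hcon 0
    have h1 := hcon 1
    have h2 := hcon 2
    exact one_ne_zero (show (1 : F) = 0 by linear_combination h3 - hu + h0 + h1 + h2)
  set w : Fin 3 → F := Pi.single i 1 - (u i) ^ 3 • u with hw
  have e1 : hf (Pi.single i 1) u = (u i) ^ 3 := by
    rw [hf_eq]; fin_cases i <;> simp
  have e2 : hf u (Pi.single i 1) = u i := by
    rw [hf_eq]; fin_cases i <;> simp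
  have e3 : hf (Pi.single i 1 : Fin 3 → F) (Pi.single i 1) = 1 := by
    rw [hf_eq]; fin_cases i <;> simp
  have huw : hf u w = 0 := by
    rw [hw, hf_sub_right hF, e2, hf_smul_right hF, hu, p33 hF]; ring
  have hww : hf w w = 1 - (u i) ^ 4 := by
    have : hf w w = hf (Pi.single i 1) w - (u i) ^ 3 * hf u w := by
      conv_lhs => rw [hw, hf_sub_left hF, hf_smul_left hF]
    rw [this, huw, hw, hf_sub_right hF, e3, hf_smul_right hF, e1, p33 hF]; ring
  obtain ⟨t, ht⟩ := exists_tau hF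
  rcases nm_cases hF (u i) with h | h | h
  · refine ⟨w, by rw [hww, h]; ring, huw⟩
  · exact absurd h hi
  · refine ⟨t • w, ?_, ?_⟩
    · rw [hf_smul_left hF, hf_smul_right hF, hww, h]
      linear_combination (-1 : F) * ht - h3
    · rw [hf_smul_right hF, huw, mul_zero]

/-- the group element with given first two columns -/
theorem exists_elt {u e : Fin 3 → F} (hu : hf u u = 1) (he : hf e e = 1) (hue : hf u e = 0) :
    ∃ g : SU 3 F 3, ∀ w, mt g *ᵥ w = w 0 • u + w 1 • e + w 2 • cr u e :=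
  ⟨⟨_, mem_col hF hu he hue⟩, fun w => col_mulVec u e (cr u e) w⟩

omit hF in
theorem hf_std (a b c a' b' c' : F) : hf ![a, b, c] ![a', b', c'] = a * a' ^ 3 + b * b' ^ 3 + c * c' ^ 3 := by
  rw [hf_eq]; rfl

theorem isotropic_aux {u e w : Fin 3 → F} {t : F} (ht : t ^ 4 = 2) (hu : hf u u = 1) (he : hf e e = 1)
    (hue : hf u e = 0) (hwu : hf w u = 0) (hww : hf w w = 0) (hwe : (hf w e) ^ 4 = 1) :
    ∃ (g : SU 3 F 3) (d : F), d ^ 4 = 1 ∧ mt g *ᵥ ![1, 0, 0] = d • u ∧
      mt g *ᵥ ![1, 1, t] = d • (u + w) := by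
  obtain ⟨g0, hg0⟩ := exists_elt hF hu he hue
  set z := mt g0⁻¹ *ᵥ w with hz
  have hgz : mt g0 *ᵥ z = w := by
    rw [hz, Matrix.mulVec_mulVec, mt_mul_inv, Matrix.one_mulVec]
  have q0 : mt g0 *ᵥ ![1, 0, 0] = u := by rw [hg0]; simp
  have q1 : mt g0 *ᵥ ![0, 1, 0] = e := by rw [hg0]; simp
  have z0 : z 0 = 0 := by
    have := hf_mt g0 z ![1, 0, 0]
    rw [hgz, q0, hwu, hf_eq] at this
    simpa using this.symm
  have z1 : z 1 = hf w e := by
    have := hf_mt g0 z ![0, 1, 0]
    rw [hgz, q1, hf_eq z] at this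
    simpa using this.symm
  have hzz : (z 1) ^ 4 + (z 2) ^ 4 = 0 := by
    have := hf_mt g0 z z
    rw [hgz, hww, hf_eq, z0] at this
    linear_combination -this
  rw [z1, hwe] at hzz
  have h3 := three0 hF
  have hz2 : (z 2) ^ 4 = 2 := by linear_combination hzz - h3
  have ht0 : t ≠ 0 := by
    rintro rfl
    exact two_ne hF (by rw [← ht]; ring)
  have hw : w = z 1 • e + z 2 • cr u e := by
    rw [← hgz, hg0, z0, zero_smul, zero_add]
  have hx4 : (z 1) ^ 4 = 1 := by rw [z1]; exact hwe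
  set x := z 1 with hx
  set y := z 2 with hy
  set d : F := y * x / t with hd
  have hdt : d * t = y * x := by rw [hd]; field_simp
  have hd4 : d ^ 4 = 1 := by
    rw [hd, div_pow, mul_pow, hz2, hx4, ht, mul_one, div_self (two_ne hF)]
  have r1 : hf (d • u) (d • u) = 1 := by
    rw [hf_smul_left hF, hf_smul_right hF, hu]; linear_combination hd4
  have r2 : hf ((d * x) • e) ((d * x) • e) = 1 := by
    rw [hf_smul_left hF, hf_smul_right hF, he]; linear_combination x ^ 4 * hd4 + hx4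
  have r3 : hf (d • u) ((d * x) • e) = 0 := by
    rw [hf_smul_left hF, hf_smul_right hF, hue]; ring
  obtain ⟨g, hg⟩ := exists_elt hF r1 r2 r3
  have hcr : cr (d • u) ((d * x) • e) = (d ^ 6 * x ^ 3) • cr u e := by
    funext i
    fin_cases i <;> simp [cr] <;> ring
  refine ⟨g, d, hd4, ?_, ?_⟩
  · rw [hg]; simp
  · rw [hg, hcr, hw]
    funext i
    simp only [Matrix.cons_val_zero, Matrix.cons_val_one, Matrix.cons_val, one_smul, Pi.add_apply,
      Pi.smul_apply, smul_eq_mul]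
    linear_combination (d ^ 5 * x ^ 3 * cr u e i) * hdt + (d ^ 5 * y * cr u e i) * hx4 +
      (d * y * cr u e i) * hd4

theorem exists_isotropic {u w : Fin 3 → F} {t : F} (ht : t ^ 4 = 2) (hu : hf u u = 1)
    (hwu : hf w u = 0) (hww : hf w w = 0) (hw0 : w ≠ 0) :
    ∃ (g : SU 3 F 3) (d : F), d ^ 4 = 1 ∧ mt g *ᵥ ![1, 0, 0] = d • u ∧
      mt g *ᵥ ![1, 1, t] = d • (u + w) := by
  obtain ⟨e, he, hue⟩ := exists_perp hF hu
  obtain ⟨g0, hg0⟩ := exists_elt hF hu he hue
  set z := mt g0⁻¹ *ᵥ w with hz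
  have hgz : mt g0 *ᵥ z = w := by
    rw [hz, Matrix.mulVec_mulVec, mt_mul_inv, Matrix.one_mulVec]
  have q0 : mt g0 *ᵥ ![1, 0, 0] = u := by rw [hg0]; simp
  have q1 : mt g0 *ᵥ ![0, 1, 0] = e := by rw [hg0]; simp
  have q2 : mt g0 *ᵥ ![0, 0, 1] = cr u e := by rw [hg0]; simp
  have z0 : z 0 = 0 := by
    have := hf_mt g0 z ![1, 0, 0]
    rw [hgz, q0, hwu, hf_eq] at this
    simpa using this.symm
  have z1 : z 1 = hf w e := by
    have := hf_mt g0 z ![0, 1, 0]
    rw [hgz, q1, hf_eq z] at this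
    simpa using this.symm
  have z2 : z 2 = hf w (cr u e) := by
    have := hf_mt g0 z ![0, 0, 1]
    rw [hgz, q2, hf_eq z] at this
    simpa using this.symm
  have hzz : (z 1) ^ 4 + (z 2) ^ 4 = 0 := by
    have := hf_mt g0 z z
    rw [hgz, hww, hf_eq, z0] at this
    linear_combination -this
  have h3 := three0 hF
  rcases nm_cases hF (z 1) with h | h | h
  · exfalso
    rw [h, zero_add] at hzz
    apply hw0
    rw [← hgz, hg0, z0, pow_eq_zero_iff (by norm_num) |>.mp h, pow_eq_zero_iff (by norm_num) |>.mp hzz]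
    simp
  · exact isotropic_aux hF ht hu he hue hwu hww (by rw [← z1]; exact h)
  · refine isotropic_aux hF ht hu (e := cr u e) ?_ ?_ hwu hww ?_
    · rw [← q2, hf_mt, hf_std]; ring
    · nth_rewrite 1 [← q0]
      rw [← q2, hf_mt, hf_std]; ring
    · rw [← z2]
      rw [h] at hzz
      linear_combination hzz - h3

omit hF in
/-- the second vector of a standard pair -/
def sec (t : F) (k : Fin 4) : Fin 3 → F :=
  match k with
  | 0 => ![1, 0, 0]
  | 1 => ![0, 1, 0]
  | 2 => ![1, 1, t]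
  | 3 => ![t, t, 0]

theorem hf_sec {t : F} (ht : t ^ 4 = 2) (k : Fin 4) : hf (sec t k) (sec t k) = 1 := by
  have h3 := three0 hF
  fin_cases k
  · change hf ![1, 0, 0] ![1, 0, 0] = (1 : F)
    rw [hf_std]; ring
  · change hf ![0, 1, 0] ![0, 1, 0] = (1 : F)
    rw [hf_std]; ring
  · change hf ![1, 1, t] ![1, 1, t] = (1 : F)
    rw [hf_std]; linear_combination ht + h3
  · change hf ![t, t, 0] ![t, t, 0] = (1 : F)
    rw [hf_std]; linear_combination 2 * ht + h3

open Classical in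
/-- the type of a pair -/
noncomputable def ty (P Q : Om F) : Fin 4 :=
  if P = Q then 0 else if tr P Q = 0 then 1 else if tr P Q = 1 then 2 else 3

theorem key {t : F} (ht : t ^ 4 = 2) (P Q : Om F) :
    letI := act hF
    ∃ g : SU 3 F 3, g • pt (sec t 0) (hf_sec hF ht 0) = P ∧
      g • pt (sec t (ty P Q)) (hf_sec hF ht _) = Q := by
  letI := act hF
  obtain ⟨u, hu, hP⟩ := P.2
  obtain ⟨v, hv, hQ⟩ := Q.2
  have htr : tr P Q = (hf v u) ^ 4 := by rw [tr_comm, tr, hP, hQ, trace_pj' hF]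
  have h3 := three0 hF
  have fin : ∀ (k : Fin 4) (g : SU 3 F 3) (c d : F), ty P Q = k → c ^ 4 = 1 → d ^ 4 = 1 →
      mt g *ᵥ ![1, 0, 0] = c • u → mt g *ᵥ (sec t k) = d • v →
      ∃ g : SU 3 F 3, g • pt (sec t 0) (hf_sec hF ht 0) = P ∧
      g • pt (sec t (ty P Q)) (hf_sec hF ht _) = Q := by
    rintro k g c d rfl hc hd h1 h2
    refine ⟨g, ?_, ?_⟩
    · rw [smul_pt hF]
      apply Subtype.ext
      change pj (mt g *ᵥ ![1, 0, 0]) = P.1
      rw [h1, pj_smul hF c hc, hP]
    · rw [smul_pt hF]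
      apply Subtype.ext
      change pj (mt g *ᵥ (sec t (ty P Q))) = Q.1
      rw [h2, pj_smul hF d hd, hQ]
  by_cases hPQ : P = Q
  · obtain ⟨e, he, hue⟩ := exists_perp hF hu
    obtain ⟨g, hg⟩ := exists_elt hF hu he hue
    have hpj : pj u = pj v := by rw [← hP, ← hQ, hPQ]
    obtain ⟨h1, h2⟩ := eq_of_pj hF hv hu hpj.symm
    have q0 : mt g *ᵥ ![1, 0, 0] = u := by rw [hg]; simp
    refine fin 0 g 1 (hf u v) ?_ (one_pow _) h2 (by rw [one_smul, q0]) ?_
    · simp [ty, hPQ]
    · change mt g *ᵥ ![1, 0, 0] = _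
      rw [q0]; exact h1
  have hvu : hf u v = (hf v u) ^ 3 := hf_swap hF v u
  set α := hf v u with hα
  rcases nm_cases hF α with h | h | h
  · -- orthogonal
    have hα0 : α = 0 := pow_eq_zero_iff (by norm_num) |>.mp h
    obtain ⟨g, hg⟩ := exists_elt hF hu hv (by rw [hvu, hα0]; ring)
    refine fin 1 g 1 1 ?_ (one_pow _) (one_pow _) ?_ ?_
    · rw [ty, if_neg hPQ, if_pos (by rw [htr, h])]
    · rw [hg]; simp
    · change mt g *ᵥ ![0, 1, 0] = _
      rw [hg]; simp
  · -- tangent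
    have hα0 : α ≠ 0 := by
      intro h0; rw [h0] at h; simp at h
    set v' := α⁻¹ • v with hv'
    set w := v' - u with hw
    have hinv : (α⁻¹) ^ 4 = 1 := by rw [inv_pow, h, inv_one]
    have e1 : hf v' u = 1 := by rw [hv', hf_smul_left hF, ← hα, inv_mul_cancel₀ hα0]
    have e2 : hf u v' = 1 := by rw [hf_swap hF v' u, e1, one_pow]
    have e3 : hf v' v' = 1 := by
      rw [hv', hf_smul_left hF, hf_smul_right hF, hv]; linear_combination hinv
    have hwu : hf w u = 0 := by rw [hw, hf_sub_left hF, e1, hu, sub_self]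
    have hww : hf w w = 0 := by
      have : hf w w = hf v' w - hf u w := by conv_lhs => rw [hw, hf_sub_left hF]
      rw [this, hw, hf_sub_right hF, hf_sub_right hF, e3, e1, e2, hu]; ring
    have hw0 : w ≠ 0 := by
      intro h0
      apply hPQ
      apply Subtype.ext
      rw [hP, hQ]
      have h1 : u = v' := (sub_eq_zero.mp h0).symm
      rw [h1, hv', pj_smul hF _ hinv]
    obtain ⟨g, d, hd, h1, h2⟩ := exists_isotropic hF ht hu hwu hww hw0
    refine fin 2 g d (d * α⁻¹) ?_ hd ?_ h1 ?_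
    · rw [ty, if_neg hPQ, if_neg (by rw [htr, h]; exact one_ne_zero), if_pos (by rw [htr, h])]
    · rw [mul_pow, hd, hinv, one_mul]
    · change mt g *ᵥ ![1, 1, t] = _
      rw [h2, hw, add_sub_cancel, hv', smul_smul]
  · -- hyperbolic
    have hα0 : α ≠ 0 := by
      intro h0; rw [h0] at h
      exact two_ne hF (by rw [← h]; ring)
    set w := v - α • u with hw
    have hinv : (α⁻¹) ^ 4 = 2 := by
      rw [inv_pow, h]
      rw [inv_eq_iff_eq_inv, eq_comm]
      rw [inv_eq_iff_eq_inv, eq_comm]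
      have := two_ne hF
      field_simp
      linear_combination -h3
    have hwu : hf w u = 0 := by
      rw [hw, hf_sub_left hF, hf_smul_left hF, hu, ← hα]; ring
    have huw : hf u w = 0 := by rw [hf_swap hF w u, hwu]; ring
    have hww : hf w w = 2 := by
      have : hf w w = hf v w - α * hf u w := by
        conv_lhs => rw [hw, hf_sub_left hF, hf_smul_left hF]
      rw [this, huw, hw, hf_sub_right hF, hf_smul_right hF, hv, ← hα]
      linear_combination -h - h3
    set e := α⁻¹ • w with he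
    have hee : hf e e = 1 := by
      rw [he, hf_smul_left hF, hf_smul_right hF, hww]
      linear_combination 2 * hinv + h3
    have hue : hf u e = 0 := by rw [he, hf_smul_right hF, huw, mul_zero]
    obtain ⟨g, hg⟩ := exists_elt hF hu hee hue
    refine fin 3 g 1 (t * α⁻¹) ?_ (one_pow _) ?_ ?_ ?_
    · rw [ty, if_neg hPQ, if_neg (by rw [htr, h]; exact two_ne hF), if_neg (by
        rw [htr, h]
        intro h5
        exact one_ne_zero (show (1 : F) = 0 by linear_combination h5))]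
    · rw [mul_pow, ht, hinv]; linear_combination h3
    · rw [hg]; simp
    · change mt g *ᵥ ![t, t, 0] = _
      rw [hg, he, hw]
      funext i
      simp only [Matrix.cons_val_zero, Matrix.cons_val_one, Matrix.cons_val, Pi.add_apply, zero_smul,
        Pi.smul_apply, smul_eq_mul, Pi.sub_apply, Pi.zero_apply]
      field_simp
      ring

theorem trans {P Q P' Q' : Om F} (h : ty P Q = ty P' Q') :
    letI := act hF
    ∃ g : SU 3 F 3, g • P = P' ∧ g • Q = Q' := by
  letI := act hF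
  obtain ⟨t, ht⟩ := exists_tau hF
  obtain ⟨g, h1, h2⟩ := key hF ht P Q
  obtain ⟨g', h1', h2'⟩ := key hF ht P' Q'
  refine ⟨g' * g⁻¹, ?_, ?_⟩
  · rw [mul_smul, ← h1, inv_smul_smul, h1']
  · rw [mul_smul, ← h2, inv_smul_smul]
    rw [← h2']
    congr 2
    rw [h]

end H17.DG5
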