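import Cfsg.Agent.Lib.H17.DG5

set_option autoImplicit false
set_option linter.unusedSectionVars false

/-! Counting in the graph of the 63 nonisotropic points. -/

namespace H17.DG6

open Cfsg Matrix H17.DG4 H17.DG5

/-- coordinates of the field with nine elements -/
abbrev Z := ZMod 3 × ZMod 3
/-- the norm -/
def nm (a : Z) : ZMod 3 := a.1 * a.1 + a.2 * a.2
/-- the product with the conjugate -/
def mc (a x : Z) : Z := (a.1 * x.1 + a.2 * x.2, a.2 * x.1 - a.1 * x.2)
/-- the form -/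
def hz (p q : Z × Z × Z) : Z := mc p.1 q.1 + mc p.2.1 q.2.1 + mc p.2.2 q.2.2

variable {F : Type*} [Field F] [Fintype F] (hF : Fintype.card F = 9)

include hF in
theorem exists_coord : ∃ (κ : ZMod 3 →+* F) (φ : Z ≃ F), (∀ a, φ a ^ 4 = κ (nm a)) ∧
    (∀ a b, φ (a + b) = φ a + φ b) ∧ (∀ a x, φ a * φ x ^ 3 = φ (mc a x)) ∧ φ 0 = 0 ∧ φ (1, 0) = 1 ∧
    Function.Injective κ := by
  have hC := H61.SpecSU3.charP_three hF
  have h3 := three0 hF
  obtain ⟨i, hi, -⟩ := H61.SpecSU3.exists_i hF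
  let κ : ZMod 3 →+* F := ZMod.castHom (dvd_refl 3) F
  have hκ : Function.Injective κ := κ.injective
  have hκ3 : ∀ a : ZMod 3, κ a ^ 3 = κ a := by
    intro a
    rw [← map_pow]
    congr 1
    revert a; decide
  let f : Z → F := fun a => κ a.1 + κ a.2 * i
  have hconj : ∀ a : Z, f a ^ 3 = κ a.1 - κ a.2 * i := by
    intro a
    change (κ a.1 + κ a.2 * i) ^ 3 = _
    rw [add3 hF, mul_pow, hκ3, hκ3]
    linear_combination (κ a.2 * i) * hi
  have hnm : ∀ a, f a ^ 4 = κ (nm a) := by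
    intro a
    have : f a ^ 4 = f a * f a ^ 3 := by ring
    rw [this, hconj, nm, map_add, map_mul, map_mul]
    change (κ a.1 + κ a.2 * i) * _ = _
    linear_combination (-κ a.2 * κ a.2) * hi
  have hadd : ∀ a b, f (a + b) = f a + f b := by
    intro a b
    change κ (a.1 + b.1) + κ (a.2 + b.2) * i = (κ a.1 + κ a.2 * i) + (κ b.1 + κ b.2 * i)
    rw [map_add, map_add]; ring
  have hsub : ∀ a b, f (a - b) = f a - f b := by
    intro a b
    change κ (a.1 - b.1) + κ (a.2 - b.2) * i = (κ a.1 + κ a.2 * i) - (κ b.1 + κ b.2 * i)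
    rw [map_sub, map_sub]; ring
  have hinj : Function.Injective f := by
    intro a b hab
    have h1 : f (a - b) = 0 := by rw [hsub, hab, sub_self]
    have h2 := hnm (a - b)
    rw [h1] at h2
    have h4 : nm (a - b) = 0 := by
      apply hκ
      rw [map_zero, ← h2]; ring
    have h5 : ∀ c : Z, nm c = 0 → c = 0 := by decide
    exact sub_eq_zero.mp (h5 _ h4)
  have hbij : Function.Bijective f := by
    rw [Fintype.bijective_iff_injective_and_card]
    refine ⟨hinj, ?_⟩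
    rw [hF]; rfl
  refine ⟨κ, Equiv.ofBijective f hbij, hnm, hadd, ?_, ?_, ?_, hκ⟩
  · intro a x
    change f a * f x ^ 3 = f (mc a x)
    rw [hconj]
    change (κ a.1 + κ a.2 * i) * (κ x.1 - κ x.2 * i) =
      κ (a.1 * x.1 + a.2 * x.2) + κ (a.2 * x.1 - a.1 * x.2) * i
    rw [map_add, map_sub, map_mul, map_mul, map_mul, map_mul]
    linear_combination (-κ a.2 * κ x.2) * hi
  · change κ 0 + κ 0 * i = 0
    rw [map_zero]; ring
  · change κ 1 + κ 0 * i = 1
    rw [map_zero, map_one]; ring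

/-- coordinate data -/
structure CD (F : Type*) [Field F] where
  κ : ZMod 3 →+* F
  φ : Z ≃ F
  h4 : ∀ a, φ a ^ 4 = κ (nm a)
  hadd : ∀ a b, φ (a + b) = φ a + φ b
  hmc : ∀ a x, φ a * φ x ^ 3 = φ (mc a x)
  h0 : φ 0 = 0
  h1 : φ (1, 0) = 1
  hκ : Function.Injective κ

include hF in
theorem exists_CD : Nonempty (CD F) := by
  obtain ⟨κ, φ, a, b, c, d, e, f⟩ := exists_coord hF
  exact ⟨⟨κ, φ, a, b, c, d, e, f⟩⟩

namespace CD

variable (D : CD F)

/-- the vector -/
def vc : Z × Z × Z ≃ (Fin 3 → F) where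
  toFun p := ![D.φ p.1, D.φ p.2.1, D.φ p.2.2]
  invFun v := (D.φ.symm (v 0), D.φ.symm (v 1), D.φ.symm (v 2))
  left_inv p := by simp
  right_inv v := by funext i; fin_cases i <;> simp

theorem hf_vc (p q : Z × Z × Z) : hf (D.vc p) (D.vc q) = D.φ (hz p q) := by
  rw [hf_eq, hz, D.hadd, D.hadd, ← D.hmc, ← D.hmc, ← D.hmc]
  rfl

theorem hf4 (p q : Z × Z × Z) : (hf (D.vc p) (D.vc q)) ^ 4 = D.κ (nm (hz p q)) := by
  rw [hf_vc, D.h4]

theorem unit_iff (p : Z × Z × Z) : hf (D.vc p) (D.vc p) = 1 ↔ hz p p = (1, 0) := by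
  rw [hf_vc, ← D.h1]
  exact D.φ.injective.eq_iff

include hF D

theorem card_C : Nat.card {c : F // c ^ 4 = 1} = 4 := by
  classical
  have h : ∀ a : Z, (nm a = 1 ↔ (D.φ a) ^ 4 = 1) := by
    intro a
    rw [D.h4]
    constructor
    · intro h; rw [h, map_one]
    · intro h; apply D.hκ; rw [h, map_one]
  rw [← Nat.card_congr (D.φ.subtypeEquiv h), Nat.card_eq_fintype_card, Fintype.card_subtype]
  decide

theorem fiber (f : Om F → Prop) :
    Nat.card {z : Fin 3 → F // ∃ h : hf z z = 1, f (pt z h)} = 4 * Nat.card {R : Om F // f R} := by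
  classical
  choose r hr hr' using fun R : Om F => R.2
  have hpt : ∀ R : Om F, pt (r R) (hr R) = R := fun R => Subtype.ext (hr' R).symm
  let Φ : {R : Om F // f R} × {c : F // c ^ 4 = 1} → {z : Fin 3 → F // ∃ h : hf z z = 1, f (pt z h)} :=
    fun x => ⟨x.2.1 • r x.1.1, by
      have h1 : hf (x.2.1 • r x.1.1) (x.2.1 • r x.1.1) = 1 := by
        rw [hf_smul_left hF, hf_smul_right hF, hr]
        linear_combination x.2.2
      refine ⟨h1, ?_⟩
      have : pt (x.2.1 • r x.1.1) h1 = x.1.1 := by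
        apply Subtype.ext
        exact (pj_smul hF x.2.1 x.2.2 _).trans (hr' _).symm
      rw [this]
      exact x.1.2⟩
  have hΦ : Function.Bijective Φ := by
    constructor
    · rintro ⟨⟨R, hR⟩, ⟨c, hc⟩⟩ ⟨⟨R', hR'⟩, ⟨c', hc'⟩⟩ h
      have h1 : c • r R = c' • r R' := congrArg Subtype.val h
      have h2 : R = R' := by
        rw [← hpt R, ← hpt R']
        apply Subtype.ext
        change pj (r R) = pj (r R')
        rw [← pj_smul hF c hc, h1, pj_smul hF c' hc']
      subst h2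
      have h3 : c = c' := by
        have h4 : hf (c • r R) (r R) = hf (c' • r R) (r R) := by rw [h1]
        rw [hf_smul_left hF, hf_smul_left hF, hr, mul_one, mul_one] at h4
        exact h4
      subst h3
      rfl
    · rintro ⟨z, hz1, hz2⟩
      have h1 : pj (r (pt z hz1)) = pj z := by
        have := congrArg Subtype.val (hpt (pt z hz1))
        exact this
      obtain ⟨h2, h3⟩ := eq_of_pj hF (hr _) hz1 h1
      refine ⟨(⟨pt z hz1, hz2⟩, ⟨_, h3⟩), ?_⟩
      apply Subtype.ext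
      exact h2.symm
  rw [← Nat.card_congr (Equiv.ofBijective Φ hΦ), Nat.card_prod, D.card_C hF, mul_comm]

theorem card_of (f : Om F → Prop) (d : Z × Z × Z → Prop) [DecidablePred d]
    (h : ∀ p, (∃ hp : hf (D.vc p) (D.vc p) = 1, f (pt _ hp)) ↔ d p) :
    4 * Nat.card {R : Om F // f R} = (Finset.univ.filter d).card := by
  rw [← D.fiber hF f, ← Nat.card_congr (D.vc.subtypeEquiv (p := d) (fun p => (h p).symm)),
    Nat.card_eq_fintype_card, Fintype.card_subtype]

theorem card_Om : Nat.card (Om F) = 63 := by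
  have h := D.card_of hF (fun _ => True) (fun p => hz p p = (1, 0)) (fun p => by
    rw [← D.unit_iff]; simp)
  have h2 : Nat.card {R : Om F // True} = Nat.card (Om F) := Nat.card_congr (Equiv.subtypeUnivEquiv (by simp))
  rw [h2] at h
  have h3 : (Finset.univ.filter (fun p : Z × Z × Z => hz p p = (1, 0))).card = 252 := by decide +kernel
  omega

theorem count (n : ZMod 3) (q : Z × Z × Z) (hq : hf (D.vc q) (D.vc q) = 1)
    (he : hf (![1, 0, 0] : Fin 3 → F) ![1, 0, 0] = 1) :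
    4 * Nat.card {R : Om F // tr (pt ![1, 0, 0] he) R = 0 ∧ tr R (pt _ hq) = D.κ n} =
      (Finset.univ.filter (fun p : Z × Z × Z => hz p p = (1, 0) ∧ nm p.1 = 0 ∧ nm (hz p q) = n)).card := by
  apply D.card_of hF
  intro p
  rw [← D.unit_iff]
  have h1 : ∀ hp : hf (D.vc p) (D.vc p) = 1, tr (pt ![1, 0, 0] he) (pt _ hp) = D.κ (nm p.1) := by
    intro hp
    rw [tr_comm]
    change (pj (D.vc p) * pj ![1, 0, 0]).trace = _
    rw [trace_pj' hF, hf_eq, ← D.h4]
    change (D.φ p.1 * 1 ^ 3 + D.φ p.2.1 * 0 ^ 3 + D.φ p.2.2 * 0 ^ 3) ^ 4 = _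
    ring
  have h2 : ∀ hp : hf (D.vc p) (D.vc p) = 1, tr (pt _ hp) (pt _ hq) = D.κ (nm (hz p q)) := by
    intro hp
    change (pj (D.vc p) * pj (D.vc q)).trace = _
    rw [trace_pj' hF, D.hf4]
  constructor
  · rintro ⟨hp, h3, h4⟩
    rw [h1] at h3
    rw [h2] at h4
    refine ⟨hp, ?_, D.hκ h4⟩
    apply D.hκ; rw [h3, map_zero]
  · rintro ⟨hp, h3, h4⟩
    refine ⟨hp, ?_, ?_⟩
    · rw [h1, h3, map_zero]
    · rw [h2, h4]

end CD

end H17.DG6
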