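import Cfsg.Agent.Lib.H17.DG6

set_option autoImplicit false
set_option linter.unusedSectionVars false

/-! The adjacency matrix of the graph of the 63 nonisotropic points. -/

namespace H17.DG7

open Cfsg Matrix H17.DG4 H17.DG5 H17.DG6

variable {F : Type*} [Field F] [Fintype F] (hF : Fintype.card F = 9) (D : CD F)

/-- coordinates of the standard second vectors -/
def sq (k : Fin 4) : Z × Z × Z :=
  match k with
  | 0 => ((1, 0), 0, 0)
  | 1 => (0, (1, 0), 0)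
  | 2 => ((1, 0), (1, 0), (1, 1))
  | 3 => ((1, 1), (1, 1), 0)

theorem vc_sq (k : Fin 4) : D.vc (sq k) = sec (D.φ (1, 1)) k := by
  fin_cases k
  · change ![D.φ (1, 0), D.φ 0, D.φ 0] = ![1, 0, 0]
    rw [D.h0, D.h1]
  · change ![D.φ 0, D.φ (1, 0), D.φ 0] = ![0, 1, 0]
    rw [D.h0, D.h1]
  · change ![D.φ (1, 0), D.φ (1, 0), D.φ (1, 1)] = ![1, 1, D.φ (1, 1)]
    rw [D.h1]
  · change ![D.φ (1, 1), D.φ (1, 1), D.φ 0] = ![D.φ (1, 1), D.φ (1, 1), 0]
    rw [D.h0]

theorem kap_two : D.κ 2 = 2 := map_ofNat D.κ 2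

theorem ht : (D.φ (1, 1)) ^ 4 = 2 := by
  rw [D.h4, ← kap_two D]; rfl

include hF D

/-- the table -/
theorem count0 (P Q : Om F) :
    Nat.card {R : Om F // tr P R = 0 ∧ tr R Q = 0} = (![6, 1, 0, 1] : Fin 4 → ℕ) (ty P Q) := by
  letI := act hF
  obtain ⟨g, h1, h2⟩ := key hF (ht D) P Q
  have he : hf (![1, 0, 0] : Fin 3 → F) ![1, 0, 0] = 1 := hf_sec hF (ht D) 0
  generalize ty P Q = k at h2 ⊢
  have h3 : Nat.card {R : Om F // tr P R = 0 ∧ tr R Q = 0} =
      Nat.card {R : Om F // tr (pt ![1, 0, 0] he) R = 0 ∧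
        tr R (pt (sec (D.φ (1, 1)) k) (hf_sec hF (ht D) k)) = 0} := by
    apply Nat.card_congr
    refine (Equiv.subtypeEquiv (MulAction.toPerm g) ?_).symm
    intro R
    rw [← h1, ← h2, MulAction.toPerm_apply, tr_smul hF, tr_smul hF]
    rfl
  have hq : hf (D.vc (sq k)) (D.vc (sq k)) = 1 := by rw [vc_sq D]; exact hf_sec hF (ht D) k
  have h4 := D.count hF 0 (sq k) hq he
  have h5 : pt (D.vc (sq k)) hq = pt (sec (D.φ (1, 1)) k) (hf_sec hF (ht D) k) :=
    Subtype.ext (congrArg pj (vc_sq D k))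
  rw [h5, map_zero, ← h3] at h4
  have h6 : (Finset.univ.filter (fun p : Z × Z × Z => hz p p = (1, 0) ∧ nm p.1 = 0 ∧
      nm (hz p (sq k)) = 0)).card = 4 * (![6, 1, 0, 1] : Fin 4 → ℕ) k := by
    fin_cases k <;> decide +kernel
  rw [h6] at h4
  omega

theorem count2 (P Q : Om F) :
    Nat.card {R : Om F // tr P R = 0 ∧ tr R Q = 2} = (![0, 4, 3, 1] : Fin 4 → ℕ) (ty P Q) := by
  letI := act hF
  obtain ⟨g, h1, h2⟩ := key hF (ht D) P Q
  have he : hf (![1, 0, 0] : Fin 3 → F) ![1, 0, 0] = 1 := hf_sec hF (ht D) 0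
  generalize ty P Q = k at h2 ⊢
  have h3 : Nat.card {R : Om F // tr P R = 0 ∧ tr R Q = 2} =
      Nat.card {R : Om F // tr (pt ![1, 0, 0] he) R = 0 ∧
        tr R (pt (sec (D.φ (1, 1)) k) (hf_sec hF (ht D) k)) = 2} := by
    apply Nat.card_congr
    refine (Equiv.subtypeEquiv (MulAction.toPerm g) ?_).symm
    intro R
    rw [← h1, ← h2, MulAction.toPerm_apply, tr_smul hF, tr_smul hF]
    rfl
  have hq : hf (D.vc (sq k)) (D.vc (sq k)) = 1 := by rw [vc_sq D]; exact hf_sec hF (ht D) k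
  have h4 := D.count hF 2 (sq k) hq he
  have h5 : pt (D.vc (sq k)) hq = pt (sec (D.φ (1, 1)) k) (hf_sec hF (ht D) k) :=
    Subtype.ext (congrArg pj (vc_sq D k))
  rw [h5, kap_two D, ← h3] at h4
  have h6 : (Finset.univ.filter (fun p : Z × Z × Z => hz p p = (1, 0) ∧ nm p.1 = 0 ∧
      nm (hz p (sq k)) = 2)).card = 4 * (![0, 4, 3, 1] : Fin 4 → ℕ) k := by
    fin_cases k <;> decide +kernel
  rw [h6] at h4
  omega

omit D in
theorem tr_self (P : Om F) : tr P P = 1 := by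
  obtain ⟨u, hu, hP⟩ := P.2
  rw [tr, hP, trace_pj' hF, hu, one_pow]

omit D in
theorem ty_cases (P Q : Om F) : (ty P Q = 0 ∧ P = Q ∧ tr P Q ≠ 0 ∧ tr P Q ≠ 2) ∨
    (ty P Q = 1 ∧ P ≠ Q ∧ tr P Q = 0 ∧ tr P Q ≠ 2) ∨
    (ty P Q = 2 ∧ P ≠ Q ∧ tr P Q ≠ 0 ∧ tr P Q ≠ 2) ∨
    (ty P Q = 3 ∧ P ≠ Q ∧ tr P Q ≠ 0 ∧ tr P Q = 2) := by
  have h2 := two_ne hF
  have h12 : (1 : F) ≠ 2 := by
    intro h
    exact one_ne_zero (show (1 : F) = 0 by linear_combination -h)
  by_cases hPQ : P = Q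
  · left
    subst hPQ
    rw [tr_self hF]
    exact ⟨by simp [ty], rfl, one_ne_zero, h12⟩
  · right
    rcases tr_cases hF P Q with h | h | h
    · left
      exact ⟨by simp [ty, hPQ, h], hPQ, h, by rw [h]; exact h2.symm⟩
    · right; left
      exact ⟨by simp [ty, hPQ, h], hPQ, by rw [h]; exact one_ne_zero, by rw [h]; exact h12⟩
    · right; right
      refine ⟨?_, hPQ, by rw [h]; exact h2, h⟩
      rw [ty, if_neg hPQ, if_neg (by rw [h]; exact h2), if_neg (by rw [h]; exact h12.symm)]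

omit hF D in
/-- relation matrices -/
noncomputable def M (c : F) : Matrix (Om F) (Om F) ℂ := by
  classical
  exact fun P Q => if tr P Q = c then 1 else 0

omit hF D in
theorem M_pos {c : F} {P Q : Om F} (h : tr P Q = c) : M c P Q = 1 := by
  classical
  exact if_pos h

omit hF D in
theorem M_neg {c : F} {P Q : Om F} (h : tr P Q ≠ c) : M c P Q = 0 := by
  classical
  exact if_neg h

omit hF D in
/-- the all ones matrix -/
def J : Matrix (Om F) (Om F) ℂ := fun _ _ => 1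

variable [Fintype (Om F)] [DecidableEq (Om F)]

omit hF D in
theorem mul_M (c d : F) (P Q : Om F) : (M c * M d) P Q = (Nat.card {R : Om F // tr P R = c ∧ tr R Q = d} : ℂ) := by
  classical
  rw [Matrix.mul_apply, Nat.card_eq_fintype_card, Fintype.card_subtype, Finset.card_filter,
    Nat.cast_sum]
  apply Finset.sum_congr rfl
  intro R _
  by_cases h1 : tr P R = c
  · by_cases h2 : tr R Q = d
    · rw [M_pos h1, M_pos h2, if_pos ⟨h1, h2⟩]; simp
    · rw [M_neg h2, if_neg (fun h => h2 h.2)]; simp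
  · rw [M_neg h1, if_neg (fun h => h1 h.1)]; simp

theorem AA : M (0 : F) * M (0 : F) = 6 • (1 : Matrix (Om F) (Om F) ℂ) + M (0 : F) + M (2 : F) := by
  ext P Q
  rw [mul_M, count0 hF D, Matrix.add_apply, Matrix.add_apply, Matrix.smul_apply]
  rcases ty_cases hF P Q with ⟨h, h1, h2, h3⟩ | ⟨h, h1, h2, h3⟩ | ⟨h, h1, h2, h3⟩ | ⟨h, h1, h2, h3⟩
  · rw [h, M_neg h2, M_neg h3, h1, Matrix.one_apply_eq]
    change ((6 : ℕ) : ℂ) = _
    norm_num
  · rw [h, M_pos h2, M_neg h3, Matrix.one_apply_ne h1]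
    change ((1 : ℕ) : ℂ) = _
    norm_num
  · rw [h, M_neg h2, M_neg h3, Matrix.one_apply_ne h1]
    change ((0 : ℕ) : ℂ) = _
    norm_num
  · rw [h, M_neg h2, M_pos h3, Matrix.one_apply_ne h1]
    change ((1 : ℕ) : ℂ) = _
    norm_num

theorem AB : M (0 : F) * M (2 : F) = (3 : ℂ) • J - (3 : ℂ) • (1 : Matrix (Om F) (Om F) ℂ) + M (0 : F) -
    (2 : ℂ) • M (2 : F) := by
  ext P Q
  rw [mul_M, count2 hF D, Matrix.sub_apply, Matrix.add_apply, Matrix.sub_apply, Matrix.smul_apply,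
    Matrix.smul_apply, Matrix.smul_apply, J]
  rcases ty_cases hF P Q with ⟨h, h1, h2, h3⟩ | ⟨h, h1, h2, h3⟩ | ⟨h, h1, h2, h3⟩ | ⟨h, h1, h2, h3⟩
  · rw [h, M_neg h2, M_neg h3, h1, Matrix.one_apply_eq]
    change ((0 : ℕ) : ℂ) = _
    norm_num
  · rw [h, M_pos h2, M_neg h3, Matrix.one_apply_ne h1]
    change ((4 : ℕ) : ℂ) = _
    norm_num
  · rw [h, M_neg h2, M_neg h3, Matrix.one_apply_ne h1]
    change ((3 : ℕ) : ℂ) = _
    norm_num
  · rw [h, M_neg h2, M_pos h3, Matrix.one_apply_ne h1]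
    change ((1 : ℕ) : ℂ) = _
    norm_num

theorem row (P : Om F) : ∑ Q, M (0 : F) P Q = 6 := by
  have h := congrFun (congrFun (AA hF D) P) P
  rw [Matrix.mul_apply, Matrix.add_apply, Matrix.add_apply, Matrix.smul_apply, Matrix.one_apply_eq,
    M_neg (by rw [tr_self hF]; exact one_ne_zero), M_neg (by
      rw [tr_self hF]
      intro h
      exact one_ne_zero (show (1 : F) = 0 by linear_combination -h))] at h
  have h2 : ∑ Q, M (0 : F) P Q = ∑ j, M (0 : F) P j * M (0 : F) j P := by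
    apply Finset.sum_congr rfl
    intro Q _
    by_cases hq : tr P Q = 0
    · rw [M_pos hq, M_pos (by rw [tr_comm]; exact hq), mul_one]
    · rw [M_neg hq, zero_mul]
  rw [h2, h]; norm_num

theorem AJ : M (0 : F) * J = (6 : ℂ) • (J : Matrix (Om F) (Om F) ℂ) := by
  ext P Q
  rw [Matrix.mul_apply, Matrix.smul_apply]
  simp only [J, mul_one, smul_eq_mul]
  exact row hF D P

theorem JA : (J : Matrix (Om F) (Om F) ℂ) * M (0 : F) = (6 : ℂ) • (J : Matrix (Om F) (Om F) ℂ) := by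
  ext P Q
  rw [Matrix.mul_apply, Matrix.smul_apply]
  simp only [J, one_mul, smul_eq_mul, mul_one]
  rw [← row hF D Q]
  apply Finset.sum_congr rfl
  intro R _
  by_cases hq : tr R Q = 0
  · rw [M_pos hq, M_pos (by rw [tr_comm]; exact hq)]
  · rw [M_neg hq, M_neg (by rw [tr_comm]; exact hq)]

theorem JJ : (J : Matrix (Om F) (Om F) ℂ) * J = (63 : ℂ) • (J : Matrix (Om F) (Om F) ℂ) := by
  ext P Q
  rw [Matrix.mul_apply, Matrix.smul_apply]
  simp only [J, mul_one, smul_eq_mul, Finset.sum_const, Finset.card_univ, nsmul_eq_mul]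
  rw [← Nat.card_eq_fintype_card, D.card_Om hF]; norm_num

theorem A3 : M (0 : F) * (M (0 : F) * M (0 : F)) = (3 : ℂ) • (J : Matrix (Om F) (Om F) ℂ) +
    (9 : ℂ) • (1 : Matrix (Om F) (Om F) ℂ) + (9 : ℂ) • M (0 : F) - M (0 : F) * M (0 : F) := by
  have h1 := AA hF D
  have h2 := AB hF D
  have h3 : M (0 : F) * (M (0 : F) * M (0 : F)) = 6 • M (0 : F) + M (0 : F) * M (0 : F) + M (0 : F) * M (2 : F) := by
    conv_lhs => rw [h1]
    rw [Matrix.mul_add, Matrix.mul_add, Matrix.mul_smul, Matrix.mul_one]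
  have h4 : M (2 : F) = M (0 : F) * M (0 : F) - 6 • (1 : Matrix (Om F) (Om F) ℂ) - M (0 : F) := by
    rw [h1]; abel
  rw [h3, h2, h4]
  module

theorem traceA : (M (0 : F) : Matrix (Om F) (Om F) ℂ).trace = 0 := by
  rw [Matrix.trace]
  apply Finset.sum_eq_zero
  intro P _
  exact M_neg (by rw [tr_self hF]; exact one_ne_zero)

theorem traceAA : (M (0 : F) * M (0 : F) : Matrix (Om F) (Om F) ℂ).trace = 378 := by
  rw [Matrix.trace]
  have : ∀ P : Om F, (M (0 : F) * M (0 : F) : Matrix (Om F) (Om F) ℂ).diag P = 6 := by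
    intro P
    rw [Matrix.diag_apply, mul_M, count0 hF D]
    have : ty P P = 0 := by simp [ty]
    rw [this]; norm_num
  rw [Finset.sum_congr rfl (fun P _ => this P), Finset.sum_const, Finset.card_univ,
    ← Nat.card_eq_fintype_card, D.card_Om hF]
  norm_num

theorem traceJ : (J : Matrix (Om F) (Om F) ℂ).trace = 63 := by
  rw [Matrix.trace]
  simp only [Matrix.diag_apply, J, Finset.sum_const, Finset.card_univ, nsmul_eq_mul, mul_one]
  rw [← Nat.card_eq_fintype_card, D.card_Om hF]; norm_num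

theorem traceOne : (1 : Matrix (Om F) (Om F) ℂ).trace = 63 := by
  rw [Matrix.trace_one, ← Nat.card_eq_fintype_card, D.card_Om hF]; norm_num

end H17.DG7
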