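import Cfsg.Agent.Lib.H17.DG7

set_option autoImplicit false
set_option linter.unusedSectionVars false

/-! Irreducible characters of degrees 14, 21 and 27 of `SU(3,3)`. -/

namespace H17.DG8

open Cfsg Matrix H17.DG1 H17.DG2 H17.DG4 H17.DG5 H17.DG6 H17.DG7 H18.CharBasic H18.CharOrtho

section alg

variable {R : Type*} [Ring R] [Algebra ℂ R]

theorem idem27 {A S J : R} (h1 : A * A = S) (h2 : A * S = (3 : ℂ) • J + (9 : ℂ) • (1 : R) + (9 : ℂ) • A - S)
    (h3 : A * J = (6 : ℂ) • J) (h4 : J * A = (6 : ℂ) • J) (h5 : J * J = (63 : ℂ) • J) :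
    ((9 / 8 : ℂ) • (1 : R) + (3 / 56 : ℂ) • J - (1 / 8 : ℂ) • S) *
      ((9 / 8 : ℂ) • (1 : R) + (3 / 56 : ℂ) • J - (1 / 8 : ℂ) • S) =
      ((9 / 8 : ℂ) • (1 : R) + (3 / 56 : ℂ) • J - (1 / 8 : ℂ) • S) := by
  have h6 : S * A = (3 : ℂ) • J + (9 : ℂ) • (1 : R) + (9 : ℂ) • A - S := by
    rw [← h2, ← h1, mul_assoc]
  have h7 : S * J = (36 : ℂ) • J := by
    rw [← h1, mul_assoc, h3, mul_smul_comm, h3, smul_smul]; norm_num
  have h8 : J * S = (36 : ℂ) • J := by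
    rw [← h1, ← mul_assoc, h4, smul_mul_assoc, h4, smul_smul]; norm_num
  have h9 : S * S = (15 : ℂ) • J - (9 : ℂ) • (1 : R) + (10 : ℂ) • S := by
    conv_lhs => rw [← h1, mul_assoc, h1, h2]
    simp only [mul_add, mul_sub, mul_smul_comm, mul_one, h1, h2, h3]
    module
  simp only [mul_add, mul_sub, add_mul, sub_mul, mul_smul_comm, smul_mul_assoc, mul_one, one_mul, h1, h2, h3,
    h4, h5, h6, h7, h8, h9]
  module

theorem idem21 {A S J : R} (h1 : A * A = S) (h2 : A * S = (3 : ℂ) • J + (9 : ℂ) • (1 : R) + (9 : ℂ) • A - S)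
    (h3 : A * J = (6 : ℂ) • J) (h4 : J * A = (6 : ℂ) • J) (h5 : J * J = (63 : ℂ) • J) :
    ((1 / 24 : ℂ) • S + (1 / 6 : ℂ) • A + (1 / 8 : ℂ) • (1 : R) - (1 / 24 : ℂ) • J) *
      ((1 / 24 : ℂ) • S + (1 / 6 : ℂ) • A + (1 / 8 : ℂ) • (1 : R) - (1 / 24 : ℂ) • J) =
      ((1 / 24 : ℂ) • S + (1 / 6 : ℂ) • A + (1 / 8 : ℂ) • (1 : R) - (1 / 24 : ℂ) • J) := by
  have h6 : S * A = (3 : ℂ) • J + (9 : ℂ) • (1 : R) + (9 : ℂ) • A - S := by
    rw [← h2, ← h1, mul_assoc]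
  have h7 : S * J = (36 : ℂ) • J := by
    rw [← h1, mul_assoc, h3, mul_smul_comm, h3, smul_smul]; norm_num
  have h8 : J * S = (36 : ℂ) • J := by
    rw [← h1, ← mul_assoc, h4, smul_mul_assoc, h4, smul_smul]; norm_num
  have h9 : S * S = (15 : ℂ) • J - (9 : ℂ) • (1 : R) + (10 : ℂ) • S := by
    conv_lhs => rw [← h1, mul_assoc, h1, h2]
    simp only [mul_add, mul_sub, mul_smul_comm, mul_one, h1, h2, h3]
    module
  simp only [mul_add, mul_sub, add_mul, sub_mul, mul_smul_comm, smul_mul_assoc, mul_one, one_mul, h1, h2, h3,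
    h4, h5, h6, h7, h8, h9]
  module

theorem idem14 {A S J : R} (h1 : A * A = S) (h2 : A * S = (3 : ℂ) • J + (9 : ℂ) • (1 : R) + (9 : ℂ) • A - S)
    (h3 : A * J = (6 : ℂ) • J) (h4 : J * A = (6 : ℂ) • J) (h5 : J * J = (63 : ℂ) • J) :
    ((1 / 12 : ℂ) • S - (1 / 6 : ℂ) • A - (1 / 4 : ℂ) • (1 : R) - (1 / 36 : ℂ) • J) *
      ((1 / 12 : ℂ) • S - (1 / 6 : ℂ) • A - (1 / 4 : ℂ) • (1 : R) - (1 / 36 : ℂ) • J) =
      ((1 / 12 : ℂ) • S - (1 / 6 : ℂ) • A - (1 / 4 : ℂ) • (1 : R) - (1 / 36 : ℂ) • J) := by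
  have h6 : S * A = (3 : ℂ) • J + (9 : ℂ) • (1 : R) + (9 : ℂ) • A - S := by
    rw [← h2, ← h1, mul_assoc]
  have h7 : S * J = (36 : ℂ) • J := by
    rw [← h1, mul_assoc, h3, mul_smul_comm, h3, smul_smul]; norm_num
  have h8 : J * S = (36 : ℂ) • J := by
    rw [← h1, ← mul_assoc, h4, smul_mul_assoc, h4, smul_smul]; norm_num
  have h9 : S * S = (15 : ℂ) • J - (9 : ℂ) • (1 : R) + (10 : ℂ) • S := by
    conv_lhs => rw [← h1, mul_assoc, h1, h2]
    simp only [mul_add, mul_sub, mul_smul_comm, mul_one, h1, h2, h3]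
    module
  simp only [mul_add, mul_sub, add_mul, sub_mul, mul_smul_comm, smul_mul_assoc, mul_one, one_mul, h1, h2, h3,
    h4, h5, h6, h7, h8, h9]
  module

theorem idem1 {J : R} (h5 : J * J = (63 : ℂ) • J) : ((1 / 63 : ℂ) • J) * ((1 / 63 : ℂ) • J) = (1 / 63 : ℂ) • J := by
  rw [smul_mul_smul_comm, h5, smul_smul]; norm_num

end alg

section inv

variable {G : Type*} [Group G] {X : Type*} [MulAction G X]

/-- invariant matrices -/
def Inv (G : Type*) [Group G] {X : Type*} [MulAction G X] (M : Matrix X X ℂ) : Prop :=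
  ∀ (g : G) (x y : X), M (g • x) (g • y) = M x y

theorem Inv.add {M N : Matrix X X ℂ} (h : Inv G M) (h' : Inv G N) : Inv G (M + N) := fun g x y => by
  rw [Matrix.add_apply, Matrix.add_apply, h, h']

theorem Inv.sub {M N : Matrix X X ℂ} (h : Inv G M) (h' : Inv G N) : Inv G (M - N) := fun g x y => by
  rw [Matrix.sub_apply, Matrix.sub_apply, h, h']

theorem Inv.smul {M : Matrix X X ℂ} (c : ℂ) (h : Inv G M) : Inv G (c • M) := fun g x y => by
  rw [Matrix.smul_apply, Matrix.smul_apply, h]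

theorem Inv.mul [Fintype X] {M N : Matrix X X ℂ} (h : Inv G M) (h' : Inv G N) : Inv G (M * N) := fun g x y => by
  rw [Matrix.mul_apply, Matrix.mul_apply]
  rw [← Equiv.sum_comp (MulAction.toPerm g)]
  apply Finset.sum_congr rfl
  intro z _
  rw [MulAction.toPerm_apply, h, h']

theorem Inv.one [DecidableEq X] : Inv G (1 : Matrix X X ℂ) := fun g x y => by
  rw [Matrix.one_apply, Matrix.one_apply]
  simp

theorem Inv.comm [Fintype X] [DecidableEq X] {M : Matrix X X ℂ} (h : Inv G M) (g : G) :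
    permRep G X g ∘ₗ Matrix.toLin' M = Matrix.toLin' M ∘ₗ permRep G X g := by
  apply LinearMap.ext
  intro f
  funext x
  change (M *ᵥ f) (g⁻¹ • x) = (M *ᵥ (fun y => f (g⁻¹ • y))) x
  rw [Matrix.mulVec, Matrix.mulVec, dotProduct, dotProduct]
  rw [← Equiv.sum_comp (MulAction.toPerm g⁻¹)]
  apply Finset.sum_congr rfl
  intro z _
  rw [MulAction.toPerm_apply, h]

/-- the character of an invariant idempotent -/
noncomputable def chi (G : Type*) [Group G] {X : Type*} [MulAction G X] [Fintype X] [DecidableEq X]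
    (E : Matrix X X ℂ) : G → ℂ := fun g => LinearMap.trace ℂ (X → ℂ) (permRep G X g ∘ₗ Matrix.toLin' E)

theorem isCharacter_chi [Fintype X] [DecidableEq X] {E : Matrix X X ℂ} (h : Inv G E) (hE : E * E = E) :
    IsCharacter G (chi G E) := by
  apply isCharacter_idem (permRep G X) (Matrix.toLin' E)
  · rw [← Matrix.toLin'_mul, hE]
  · exact fun g => h.comm g

theorem chi_one [Fintype X] [DecidableEq X] (E : Matrix X X ℂ) : chi G E 1 = E.trace := by
  rw [chi, map_one]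
  change LinearMap.trace ℂ (X → ℂ) (LinearMap.id ∘ₗ Matrix.toLin' E) = _
  rw [LinearMap.id_comp, Matrix.trace_toLin'_eq]

theorem chi_add [Fintype X] [DecidableEq X] (E E' : Matrix X X ℂ) : chi G (E + E') = chi G E + chi G E' := by
  funext g
  rw [chi, map_add, LinearMap.comp_add, map_add]
  rfl

theorem chi_id [Fintype X] [DecidableEq X] : chi G (1 : Matrix X X ℂ) = fixN X := by
  funext g
  rw [chi, Matrix.toLin'_one]
  have h3 := trace_funLeft (X := X) (fun x => g⁻¹ • x) 1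
  rw [Matrix.toLin'_one] at h3
  change LinearMap.trace ℂ (X → ℂ) (LinearMap.funLeft ℂ ℂ (fun x : X => g⁻¹ • x) ∘ₗ LinearMap.id) = _
  rw [h3]
  simp only [Matrix.one_apply]
  rw [Finset.sum_boole, fixN, Nat.card_eq_fintype_card, Fintype.card_subtype]
  congr 2
  ext x
  simp only [Finset.mem_filter, Finset.mem_univ, true_and]
  rw [inv_smul_eq_iff, eq_comm]

end inv

variable {F : Type*} [Field F] [Fintype F] (hF : Fintype.card F = 9)

include hF

theorem main : ∃ (χ27 χ21 χ14 : SU 3 F 3 → ℂ), IsIrrCharacter (SU 3 F 3) χ27 ∧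
    IsIrrCharacter (SU 3 F 3) χ21 ∧ IsIrrCharacter (SU 3 F 3) χ14 ∧ χ27 1 = 27 ∧ χ21 1 = 21 ∧ χ14 1 = 14 := by
  classical
  obtain ⟨D⟩ := exists_CD hF
  letI := act hF
  haveI : Finite (Om F) := Nat.finite_of_card_ne_zero (by rw [D.card_Om hF]; norm_num)
  haveI := Fintype.ofFinite (Om F)
  haveI : Fintype (SU 3 F 3) := Fintype.ofFinite _
  set A : Matrix (Om F) (Om F) ℂ := M (0 : F) with hA
  have iA : Inv (SU 3 F 3) A := by
    intro g P Q
    by_cases h : tr P Q = 0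
    · rw [hA, M_pos h, M_pos (by rw [tr_smul hF]; exact h)]
    · rw [hA, M_neg h, M_neg (by rw [tr_smul hF]; exact h)]
  have iJ : Inv (SU 3 F 3) (DG7.J : Matrix (Om F) (Om F) ℂ) := fun _ _ _ => rfl
  have iS : Inv (SU 3 F 3) (A * A) := iA.mul iA
  have i1 : Inv (SU 3 F 3) (1 : Matrix (Om F) (Om F) ℂ) := Inv.one
  have h2 := A3 hF D
  have h3 := AJ hF D
  have h4 := JA hF D
  have h5 := JJ hF D
  rw [← hA] at h2 h3 h4
  set E27 := ((9 / 8 : ℂ) • (1 : Matrix (Om F) (Om F) ℂ) + (3 / 56 : ℂ) • DG7.J - (1 / 8 : ℂ) • (A * A)) with hE27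
  set E21 := ((1 / 24 : ℂ) • (A * A) + (1 / 6 : ℂ) • A + (1 / 8 : ℂ) • (1 : Matrix (Om F) (Om F) ℂ) -
    (1 / 24 : ℂ) • DG7.J) with hE21
  set E14 := ((1 / 12 : ℂ) • (A * A) - (1 / 6 : ℂ) • A - (1 / 4 : ℂ) • (1 : Matrix (Om F) (Om F) ℂ) -
    (1 / 36 : ℂ) • DG7.J) with hE14
  set E1 := (1 / 63 : ℂ) • (DG7.J : Matrix (Om F) (Om F) ℂ) with hE1
  have hsum : E27 + E21 + E14 + E1 = 1 := by
    rw [hE27, hE21, hE14, hE1]
    module
  have c27 : IsCharacter (SU 3 F 3) (chi (SU 3 F 3) E27) :=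
    isCharacter_chi (((i1.smul _).add (iJ.smul _)).sub (iS.smul _)) (idem27 rfl h2 h3 h4 h5)
  have c21 : IsCharacter (SU 3 F 3) (chi (SU 3 F 3) E21) :=
    isCharacter_chi ((((iS.smul _).add (iA.smul _)).add (i1.smul _)).sub (iJ.smul _)) (idem21 rfl h2 h3 h4 h5)
  have c14 : IsCharacter (SU 3 F 3) (chi (SU 3 F 3) E14) :=
    isCharacter_chi ((((iS.smul _).sub (iA.smul _)).sub (i1.smul _)).sub (iJ.smul _)) (idem14 rfl h2 h3 h4 h5)
  have c1 : IsCharacter (SU 3 F 3) (chi (SU 3 F 3) E1) :=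
    isCharacter_chi (iJ.smul _) (idem1 h5)
  have t1 := traceOne hF D
  have tJ := traceJ hF D
  have tA := traceA hF D
  have tS := traceAA hF D
  rw [← hA] at tA tS
  have d27 : chi (SU 3 F 3) E27 1 = 27 := by
    rw [chi_one, hE27, Matrix.trace_sub, Matrix.trace_add, Matrix.trace_smul, Matrix.trace_smul,
      Matrix.trace_smul, t1, tJ, tS]
    norm_num
  have d21 : chi (SU 3 F 3) E21 1 = 21 := by
    rw [chi_one, hE21, Matrix.trace_sub, Matrix.trace_add, Matrix.trace_add, Matrix.trace_smul,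
      Matrix.trace_smul, Matrix.trace_smul, Matrix.trace_smul, t1, tJ, tS, tA]
    norm_num
  have d14 : chi (SU 3 F 3) E14 1 = 14 := by
    rw [chi_one, hE14, Matrix.trace_sub, Matrix.trace_sub, Matrix.trace_sub, Matrix.trace_smul,
      Matrix.trace_smul, Matrix.trace_smul, Matrix.trace_smul, t1, tJ, tS, tA]
    norm_num
  have d1 : chi (SU 3 F 3) E1 1 = 1 := by
    rw [chi_one, hE1, Matrix.trace_smul, tJ]
    norm_num
  let χ : Fin 4 → SU 3 F 3 → ℂ := fun k => match k with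
    | 0 => chi (SU 3 F 3) E27
    | 1 => chi (SU 3 F 3) E21
    | 2 => chi (SU 3 F 3) E14
    | 3 => chi (SU 3 F 3) E1
  have hχ : ∀ i, IsCharacter (SU 3 F 3) (χ i) := by
    intro i; fin_cases i
    · exact c27
    · exact c21
    · exact c14
    · exact c1
  have hχ0 : ∀ i, χ i 1 ≠ 0 := by
    intro i; fin_cases i
    · change chi (SU 3 F 3) E27 1 ≠ 0
      rw [d27]; norm_num
    · change chi (SU 3 F 3) E21 1 ≠ 0
      rw [d21]; norm_num
    · change chi (SU 3 F 3) E14 1 ≠ 0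
      rw [d14]; norm_num
    · change chi (SU 3 F 3) E1 1 ≠ 0
      rw [d1]; norm_num
  have hs : ∑ i, χ i = fixN (Om F) := by
    rw [Fin.sum_univ_four]
    change chi (SU 3 F 3) E27 + chi (SU 3 F 3) E21 + chi (SU 3 F 3) E14 + chi (SU 3 F 3) E1 = _
    rw [← chi_add, ← chi_add, ← chi_add, hsum, chi_id]
  have hN : Nat.card (MulAction.orbitRel.Quotient (SU 3 F 3) (Om F × Om F)) ≤ 4 :=
    card_orbits_le ty (fun P Q P' Q' h => trans hF h)
  have hirr := irr_of_sum χ hχ hχ0 _ hN (by rw [hs]; exact inner_fixN (Om F))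
  exact ⟨_, _, _, hirr 0, hirr 1, hirr 2, d27, d21, d14⟩

end H17.DG8
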