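import Cfsg.Agent.Lib.H17.DG8
import Cfsg.Agent.Lib.H21.PBlock
import Cfsg.Agent.Lib.H21.SylowTools
import Cfsg.Agent.Lib.H7.UnitSU
import Cfsg.Agent.Lib.H78.Cong

set_option autoImplicit false
set_option linter.unusedSectionVars false

/-! An irreducible character of `SU(3,3)` of degree divisible by 6. -/

namespace H17.DG9

open Cfsg H17.DG1 H18.CharBasic H18.CharOrtho H21.PLat

/-- the arithmetic -/
theorem arith' : ∀ s : Fin 78, ∀ d : Fin 78, s.1 ∣ 6048 → d.1 ∣ 6048 →
    ((s.1 % 7 = 1 ∧ (d.1 + 26 = s.1 ∨ d.1 + s.1 = 26)) ∨ (s.1 % 7 = 6 ∧ d.1 = 26 + s.1)) →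
    (6 ∣ s.1 ∨ 6 ∣ d.1) := by
  decide +kernel

theorem arith (s : ℕ) (hs : s < 78) (d : ℕ) (hd : d < 78) (h1 : s ∣ 6048) (h2 : d ∣ 6048)
    (h : (s % 7 = 1 ∧ (d + 26 = s ∨ d + s = 26)) ∨ (s % 7 = 6 ∧ d = 26 + s)) : 6 ∣ s ∨ 6 ∣ d :=
  arith' ⟨s, hs⟩ ⟨d, hd⟩ h1 h2 h

/-- abstract form -/
theorem abs {G : Type*} [Group G] [Finite G] (hG : Nat.card G = 6048)
    (hord : ∀ g : G, g ^ 7 = 1 ∨ g ^ 8 = 1 ∨ g ^ 12 = 1) (χ : G → ℂ) (hχ : IsIrrCharacter G χ)
    (h27 : χ 1 = 27) : ∃ d ∈ charDegrees G, 6 ∣ d := by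
  classical
  have := Fintype.ofFinite G
  have := Fintype.ofFinite (IrrCharacter G)
  have h7 : Fact (Nat.Prime 7) := ⟨by norm_num⟩
  obtain ⟨x0, hx0⟩ := exists_prime_orderOf_dvd_card' (G := G) 7 (by rw [hG]; norm_num)
  have hz : Nat.card (Subgroup.zpowers x0) = 7 := by rw [Nat.card_zpowers, hx0]
  have hindex : (Subgroup.zpowers x0).index = 864 := by
    have := Subgroup.card_mul_index (Subgroup.zpowers x0)
    rw [hz, hG] at this
    omega
  have hidx : ¬ 7 ∣ (Subgroup.zpowers x0).index := by rw [hindex]; norm_num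
  -- centralizer
  have hordd : ∀ g : G, orderOf g ∣ 7 ∨ orderOf g ∣ 8 ∨ orderOf g ∣ 12 := by
    intro g
    rcases hord g with h | h | h
    · exact Or.inl (orderOf_dvd_of_pow_eq_one h)
    · exact Or.inr (Or.inl (orderOf_dvd_of_pow_eq_one h))
    · exact Or.inr (Or.inr (orderOf_dvd_of_pow_eq_one h))
  have hcent7 : ∀ y : G, Commute x0 y → y ^ 7 = 1 := by
    intro y hy
    by_cases h : 7 ∣ orderOf y
    · rcases hordd y with h1 | h1 | h1
      · exact orderOf_dvd_iff_pow_eq_one.mp h1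
      · exact absurd (h.trans h1) (by norm_num)
      · exact absurd (h.trans h1) (by norm_num)
    · have hcop : Nat.Coprime (orderOf x0) (orderOf y) := by
        rw [hx0]; exact (Nat.Prime.coprime_iff_not_dvd h7.out).mpr h
      have h2 := hy.orderOf_mul_eq_mul_orderOf_of_coprime hcop
      rw [hx0] at h2
      have h3 := hordd (x0 * y)
      rw [h2] at h3
      have h4 : orderOf y = 1 := by
        rcases h3 with h3 | h3 | h3
        · have : 7 * orderOf y ∣ 7 * 1 := by simpa using h3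
          exact Nat.dvd_one.mp (Nat.dvd_of_mul_dvd_mul_left (by norm_num) this)
        · exact absurd ((Dvd.intro _ rfl).trans h3) (by norm_num : ¬ 7 ∣ 8)
        · exact absurd ((Dvd.intro _ rfl).trans h3) (by norm_num : ¬ 7 ∣ 12)
      rw [orderOf_eq_one_iff] at h4
      rw [h4, one_pow]
  have hcard7 : ∀ C : Subgroup G, x0 ∈ C → (∀ y ∈ C, y ^ 7 = 1) → Nat.card C = 7 := by
    intro C hxC hC
    have hp : IsPGroup 7 C := by
      intro y
      refine ⟨1, ?_⟩
      apply Subtype.ext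
      rw [pow_one]
      exact hC _ y.2
    obtain ⟨k, hk⟩ := IsPGroup.iff_card.mp hp
    have h1 : 7 ^ k ∣ 6048 := by rw [← hk, ← hG]; exact Subgroup.card_subgroup_dvd_card C
    have h2 : 7 ∣ 7 ^ k := by
      rw [← hk, ← hz]
      exact Subgroup.card_dvd_of_le ((Subgroup.zpowers_le).mpr hxC)
    have hk2 : k < 2 := by
      by_contra hcon
      push Not at hcon
      have : 7 ^ 2 ∣ 6048 := (pow_dvd_pow 7 hcon).trans h1
      norm_num at this
    interval_cases k
    · norm_num at h2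
    · simpa using hk
  have hC1 : Nat.card (Subgroup.centralizer ({x0} : Set G)) = 7 := by
    apply hcard7
    · rw [Subgroup.mem_centralizer_singleton_iff]
    · intro y hy
      rw [Subgroup.mem_centralizer_singleton_iff] at hy
      exact hcent7 y hy.symm
  have hC2 : Nat.card (Subgroup.centralizer (Subgroup.zpowers x0 : Set G)) = 7 := by
    apply hcard7
    · rw [Subgroup.mem_centralizer_iff]
      intro h hh
      obtain ⟨k, rfl⟩ := Subgroup.mem_zpowers_iff.mp hh
      exact (Commute.refl x0).zpow_left k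
    · intro y hy
      rw [Subgroup.mem_centralizer_iff] at hy
      exact hcent7 y (hy x0 (Subgroup.mem_zpowers x0))
  -- the number e
  have he := card_range_psi hx0
  set e := (Subgroup.centralizer (Subgroup.zpowers x0 : Set G)).relIndex
    (Subgroup.normalizer (Subgroup.zpowers x0 : Set G)) with hedef
  have he3 : e = 3 := by
    have h1 : e ∣ 6 := by
      rw [← he]
      have h2 := Subgroup.card_subgroup_dvd_card (psi hx0).range
      have h3 : Nat.card (ZMod 7)ˣ = 6 := by
        rw [Nat.card_eq_fintype_card, ZMod.card_units_eq_totient]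
        rfl
      rwa [h3] at h2
    have h2 := H21.SylowTools.card_centralizer_mul_relIndex (Subgroup.zpowers x0)
    rw [hC2, ← hedef] at h2
    have hPcard : Nat.card (Subgroup.zpowers x0) = 7 ^ (Nat.card G).factorization 7 := by
      rw [hz, hG]
      have : (6048 : ℕ).factorization 7 = 1 := by
        rw [show (6048 : ℕ) = 864 * 7 by norm_num, Nat.factorization_mul (by norm_num) (by norm_num)]
        rw [Finsupp.add_apply, Nat.factorization_eq_zero_of_not_dvd (by norm_num : ¬ 7 ∣ 864),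
          Nat.Prime.factorization_self h7.out]
      rw [this, pow_one]
    let P : Sylow 7 G := Sylow.ofCard (Subgroup.zpowers x0) hPcard
    have h3 : Nat.card (Sylow 7 G) ≡ 1 [MOD 7] := card_sylow_modEq_one 7 G
    have h4 : Nat.card (Sylow 7 G) = (Subgroup.normalizer (Subgroup.zpowers x0 : Set G)).index :=
      P.card_eq_index_normalizer
    have h5 := Subgroup.card_mul_index (Subgroup.normalizer (Subgroup.zpowers x0 : Set G))
    rw [← h2, ← h4, hG] at h5
    have h6 : e ≤ 6 := Nat.le_of_dvd (by norm_num) h1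
    set n := Nat.card (Sylow 7 G)
    have h7' : e * n = 864 := by
      have : 7 * (e * n) = 7 * 864 := by rw [← mul_assoc, h5]
      omega
    have h8 : n % 7 = 1 := h3
    interval_cases e
    · omega
    · omega
    · omega
    · rfl
    · omega
    · omega
    · omega
  obtain ⟨M, hM⟩ := H78.Cong.exists_isPModular h7.out
  -- the character of degree 27 is in the principal block
  have hone : ((1 : ZMod 7)) ≠ 0 := one_ne_zero
  have hpw : pw x0 (1 : ZMod 7) = x0 := by
    simp [pw, ZMod.val_one]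
  have hgam := gamma_self hM hx0 hidx hone
  rw [hpw] at hgam
  have hcol := H18.CharInd.column_orthogonality x0 x0
  rw [if_pos (IsConj.refl x0), hC1] at hcol
  have hχx : χ x0 ≠ 0 := by
    intro h0
    have h1 := H78.Cong.char_congr_one hM (isCharacter_of_isIrr hχ) (g := x0) (k := 1)
      (by rw [pow_one, ← hx0]; exact pow_orderOf_eq_one x0)
    rw [h0, h27] at h1
    have h2 : (0 : ℂ) - 27 = ((-27 : ℤ) : ℂ) := by norm_num
    rw [h2, H20.Loc.locI_intCast_iff hM] at h1
    norm_num at h1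
  have hB : (⟨χ, hχ⟩ : IrrCharacter G) ∈ principalBlock M G := by
    by_contra hcon
    have h1 : ∑ ψ : IrrCharacter G, ((ψ : G → ℂ) x0 * (starRingEnd ℂ) ((ψ : G → ℂ) x0) -
        (if ψ ∈ principalBlock M G then (ψ : G → ℂ) x0 * (starRingEnd ℂ) ((ψ : G → ℂ) x0) else 0)) = 0 := by
      rw [Finset.sum_sub_distrib, hgam, hcol]; norm_num
    have h2 : ∀ ψ : IrrCharacter G, ((ψ : G → ℂ) x0 * (starRingEnd ℂ) ((ψ : G → ℂ) x0) -
        (if ψ ∈ principalBlock M G then (ψ : G → ℂ) x0 * (starRingEnd ℂ) ((ψ : G → ℂ) x0) else 0)) =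
        (((if ψ ∈ principalBlock M G then 0 else Complex.normSq ((ψ : G → ℂ) x0)) : ℝ) : ℂ) := by
      intro ψ
      split_ifs
      · simp
      · rw [sub_zero, Complex.mul_conj]
    rw [Finset.sum_congr rfl (fun ψ _ => h2 ψ), ← Complex.ofReal_sum] at h1
    have h3 : ∑ ψ : IrrCharacter G, (if ψ ∈ principalBlock M G then 0 else
        Complex.normSq ((ψ : G → ℂ) x0)) = 0 := by exact_mod_cast h1
    have h4 := (Finset.sum_eq_zero_iff_of_nonneg (fun ψ _ => by
      split_ifs
      · exact le_rfl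
      · exact Complex.normSq_nonneg _)).mp h3 ⟨χ, hχ⟩ (Finset.mem_univ _)
    rw [if_neg hcon, Complex.normSq_eq_zero] at h4
    exact hχx h4
  obtain ⟨a, Y, ε, hε, ha, haB, hY, hBu, hcard, hnorm, ha1, -, hdeg, hdegY, hrel⟩ :=
    structure_thm hM hx0 hidx (he.trans he3)
  set χ' : IrrCharacter G := ⟨χ, hχ⟩ with hχ'
  have hdχ : charDegree (χ' : G → ℂ) = 27 := by
    change ⌊(χ 1).re⌋₊ = 27
    rw [h27]; norm_num
  have haχ : a χ' = -1 := by
    have hne : a χ' ≠ 0 := by
      rcases hBu χ' hB with h | h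
      · exact h
      · exfalso
        obtain ⟨m, hm⟩ := hdegY χ' h
        rw [hdχ] at hm
        rcases hε with h1 | h1 <;> rw [h1] at hm <;> push_cast at hm <;> omega
    obtain ⟨m, hm⟩ := hdeg χ' hne
    rw [hdχ] at hm
    rcases ha χ' with h | h | h
    · exact absurd h hne
    · rw [h] at hm; push_cast at hm; omega
    · exact h
  have hne : χ' ≠ triv G := by
    intro h
    have := congrArg (fun ψ : IrrCharacter G => (ψ : G → ℂ) 1) h
    change χ 1 = 1 at this
    rw [h27] at this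
    norm_num at this
  -- the third character
  obtain ⟨ψ, hψ1, hψ2, hψ0⟩ : ∃ ψ, ψ ≠ triv G ∧ ψ ≠ χ' ∧ a ψ ≠ 0 := by
    by_contra hcon
    push Not at hcon
    have h1 : ∑ χ, a χ * a χ = ∑ χ ∈ ({triv G, χ'} : Finset (IrrCharacter G)), a χ * a χ := by
      symm
      apply Finset.sum_subset (Finset.subset_univ _)
      intro ψ _ hψ
      simp only [Finset.mem_insert, Finset.mem_singleton, not_or] at hψ
      rw [hcon ψ hψ.1 hψ.2]; rfl
    rw [hnorm, Finset.sum_pair hne.symm, ha1, haχ] at h1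
    norm_num at h1
  have hrest : ∀ φ, φ ≠ triv G → φ ≠ χ' → φ ≠ ψ → a φ = 0 := by
    intro φ h1 h2 h3
    by_contra h4
    have h5 : ∑ χ ∈ ({triv G, χ', ψ, φ} : Finset (IrrCharacter G)), a χ * a χ ≤ ∑ χ, a χ * a χ :=
      Finset.sum_le_sum_of_subset_of_nonneg (Finset.subset_univ _) (fun _ _ _ => mul_self_nonneg _)
    rw [hnorm, Finset.sum_insert (by simp [hne.symm, hψ1.symm, h1.symm]),
      Finset.sum_insert (by simp [hψ2.symm, h2.symm]), Finset.sum_pair h3.symm, ha1, haχ] at h5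
    have h6 : 0 < a ψ * a ψ := mul_self_pos.mpr hψ0
    have h7 : 0 < a φ * a φ := mul_self_pos.mpr h4
    push_cast at h5
    omega
  -- a member of Y
  obtain ⟨θ, hθ⟩ : Y.Nonempty := by
    rw [← Finset.card_pos]
    by_contra h
    have : Y.card = 0 := by omega
    rw [this] at hcard
    norm_num at hcard
  have hr := hrel θ hθ 1 (by rw [orderOf_one]; norm_num)
  have hr2 : ∑ φ, (a φ : ℂ) * (φ : G → ℂ) 1 = 1 - 27 + (a ψ : ℂ) * (ψ : G → ℂ) 1 := by
    have h1 : ∑ φ, (a φ : ℂ) * (φ : G → ℂ) 1 =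
        ∑ φ ∈ ({triv G, χ', ψ} : Finset (IrrCharacter G)), (a φ : ℂ) * (φ : G → ℂ) 1 := by
      symm
      apply Finset.sum_subset (Finset.subset_univ _)
      intro φ _ hφ
      simp only [Finset.mem_insert, Finset.mem_singleton, not_or] at hφ
      rw [hrest φ hφ.1 hφ.2.1 hφ.2.2]; simp
    rw [h1, Finset.sum_insert (by simp [hne.symm, hψ1.symm]), Finset.sum_pair hψ2.symm, ha1, haχ]
    change ((1 : ℤ) : ℂ) * 1 + (((-1 : ℤ) : ℂ) * χ 1 + _) = _
    rw [h27]; push_cast; ring
  obtain ⟨s, hs0, hs⟩ := exists_degree_pos ψ.2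
  obtain ⟨d, hd0, hd⟩ := exists_degree_pos θ.2
  rw [hr2, hs, hd] at hr
  have hr3 : ε * (d : ℤ) = 1 - 27 + a ψ * (s : ℤ) := by exact_mod_cast hr
  have hsdeg : charDegree (ψ : G → ℂ) = s := by simp [charDegree, hs]
  have hddeg : charDegree (θ : G → ℂ) = d := by simp [charDegree, hd]
  obtain ⟨m, hm⟩ := hdeg ψ hψ0
  rw [hsdeg] at hm
  have hsmem : s ∈ charDegrees G := ⟨ψ, hsdeg⟩
  have hdmem : d ∈ charDegrees G := ⟨θ, hddeg⟩
  have hsd : s ∣ 6048 := hG ▸ dvd_of_mem hsmem
  have hdd : d ∣ 6048 := hG ▸ dvd_of_mem hdmem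
  -- bounds
  have hbound : ∀ (φ : IrrCharacter G) (n : ℕ), (φ : G → ℂ) 1 = n → n < 78 := by
    intro φ n hn
    have h1 := H18.CharInd.sum_degree_sq (G := G)
    choose deg hdeg0 hdeg' using fun φ : IrrCharacter G => exists_degree_pos φ.2
    have h2 : ∑ φ : IrrCharacter G, (deg φ) ^ 2 = 6048 := by
      rw [Finset.sum_congr rfl (fun φ _ => by rw [hdeg' φ]), hG] at h1
      exact_mod_cast h1
    have h3 : (deg φ) ^ 2 ≤ 6048 := by
      rw [← h2]
      exact Finset.single_le_sum (f := fun φ => (deg φ) ^ 2) (fun _ _ => Nat.zero_le _) (Finset.mem_univ φ)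
    have h4 : deg φ = n := by
      have := (hdeg' φ).symm.trans hn
      exact_mod_cast this
    rw [h4] at h3
    by_contra hcon
    push Not at hcon
    nlinarith
  have hs78 := hbound ψ s hs
  have hd78 := hbound θ d hd
  have hfin := arith s hs78 d hd78 hsd hdd (by
    rcases ha ψ with h | h | h
    · exact absurd h hψ0
    · left
      rw [h] at hm hr3
      rcases hε with h1 | h1 <;> rw [h1] at hr3 <;> constructor <;> omega
    · right
      rw [h] at hm hr3
      rcases hε with h1 | h1 <;> rw [h1] at hr3 <;> constructor <;> omega)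
  rcases hfin with h | h
  · exact ⟨s, hsmem, h⟩
  · exact ⟨d, hdmem, h⟩

variable {F : Type*} [Field F] [Fintype F] (hF : Fintype.card F = 9)

include hF

theorem card_SU : Nat.card (SU 3 F 3) = 6048 := by
  have h := H7.UnitSU.card_SU (K := F) (q := 3) (by rw [hF]; norm_num) 3 (by norm_num)
  have h2 : (∏ i ∈ Finset.range 3, (if Even i then 3 ^ (i + 1) + 1 else 3 ^ (i + 1) - 1)) = 896 := by
    decide
  rw [h2] at h
  norm_num at h
  omega

theorem main : degreePrimes (SU 3 F 3) = {p | p = 2 ∨ p = 3 ∨ p = 7} ∧ degreeGraph (SU 3 F 3) = gr := by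
  obtain ⟨χ27, χ21, χ14, h1, h2, h3, d1, d2, d3⟩ := H17.DG8.main hF
  apply graph_eq (card_SU hF)
  · apply abs (card_SU hF) _ χ27 h1 d1
    intro g
    rcases H61.SpecSU3.pow_cases hF g.1 g.2 with h | h | h
    · exact Or.inl (Subtype.ext h)
    · exact Or.inr (Or.inl (Subtype.ext h))
    · exact Or.inr (Or.inr (Subtype.ext h))
  · exact ⟨14, mem_charDegrees h3 (by rw [d3]; norm_num), dvd_rfl⟩
  · exact ⟨21, mem_charDegrees h2 (by rw [d2]; norm_num), dvd_rfl⟩

end H17.DG9
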