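import Mathlib
import Cfsg.Agent.Lib.H35.NetKit

/-!
# Maximality of stabilisers from suborbits given by bit masks
(the criterion is helper32's `H32.M24Kit.isCoatom_of_suborbits`, restated for masks)
-/

set_option autoImplicit false

namespace H17.G24J

open H35.TC H35.Net

/-- A stabiliser is maximal if no proper nontrivial union of suborbits containing the base point
has size dividing the degree. -/
theorem isCoatom_stabilizer {G α : Type*} [Group G] [MulAction G α] (a : α)
    (hne : MulAction.orbit G a ≠ {a})
    (key : ∀ B ⊆ MulAction.orbit G a, a ∈ B → (∀ g ∈ MulAction.stabilizer G a, ∀ b ∈ B, g • b ∈ B) →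
      B.ncard ∣ (MulAction.orbit G a).ncard → B = {a} ∨ B = MulAction.orbit G a) :
    IsCoatom (MulAction.stabilizer G a) := by
  refine ⟨?_, ?_⟩
  · intro htop
    apply hne
    ext b
    rw [Set.mem_singleton_iff]
    constructor
    · rintro ⟨g, rfl⟩
      have : g ∈ MulAction.stabilizer G a := by rw [htop]; trivial
      exact this
    · rintro rfl
      exact MulAction.mem_orbit_self _
  · intro H hH
    have hsub : MulAction.orbit H a ⊆ MulAction.orbit G a := by
      rintro _ ⟨h, rfl⟩
      exact ⟨(h : G), rfl⟩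
    have hstab : (MulAction.stabilizer H a) = (MulAction.stabilizer G a).subgroupOf H := by
      ext h
      rw [Subgroup.mem_subgroupOf]
      exact Iff.rfl
    have hcard : (MulAction.orbit H a).ncard ∣ (MulAction.orbit G a).ncard := by
      have h1 : (MulAction.stabilizer G a).relIndex H * H.index = (MulAction.stabilizer G a).index :=
        Subgroup.relIndex_mul_index hH.le
      rw [← MulAction.index_stabilizer G, ← MulAction.index_stabilizer H, ← h1, hstab]
      exact Dvd.intro _ rfl
    rcases key (MulAction.orbit H a) hsub (MulAction.mem_orbit_self _) (by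
        rintro g hg _ ⟨h, rfl⟩
        exact ⟨⟨g, hH.le hg⟩ * h, mul_smul g (h : G) a⟩) hcard with h | h
    · exfalso
      apply hH.not_ge
      intro h' hh'
      have : h' • a ∈ MulAction.orbit H a := ⟨⟨h', hh'⟩, rfl⟩
      rw [h] at this
      exact this
    · rw [eq_top_iff]
      intro g _
      have : g • a ∈ MulAction.orbit H a := by rw [h]; exact ⟨g, rfl⟩
      obtain ⟨k, hk⟩ := this
      have hk' : (k : G)⁻¹ * g ∈ MulAction.stabilizer G a := by
        rw [MulAction.mem_stabilizer_iff, mul_smul, inv_smul_eq_iff]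
        exact hk.symm
      have := H.mul_mem k.2 (hH.le hk')
      rwa [mul_inv_cancel_left] at this

/-- Maximality of a stabiliser from the list of suborbit lengths. -/
theorem isCoatom_of_suborbits {G α : Type*} [Group G] [MulAction G α] (a : α) {k : ℕ}
    (O : Fin k → Set α) (n : Fin k → ℕ) (N : ℕ) (hN : (MulAction.orbit G a).ncard = N) (hN0 : 1 < N)
    (hO : ∀ i, ∀ x ∈ O i, ∀ y ∈ O i, ∃ g ∈ MulAction.stabilizer G a, g • x = y)
    (hn : ∀ i, (O i).ncard = n i) (ha : ∀ i, a ∉ O i)
    (hdisj : ∀ i j, i ≠ j → Disjoint (O i) (O j))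
    (hcover : MulAction.orbit G a = {a} ∪ ⋃ i, O i)
    (hdec : ∀ I : Finset (Fin k), (1 + ∑ i ∈ I, n i) ∣ N → I = ∅ ∨ I = Finset.univ) :
    IsCoatom (MulAction.stabilizer G a) := by
  classical
  have hfin : (MulAction.orbit G a).Finite := Set.finite_of_ncard_pos (by omega)
  apply isCoatom_stabilizer a
  · intro h
    rw [h, Set.ncard_singleton] at hN
    omega
  · intro B hB haB hst hdvd
    have hOfin : ∀ i, (O i).Finite := by
      intro i
      apply hfin.subset
      rw [hcover]
      exact fun x hx => Or.inr (Set.mem_iUnion.2 ⟨i, hx⟩)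
    let I : Finset (Fin k) := Finset.univ.filter fun i => (O i ∩ B).Nonempty
    have hI : ∀ i, i ∈ I → O i ⊆ B := by
      intro i hi y hy
      simp only [I, Finset.mem_filter, Finset.mem_univ, true_and] at hi
      obtain ⟨x, hx, hxB⟩ := hi
      obtain ⟨g, hg, rfl⟩ := hO i x hx y hy
      exact hst g hg x hxB
    have hB' : B = {a} ∪ ⋃ i ∈ I, O i := by
      ext x
      constructor
      · intro hx
        have := hB hx
        rw [hcover] at this
        rcases this with h | h
        · exact Or.inl h
        · rw [Set.mem_iUnion] at h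
          obtain ⟨i, hi⟩ := h
          refine Or.inr (Set.mem_biUnion (x := i) ?_ hi)
          show i ∈ I
          simp only [I, Finset.mem_filter, Finset.mem_univ, true_and]
          exact ⟨x, hi, hx⟩
      · rintro (h | h)
        · rw [Set.mem_singleton_iff] at h; rw [h]; exact haB
        · rw [Set.mem_iUnion₂] at h
          obtain ⟨i, hi, h⟩ := h
          exact hI i hi h
    have hUfin : ∀ J : Finset (Fin k), (⋃ i ∈ J, O i).Finite := fun J =>
      Set.Finite.biUnion (Finset.finite_toSet J) fun i _ => hOfin i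
    have hcardU : ∀ J : Finset (Fin k), (⋃ i ∈ J, O i).ncard = ∑ i ∈ J, n i := by
      intro J
      induction J using Finset.induction_on with
      | empty => simp
      | insert j J hj ih =>
        rw [Finset.sum_insert hj, Finset.set_biUnion_insert, Set.ncard_union_eq _ (hOfin j) (hUfin J), ih, hn]
        rw [Set.disjoint_left]
        intro x hx hx'
        rw [Set.mem_iUnion₂] at hx'
        obtain ⟨i, hi, hx'⟩ := hx'
        have : j ≠ i := by rintro rfl; exact hj hi
        exact Set.disjoint_left.1 (hdisj j i this) hx hx'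
    have hBcard : B.ncard = 1 + ∑ i ∈ I, n i := by
      rw [hB', Set.ncard_union_eq _ (Set.finite_singleton a) (hUfin I), Set.ncard_singleton, hcardU]
      rw [Set.disjoint_singleton_left, Set.mem_iUnion₂]
      rintro ⟨i, _, h⟩
      exact ha i h
    rw [hBcard, hN] at hdvd
    rcases hdec I hdvd with h | h
    · left; rw [hB', h]; simp
    · right; rw [hB', h, hcover]; simp

theorem ncard_mask {k U : ℕ} (hU : U < 2 ^ 2 ^ k) : {b : ℕ | U.testBit b = true}.ncard = popc k U := by
  rw [← popc_spec, ← Set.ncard_coe_finset]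
  congr 1
  ext b
  simp only [Finset.coe_filter, Finset.mem_range, Set.mem_setOf_eq]
  constructor
  · intro h
    refine ⟨?_, h⟩
    by_contra hc
    rw [Nat.testBit_lt_two_pow (lt_of_lt_of_le hU (Nat.pow_le_pow_right (by norm_num) (Nat.not_lt.1 hc)))] at h
    exact absurd h (by simp)
  · exact fun h => h.2

theorem bits_disj {x y : ℕ} (h : Nat.land x y = 0) (b : ℕ) : ¬ (x.testBit b = true ∧ y.testBit b = true) := by
  rintro ⟨h1, h2⟩
  have h' : x &&& y = 0 := h
  have : (x &&& y).testBit b = false := by rw [h']; simp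
  rw [Nat.testBit_and, h1, h2] at this
  exact absurd this (by simp)

/-- mask version -/
theorem coatom_of_masks {G : Type*} [Group G] [MulAction G ℕ] (a k U N : ℕ)
    (hUlt : U < 2 ^ 2 ^ k) (hUN : popc k U = N) (hN : 1 < N)
    (hclosed : ∀ (g : G) b, U.testBit b = true → U.testBit (g • b) = true)
    (haU : U.testBit a = true)
    (htr : ∀ b, U.testBit b = true → ∃ g : G, g • a = b)
    {m : ℕ} (O : Fin m → ℕ) (q n : Fin m → ℕ)
    (hOlt : ∀ i, O i < 2 ^ 2 ^ k)
    (hO : ∀ i b, (O i).testBit b = true → ∃ g : G, g • a = a ∧ g • q i = b)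
    (hn : ∀ i, popc k (O i) = n i) (ha : ∀ i, (O i).testBit a = false)
    (hdisj : ∀ i j, i ≠ j → Nat.land (O i) (O j) = 0)
    (hcov : ∀ b, U.testBit b = true ↔ b = a ∨ ∃ i, (O i).testBit b = true)
    (hdec : ∀ I : Finset (Fin m), (1 + ∑ i ∈ I, n i) ∣ N → I = ∅ ∨ I = Finset.univ) :
    IsCoatom (MulAction.stabilizer G a) := by
  have horb : MulAction.orbit G a = {b : ℕ | U.testBit b = true} := by
    ext b
    constructor
    · rintro ⟨g, rfl⟩
      exact hclosed g a haU
    · intro hb
      obtain ⟨g, rfl⟩ := htr b hb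
      exact ⟨g, rfl⟩
  refine isCoatom_of_suborbits a (fun i => {b : ℕ | (O i).testBit b = true}) n N ?_ hN ?_ ?_ ?_ ?_ ?_ hdec
  · rw [horb, ncard_mask hUlt, hUN]
  · intro i x hx y hy
    obtain ⟨g, hg, hgx⟩ := hO i x hx
    obtain ⟨h, hh, hhy⟩ := hO i y hy
    refine ⟨h * g⁻¹, ?_, ?_⟩
    · rw [MulAction.mem_stabilizer_iff, mul_smul, inv_smul_eq_iff.2 hg.symm, hh]
    · rw [mul_smul, ← hgx, inv_smul_smul, hhy]
  · intro i
    rw [ncard_mask (hOlt i), hn]
  · intro i hi
    have hi' : (O i).testBit a = true := hi
    rw [ha i] at hi'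
    exact absurd hi' (by simp)
  · intro i j hij
    rw [Set.disjoint_left]
    intro x hx hx'
    exact bits_disj (hdisj i j hij) x ⟨hx, hx'⟩
  · rw [horb]
    ext b
    rw [Set.mem_setOf_eq, hcov b]
    simp

/-- the conjugate of a maximal point stabiliser is maximal -/
theorem coatom_smul {G α : Type*} [Group G] [MulAction G α] (b : α) (y : G)
    (h : IsCoatom (MulAction.stabilizer G b)) : IsCoatom (MulAction.stabilizer G (y • b)) := by
  rw [MulAction.stabilizer_smul_eq_stabilizer_map_conj]
  exact ((MulAut.conj y).mapSubgroup.isCoatom_iff _).2 h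

/-- the intersection of two conjugate point stabilisers -/
theorem inter_coatom {G α : Type*} [Group G] [MulAction G α] (a : α) (x : G)
    (h : IsCoatom (MulAction.stabilizer (MulAction.stabilizer G a) (x • a))) :
    IsCoatom ((MulAction.stabilizer G a ⊓
      (MulAction.stabilizer G a).map (MulAut.conj x).toMonoidHom).subgroupOf (MulAction.stabilizer G a)) := by
  have e : (MulAction.stabilizer G a ⊓
      (MulAction.stabilizer G a).map (MulAut.conj x).toMonoidHom).subgroupOf (MulAction.stabilizer G a) =
      MulAction.stabilizer (MulAction.stabilizer G a) (x • a) := by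
    ext g
    rw [Subgroup.mem_subgroupOf, Subgroup.mem_inf]
    have h2 := MulAction.stabilizer_smul_eq_stabilizer_map_conj x a
    rw [← h2]
    constructor
    · exact fun hg => hg.2
    · exact fun hg => ⟨g.2, hg⟩
  rw [e]
  exact h

end H17.G24J
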