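import Cfsg.Agent.Lib.H17.G24JGen
import Cfsg.Agent.Lib.H17.G24JChk
import Cfsg.Agent.Lib.H17.G24JMat
import Cfsg.Agent.Lib.H34.G24
import Cfsg.Agent.Lib.H35.Suborbit
import Cfsg.Agent.Lib.H63.J2Main
import Cfsg.Agent.Lib.H22.ChevField

/-!
# `J2` in `G2(4)`
-/

set_option autoImplicit false
set_option maxRecDepth 100000
set_option linter.all false

namespace H17.G24J

open H35.TC H35.Net
open H35.SuzMain (φ gP hφ i0 i1 i2 i3 i4 H0 H1 H2 H3 H4 LA idx0 idx1 idx2 idx3 idx4)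

theorem H2_le_H1 : H2 ≤ H1 :=
  closure_letters_le (g := gP) (ι := i2) (κ := i1) (fun x => by
    cases x <;> [exact ⟨.a, rfl⟩; exact ⟨.b, rfl⟩; exact ⟨.c, rfl⟩; exact ⟨.d, rfl⟩; exact ⟨.e, rfl⟩])

theorem H1_le_H0 : H1 ≤ H0 :=
  closure_letters_le (g := gP) (ι := i1) (κ := i0) (fun x => by
    cases x <;> [exact ⟨.a, rfl⟩; exact ⟨.b, rfl⟩; exact ⟨.c, rfl⟩; exact ⟨.d, rfl⟩; exact ⟨.e, rfl⟩; exact ⟨.f, rfl⟩])

theorem card_H2_le : Nat.card H2 ≤ 604800 ∧ Nat.card H2 ≠ 0 := by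
  have h4 := card_le_bot idx4
  have h3 := card_le_step (closure_letters_le (g := gP) (ι := i4) (κ := i3) (fun x => by
    cases x <;> [exact ⟨.a, rfl⟩; exact ⟨.b, rfl⟩])) idx3 h4
  have h2 := card_le_step (closure_letters_le (g := gP) (ι := i3) (κ := i2) (fun x => by
    cases x <;> [exact ⟨.a, rfl⟩; exact ⟨.b, rfl⟩; exact ⟨.c, rfl⟩; exact ⟨.d, rfl⟩])) idx2 h3
  exact ⟨h2.1.trans (by norm_num), h2.2⟩

theorem card_H1_le : Nat.card H1 ≤ 416 * Nat.card H2 ∧ Nat.card H1 ≠ 0 :=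
  card_le_step H2_le_H1 idx1 ⟨le_rfl, card_H2_le.2⟩

theorem card_H1_ge : 251596800 ≤ Nat.card H1 := by
  have h := (card_le_step H1_le_H0 idx0 ⟨le_rfl, card_H1_le.2⟩).1
  rw [H35.SuzMain.H0_top] at h
  have e : Nat.card (⊤ : Subgroup Cfsg.Spor.Suz) = Nat.card Cfsg.Spor.Suz := Nat.card_congr Subgroup.topEquiv.toEquiv
  rw [e, H35.SuzMain.card_inj.1] at h
  omega

theorem card_H2 : Nat.card H2 = 604800 := by
  have h1 := card_H1_le.1
  have h2 := card_H2_le.1
  have h3 := card_H1_ge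
  omega

theorem card_H1 : Nat.card H1 = 251596800 := by
  have h1 := card_H1_le.1
  have h2 := card_H2
  have h3 := card_H1_ge
  omega

/-- the action of `Suz` on the points -/
@[reducible] noncomputable def actS : MulAction Cfsg.Spor.Suz ℕ := MulAction.compHom ℕ φ

attribute [local instance] actS

theorem smul_def (g : Cfsg.Spor.Suz) (n : ℕ) : g • n = φ g n := rfl

theorem mem_H1 (x : LA) (hx : x ≠ .g) : gP x ∈ H1 := by
  cases x
  · exact Subgroup.subset_closure ⟨.a, rfl⟩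
  · exact Subgroup.subset_closure ⟨.b, rfl⟩
  · exact Subgroup.subset_closure ⟨.c, rfl⟩
  · exact Subgroup.subset_closure ⟨.d, rfl⟩
  · exact Subgroup.subset_closure ⟨.e, rfl⟩
  · exact Subgroup.subset_closure ⟨.f, rfl⟩
  · exact absurd rfl hx

theorem mem_H2 (x : LA) (hf : x ≠ .f) (hg : x ≠ .g) : gP x ∈ H2 := by
  cases x
  · exact Subgroup.subset_closure ⟨.a, rfl⟩
  · exact Subgroup.subset_closure ⟨.b, rfl⟩
  · exact Subgroup.subset_closure ⟨.c, rfl⟩
  · exact Subgroup.subset_closure ⟨.d, rfl⟩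
  · exact Subgroup.subset_closure ⟨.e, rfl⟩
  · exact absurd rfl hf
  · exact absurd rfl hg

theorem word_H1 (w : List LA) (hw : ∀ x ∈ w, x ≠ .g) : (w.map gP).prod ∈ H1 := by
  apply Subgroup.list_prod_mem
  intro g hg
  obtain ⟨x, hx, rfl⟩ := List.mem_map.1 hg
  exact mem_H1 x (hw x hx)

theorem word_H2 (w : List LA) (hw : ∀ x ∈ w, x ≠ .f ∧ x ≠ .g) : (w.map gP).prod ∈ H2 := by
  apply Subgroup.list_prod_mem
  intro g hg
  obtain ⟨x, hx, rfl⟩ := List.mem_map.1 hg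
  exact mem_H2 x (hw x hx).1 (hw x hx).2

theorem orb {K : Subgroup Cfsg.Spor.Suz} {ws : List (List LA)} (hK : ∀ w ∈ ws, (w.map gP).prod ∈ K) {b n O : ℕ}
    (h : Nat.beq (reachF H35.NSuz.net ws n (Nat.shiftLeft 1 b)) O = true) (c : ℕ) (hc : O.testBit c = true) :
    ∃ g ∈ K, φ g b = c := by
  rw [← eqOfBeq h] at hc
  obtain ⟨_, ⟨g, hg, rfl⟩, hgb⟩ := reachF_orbit H35.NSuz.hbp (Γ := K.map φ)
    (fun w hw => ⟨_, hK w hw, map_word hφ w⟩) c hc
  exact ⟨g, hg, hgb⟩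

theorem w6_mem : ∀ w ∈ w6, (w.map gP).prod ∈ H1 := by
  intro w hw
  apply word_H1
  revert w
  simp [w6]

theorem w5_mem : ∀ w ∈ w5, (w.map gP).prod ∈ H2 := by
  intro w hw
  apply word_H2
  revert w
  simp [w5]

theorem wA_mem : ∀ w ∈ wA, (w.map gP).prod ∈ H2 := by
  intro w hw
  apply word_H2
  revert w
  simp [wA]

theorem wB_mem : ∀ w ∈ wB, (w.map gP).prod ∈ H2 := by
  intro w hw
  apply word_H2
  revert w
  simp [wB]

theorem fix_mem {ws : List (List LA)} {bs : List ℕ} (hK : ∀ w ∈ ws, (w.map gP).prod ∈ H2)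
    (h : chkFixF H35.NSuz.net ws bs = true) {b : ℕ} (hb : b ∈ bs) :
    ∀ w ∈ ws, (w.map gP).prod ∈ H2 ⊓ MulAction.stabilizer Cfsg.Spor.Suz b := by
  intro w hw
  refine ⟨hK w hw, ?_⟩
  change φ ((w.map gP).prod) b = b
  rw [map_word hφ]
  exact prod_fix H35.NSuz.hbp h w hw b hb

theorem closed1 {O : ℕ} (h : chkClosed H35.NSuz.net w6 O = true) : ∀ g ∈ H1, ∀ b, O.testBit (φ g b) = O.testBit b := by
  apply closed_closure φ rfl
  rintro _ ⟨x, rfl⟩ b
  have h2 := closed_of_chk H35.NSuz.hbp h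
  change O.testBit (φ (gP (i1 x)) b) = O.testBit b
  rw [hφ]
  cases x
  · exact h2 [.a] (by simp [w6]) b
  · exact h2 [.b] (by simp [w6]) b
  · exact h2 [.c] (by simp [w6]) b
  · exact h2 [.d] (by simp [w6]) b
  · exact h2 [.e] (by simp [w6]) b
  · exact h2 [.f] (by simp [w6]) b

theorem closed2 {O : ℕ} (h : chkClosed H35.NSuz.net w5 O = true) : ∀ g ∈ H2, ∀ b, O.testBit (φ g b) = O.testBit b := by
  apply closed_closure φ rfl
  rintro _ ⟨x, rfl⟩ b
  have h2 := closed_of_chk H35.NSuz.hbp h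
  change O.testBit (φ (gP (i2 x)) b) = O.testBit b
  rw [hφ]
  cases x
  · exact h2 [.a] (by simp [w5]) b
  · exact h2 [.b] (by simp [w5]) b
  · exact h2 [.c] (by simp [w5]) b
  · exact h2 [.d] (by simp [w5]) b
  · exact h2 [.e] (by simp [w5]) b

theorem H2_fix : ∀ g ∈ H2, φ g 1781 = 1781 ∧ φ g 0 = 0 := by
  intro g hg
  have h2 := prod_fix H35.NSuz.hbp f_5
  have hle : ∀ b ∈ ([1781, 0] : List ℕ), H2 ≤ MulAction.stabilizer Cfsg.Spor.Suz b := by
    intro b hb
    unfold H35.SuzMain.H2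
    rw [Subgroup.closure_le]
    rintro _ ⟨x, rfl⟩
    change φ (gP (i2 x)) b = b
    rw [hφ]
    cases x
    · exact h2 [.a] (by simp [w5]) b hb
    · exact h2 [.b] (by simp [w5]) b hb
    · exact h2 [.c] (by simp [w5]) b hb
    · exact h2 [.d] (by simp [w5]) b hb
    · exact h2 [.e] (by simp [w5]) b hb
  exact ⟨hle 1781 (by simp) hg, hle 0 (by simp) hg⟩

/-- the point stabiliser -/
noncomputable def S2 : Subgroup H1 := MulAction.stabilizer H1 (1781 : ℕ)

theorem bit_shift {a b : ℕ} : (Nat.shiftLeft 1 a).testBit b = true ↔ b = a := by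
  change (1 <<< a).testBit b = true ↔ b = a
  rw [Nat.one_shiftLeft, Nat.testBit_two_pow]
  simp [eq_comm]

theorem bit_or {x y b : ℕ} : (Nat.lor x y).testBit b = true ↔ x.testBit b = true ∨ y.testBit b = true := by
  change (x ||| y).testBit b = true ↔ _
  rw [Nat.testBit_or, Bool.or_eq_true]

theorem lt_of_chk {m : ℕ} (h : Nat.ble (Nat.succ m) (Nat.pow 2 2048) = true) : m < 2 ^ 2 ^ 11 := by
  have := le_of_ble h
  exact this

theorem mU_iff (b : ℕ) : mU.testBit b = true ↔ b = 1781 ∨ ∃ i : Fin 2, ((![mQ0, mQ1] : Fin 2 → ℕ) i).testBit b = true := by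
  have h : mU = _ := (eqOfBeq v_U).symm
  rw [h, bit_or, bit_or, bit_shift, Fin.exists_fin_two]
  rfl

theorem mQ0_iff (b : ℕ) : mQ0.testBit b = true ↔ b = 137 ∨ ∃ i : Fin 2, ((![mA0, mA1] : Fin 2 → ℕ) i).testBit b = true := by
  have h : mQ0 = _ := (eqOfBeq v_Q0).symm
  rw [h, bit_or, bit_or, bit_shift, Fin.exists_fin_two]
  rfl

theorem mQ1_iff (b : ℕ) : mQ1.testBit b = true ↔ b = 138 ∨
    ∃ i : Fin 5, ((![mB0, mB1, mB2, mB3, mB4] : Fin 5 → ℕ) i).testBit b = true := by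
  have h : mQ1 = _ := (eqOfBeq v_Q1).symm
  rw [h, bit_or, bit_or, bit_or, bit_or, bit_or, bit_shift, Fin.exists_fin_succ, Fin.exists_fin_succ,
    Fin.exists_fin_succ, Fin.exists_fin_succ, Fin.exists_fin_succ]
  simp

theorem orbit_1781 : MulAction.orbit H1 (1781 : ℕ) = {b : ℕ | mU.testBit b = true} := by
  ext b
  constructor
  · rintro ⟨g, rfl⟩
    change mU.testBit (φ g 1781) = true
    rw [closed1 c_U g g.2]
    exact (mU_iff _).2 (Or.inl rfl)
  · intro hb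
    obtain ⟨g, hg, hgb⟩ := orb w6_mem r_U b hb
    exact ⟨⟨g, hg⟩, hgb⟩

theorem card_S2 : Nat.card S2 = 604800 := by
  have h1 : S2.index = 416 := by
    unfold S2
    rw [MulAction.index_stabilizer, orbit_1781, ncard_mask (lt_of_chk l_U), p_U]
  have h2 := Subgroup.card_mul_index S2
  rw [h1, card_H1] at h2
  omega

theorem H2_eq : H2.subgroupOf H1 = S2 := by
  have : Finite H1 := Nat.finite_of_card_ne_zero card_H1_le.2
  apply Subgroup.eq_of_le_of_card_ge
  · intro g hg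
    exact (H2_fix g (Subgroup.mem_subgroupOf.1 hg)).1
  · rw [card_S2, Nat.card_congr (Subgroup.subgroupOfEquivOfLe H2_le_H1).toEquiv, card_H2]

theorem mem_H2_of_S2 (g : S2) : ((g : H1) : Cfsg.Spor.Suz) ∈ H2 := by
  exact Subgroup.mem_subgroupOf.1 (H2_eq.symm.le g.2)

/-- element of the stabiliser from an element of `H2` -/
noncomputable def toS2 (g : Cfsg.Spor.Suz) (hg : g ∈ H2) : S2 := ⟨⟨g, H2_le_H1 hg⟩, (H2_fix g hg).1⟩

theorem toS2_smul (g : Cfsg.Spor.Suz) (hg : g ∈ H2) (b : ℕ) : toS2 g hg • b = φ g b := rfl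

/-! ### maximality -/

theorem max_H : IsCoatom S2 := by
  refine coatom_of_masks (G := H1) 1781 11 mU 416 (lt_of_chk l_U) p_U (by norm_num) ?_
    ((mU_iff _).2 (Or.inl rfl)) ?_ ![mQ0, mQ1] ![137, 138] ![100, 315] ?_ ?_ ?_ ?_ ?_ mU_iff ?_
  · intro g b hb
    change mU.testBit (φ g b) = true
    rw [closed1 c_U g g.2]
    exact hb
  · intro b hb
    obtain ⟨g, hg, hgb⟩ := orb w6_mem r_U b hb
    exact ⟨⟨g, hg⟩, hgb⟩
  · intro i
    fin_cases i
    · exact lt_of_chk l_Q0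
    · exact lt_of_chk l_Q1
  · intro i b hb
    fin_cases i
    · obtain ⟨g, hg, hgb⟩ := orb w5_mem r_Q0 b hb
      exact ⟨⟨g, H2_le_H1 hg⟩, (H2_fix g hg).1, hgb⟩
    · obtain ⟨g, hg, hgb⟩ := orb w5_mem r_Q1 b hb
      exact ⟨⟨g, H2_le_H1 hg⟩, (H2_fix g hg).1, hgb⟩
  · intro i
    fin_cases i
    · exact p_Q0
    · exact p_Q1
  · intro i
    fin_cases i
    · decide +kernel
    · decide +kernel
  · intro i j hij
    fin_cases i <;> fin_cases j
    · exact absurd rfl hij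
    · exact eqOfBeq d_Q0_Q1
    · exact (Nat.and_comm _ _).trans (eqOfBeq d_Q0_Q1)
    · exact absurd rfl hij
  · decide +kernel

theorem max_137 : IsCoatom (MulAction.stabilizer S2 (137 : ℕ)) := by
  refine coatom_of_masks (G := S2) 137 11 mQ0 100 (lt_of_chk l_Q0) p_Q0 (by norm_num) ?_
    ((mQ0_iff _).2 (Or.inl rfl)) ?_ ![mA0, mA1] ![185, 199] ![63, 36] ?_ ?_ ?_ ?_ ?_ mQ0_iff ?_
  · intro g b hb
    change mQ0.testBit (φ ((g : H1) : Cfsg.Spor.Suz) b) = true
    rw [closed2 c_Q0 _ (mem_H2_of_S2 g)]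
    exact hb
  · intro b hb
    obtain ⟨g, hg, hgb⟩ := orb w5_mem r_Q0 b hb
    exact ⟨toS2 g hg, hgb⟩
  · intro i
    fin_cases i
    · exact lt_of_chk l_A0
    · exact lt_of_chk l_A1
  · intro i b hb
    have hA := fix_mem wA_mem f_A (b := 137) (by simp)
    fin_cases i
    · obtain ⟨g, hg, hgb⟩ := orb hA r_A0 b hb
      exact ⟨toS2 g hg.1, hg.2, hgb⟩
    · obtain ⟨g, hg, hgb⟩ := orb hA r_A1 b hb
      exact ⟨toS2 g hg.1, hg.2, hgb⟩
  · intro i
    fin_cases i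
    · exact p_A0
    · exact p_A1
  · intro i
    fin_cases i
    · decide +kernel
    · decide +kernel
  · intro i j hij
    fin_cases i <;> fin_cases j
    · exact absurd rfl hij
    · exact eqOfBeq d_A0_A1
    · exact (Nat.and_comm _ _).trans (eqOfBeq d_A0_A1)
    · exact absurd rfl hij
  · decide +kernel

theorem max_138 : IsCoatom (MulAction.stabilizer S2 (138 : ℕ)) := by
  refine coatom_of_masks (G := S2) 138 11 mQ1 315 (lt_of_chk l_Q1) p_Q1 (by norm_num) ?_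
    ((mQ1_iff _).2 (Or.inl rfl)) ?_ ![mB0, mB1, mB2, mB3, mB4] ![139, 140, 187, 325, 207]
    ![10, 32, 32, 80, 160] ?_ ?_ ?_ ?_ ?_ mQ1_iff ?_
  · intro g b hb
    change mQ1.testBit (φ ((g : H1) : Cfsg.Spor.Suz) b) = true
    rw [closed2 c_Q1 _ (mem_H2_of_S2 g)]
    exact hb
  · intro b hb
    obtain ⟨g, hg, hgb⟩ := orb w5_mem r_Q1 b hb
    exact ⟨toS2 g hg, hgb⟩
  · intro i
    fin_cases i
    · exact lt_of_chk l_B0
    · exact lt_of_chk l_B1
    · exact lt_of_chk l_B2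
    · exact lt_of_chk l_B3
    · exact lt_of_chk l_B4
  · intro i b hb
    have hB := fix_mem wB_mem f_B (b := 138) (by simp)
    fin_cases i
    · obtain ⟨g, hg, hgb⟩ := orb hB r_B0 b hb
      exact ⟨toS2 g hg.1, hg.2, hgb⟩
    · obtain ⟨g, hg, hgb⟩ := orb hB r_B1 b hb
      exact ⟨toS2 g hg.1, hg.2, hgb⟩
    · obtain ⟨g, hg, hgb⟩ := orb hB r_B2 b hb
      exact ⟨toS2 g hg.1, hg.2, hgb⟩
    · obtain ⟨g, hg, hgb⟩ := orb hB r_B3 b hb
      exact ⟨toS2 g hg.1, hg.2, hgb⟩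
    · obtain ⟨g, hg, hgb⟩ := orb hB r_B4 b hb
      exact ⟨toS2 g hg.1, hg.2, hgb⟩
  · intro i
    fin_cases i
    · exact p_B0
    · exact p_B1
    · exact p_B2
    · exact p_B3
    · exact p_B4
  · intro i
    fin_cases i
    · decide +kernel
    · decide +kernel
    · decide +kernel
    · decide +kernel
    · decide +kernel
  · intro i j hij
    have hs : ∀ {x y : ℕ}, Nat.land x y = 0 → Nat.land y x = 0 := fun {x y} h => (Nat.and_comm y x).trans h
    fin_cases i <;> fin_cases j <;> first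
      | exact absurd rfl hij
      | exact eqOfBeq d_B0_B1
      | exact eqOfBeq d_B0_B2
      | exact eqOfBeq d_B0_B3
      | exact eqOfBeq d_B0_B4
      | exact eqOfBeq d_B1_B2
      | exact eqOfBeq d_B1_B3
      | exact eqOfBeq d_B1_B4
      | exact eqOfBeq d_B2_B3
      | exact eqOfBeq d_B2_B4
      | exact eqOfBeq d_B3_B4
      | exact hs (eqOfBeq d_B0_B1)
      | exact hs (eqOfBeq d_B0_B2)
      | exact hs (eqOfBeq d_B0_B3)
      | exact hs (eqOfBeq d_B0_B4)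
      | exact hs (eqOfBeq d_B1_B2)
      | exact hs (eqOfBeq d_B1_B3)
      | exact hs (eqOfBeq d_B1_B4)
      | exact hs (eqOfBeq d_B2_B3)
      | exact hs (eqOfBeq d_B2_B4)
      | exact hs (eqOfBeq d_B3_B4)
  · decide +kernel

theorem max_inter (x : H1) (hx : x ∉ S2) : IsCoatom ((S2 ⊓ S2.map (MulAut.conj x).toMonoidHom).subgroupOf S2) := by
  apply inter_coatom (G := H1) (1781 : ℕ) x
  change IsCoatom (MulAction.stabilizer S2 (x • (1781 : ℕ)))
  have h1 : (x • (1781 : ℕ)) ∈ MulAction.orbit H1 (1781 : ℕ) := ⟨x, rfl⟩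
  rw [orbit_1781] at h1
  have h1' := (mU_iff _).1 h1
  rcases h1' with h | ⟨i, h⟩
  · exact absurd h hx
  · fin_cases i
    · obtain ⟨g, hg, hgb⟩ := orb w5_mem r_Q0 _ h
      rw [← hgb, ← toS2_smul g hg]
      exact coatom_smul _ _ max_137
    · obtain ⟨g, hg, hgb⟩ := orb w5_mem r_Q1 _ h
      rw [← hgb, ← toS2_smul g hg]
      exact coatom_smul _ _ max_138

/-! ### the isomorphism with `J2` -/

open Cfsg.Spor H63.PC H63.JT
open H63.J2 (P0 rI rep0 rep1 rep2 rep3 gen4 mem_P0 card_P0 jiso)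
open H63.Ico (act)

/-- the four reflections -/
noncomputable def RL.sg : RL → Equiv.Perm (Fin 315)
  | .r0 => act (rI 105)
  | .r1 => act (rI 207)
  | .r2 => act (rI 257)
  | .r3 => act (rI 292)

theorem RL.rep (x : RL) : Rep 315 x.tb x.sg := by
  cases x
  · rw [RL.tb, ← Nat.eq_of_beq_eq_true e_0]; exact rep0
  · rw [RL.tb, ← Nat.eq_of_beq_eq_true e_1]; exact rep1
  · rw [RL.tb, ← Nat.eq_of_beq_eq_true e_2]; exact rep2
  · rw [RL.tb, ← Nat.eq_of_beq_eq_true e_3]; exact rep3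

theorem RL.mem (x : RL) : x.sg ∈ P0 := by
  cases x
  · exact mem_P0 (by simp [gen4])
  · exact mem_P0 (by simp [gen4])
  · exact mem_P0 (by simp [gen4])
  · exact mem_P0 (by simp [gen4])

theorem apW_eq (w : List RL) (i : Fin 315) : apW w i = ((w.map RL.sg).prod i : ℕ) := by
  induction w with
  | nil => rfl
  | cons x w ih =>
    rw [List.map_cons, List.prod_cons, Equiv.Perm.mul_apply, ← x.rep, ← ih]
    rfl

/-- the matched elements of `J2` -/
noncomputable def XE (x : LC) : P0 := ⟨((rw5 x).map RL.sg).prod, Subgroup.list_prod_mem _ (by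
  intro g hg
  obtain ⟨y, _, rfl⟩ := List.mem_map.1 hg
  exact y.mem)⟩

theorem rep_of_chkX {T : ℕ} {w : List RL} (h : chkX T w = true) : Rep 315 T ((w.map RL.sg).prod) := by
  intro i
  rw [Nat.eq_of_beq_eq_true (allN_sound h i i.2), apW_eq]

theorem XE_rep (x : LC) : Rep 315 (xt x) (XE x) := by
  cases x
  · exact rep_of_chkX x_a
  · exact rep_of_chkX x_b
  · exact rep_of_chkX x_c
  · exact rep_of_chkX x_d
  · exact rep_of_chkX x_e

theorem eqv_of_chk {f : ℕ → ℕ} {π : Equiv.Perm ℕ} {S : ℕ} (hf : BP S f π) {T : ℕ} (h : chkE f T = true)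
    {σ : Equiv.Perm (Fin 315)} (hT : Rep 315 T σ) (j : Fin 315) : π (bt j) = bt (σ j) := by
  have h1 := Nat.eq_of_beq_eq_true (allN_sound h j j.2)
  rw [hT j] at h1
  have e1 := hf.bit (Nat.shiftLeft 1 (bt (σ j))) (bt j)
  rw [h1] at e1
  have e2 : (Nat.shiftLeft 1 (bt (j : ℕ))).testBit (bt j) = true := bit_shift.2 rfl
  rw [e2] at e1
  exact bit_shift.1 e1.symm

theorem eqv (x : LC) (j : Fin 315) : φ (gP (i2 x)) (bt j) = bt ((XE x : Equiv.Perm (Fin 315)) j) := by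
  rw [hφ]
  cases x
  · exact eqv_of_chk (H35.NSuz.hbp .a) q_a (XE_rep .a) j
  · exact eqv_of_chk (H35.NSuz.hbp .b) q_b (XE_rep .b) j
  · exact eqv_of_chk (H35.NSuz.hbp .c) q_c (XE_rep .c) j
  · exact eqv_of_chk (H35.NSuz.hbp .d) q_d (XE_rep .d) j
  · exact eqv_of_chk (H35.NSuz.hbp .e) q_e (XE_rep .e) j

/-- the group of pairs -/
noncomputable def Γ : Subgroup (Suz × P0) := Subgroup.closure (Set.range fun x : LC => (gP (i2 x), XE x))

theorem mem_Γ {p : Suz × P0} (hp : p ∈ Γ) : ∀ j : Fin 315, φ p.1 (bt j) = bt ((p.2 : Equiv.Perm (Fin 315)) j) := by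
  unfold Γ at hp
  induction hp using Subgroup.closure_induction with
  | mem p hp =>
    obtain ⟨x, rfl⟩ := hp
    exact eqv x
  | one =>
    intro j
    change φ 1 (bt j) = bt j
    rw [map_one]
    rfl
  | mul p q _ _ hp hq =>
    intro j
    change φ (p.1 * q.1) (bt j) = bt ((p.2 : Equiv.Perm (Fin 315)) ((q.2 : Equiv.Perm (Fin 315)) j))
    rw [map_mul, Equiv.Perm.mul_apply, hq, hp]
  | inv p _ hp =>
    intro j
    have h := hp (((p.2⁻¹ : P0) : Equiv.Perm (Fin 315)) j)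
    have e2 : (p.2 : Equiv.Perm (Fin 315)) (((p.2⁻¹ : P0) : Equiv.Perm (Fin 315)) j) = j :=
      (p.2 : Equiv.Perm (Fin 315)).apply_symm_apply j
    rw [e2] at h
    change φ p.1⁻¹ (bt j) = bt (((p.2⁻¹ : P0) : Equiv.Perm (Fin 315)) j)
    rw [map_inv, ← h]
    exact (φ p.1).symm_apply_apply _

theorem fst_map : Γ.map (MonoidHom.fst Suz P0) = H2 := by
  unfold Γ H35.SuzMain.H2
  rw [MonoidHom.map_closure, ← Set.range_comp]
  rfl

theorem stabs_one : Nat.card (stabs φ.range [934, 207, 138, 1781, 0]) ≤ 1 := by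
  have := H35.SuzMain.fin
  have : Finite φ.range := Finite.of_surjective _ φ.rangeRestrict_surjective
  obtain ⟨hcard, hinj⟩ := H35.SuzMain.card_inj
  have hr : Nat.card φ.range = 448345497600 := by
    rw [← hcard]
    exact (Nat.card_congr (MonoidHom.ofInjective hinj).toEquiv).symm
  have hΓ := H35.SuzMain.mem_range
  have h5 : 12 * Nat.card (stabs φ.range [934, 207, 138, 1781, 0]) ≤ Nat.card (stabs φ.range [207, 138, 1781, 0]) :=
    chain_stepF H35.NSuz.hbp hΓ f_C o_C le_rfl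
  have h4 : 160 * Nat.card (stabs φ.range [207, 138, 1781, 0]) ≤ Nat.card (stabs φ.range [138, 1781, 0]) :=
    chain_stepF H35.NSuz.hbp hΓ f_B o_B le_rfl
  have h3 : 315 * Nat.card (stabs φ.range [138, 1781, 0]) ≤ Nat.card (stabs φ.range [1781, 0]) :=
    chain_stepF H35.NSuz.hbp hΓ f_5 o_Q1 le_rfl
  have h2 : 416 * Nat.card (stabs φ.range [1781, 0]) ≤ Nat.card (stabs φ.range [0]) :=
    chain_stepF H35.NSuz.hbp hΓ H35.NSuz.fx_1 H35.NSuz.nb_1 le_rfl
  have h1 : 1782 * Nat.card (stabs φ.range [0]) ≤ Nat.card φ.range :=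
    chain_stepT H35.NSuz.hbp hΓ H35.NSuz.nb_0 le_rfl
  rw [hr] at h1
  omega

theorem inj (g : Suz) (hg : (g, (1 : P0)) ∈ Γ) : g = 1 := by
  have hH : g ∈ H2 := by
    rw [← fst_map]
    exact ⟨_, hg, rfl⟩
  have h0 := H2_fix g hH
  have hP := mem_Γ hg
  have k1 : φ g 138 = 138 := by
    have h := hP 41
    change φ g (bt 41) = bt 41 at h
    rwa [Nat.eq_of_beq_eq_true b_138] at h
  have k2 : φ g 207 = 207 := by
    have h := hP 258
    change φ g (bt 258) = bt 258 at h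
    rwa [Nat.eq_of_beq_eq_true b_207] at h
  have k3 : φ g 934 = 934 := by
    have h := hP 194
    change φ g (bt 194) = bt 194 at h
    rwa [Nat.eq_of_beq_eq_true b_934] at h
  have hm : φ g ∈ stabs φ.range [934, 207, 138, 1781, 0] := by
    refine mem_stabs (MonoidHom.mem_range.2 ⟨g, rfl⟩) ?_
    intro b hb
    simp only [List.mem_cons, List.not_mem_nil, or_false] at hb
    rcases hb with rfl | rfl | rfl | rfl | rfl
    · exact k3
    · exact k2
    · exact k1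
    · exact h0.1
    · exact h0.2
  have := H35.SuzMain.fin
  have : Finite φ.range := Finite.of_surjective _ φ.rangeRestrict_surjective
  obtain ⟨hcard, hinj⟩ := H35.SuzMain.card_inj
  have hbot : stabs φ.range [934, 207, 138, 1781, 0] = ⊥ := Subgroup.card_le_one_iff_eq_bot _ |>.1 stabs_one
  rw [hbot, Subgroup.mem_bot] at hm
  exact hinj (hm.trans (map_one φ).symm)

theorem iso_P0 : Nonempty (H2 ≃* P0) :=
  H34.PairIso.iso_of_pairs Γ H2 fst_map inj (by rw [card_P0, card_H2])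

theorem isoJ2 : IsoJ2 S2 := by
  obtain ⟨e⟩ := iso_P0
  exact ⟨(((MulEquiv.subgroupCongr H2_eq.symm).trans (Subgroup.subgroupOfEquivOfLe H2_le_H1)).trans e).trans jiso.symm⟩

theorem mem_conj {G : Type*} [Group G] (H : Subgroup G) (x z : G) :
    z ∈ H.map (MulAut.conj x).toMonoidHom ↔ x⁻¹ * z * x ∈ H := by
  constructor
  · rintro ⟨y, hy, rfl⟩
    have : x⁻¹ * (x * y * x⁻¹) * x = y := by group
    change x⁻¹ * (x * y * x⁻¹) * x ∈ H
    rw [this]
    exact hy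
  · intro h
    refine ⟨_, h, ?_⟩
    change x * (x⁻¹ * z * x) * x⁻¹ = z
    group

/-- transport of the property along an isomorphism -/
theorem transport {G G' : Type*} [Group G] [Group G'] (e : G ≃* G')
    (h : ∃ H : Subgroup G, IsCoatom H ∧ IsoJ2 H ∧
      ∀ x ∉ H, IsCoatom ((H ⊓ H.map (MulAut.conj x).toMonoidHom).subgroupOf H)) :
    ∃ H : Subgroup G', IsCoatom H ∧ IsoJ2 H ∧
      ∀ x ∉ H, IsCoatom ((H ⊓ H.map (MulAut.conj x).toMonoidHom).subgroupOf H) := by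
  obtain ⟨H, h1, ⟨f⟩, h3⟩ := h
  refine ⟨H.map e.toMonoidHom, ?_, ⟨(e.subgroupMap H).symm.trans f⟩, ?_⟩
  · exact (e.mapSubgroup.isCoatom_iff _).2 h1
  · intro x hx
    have hx' : e.symm x ∉ H := by
      intro hc
      exact hx ⟨e.symm x, hc, e.apply_symm_apply x⟩
    have h4 := ((e.subgroupMap H).mapSubgroup.isCoatom_iff _).2 (h3 _ hx')
    have e5 : (H.map e.toMonoidHom ⊓ (H.map e.toMonoidHom).map (MulAut.conj x).toMonoidHom).subgroupOf
        (H.map e.toMonoidHom) = (e.subgroupMap H).mapSubgroup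
          ((H ⊓ H.map (MulAut.conj (e.symm x)).toMonoidHom).subgroupOf H) := by
      ext ⟨y, hy⟩
      obtain ⟨z, hz, rfl⟩ := hy
      rw [Subgroup.mem_subgroupOf, Subgroup.mem_inf, mem_conj]
      constructor
      · rintro ⟨_, w, hw, hw2⟩
        refine ⟨⟨z, hz⟩, ?_, Subtype.ext rfl⟩
        refine ⟨hz, (mem_conj H _ _).2 ?_⟩
        have e6 : w = (e.symm x)⁻¹ * z * e.symm x := by
          apply e.injective
          rw [map_mul, map_mul, map_inv, e.apply_symm_apply]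
          exact hw2
        change (e.symm x)⁻¹ * z * e.symm x ∈ H
        rw [← e6]
        exact hw
      · rintro ⟨⟨z', hz'⟩, hz2, hz3⟩
        have e7 : z' = z := e.injective (congrArg Subtype.val hz3)
        subst e7
        refine ⟨⟨z', hz', rfl⟩, (e.symm x)⁻¹ * z' * e.symm x, (mem_conj H _ _).1 hz2.2, ?_⟩
        change e ((e.symm x)⁻¹ * z' * e.symm x) = x⁻¹ * e z' * x
        rw [map_mul, map_mul, map_inv, e.apply_symm_apply]
    rw [e5]
    exact h4

theorem main_H1 : ∃ H : Subgroup H1, IsCoatom H ∧ IsoJ2 H ∧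
    ∀ x ∉ H, IsCoatom ((H ⊓ H.map (MulAut.conj x).toMonoidHom).subgroupOf H) :=
  ⟨S2, max_H, isoJ2, max_inter⟩

theorem main {F : Type*} [Field F] [Fintype F] (hF : Fintype.card F = 4) :
    ∃ H : Subgroup (Cfsg.Lie.chevG2.group F), IsCoatom H ∧ Cfsg.Spor.IsoJ2 H ∧
      ∀ x : Cfsg.Lie.chevG2.group F, x ∉ H →
        IsCoatom ((H ⊓ H.map (MulAut.conj x).toMonoidHom).subgroupOf H) := by
  obtain ⟨e1⟩ := H34.G24.main
  obtain ⟨f⟩ := H17.F4.exists_ringEquiv hF
  exact transport (e1.trans (H22.ChevField.fieldEquiv Cfsg.Lie.chevG2 f)) main_H1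

end H17.G24J
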