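import Cfsg.Agent.Lib.H17.ZornCount

/-! Counting frames of the Zorn algebra. -/

set_option autoImplicit false
set_option linter.unusedSectionVars false

namespace H17.Zorn

open Cfsg.Lie Matrix

variable {F : Type*} [Field F]

local infixl:70 " ⋆ " => zornMul

theorem card_null [Finite F] : Nat.card {a : O F // T a = 0 ∧ N a = 0} = Nat.card F ^ 6 := by
  have h := H7.HypStd.cnt_odd (F := F) 3 (c := 1) one_ne_zero
  rw [show 2 * 3 = 6 from rfl] at h
  rw [← h, H7.HypStd.cnt]
  refine Nat.card_congr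
    { toFun := fun a => ⟨Sum.elim (fun _ => a.1 0) (Sum.elim (fun i => ![a.1 1, a.1 2, a.1 3] i) (fun i => ![a.1 4, a.1 5, a.1 6] i)), ?_⟩
      invFun := fun v => ⟨![v.1 (Sum.inl ()), v.1 (Sum.inr (Sum.inl 0)), v.1 (Sum.inr (Sum.inl 1)), v.1 (Sum.inr (Sum.inl 2)),
        v.1 (Sum.inr (Sum.inr 0)), v.1 (Sum.inr (Sum.inr 1)), v.1 (Sum.inr (Sum.inr 2)), - v.1 (Sum.inl ())], ?_⟩
      left_inv := ?_
      right_inv := ?_ }
  · obtain ⟨a, hT, hN⟩ := a
    rw [H48.QuadStd.qOdd_apply, Fin.sum_univ_three]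
    simp only [T, N] at hT hN
    simp
    linear_combination a 0 * hT - hN
  · obtain ⟨v, hv⟩ := v
    rw [H48.QuadStd.qOdd_apply, Fin.sum_univ_three] at hv
    constructor
    · simp [T]
    · simp [N]
      linear_combination -hv
  · rintro ⟨a, hT, hN⟩
    apply Subtype.ext
    simp only [T] at hT
    funext i
    fin_cases i <;> simp
    linear_combination -hT
  · rintro ⟨v, hv⟩
    apply Subtype.ext
    funext i
    rcases i with i | i | i
    · rfl
    · fin_cases i <;> rfl
    · fin_cases i <;> rfl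

theorem card_null' [Finite F] : Nat.card {a : O F // (T a = 0 ∧ N a = 0) ∧ a ≠ 0} = Nat.card F ^ 6 - 1 := by
  have := Fintype.ofFinite F
  have h0 : T (0 : O F) = 0 ∧ N (0 : O F) = 0 := by simp [T, N]
  have h1 : Nat.card {a : {a : O F // T a = 0 ∧ N a = 0} // a ≠ ⟨0, h0⟩} = Nat.card F ^ 6 - 1 := by
    classical
    rw [Nat.card_eq_fintype_card, Fintype.card_subtype_compl, Fintype.card_subtype_eq, ← Nat.card_eq_fintype_card,
      card_null]
  rw [← h1]
  refine Nat.card_congr
    { toFun := fun a => ⟨⟨a.1, a.2.1⟩, fun h => a.2.2 (congrArg Subtype.val h)⟩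
      invFun := fun a => ⟨a.1.1, a.1.2, fun h => a.2 (Subtype.ext h)⟩
      left_inv := fun _ => rfl
      right_inv := fun _ => rfl }

theorem card_aff [Finite F] {a : O F} (hN : N a = 0) (ha : a ≠ 0) :
    Nat.card {b : O F // T b = 0 ∧ B a b = 1} = Nat.card F ^ 6 := by
  have := Fintype.ofFinite F
  -- the linear map
  let L : O F →ₗ[F] F × F :=
    { toFun := fun b => (T b, B a b)
      map_add' := fun x y => by rw [T_add, B_add]; rfl
      map_smul' := fun c x => by rw [T_smul, B_smul]; rfl }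
  have hL : ∀ b, L b = (T b, B a b) := fun _ => rfl
  -- surjectivity
  have hsurj : LinearMap.range L = ⊤ := by
    by_contra hcon
    obtain ⟨f, hf0, hf⟩ := Submodule.exists_le_ker_of_lt_top _ (lt_top_iff_ne_top.2 hcon)
    have hf' : ∀ x y, f (x, y) = x * f (1, 0) + y * f (0, 1) := by
      intro x y
      have : (x, y) = x • ((1, 0) : F × F) + y • ((0, 1) : F × F) := by simp
      rw [this, map_add, map_smul, map_smul, smul_eq_mul, smul_eq_mul]
    have h1 : ∀ b, B (f (1, 0) • one + f (0, 1) • a) b = 0 := by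
      intro b
      have h2 : f (L b) = 0 := hf ⟨b, rfl⟩
      rw [hL, hf', T_eq, B_comm b] at h2
      rw [add_B, smul_B, smul_B]
      linear_combination h2
    have h2 := B_nondeg h1
    apply hf0
    have h3 : f (1, 0) ^ 2 = 0 := by
      have h4 : f (1, 0) • one = (- f (0, 1)) • a := by
        rw [neg_smul]
        exact eq_neg_of_add_eq_zero_left h2
      have h5 := congrArg N h4
      rw [N_smul, N_smul, hN, N_one, mul_one, mul_zero] at h5
      exact h5
    have h4 : f (1, 0) = 0 := pow_eq_zero_iff two_ne_zero |>.1 h3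
    rw [h4, zero_smul, zero_add] at h2
    have h5 : f (0, 1) = 0 := (smul_eq_zero.1 h2).resolve_right ha
    apply LinearMap.ext
    rintro ⟨x, y⟩
    rw [hf', h4, h5]
    simp
  obtain ⟨b₀, hb₀⟩ : ((0, 1) : F × F) ∈ LinearMap.range L := by rw [hsurj]; trivial
  have hker : Nat.card (LinearMap.ker L) = Nat.card F ^ 6 := by
    rw [Module.natCard_eq_pow_finrank (K := F)]
    congr 1
    have h1 := L.finrank_range_add_finrank_ker
    rw [hsurj] at h1
    simp at h1
    omega
  rw [← hker]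
  refine Nat.card_congr
    { toFun := fun b => ⟨b.1 - b₀, ?_⟩
      invFun := fun k => ⟨k.1 + b₀, ?_⟩
      left_inv := fun b => by simp
      right_inv := fun k => by simp }
  · rw [LinearMap.mem_ker, map_sub, hb₀, hL, b.2.1, b.2.2, sub_self]
  · have h1 : L (k.1 + b₀) = (0, 1) := by
      rw [map_add, LinearMap.mem_ker.1 k.2, zero_add, hb₀]
    rw [hL, Prod.mk.injEq] at h1
    exact h1

theorem card_b [Finite F] {a : O F} (hT : T a = 0) (hN : N a = 0) (ha : a ≠ 0) :
    Nat.card {b : O F // Pair a b} = Nat.card F ^ 5 := by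
  have := Fintype.ofFinite F
  have h1 : Nat.card ({b : O F // Pair a b} × F) = Nat.card {b : O F // T b = 0 ∧ B a b = 1} := by
    refine Nat.card_congr
      { toFun := fun p => ⟨p.1.1 + p.2 • a, ?_, ?_⟩
        invFun := fun b => (⟨b.1 - N b.1 • a, ?_⟩, N b.1)
        left_inv := ?_
        right_inv := ?_ }
    · rw [T_add, T_smul, p.1.2.Tb, hT]; ring
    · rw [B_add, B_smul, p.1.2.Bab, B_self, hN]; ring
    · refine ⟨hT, hN, ?_, ?_, ?_⟩
      · rw [sub_eq_add_neg, ← neg_smul, T_add, T_smul, b.2.1, hT]; ring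
      · rw [sub_eq_add_neg, ← neg_smul, N_add, N_smul, B_smul, hN, B_comm, b.2.2]; ring
      · rw [sub_eq_add_neg, ← neg_smul, B_add, B_smul, B_self, hN, b.2.2]; ring
    · rintro ⟨⟨b, hb⟩, t⟩
      have h2 : N (b + t • a) = t := by
        rw [N_add, N_smul, B_smul, hN, hb.Nb, B_comm, hb.Bab]; ring
      refine Prod.ext (Subtype.ext ?_) h2
      change b + t • a - N (b + t • a) • a = b
      rw [h2]
      abel
    · rintro ⟨b, hb⟩
      apply Subtype.ext
      change b - N b • a + N b • a = b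
      abel
  rw [Nat.card_prod, card_aff hN ha] at h1
  have hq : 0 < Nat.card F := Nat.card_pos
  have h2 : Nat.card F ^ 6 = Nat.card F ^ 5 * Nat.card F := by ring
  rw [h2] at h1
  exact Nat.eq_of_mul_eq_mul_right hq h1

/-- a vector of norm one orthogonal to the quaternion subalgebra -/
theorem exists_c {a b : O F} (h : Pair a b) :
    ∃ c, (∀ x, B c (hh a b x) = 0) ∧ N c = 1 := by
  obtain ⟨c₁, hc₁, hN⟩ : ∃ c, (∀ x, B c (hh a b x) = 0) ∧ N c ≠ 0 := by
    by_contra hcon
    push Not at hcon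
    let co : O F → (Fin 4 → F) := fun x => ![-B x (a ⋆ b), B x b, B x a, -2 * B x (a ⋆ b) - B x one]
    have hco : ∀ x, ∀ y, B (x - hh a b (co x)) (hh a b y) = 0 := by
      intro x
      rw [h.perp_iff]
      have e : ∀ z, B (x - hh a b (co x)) z = B x z - B (hh a b (co x)) z := by
        intro z
        rw [sub_eq_add_neg, show -hh a b (co x) = (-1 : F) • hh a b (co x) by simp, add_B, smul_B]
        ring
      rw [e, e, e, e, h.B_one, h.B_a, h.B_b, h.B_ab]
      simp [co]
    have hN0 : ∀ x, N (x - hh a b (co x)) = 0 := fun x => hcon _ (hco x)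
    have hcoadd : ∀ x y, (x - hh a b (co x)) + (y - hh a b (co y)) = (x + y) - hh a b (co (x + y)) := by
      intro x y
      have : hh a b (co (x + y)) = hh a b (co x) + hh a b (co y) := by
        simp only [hh, co, add_B, cons_val_zero, cons_val_one, cons_val]
        module
      rw [this]
      abel
    have hB0 : ∀ x y, B (x - hh a b (co x)) (y - hh a b (co y)) = 0 := by
      intro x y
      have h1 := N_add (x - hh a b (co x)) (y - hh a b (co y))
      rw [hcoadd, hN0, hN0, hN0] at h1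
      linear_combination -h1
    have hB1 : ∀ x, x - hh a b (co x) = 0 := by
      intro x
      apply B_nondeg
      intro y
      have h1 : y = (y - hh a b (co y)) + hh a b (co y) := by abel
      rw [h1, B_add, hB0, hco, add_zero]
    have hsurj : Function.Surjective (fun x : Fin 4 → F => hh a b x) := fun x => ⟨co x, (sub_eq_zero.1 (hB1 x)).symm⟩
    let L : (Fin 4 → F) →ₗ[F] O F :=
      { toFun := fun x => hh a b x
        map_add' := fun x y => by simp only [hh, Pi.add_apply]; module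
        map_smul' := fun c x => by simp only [hh, Pi.smul_apply, smul_eq_mul, RingHom.id_apply]; module }
    have h2 := LinearMap.finrank_le_finrank_of_surjective (f := L) hsurj
    simp at h2
  refine ⟨hh a b ![0, 1, (N c₁)⁻¹, 0] ⋆ c₁, ?_, ?_⟩
  · exact fun x => h.perp_mul hc₁ _ x
  · rw [N_mul, h.N_hh]
    simp
    exact inv_mul_cancel₀ hN

theorem card_c [Finite F] {a b : O F} (h : Pair a b) :
    Nat.card {c : O F // (∀ x, B c (hh a b x) = 0) ∧ N c = 1} =
      Nat.card (SpecialLinearGroup (Fin 2) F) := by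
  obtain ⟨c₀, hc₀, hN₀⟩ := exists_c h
  have h1 : Nat.card {y : Fin 4 → F // N (hh a b y) = 1} =
      Nat.card {c : O F // (∀ x, B c (hh a b x) = 0) ∧ N c = 1} := by
    apply Nat.card_congr
    refine Equiv.ofBijective (fun y => ⟨hh a b y.1 ⋆ c₀, fun x => h.perp_mul hc₀ _ x, by
      rw [N_mul, y.2, hN₀, one_mul]⟩) ⟨?_, ?_⟩
    · rintro ⟨x, hx⟩ ⟨y, hy⟩ hxy
      have h2 : hh a b x ⋆ c₀ = hh a b y ⋆ c₀ := congrArg Subtype.val hxy
      have h3 := mul_mul_cj (hh a b x) c₀
      rw [h2, mul_mul_cj, hN₀, one_smul, one_smul] at h3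
      exact Subtype.ext (h.hh_inj h3.symm)
    · rintro ⟨c, hc, hN⟩
      obtain ⟨⟨x, y⟩, hp⟩ := Phi_surj h hc₀ (by rw [hN₀]; exact one_ne_zero) c
      rw [Phi_apply] at hp
      have hx : x = 0 := by
        apply h.hh_eq_zero
        intro z
        have h2 := hc z
        rw [← hp, add_B, h.perp_mul hc₀, add_zero] at h2
        exact h2
      subst hx
      have h3 : hh a b (0 : Fin 4 → F) = 0 := by simp [hh]
      rw [h3, zero_add] at hp
      change hh a b y ⋆ c₀ = c at hp
      refine ⟨⟨y, ?_⟩, Subtype.ext hp⟩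
      rw [← hp, N_mul, hN₀, mul_one] at hN
      exact hN
  rw [← h1]
  refine Nat.card_congr
    { toFun := fun y => ⟨!![y.1 0, y.1 1; - y.1 2, y.1 0 - y.1 3], ?_⟩
      invFun := fun M => ⟨![M.1 0 0, M.1 0 1, - M.1 1 0, M.1 0 0 - M.1 1 1], ?_⟩
      left_inv := ?_
      right_inv := ?_ }
  · have h2 := y.2
    rw [h.N_hh] at h2
    rw [det_fin_two_of]
    linear_combination h2
  · have h2 := M.2
    rw [det_fin_two] at h2
    rw [h.N_hh]
    simp
    linear_combination h2
  · rintro ⟨y, hy⟩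
    apply Subtype.ext
    funext i
    fin_cases i <;> simp
  · rintro ⟨M, hM⟩
    apply Subtype.ext
    ext i j
    fin_cases i <;> fin_cases j <;> simp

/-- the number of frames -/
theorem card_Fr [Finite F] : Nat.card (Fr F) =
    (Nat.card F ^ 6 - 1) * Nat.card F ^ 5 * Nat.card (SpecialLinearGroup (Fin 2) F) := by
  have := Fintype.ofFinite F
  have : Finite (Fr F) := by unfold Fr; infer_instance
  have hP : Nat.card {p : O F × O F // Pair p.1 p.2} = (Nat.card F ^ 6 - 1) * Nat.card F ^ 5 := by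
    have hf : ∀ p : {p : O F × O F // Pair p.1 p.2}, (T p.1.1 = 0 ∧ N p.1.1 = 0) ∧ p.1.1 ≠ 0 := by
      rintro ⟨⟨a, b⟩, h⟩
      refine ⟨⟨h.Ta, h.Na⟩, ?_⟩
      rintro (rfl : a = 0)
      have := h.Bab
      simp [B] at this
    rw [← card_null', LineCount.card_fib (fun p : {p : O F × O F // Pair p.1 p.2} =>
      (⟨p.1.1, hf p⟩ : {a : O F // (T a = 0 ∧ N a = 0) ∧ a ≠ 0})) (Nat.card F ^ 5)]
    rintro ⟨a, ⟨hT, hN⟩, ha⟩
    rw [← card_b hT hN ha]
    refine Nat.card_congr
      { toFun := fun p => ⟨p.1.1.2, ?_⟩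
        invFun := fun b => ⟨⟨(a, b.1), b.2⟩, rfl⟩
        left_inv := ?_
        right_inv := fun _ => rfl }
    · have h1 : p.1.1.1 = a := congrArg Subtype.val p.2
      have h2 := p.1.2
      rwa [h1] at h2
    · rintro ⟨⟨⟨a', b⟩, h⟩, hp⟩
      have h1 : a' = a := congrArg Subtype.val hp
      subst h1
      rfl
  rw [← hP, LineCount.card_fib (fun p : Fr F => (⟨(p.1.1, p.1.2.1), p.2.1⟩ : {p : O F × O F // Pair p.1 p.2}))
    (Nat.card (SpecialLinearGroup (Fin 2) F))]
  rintro ⟨⟨a, b⟩, h⟩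
  rw [← card_c h]
  refine Nat.card_congr
    { toFun := fun p => ⟨p.1.1.2.2, ?_⟩
      invFun := fun c => ⟨⟨(a, b, c.1), h, c.2⟩, rfl⟩
      left_inv := ?_
      right_inv := fun _ => rfl }
  · have h1 : (p.1.1.1, p.1.1.2.1) = (a, b) := congrArg Subtype.val p.2
    rw [Prod.mk.injEq] at h1
    have h2 := p.1.2.2
    rw [h1.1, h1.2] at h2
    exact h2
  · rintro ⟨⟨⟨a', b', c⟩, h'⟩, hp⟩
    have h1 : (a', b') = (a, b) := congrArg Subtype.val hp
    obtain ⟨rfl, rfl⟩ := Prod.mk.inj h1
    rfl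

/-- upper bound for the order of `G₂(q)` -/
theorem card_G2_dvd [Finite F] : Nat.card (G2 F) ∣
    (Nat.card F ^ 6 - 1) * Nat.card F ^ 5 * Nat.card (SpecialLinearGroup (Fin 2) F) := by
  rw [← card_Fr]
  exact card_dvd

end H17.Zorn
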