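import Cfsg.Agent.Lib.H17.ZornDbl
import Cfsg.Agent.Lib.H17.ZornCount2
import Cfsg.Agent.Lib.H79.GLWr

/-! Sylow 2-subgroups of `G₂(q)`, `q` odd. -/

set_option autoImplicit false
set_option linter.unusedSectionVars false

namespace H17.Zorn

open Cfsg.Lie Matrix Subgroup H79.SylElem H79.WrSyl H79.WrKer H79.ValQ H79.GLWr
open scoped commutatorElement

variable {F : Type*} [Field F] [Fintype F]

/-- scalar matrices -/
def sc : Fˣ →* GL (Fin 2) F :=
  Units.map ((Matrix.scalar (Fin 2) : F →+* Matrix (Fin 2) (Fin 2) F) : F →* Matrix (Fin 2) (Fin 2) F)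

theorem sc_val (c : Fˣ) : (sc c : GL (Fin 2) F).1 = (c : F) • (1 : M2 F) := by
  change Matrix.scalar (Fin 2) (c : F) = _
  rw [Matrix.scalar_apply, Matrix.smul_one_eq_diagonal]

theorem sc_injective : Function.Injective (sc (F := F)) := by
  intro a b h
  have h0 : (sc a : GL (Fin 2) F).1 = (sc b).1 := by rw [h]
  rw [sc_val, sc_val] at h0
  have h1 := congrFun (congrFun h0 0) 0
  apply Units.ext
  simpa using h1

theorem sc_comm (c : Fˣ) (h : GL (Fin 2) F) : h * sc c = sc c * h := by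
  apply Units.ext
  rw [Units.val_mul, Units.val_mul, sc_val]
  simp

theorem det_sc (c : Fˣ) : GeneralLinearGroup.det (sc c) = c ^ 2 := by
  apply Units.ext
  rw [GeneralLinearGroup.val_det_apply, sc_val, det_smul, det_one]
  simp

theorem phiT_sc (c : Fˣ) : phiT (sc c) = 1 := by
  apply G2_ext
  intro x y
  rw [phiT_act]
  have h1 : ∀ z : M2 F, (sc c).1 * z * ((sc c)⁻¹).1 = z := by
    intro z
    rw [← map_inv, sc_val, sc_val]
    simp
  rw [h1, h1]
  exact (one_mulVec _).symm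

theorem phiT_eq_one {h : GL (Fin 2) F} (hh : phiT h = 1) : ∃ c, h = sc c := by
  have h1 : ∀ x : M2 F, h.1 * x = x * h.1 := by
    intro x
    have h2 := phiT_act h x 0
    rw [hh] at h2
    have h3 : Psi x (0 : M2 F) = Psi (h.1 * x * (h⁻¹).1) (h.1 * 0 * (h⁻¹).1) := by
      rw [← h2]
      exact (one_mulVec _).symm
    have h4 := (Psi_inj h3).1
    have h5 : (h⁻¹).1 * h.1 = 1 := Units.inv_mul h
    calc h.1 * x = h.1 * x * ((h⁻¹).1 * h.1) := by rw [h5, mul_one]
      _ = (h.1 * x * (h⁻¹).1) * h.1 := by simp only [mul_assoc]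
      _ = x * h.1 := by rw [← h4]
  have e1 := h1 !![0, 1; 0, 0]
  have e2 := h1 !![0, 0; 1, 0]
  have a1 := congrFun (congrFun e1 0) 1
  have a2 := congrFun (congrFun e1 1) 1
  have a3 := congrFun (congrFun e2 0) 0
  simp [Matrix.mul_apply, Fin.sum_univ_two] at a1 a2 a3
  have hd : h.1.det ≠ 0 := by
    have := (h.isUnit.map (detMonoidHom)).ne_zero
    exact this
  have h0 : h.1 0 0 ≠ 0 := by
    intro h00
    apply hd
    rw [det_fin_two, h00, a3, zero_mul, zero_mul, sub_zero]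
  refine ⟨Units.mk0 _ h0, ?_⟩
  apply Units.ext
  rw [sc_val, Units.val_mk0]
  ext i j
  fin_cases i <;> fin_cases j <;> simp [a1, a2, a3]

theorem phiE_injective : Function.Injective (phiE (F := F)) := by
  rw [injective_iff_map_eq_one]
  intro p hp
  have h2 := phiE_act p 0 1
  rw [hp] at h2
  have h3 : Psi (0 : M2 F) 1 = Psi 0 (p.1 * 1) := by
    rw [← h2]
    exact (one_mulVec _).symm
  have h4 := (Psi_inj h3).2
  rw [mul_one] at h4
  exact Subtype.ext h4.symm

/-- conjugation of `SL₂` by `GL₂` -/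
def cjs (h : GL (Fin 2) F) (p : SpecialLinearGroup (Fin 2) F) : SpecialLinearGroup (Fin 2) F :=
  ⟨h.1 * p.1 * (h⁻¹).1, by
    rw [det_mul, det_mul, p.2, mul_one, ← det_mul]
    have : h.1 * (h⁻¹).1 = 1 := Units.mul_inv h
    rw [this, det_one]⟩

theorem toGL_cjs (h : GL (Fin 2) F) (p : SpecialLinearGroup (Fin 2) F) :
    SpecialLinearGroup.toGL (cjs h p) = h * SpecialLinearGroup.toGL p * h⁻¹ := Units.ext rfl

theorem phi_conj (h : GL (Fin 2) F) (p : SpecialLinearGroup (Fin 2) F) :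
    phiT h * phiE p * (phiT h)⁻¹ = phiE (cjs h p) := by
  rw [mul_inv_eq_iff_eq_mul]
  apply G2_ext
  intro x y
  have e1 : ((phiT h * phiE p : G2 F) : GL (Fin 8) F).1 *ᵥ Psi x y =
      ((phiT h : G2 F) : GL (Fin 8) F).1 *ᵥ (((phiE p : G2 F) : GL (Fin 8) F).1 *ᵥ Psi x y) :=
    (mulVec_mulVec _ _ _).symm
  have e2 : ((phiE (cjs h p) * phiT h : G2 F) : GL (Fin 8) F).1 *ᵥ Psi x y =
      ((phiE (cjs h p) : G2 F) : GL (Fin 8) F).1 *ᵥ (((phiT h : G2 F) : GL (Fin 8) F).1 *ᵥ Psi x y) :=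
    (mulVec_mulVec _ _ _).symm
  rw [e1, e2, phiE_act, phiT_act, phiT_act, phiE_act]
  congr 1
  change h.1 * (p.1 * y) * (h⁻¹).1 = h.1 * p.1 * (h⁻¹).1 * (h.1 * y * (h⁻¹).1)
  have h5 : (h⁻¹).1 * h.1 = 1 := Units.inv_mul h
  rw [show h.1 * p.1 * (h⁻¹).1 * (h.1 * y * (h⁻¹).1) = h.1 * p.1 * ((h⁻¹).1 * h.1) * y * (h⁻¹).1 by
    simp only [mul_assoc], h5, mul_one]
  simp only [mul_assoc]

theorem phi_meet {p : SpecialLinearGroup (Fin 2) F} {h : GL (Fin 2) F} (hh : phiE p = phiT h) :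
    phiE p = 1 := by
  have h1 : phiT h = 1 := by
    apply G2_ext
    intro x y
    have h2 : ∀ z : M2 F, h.1 * z * (h⁻¹).1 = z := by
      intro z
      have h3 := phiT_act h z 0
      rw [← hh, phiE_act] at h3
      exact (Psi_inj h3).1.symm
    rw [phiT_act, h2, h2]
    exact (one_mulVec _).symm
  rw [hh, h1]

/-- the extra element -/
def y0 (δ : Fˣ) : GL (Fin 2) F :=
  GeneralLinearGroup.mkOfDetNeZero !![0, -(δ : F); 1, 0] (by
    rw [det_fin_two_of]
    simp)

theorem det_y0 (δ : Fˣ) : GeneralLinearGroup.det (y0 δ) = δ := by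
  apply Units.ext
  rw [GeneralLinearGroup.val_det_apply]
  change (!![0, -(δ : F); 1, 0] : M2 F).det = δ
  rw [det_fin_two_of]
  simp

theorem y0_sq (δ : Fˣ) : y0 δ * y0 δ = sc (-δ) := by
  apply Units.ext
  rw [sc_val]
  change (!![0, -(δ : F); 1, 0] : M2 F) * !![0, -(δ : F); 1, 0] = _
  ext i j
  fin_cases i <;> fin_cases j <;> simp

theorem isPGroup_zpowers {G : Type*} [Group G] (g : G) (n : ℕ) (h : g ^ 2 ^ n = 1) :
    IsPGroup 2 (zpowers g) := by
  rintro ⟨x, hx⟩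
  obtain ⟨k, rfl⟩ := mem_zpowers_iff.1 hx
  refine ⟨n, Subtype.ext ?_⟩
  change (g ^ k) ^ 2 ^ n = 1
  rw [← zpow_natCast, ← _root_.zpow_mul, mul_comm, _root_.zpow_mul, zpow_natCast, h, _root_.one_zpow]

theorem main (hF : Odd (Fintype.card F)) (P : Sylow 2 (G2 F)) :
    ∀ x : (P : Subgroup (G2 F)), x ^ 2 ∈ commutator (P : Subgroup (G2 F)) := by
  have : Fact (Nat.Prime 2) := ⟨Nat.prime_two⟩
  have hq1 : 1 < Fintype.card F := Fintype.one_lt_card
  have h2 : (2 : F) ≠ 0 := H6.SL2Tor.two_ne_zero_of_odd hF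
  set v := padicValNat 2 (Fintype.card F ^ 2 - 1) with hv
  set u := padicValNat 2 (Fintype.card F - 1) with hu
  -- the Sylow subgroup of the multiplicative group
  obtain ⟨D⟩ : Nonempty (Sylow 2 Fˣ) := inferInstance
  obtain ⟨δ, hδ⟩ : ∃ δ : Fˣ, zpowers δ = (D : Subgroup Fˣ) := by
    obtain ⟨δ, hδ⟩ := (Subgroup.isCyclic (D : Subgroup Fˣ)).exists_generator
    refine ⟨δ, ?_⟩
    apply le_antisymm
    · rw [zpowers_le]; exact δ.2
    · intro x hx
      obtain ⟨k, hk⟩ := mem_zpowers_iff.1 (hδ ⟨x, hx⟩)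
      exact mem_zpowers_iff.2 ⟨k, congrArg Subtype.val hk⟩
  have hcD : Nat.card D = 2 ^ u := by
    rw [D.card_eq_multiplicity, pow_fact (k := u)]
    rw [H6.SLCard.card_units']
  have hmemD : ∀ (c : Fˣ) (n : ℕ), c ^ 2 ^ n = 1 → c ∈ (D : Subgroup Fˣ) := by
    intro c n hc
    obtain ⟨Q, hQ⟩ := (isPGroup_zpowers c n hc).exists_le_sylow
    have : Q = D := by
      have := Sylow.unique_of_normal D inferInstance
      exact Subsingleton.elim _ _
    rw [← this]
    exact hQ (mem_zpowers c)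
  obtain ⟨n₀, hn₀⟩ : ∃ n, δ ^ 2 ^ n = 1 := by
    obtain ⟨n, hn⟩ := D.2 ⟨δ, by rw [← hδ]; exact mem_zpowers δ⟩
    exact ⟨n, congrArg Subtype.val hn⟩
  have hn₁ : (-δ) ^ 2 ^ (n₀ + 1) = 1 := by
    rw [Even.neg_pow ⟨2 ^ n₀, by ring⟩, pow_succ, pow_mul, hn₀, one_pow]
  -- the Sylow subgroup of `GL₂`
  have hZ : IsPGroup 2 (zpowers (sc δ)) := isPGroup_zpowers _ n₀ (by rw [← map_pow, hn₀, map_one])
  have hY : IsPGroup 2 (zpowers (y0 δ)) := isPGroup_zpowers _ (n₀ + 2) (by
    rw [pow_succ, mul_comm, pow_mul, pow_two (y0 δ), y0_sq, ← map_pow, hn₁, map_one])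
  have hZn : (zpowers (sc δ)).Normal := by
    constructor
    intro x hx g
    obtain ⟨k, rfl⟩ := mem_zpowers_iff.1 hx
    rw [← map_zpow, sc_comm, mul_assoc, mul_inv_cancel, mul_one, map_zpow]
    exact zpow_mem (mem_zpowers _) k
  obtain ⟨T0, hT0⟩ := (hY.to_sup_of_normal_right hZ).exists_le_sylow
  have hy0 : y0 δ ∈ (T0 : Subgroup (GL (Fin 2) F)) := hT0 ((le_sup_left : zpowers (y0 δ) ≤ _) (mem_zpowers _))
  have hsc : sc δ ∈ (T0 : Subgroup (GL (Fin 2) F)) := hT0 ((le_sup_right : zpowers (sc δ) ≤ _) (mem_zpowers _))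
  have hcT0 : Nat.card T0 = 2 ^ (v + u) := by
    rw [T0.card_eq_multiplicity, pow_fact (k := v + u)]
    rw [card_gl, Fintype.card_fin, val_gl hF hq1, Finset.sum_range_succ, Finset.sum_range_one, pow_one, add_comm]
  -- determinants
  have hdet : ∀ x ∈ (T0 : Subgroup (GL (Fin 2) F)), GeneralLinearGroup.det x ∈ zpowers δ := by
    intro x hx
    obtain ⟨n, hn⟩ := T0.2 ⟨x, hx⟩
    have hn' : x ^ 2 ^ n = 1 := congrArg Subtype.val hn
    rw [hδ]
    apply hmemD _ n
    rw [← map_pow, hn', map_one]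
  have hmapdet : (T0 : Subgroup (GL (Fin 2) F)).map GeneralLinearGroup.det = zpowers δ := by
    apply le_antisymm
    · rintro _ ⟨x, hx, rfl⟩
      exact hdet x hx
    · rw [zpowers_le]
      exact ⟨_, hy0, det_y0 δ⟩
  have hcδ : Nat.card (zpowers δ) = 2 ^ u := by rw [hδ]; exact hcD
  have hcS' : Nat.card ((T0 : Subgroup (GL (Fin 2) F)) ⊓ (GeneralLinearGroup.det : GL (Fin 2) F →* Fˣ).ker :
      Subgroup (GL (Fin 2) F)) = 2 ^ v := by
    have h3 := card_inf_ker (GeneralLinearGroup.det : GL (Fin 2) F →* Fˣ) (T0 : Subgroup (GL (Fin 2) F))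
    rw [hmapdet, hcδ, show Nat.card (T0 : Subgroup (GL (Fin 2) F)) = 2 ^ (v + u) from hcT0, pow_add, mul_comm] at h3
    exact Nat.eq_of_mul_eq_mul_right (by positivity) h3
  set S : Subgroup (SpecialLinearGroup (Fin 2) F) :=
    (T0 : Subgroup (GL (Fin 2) F)).comap SpecialLinearGroup.toGL with hS
  have hSmap : S.map SpecialLinearGroup.toGL =
      (T0 : Subgroup (GL (Fin 2) F)) ⊓ (GeneralLinearGroup.det : GL (Fin 2) F →* Fˣ).ker := by
    ext x
    constructor
    · rintro ⟨s, hs, rfl⟩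
      refine ⟨hs, ?_⟩
      change _ ∈ (GeneralLinearGroup.det : GL (Fin 2) F →* Fˣ).ker
      rw [MonoidHom.mem_ker]
      apply Units.ext
      exact s.2
    · rintro ⟨h3, h4⟩
      have h5 : x.1.det = 1 := by
        have : GeneralLinearGroup.det x = 1 := h4
        exact congrArg Units.val this
      refine ⟨⟨x.1, h5⟩, ?_, Units.ext rfl⟩
      change SpecialLinearGroup.toGL _ ∈ (T0 : Subgroup (GL (Fin 2) F))
      have h6 : SpecialLinearGroup.toGL (⟨x.1, h5⟩ : SpecialLinearGroup (Fin 2) F) = x := Units.ext rfl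
      rw [h6]
      exact h3
  have hcS : Nat.card S = 2 ^ v := by
    rw [← hcS', ← hSmap]
    exact Nat.card_congr (S.equivMapOfInjective _ SpecialLinearGroup.toGL_injective).toEquiv
  have hGS : Gd 2 S := by
    have h3 : Nat.card S = 2 ^ (Nat.card (SpecialLinearGroup (Fin 2) F)).factorization 2 := by
      rw [hcS, pow_fact (val_sl2 hF)]
    exact gd_sl2 hF (Sylow.ofCard S h3)
  set E := S.map (phiE (F := F)) with hE
  set T' := (T0 : Subgroup (GL (Fin 2) F)).map (phiT (F := F)) with hT'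
  have hcE : Nat.card E = 2 ^ v := by
    rw [← hcS]
    exact (Nat.card_congr (S.equivMapOfInjective _ phiE_injective).toEquiv).symm
  have hcT : Nat.card T' = 2 ^ v := by
    have h3 := card_inf_ker (phiT (F := F)) (T0 : Subgroup (GL (Fin 2) F))
    have h4 : ((T0 : Subgroup (GL (Fin 2) F)) ⊓ (phiT (F := F)).ker : Subgroup (GL (Fin 2) F)) =
        (zpowers δ).map sc := by
      ext x
      constructor
      · rintro ⟨h5, h6⟩
        obtain ⟨c, rfl⟩ := phiT_eq_one h6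
        refine ⟨c, ?_, rfl⟩
        obtain ⟨n, hn⟩ := T0.2 ⟨_, h5⟩
        have hn' : (sc c) ^ 2 ^ n = 1 := congrArg Subtype.val hn
        change c ∈ zpowers δ
        rw [hδ]
        apply hmemD _ n
        apply sc_injective
        rw [map_pow, hn', map_one]
      · rintro ⟨c, hc, rfl⟩
        obtain ⟨k, rfl⟩ := mem_zpowers_iff.1 hc
        refine ⟨?_, phiT_sc _⟩
        rw [map_zpow]
        exact zpow_mem hsc k
    have h5 : Nat.card ((zpowers δ).map sc : Subgroup (GL (Fin 2) F)) = 2 ^ u := by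
      rw [← hcδ]
      exact (Nat.card_congr ((zpowers δ).equivMapOfInjective _ sc_injective).toEquiv).symm
    rw [h4, h5, show Nat.card (T0 : Subgroup (GL (Fin 2) F)) = 2 ^ (v + u) from hcT0, pow_add] at h3
    exact Nat.eq_of_mul_eq_mul_right (by positivity) h3
  have hconj : ∀ h ∈ (T0 : Subgroup (GL (Fin 2) F)), ∀ x ∈ E, phiT h * x * (phiT h)⁻¹ ∈ E := by
    rintro h hh _ ⟨p, hp, rfl⟩
    rw [phi_conj]
    refine ⟨_, ?_, rfl⟩
    change SpecialLinearGroup.toGL (cjs h p) ∈ (T0 : Subgroup (GL (Fin 2) F))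
    rw [toGL_cjs]
    exact mul_mem (mul_mem hh hp) (inv_mem hh)
  have hnorm : T' ≤ normalizer (E : Set (G2 F)) := by
    rintro _ ⟨h, hh, rfl⟩
    rw [mem_normalizer_iff]
    intro x
    refine ⟨hconj h hh x, fun h' => ?_⟩
    have h1 := hconj h⁻¹ (inv_mem hh) _ h'
    rw [map_inv, inv_inv] at h1
    have h2 : (phiT h)⁻¹ * (phiT h * x * (phiT h)⁻¹) * phiT h = x := by group
    rwa [h2] at h1
  have hdis : E ⊓ T' = ⊥ := by
    rw [eq_bot_iff]
    rintro x ⟨⟨p, _, hp⟩, ⟨h, _, hh⟩⟩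
    rw [mem_bot, ← hp]
    exact phi_meet (hp.trans hh.symm)
  have hcP : Nat.card (E ⊔ T' : Subgroup (G2 F)) = 2 ^ (v + v) := by
    have h1 := H3.CardSup.card_sup_mul_card_inf T' E hnorm
    rw [inf_comm, hdis, card_bot, mul_one, sup_comm] at h1
    rw [h1, hcT, hcE, ← pow_add]
  have hle : padicValNat 2 (Nat.card (G2 F)) = v + v := by
    apply le_antisymm
    · have h3 := card_G2_dvd (F := F)
      have hne : (Nat.card F ^ 6 - 1) * Nat.card F ^ 5 * Nat.card (SpecialLinearGroup (Fin 2) F) ≠ 0 := by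
        rw [Nat.card_eq_fintype_card]
        exact mul_ne_zero (mul_ne_zero (pow_sub_ne hq1 (by norm_num)) (by positivity)) Nat.card_pos.ne'
      have h4 := (padicValNat_dvd_iff_le (p := 2) hne).1 ((pow_padicValNat_dvd).trans h3)
      refine h4.trans (le_of_eq ?_)
      rw [Nat.card_eq_fintype_card, padicValNat.mul (mul_ne_zero (pow_sub_ne hq1 (by norm_num)) (by positivity))
        Nat.card_pos.ne', padicValNat.mul (pow_sub_ne hq1 (by norm_num)) (by positivity), val_pow_odd hF,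
        show (6 : ℕ) = 2 * 3 by norm_num, val_even hF hq1 (by norm_num), val_sl2 hF, ← hv]
      have : padicValNat 2 3 = 0 := padicValNat.eq_zero_of_not_dvd (by norm_num)
      rw [this]
      ring
    · have h3 : 2 ^ (v + v) ∣ Nat.card (G2 F) := by
        rw [← hcP]
        exact Subgroup.card_subgroup_dvd_card _
      exact (padicValNat_dvd_iff_le (p := 2) Nat.card_pos.ne').1 h3
  have hcP' : Nat.card (E ⊔ T' : Subgroup (G2 F)) = 2 ^ (Nat.card (G2 F)).factorization 2 := by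
    rw [hcP, pow_fact hle]
  have hGE : Gd 2 E := gd_map phiE hGS
  have hGT : Gd 2 T' := by
    apply gd_of_gen ({x | ∃ s ∈ S, x = phiT (SpecialLinearGroup.toGL s)} ∪ {phiT (y0 δ)})
    · rintro _ (⟨s, hs, rfl⟩ | rfl)
      · exact ⟨_, hs, rfl⟩
      · exact ⟨_, hy0, rfl⟩
    · rintro _ ⟨x, hx, rfl⟩
      have heven : ∀ z ∈ (T0 : Subgroup (GL (Fin 2) F)), ∀ j : ℤ, GeneralLinearGroup.det z = δ ^ (2 * j) →
          phiT z ∈ closure ({x | ∃ s ∈ S, x = phiT (SpecialLinearGroup.toGL s)} ∪ {phiT (y0 δ)}) := by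
        intro z hz j hj
        apply Subgroup.subset_closure
        left
        have h3 : z * (sc δ) ^ (-j) ∈ (T0 : Subgroup (GL (Fin 2) F)) ⊓
            (GeneralLinearGroup.det : GL (Fin 2) F →* Fˣ).ker := by
          refine ⟨mul_mem hz (zpow_mem hsc _), ?_⟩
          change _ ∈ (GeneralLinearGroup.det : GL (Fin 2) F →* Fˣ).ker
          rw [MonoidHom.mem_ker, map_mul, map_zpow, det_sc, hj, ← zpow_natCast, ← _root_.zpow_mul, ← _root_.zpow_add]
          have : 2 * j + ((2 : ℕ) : ℤ) * -j = 0 := by push_cast; ring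
          rw [this, _root_.zpow_zero]
        rw [← hSmap] at h3
        obtain ⟨s, hs, hs'⟩ := h3
        refine ⟨s, hs, ?_⟩
        rw [show (SpecialLinearGroup.toGL s : GL (Fin 2) F) = z * (sc δ) ^ (-j) from hs', map_mul, map_zpow,
          phiT_sc, _root_.one_zpow, mul_one]
      obtain ⟨k, hk⟩ := mem_zpowers_iff.1 (hdet x hx)
      rcases Int.even_or_odd' k with ⟨j, rfl | rfl⟩
      · exact heven x hx j hk.symm
      · have h3 := heven (x * (y0 δ)⁻¹) (mul_mem hx (inv_mem hy0)) j (by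
          rw [map_mul, map_inv, det_y0, ← hk, _root_.zpow_add, _root_.zpow_one, mul_assoc, mul_inv_cancel, mul_one])
        have h4 : phiT x = phiT (x * (y0 δ)⁻¹) * phiT (y0 δ) := by
          rw [← map_mul, inv_mul_cancel_right]
        rw [h4]
        exact mul_mem h3 (Subgroup.subset_closure (Or.inr rfl))
    · rintro _ (⟨s, hs, rfl⟩ | rfl)
      · have h3 := hGS s hs
        have h4 : S.map ((phiT (F := F)).comp SpecialLinearGroup.toGL) ≤ T' := by
          rintro _ ⟨s', hs', rfl⟩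
          exact ⟨_, hs', rfl⟩
        have h5 : (⁅S, S⁆).map ((phiT (F := F)).comp SpecialLinearGroup.toGL) ≤ ⁅T', T'⁆ := by
          rw [Subgroup.map_commutator]
          exact commutator_mono h4 h4
        rw [← map_pow, ← map_pow]
        exact h5 ⟨_, h3, rfl⟩
      · have h3 : phiT (y0 δ) ^ 2 = 1 := by
          rw [pow_two, ← map_mul, y0_sq, phiT_sc]
        rw [h3]
        exact one_mem _
  exact result_of (Sylow.ofCard (E ⊔ T') hcP') (gd_sup hGE hGT) P

end H17.Zorn
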