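import Mathlib
import Cfsg.Agent.Lib.H24.ReeInt

set_option autoImplicit false
set_option linter.unusedSectionVars false

/-! `G2` in characteristic three: the invariant symmetric form and the invariant bracket on the
seven-dimensional module. -/

namespace H17.GTwo

open Cfsg.Lie Matrix H24.ReeBlk H24.ReeAd H24.ReeAl H24.ReeGood H24.ReePts H24.ReeGrp H24.ReeAmb

variable {K : Type*} [Field K]

/-- the invariant symmetric form -/
def Bf (y z : Fin 7 → K) : K :=
  y 0 * z 6 + y 6 * z 0 + y 1 * z 5 + y 5 * z 1 + y 2 * z 4 + y 4 * z 2 + 2 * (y 3 * z 3)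

/-- invariance -/
def Pr (A : Matrix (Fin 7) (Fin 7) K) : Prop := (∀ y z, Bf (A *ᵥ y) (A *ᵥ z) = Bf y z) ∧ A.det = 1

theorem Pr.one : Pr (1 : Matrix (Fin 7) (Fin 7) K) := ⟨fun y z => by simp, det_one⟩

theorem Pr.mul {A B : Matrix (Fin 7) (Fin 7) K} (hA : Pr A) (hB : Pr B) : Pr (A * B) :=
  ⟨fun y z => by rw [← mulVec_mulVec, ← mulVec_mulVec, hA.1, hB.1], by rw [det_mul, hA.2, hB.2, mul_one]⟩

theorem Pr.inv {A B : Matrix (Fin 7) (Fin 7) K} (hA : Pr A) (h : A * B = 1) : Pr B := by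
  constructor
  · intro y z
    rw [← hA.1, mulVec_mulVec, mulVec_mulVec, h, one_mulVec, one_mulVec]
  · have := congrArg det h
    rw [det_mul, hA.2, one_mul, det_one] at this
    exact this

theorem Pr.rev {A : Matrix (Fin 7) (Fin 7) K} (hA : Pr A) : Pr (rev7 A) := by
  have hB : ∀ y z : Fin 7 → K, Bf (y ∘ Fin.rev) (z ∘ Fin.rev) = Bf y z := by
    intro y z
    simp only [Bf, Function.comp]
    have e0 : Fin.rev (0 : Fin 7) = 6 := rfl
    have e1 : Fin.rev (1 : Fin 7) = 5 := rfl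
    have e2 : Fin.rev (2 : Fin 7) = 4 := rfl
    have e3 : Fin.rev (3 : Fin 7) = 3 := rfl
    have e4 : Fin.rev (4 : Fin 7) = 2 := rfl
    have e5 : Fin.rev (5 : Fin 7) = 1 := rfl
    have e6 : Fin.rev (6 : Fin 7) = 0 := rfl
    rw [e0, e1, e2, e3, e4, e5, e6]
    ring
  constructor
  · intro y z
    rw [rev7_mulVec, rev7_mulVec, hB, hA.1, hB]
  · have : (rev7 A).det = A.det := det_submatrix_equiv_self Fin.revPerm A
    rw [this, hA.2]

theorem pr_a [CharP K 3] (t : K) : Pr (SAa t) := by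
  have h3 : (3 : K) = 0 := by exact_mod_cast CharP.cast_eq_zero K 3
  refine ⟨fun y z => ?_, (ut_SAa t).det⟩
  simp [Bf, SAa, mulVec, dotProduct, Fin.sum_univ_succ]
  linear_combination (t * (y 3 * z 4 + z 3 * y 4)) * h3

theorem pr_b [CharP K 3] (t : K) : Pr (SAb t) := by
  have h3 : (3 : K) = 0 := by exact_mod_cast CharP.cast_eq_zero K 3
  refine ⟨fun y z => ?_, (ut_SAb t).det⟩
  simp [Bf, SAb, mulVec, dotProduct, Fin.sum_univ_succ]
  ring

theorem pr_ab [CharP K 3] (t : K) : Pr (SAab t) := by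
  have h3 : (3 : K) = 0 := by exact_mod_cast CharP.cast_eq_zero K 3
  refine ⟨fun y z => ?_, (ut_SAab t).det⟩
  simp [Bf, SAab, mulVec, dotProduct, Fin.sum_univ_succ]
  linear_combination (t * (y 3 * z 5 + z 3 * y 5)) * h3

theorem pr_aab [CharP K 3] (t : K) : Pr (SAaab t) := by
  have h3 : (3 : K) = 0 := by exact_mod_cast CharP.cast_eq_zero K 3
  refine ⟨fun y z => ?_, (ut_SAaab t).det⟩
  simp [Bf, SAaab, mulVec, dotProduct, Fin.sum_univ_succ]
  linear_combination (-t * (y 3 * z 6 + z 3 * y 6)) * h3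

theorem pr_aaab [CharP K 3] (t : K) : Pr (SAaaab t) := by
  refine ⟨fun y z => ?_, (ut_SAaaab t).det⟩
  simp [Bf, SAaaab, mulVec, dotProduct, Fin.sum_univ_succ]
  ring

theorem pr_aaabb [CharP K 3] (t : K) : Pr (SAaaabb t) := by
  refine ⟨fun y z => ?_, (ut_SAaaabb t).det⟩
  simp [Bf, SAaaabb, mulVec, dotProduct, Fin.sum_univ_succ]
  ring

theorem pr_sA [CharP K 3] {r : ℕ} (hr : r < 12) (t : K) : Pr (sA r t) := by
  have hpos : ∀ {r : ℕ}, 6 ≤ r → r < 12 → ∀ t : K, Pr (sA r t) := by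
    intro r h1 h2 t
    have : r = 6 ∨ r = 7 ∨ r = 8 ∨ r = 9 ∨ r = 10 ∨ r = 11 := by omega
    rcases this with rfl | rfl | rfl | rfl | rfl | rfl
    · rw [sA_6]; exact pr_b t
    · rw [sA_7]; exact pr_a t
    · rw [sA_8]; exact pr_ab t
    · rw [sA_9]; exact pr_aab t
    · rw [sA_10]; exact pr_aaab t
    · rw [sA_11]; exact pr_aaabb t
  by_cases h : 6 ≤ r
  · exact hpos h hr t
  · have := sA_neg (r := 11 - r) (by omega) t
    rw [show 11 - (11 - r) = r by omega] at this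
    rw [this]
    exact (hpos (by omega) (by omega) _).rev

theorem mem_group [CharP K 3] {g : GL chevG2.Idx K} (hg : g ∈ chevG2.group K) : g ∈ GG K ∧ Pr (Ag g) := by
  refine Subgroup.closure_induction ?_ ?_ ?_ ?_ hg
  · rintro x ⟨r, t, hx⟩
    have hr : r.val < 12 := r.2
    have h1 : (x : Matrix _ _ K) = chevG2.x K r.val t := by
      rw [hx, ChevalleyDatum.x, dif_pos r.2]
    constructor
    · change Good (R (x : Matrix _ _ K))
      rw [h1]; exact good_x hr t
    · unfold Ag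
      rw [h1]
      exact pr_sA hr t
  · exact ⟨one_mem _, by rw [Ag_one]; exact Pr.one⟩
  · rintro x y - - ⟨h1, h2⟩ ⟨h3, h4⟩
    exact ⟨mul_mem h1 h3, by rw [Ag_mul h1 h3]; exact h2.mul h4⟩
  · rintro x - ⟨h1, h2⟩
    exact ⟨inv_mem h1, h2.inv (Ag_mul_inv h1)⟩

/-- the bracket is invariant -/
theorem bracket {g : GL chevG2.Idx K} (hg : g ∈ GG K) (y : Fin 7 → K) :
    Ag g * Mm 0 y = Mm 0 (Ag g *ᵥ y) * Ag g := by
  have h := Good.int (show Good (R (g : Matrix _ _ K)) from hg) 0 y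
  rw [mulVec_zero, mulVec_zero, zero_add] at h
  exact h

/-- the long root element -/
theorem xG_mem [CharP K 3] {r : ℕ} (hr : r < 12) (t : K) : xG r t ∈ chevG2.group K := by
  apply Subgroup.subset_closure
  refine ⟨⟨r, hr⟩, t, ?_⟩
  rw [coe_xG, ChevalleyDatum.x, dif_pos (show r < chevG2.nroots from hr)]

theorem wG_mem [CharP K 3] (w : List (ℕ × K)) (hw : ∀ p ∈ w, p.1 < 12) : wG w ∈ chevG2.group K := by
  induction w with
  | nil => exact one_mem _
  | cons p w ih =>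
    have : wG (p :: w) = xG p.1 p.2 * wG w := by simp [wG]
    rw [this]
    exact mul_mem (xG_mem (hw p (by simp)) _) (ih fun q hq => hw q (by simp [hq]))

end H17.GTwo
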