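import Cfsg.Agent.Lib.H17.GTwo1

set_option autoImplicit false
set_option linter.unusedSectionVars false

/-! `G2` in characteristic three: involutions do not have a `-1`-space of codimension one; an element
of order six. -/

namespace H17.GTwo

open Cfsg.Lie Matrix H24.ReeBlk H24.ReeAd H24.ReeAl H24.ReeGood H24.ReePts H24.ReeGrp H24.ReeAmb

variable {K : Type*} [Field K]

theorem rank_aux {v v' : Fin 7 → K} (h : ∀ i : Fin 3, ∃ a b : K, ∀ j : Fin 7,
    (if j.val = i.val then (1 : K) else 0) = a * v j + b * v' j) : False := by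
  obtain ⟨a0, b0, h0⟩ := h 0
  obtain ⟨a1, b1, h1⟩ := h 1
  obtain ⟨a2, b2, h2⟩ := h 2
  have e00 : (1 : K) = a0 * v 0 + b0 * v' 0 := by simpa using h0 0
  have e01 : (0 : K) = a0 * v 1 + b0 * v' 1 := by simpa using h0 1
  have e02 : (0 : K) = a0 * v 2 + b0 * v' 2 := by simpa using h0 2
  have e10 : (0 : K) = a1 * v 0 + b1 * v' 0 := by simpa using h1 0
  have e11 : (1 : K) = a1 * v 1 + b1 * v' 1 := by simpa using h1 1
  have e12 : (0 : K) = a1 * v 2 + b1 * v' 2 := by simpa using h1 2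
  have e20 : (0 : K) = a2 * v 0 + b2 * v' 0 := by simpa using h2 0
  have e21 : (0 : K) = a2 * v 1 + b2 * v' 1 := by simpa using h2 1
  have e22 : (1 : K) = a2 * v 2 + b2 * v' 2 := by simpa using h2 2
  have key : (a0 * v 0 + b0 * v' 0) * ((a1 * v 1 + b1 * v' 1) * (a2 * v 2 + b2 * v' 2) -
      (a1 * v 2 + b1 * v' 2) * (a2 * v 1 + b2 * v' 1)) -
      (a0 * v 1 + b0 * v' 1) * ((a1 * v 0 + b1 * v' 0) * (a2 * v 2 + b2 * v' 2) -
      (a1 * v 2 + b1 * v' 2) * (a2 * v 0 + b2 * v' 0)) +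
      (a0 * v 2 + b0 * v' 2) * ((a1 * v 0 + b1 * v' 0) * (a2 * v 1 + b2 * v' 1) -
      (a1 * v 1 + b1 * v' 1) * (a2 * v 0 + b2 * v' 0)) = 0 := by ring
  rw [← e00, ← e01, ← e02, ← e10, ← e11, ← e12, ← e20, ← e21, ← e22] at key
  norm_num at key

/-- No element acts with a `-1`-space of codimension one. -/
theorem no_bad (h2 : (2 : K) ≠ 0) {A : Matrix (Fin 7) (Fin 7) K}
    (hbr : ∀ y, A * Mm 0 y = Mm 0 (A *ᵥ y) * A) (hA : A * A = 1) (v : Fin 7 → K)
    (hv : ∀ x, ∃ c : K, A *ᵥ x + x = c • v) : False := by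
  -- a vector in the -1-space of small support
  obtain ⟨α, β, hαβ, hw⟩ : ∃ α β : K, (α ≠ 0 ∨ β ≠ 0) ∧
      A *ᵥ (![β, 0, 0, α, 0, 0, 0]) = -![β, 0, 0, α, 0, 0, 0] := by
    obtain ⟨a, ha⟩ := hv ![0, 0, 0, 1, 0, 0, 0]
    obtain ⟨b, hb⟩ := hv ![1, 0, 0, 0, 0, 0, 0]
    by_cases h : a = 0 ∧ b = 0
    · refine ⟨1, 0, Or.inl one_ne_zero, ?_⟩
      rw [h.1, zero_smul] at ha
      exact eq_neg_of_add_eq_zero_left ha
    · refine ⟨b, -a, ?_, ?_⟩
      · by_contra hcon
        push Not at hcon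
        exact h ⟨neg_eq_zero.mp hcon.2, hcon.1⟩
      · have e : (![-a, 0, 0, b, 0, 0, 0] : Fin 7 → K) = b • ![0, 0, 0, 1, 0, 0, 0] - a • ![1, 0, 0, 0, 0, 0, 0] := by
          funext i; fin_cases i <;> simp
        rw [e, mulVec_sub, mulVec_smul, mulVec_smul]
        have ha' : A *ᵥ ![0, 0, 0, 1, 0, 0, 0] = a • v - ![0, 0, 0, 1, 0, 0, 0] := by rw [← ha]; abel
        have hb' : A *ᵥ ![1, 0, 0, 0, 0, 0, 0] = b • v - ![1, 0, 0, 0, 0, 0, 0] := by rw [← hb]; abel
        rw [ha', hb', smul_sub, smul_sub, smul_smul, smul_smul, mul_comm a b]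
        abel
  set w : Fin 7 → K := ![β, 0, 0, α, 0, 0, 0] with hwdef
  have hL : ∀ x, A *ᵥ (Mm 0 w *ᵥ x) = -(Mm 0 w *ᵥ (A *ᵥ x)) := by
    intro x
    rw [mulVec_mulVec, hbr, hw, ← mulVec_mulVec]
    have : Mm 0 (-w) = -(Mm 0 w) := by
      have := Mm_smul (-1 : K) 0 w
      rw [smul_zero, neg_one_smul, neg_one_smul] at this
      exact this
    rw [this, neg_mulVec]
  -- the range of the bracket with `w`
  have hrange : ∀ x, ∃ a b : K, Mm 0 w *ᵥ x = a • v + b • (Mm 0 w *ᵥ v) := by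
    intro x
    obtain ⟨c, hc⟩ := hv x
    set z := x - A *ᵥ x with hz
    have hAz : A *ᵥ z = -z := by
      rw [hz, mulVec_sub, mulVec_mulVec, hA, one_mulVec]; abel
    have hu : A *ᵥ (Mm 0 w *ᵥ z) = Mm 0 w *ᵥ z := by
      rw [hL, hAz, mulVec_neg, neg_neg]
    obtain ⟨d, hd⟩ := hv (Mm 0 w *ᵥ z)
    rw [hu] at hd
    have hzz : Mm 0 w *ᵥ z = (2⁻¹ * d) • v := by
      rw [mul_smul, ← hd, ← two_smul K, smul_smul, inv_mul_cancel₀ h2, one_smul]
    have hx : x = (2⁻¹ : K) • (c • v) + (2⁻¹ : K) • z := by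
      rw [← hc, hz, ← smul_add]
      have : A *ᵥ x + x + (x - A *ᵥ x) = (2 : K) • x := by rw [two_smul]; abel
      rw [this, smul_smul, inv_mul_cancel₀ h2, one_smul]
    refine ⟨2⁻¹ * (2⁻¹ * d), 2⁻¹ * c, ?_⟩
    conv_lhs => rw [hx]
    rw [mulVec_add, mulVec_smul, mulVec_smul, mulVec_smul, hzz]
    module
  -- explicit columns
  have hcol : ∀ i : Fin 3, ∃ x, ∀ j : Fin 7, (if j.val = i.val then (1 : K) else 0) = (Mm 0 w *ᵥ x) j := by
    by_cases hα : α = 0
    · have hβ : β ≠ 0 := by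
        rcases hαβ with h | h
        · exact absurd hα h
        · exact h
      intro i
      fin_cases i
      · refine ⟨(-β⁻¹) • ![0, 0, 0, 1, 0, 0, 0], ?_⟩
        intro j
        fin_cases j <;> simp [hwdef, Mm, mulVec, dotProduct, Fin.sum_univ_succ, hα, hβ]
      · refine ⟨(-β⁻¹) • ![0, 0, 0, 0, 1, 0, 0], ?_⟩
        intro j
        fin_cases j <;> simp [hwdef, Mm, mulVec, dotProduct, Fin.sum_univ_succ, hα, hβ]
      · refine ⟨(β⁻¹) • ![0, 0, 0, 0, 0, 1, 0], ?_⟩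
        intro j
        fin_cases j <;> simp [hwdef, Mm, mulVec, dotProduct, Fin.sum_univ_succ, hα, hβ]
    · intro i
      fin_cases i
      · refine ⟨(α⁻¹) • ![1, 0, 0, 0, 0, 0, 0], ?_⟩
        intro j
        fin_cases j <;> simp [hwdef, Mm, mulVec, dotProduct, Fin.sum_univ_succ, hα]
      · refine ⟨(-α⁻¹) • ![0, 1, 0, 0, 0, 0, 0], ?_⟩
        intro j
        fin_cases j <;> simp [hwdef, Mm, mulVec, dotProduct, Fin.sum_univ_succ, hα]
      · refine ⟨(-α⁻¹) • ![0, 0, 1, 0, 0, 0, 0], ?_⟩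
        intro j
        fin_cases j <;> simp [hwdef, Mm, mulVec, dotProduct, Fin.sum_univ_succ, hα]
  apply rank_aux (v := v) (v' := Mm 0 w *ᵥ v)
  intro i
  obtain ⟨x, hx⟩ := hcol i
  obtain ⟨a, b, hab⟩ := hrange x
  refine ⟨a, b, fun j => ?_⟩
  rw [hx j, hab]
  simp

/-- there is an element of order six -/
theorem exists_six [CharP K 3] : ∃ g : chevG2.group K, orderOf g = 6 := by
  have h3 : (3 : K) = 0 := by exact_mod_cast CharP.cast_eq_zero K 3
  have h2 : (2 : K) ≠ 0 := by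
    intro h
    exact one_ne_zero (show (1 : K) = 0 by linear_combination h3 - h)
  have hne : (-1 : K) ≠ 0 := neg_ne_zero.mpr one_ne_zero
  set h := wG (chevG2.hWord 7 (-1 : K)) with hh
  set x := xG (K := K) 11 1 with hx
  have hm : h ∈ chevG2.group K := by
    apply wG_mem
    intro p hp
    simp only [ChevalleyDatum.hWord, ChevalleyDatum.nWord, List.cons_append, List.nil_append, List.mem_cons,
      List.not_mem_nil, or_false, negr (show 7 < 12 by norm_num)] at hp
    rcases hp with rfl | rfl | rfl | rfl | rfl | rfl <;> norm_num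
  have xm : x ∈ chevG2.group K := xG_mem (by norm_num) _
  have hG := (mem_group hm).1
  have xG' := (mem_group xm).1
  have Ah : Ag h = Matrix.diagonal ![-1, -1, 1, 1, 1, -1, -1] := by
    rw [hh, Ag_wG, H24.ReeInt.wA_ha hne]
    congr 1
    funext i
    fin_cases i <;> simp
  have Ax : ∀ t : K, Ag (xG (K := K) 11 t) = SAaaabb t := by
    intro t
    unfold Ag
    rw [coe_xG, R_xaaabb, toBlocks_fromBlocks₂₂]
  have hhh : h * h = 1 := by
    apply Ag_inj (mul_mem hG hG) (one_mem _)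
    rw [Ag_mul hG hG, Ag_one, Ah, diagonal_mul_diagonal]
    ext i j
    fin_cases i <;> fin_cases j <;> simp
  have hne1 : h ≠ 1 := by
    intro h1
    have := congrFun (congrFun (congrArg Ag h1) 0) 0
    rw [Ah, Ag_one] at this
    simp at this
    exact h2 (by linear_combination -this)
  have hcomm : h * x = x * h := by
    apply Ag_inj (mul_mem hG xG') (mul_mem xG' hG)
    rw [Ag_mul hG xG', Ag_mul xG' hG, Ah, Ax]
    ext i j
    rw [diagonal_mul, mul_diagonal]
    fin_cases i <;> fin_cases j <;> simp [SAaaabb]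
  have hxx : x * x = xG 11 2 := by
    apply Ag_inj (mul_mem xG' xG') (mem_group (xG_mem (by norm_num) _)).1
    rw [Ag_mul xG' xG', Ax, Ax]
    ext i j
    fin_cases i <;> fin_cases j <;> simp [SAaaabb, Matrix.mul_apply, Fin.sum_univ_succ] <;> ring
  have hxxx : x * x * x = 1 := by
    rw [hxx]
    have x2 := (mem_group (xG_mem (K := K) (r := 11) (by norm_num) 2)).1
    apply Ag_inj (mul_mem x2 xG') (one_mem _)
    rw [Ag_mul x2 xG', Ax, Ax, Ag_one]
    ext i j
    fin_cases i <;> fin_cases j <;> simp [SAaaabb, Matrix.mul_apply, Fin.sum_univ_succ] <;>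
      first | linear_combination h3 | linear_combination (-1 : K) * h3
  have hx1 : x ≠ 1 := by
    intro h1
    have := congrFun (congrFun (congrArg Ag h1) 0) 5
    rw [Ax, Ag_one] at this
    simp [SAaaabb] at this
  let h' : chevG2.group K := ⟨h, hm⟩
  let x' : chevG2.group K := ⟨x, xm⟩
  have oh : orderOf h' = 2 := by
    apply orderOf_eq_prime
    · apply Subtype.ext; change h ^ 2 = 1; rw [pow_two]; exact hhh
    · intro h1; exact hne1 (congrArg Subtype.val h1)
  have : Fact (Nat.Prime 3) := ⟨Nat.prime_three⟩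
  have ox : orderOf x' = 3 := by
    apply orderOf_eq_prime
    · apply Subtype.ext; change x ^ 3 = 1; rw [pow_succ, pow_two]; exact hxxx
    · intro h1; exact hx1 (congrArg Subtype.val h1)
  have hc : Commute h' x' := Subtype.ext hcomm
  refine ⟨h' * x', ?_⟩
  rw [hc.orderOf_mul_eq_mul_orderOf_of_coprime (by rw [oh, ox]; norm_num), oh, ox]

end H17.GTwo
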