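import Cfsg.Agent.Lib.H17.GTwo2
import Cfsg.Agent.Lib.H17.SpecStr

set_option autoImplicit false
set_option linter.unusedSectionVars false

/-! Isometries of order `7` and `13` of the seven-dimensional orthogonal space over the field with
three elements. -/

namespace H17.GTwoThree

open Module QuadraticMap H17.OrthAbs H46.SForm H46.SForm.SForm H46.ProdUnit H46.ProjOrder
  H17.SpecPO H17.SpecConv H17.SpecUni H17.SpecStr

universe u

section Three

variable {F : Type*} [Field F] [Finite F] {V : Type u} [AddCommGroup V] [Module F V]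
  [FiniteDimensional F V]

theorem sq_one (h3 : Nat.card F = 3) {c : F} (hc : c ≠ 0) : c * c = 1 := by
  have hF : Fintype F := Fintype.ofFinite F
  have := FiniteField.pow_card_sub_one_eq_one c hc
  rw [← Nat.card_eq_fintype_card, h3] at this
  rw [← this, pow_two]

/-- the common setting -/
structure Setup (f : SForm F V (RingHom.id F)) (x : (Module.End F V)ˣ) (r : ℕ) : Prop where
  h3 : Nat.card F = 3
  h2 : (2 : F) ≠ 0
  hs : f.Sym 1
  hnd : f.ND
  hd : finrank F V = 7
  hx : f.Isom x
  hr : r = 7 ∨ r = 13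
  ho : orderOf x = r

variable {f : SForm F V (RingHom.id F)} {x : (Module.End F V)ˣ} {r : ℕ}

theorem Setup.prime (S : Setup f x r) : r.Prime := by
  rcases S.hr with h | h <;> rw [h] <;> norm_num

theorem Setup.odd (S : Setup f x r) : Odd r := by
  rcases S.hr with h | h <;> rw [h] <;> decide

theorem Setup.char (S : Setup f x r) : CharP F 3 := by
  have hF : Fintype F := Fintype.ofFinite F
  have h := S.h3
  rw [Nat.card_eq_fintype_card] at h
  haveI : Fact (Nat.Prime 3) := ⟨Nat.prime_three⟩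
  exact charP_of_card_eq_prime h

theorem Setup.ne (S : Setup f x r) : (r : F) ≠ 0 := by
  haveI := S.char
  intro h
  rw [CharP.cast_eq_zero_iff F 3] at h
  rcases S.hr with h' | h' <;> rw [h'] at h <;> revert h <;> decide

theorem Setup.pow (S : Setup f x r) : x ^ r = 1 := by
  rw [← S.ho]; exact pow_orderOf_eq_one x

theorem Setup.hT (S : Setup f x r) :
    ∀ d, 0 < d → d < 3 → ¬ (r ∣ Nat.card F ^ d - 1 ∨ r ∣ Nat.card F ^ d + 1) := by
  intro d h0 h1
  rw [S.h3]
  have : d = 1 ∨ d = 2 := by omega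
  rcases S.hr with h | h <;> rw [h] <;> rcases this with rfl | rfl <;> norm_num

theorem Setup.nt (S : Setup f x r) : Nontrivial V :=
  Module.nontrivial_of_finrank_pos (R := F) (by rw [S.hd]; norm_num)

theorem Setup.com (S : Setup f x r) : finrank F (comS x) = 6 := by
  haveI := S.nt
  haveI : Fact r.Prime := ⟨S.prime⟩
  obtain ⟨h1, h3, -⟩ := finrank_com S.h2 (Or.inl rfl) S.hs S.hnd S.hx S.odd S.ne S.ho S.hT
  have h4 := Submodule.finrank_le (comS x)
  rw [S.hd] at h4
  obtain ⟨e, he⟩ := h3
  omega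

theorem Setup.compl (S : Setup f x r) : IsCompl (comS x) (fixS x) := isCompl S.ne S.pow

theorem Setup.fix (S : Setup f x r) : finrank F (fixS x) = 1 := by
  have h1 := Submodule.finrank_add_eq_of_isCompl S.compl
  rw [S.hd, S.com] at h1
  omega

theorem Setup.ind (S : Setup f x r) (x₁ : (Module.End F (comS x))ˣ)
    (h : ∀ z : comS x, (((x₁ : Module.End F (comS x)) z : comS x) : V) = (x : Module.End F V) z) :
    (f.pull (comS x).subtype).Isom x₁ ∧ x₁ ^ r = 1 ∧
    (∀ v, (x₁ : Module.End F (comS x)) v = v → v = 0) ∧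
    ∀ U : Submodule F (comS x), (∀ v ∈ U, (x₁ : Module.End F (comS x)) v ∈ U) →
    (∀ v ∈ U, (∀ w ∈ U, (f.pull (comS x).subtype).B v w = 0) → v = 0) → U = ⊥ ∨ U = ⊤ := by
  haveI : Fact r.Prime := ⟨S.prime⟩
  have hi : (f.pull (comS x).subtype).Isom x₁ := by
    intro v w
    change f.B _ _ = f.B _ _
    rw [Submodule.subtype_apply, Submodule.subtype_apply, h, h, S.hx]
    rfl
  have hp : x₁ ^ r = 1 := by
    apply Units.ext
    apply LinearMap.ext
    intro z
    apply Subtype.ext
    rw [Units.val_pow_eq_pow_val, H46.OrthDec.res_pow h r z, ← Units.val_pow_eq_pow_val, S.pow]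
    rfl
  have hf : ∀ v, (x₁ : Module.End F (comS x)) v = v → v = 0 := by
    intro w hw
    apply Subtype.ext
    apply fix_com S.ne S.pow _ w.2
    rw [mem_fixS, ← h, hw]
  refine ⟨hi, hp, hf, ?_⟩
  exact indec S.h2 (Or.inl rfl) (f := f.pull (comS x).subtype) (fun v w => S.hs _ _) hi S.odd S.ne hp hf
    (n := 3) (by rw [S.com]) S.hT

/-- restrictions of a commuting isometry -/
theorem Setup.split (S : Setup f x r) (y : (Module.End F V)ˣ) (hy : f.Isom y) (hc : Commute y x) :
    ∃ (x₁ y₁ : (Module.End F (comS x))ˣ) (y₂ : (Module.End F (fixS x))ˣ),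
      (∀ z : comS x, (((x₁ : Module.End F (comS x)) z : comS x) : V) = (x : Module.End F V) z) ∧
      (∀ z : comS x, (((y₁ : Module.End F (comS x)) z : comS x) : V) = (y : Module.End F V) z) ∧
      (∀ z : fixS x, (((y₂ : Module.End F (fixS x)) z : fixS x) : V) = (y : Module.End F V) z) ∧
      (f.pull (comS x).subtype).Isom y₁ ∧ (f.pull (comS x).subtype).ND ∧
      (f.pull (fixS x).subtype).ND ∧ Commute y₁ x₁ ∧
      LinearMap.det (y : Module.End F V) = LinearMap.det (y₁ : Module.End F (comS x)) *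
        LinearMap.det (y₂ : Module.End F (fixS x)) ∧
      (∀ k : ℕ, y ^ k = 1 → y₁ ^ k = 1) ∧ (∀ k : ℕ, y ^ k = 1 → y₂ ^ k = 1) := by
  haveI := S.nt
  obtain ⟨x₁, -, c1, -, -, -, -, -, -, c6, -⟩ := H46.OrthDec.decomp_isom S.hs S.hnd (comS x)
    (fixS x) S.compl (orth S.hs S.hx) x S.hx (com_inv (Commute.refl x)) (fix_inv (Commute.refl x))
  obtain ⟨y₁, y₂, a1, a2, a3, a4, a5, -, -, a6, a7⟩ := H46.OrthDec.decomp_isom S.hs S.hnd (comS x)
    (fixS x) S.compl (orth S.hs S.hx) y hy (com_inv hc) (fix_inv hc)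
  refine ⟨x₁, y₁, y₂, c6, a6, a7, a1, a3, a4, ?_, a5, ?_, ?_⟩
  · apply Units.ext
    apply LinearMap.ext
    intro z
    apply Subtype.ext
    change ((((y₁ : Module.End F (comS x)) ((x₁ : Module.End F (comS x)) z)) : comS x) : V) =
      ((((x₁ : Module.End F (comS x)) ((y₁ : Module.End F (comS x)) z)) : comS x) : V)
    rw [a6, c6, c6, a6]
    exact congrArg (fun t : (Module.End F V)ˣ => (t : Module.End F V) z) hc.eq
  · intro k hk
    apply Units.ext
    apply LinearMap.ext
    intro z
    apply Subtype.ext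
    rw [Units.val_pow_eq_pow_val, H46.OrthDec.res_pow a6 k z, ← Units.val_pow_eq_pow_val, hk]
    rfl
  · intro k hk
    apply Units.ext
    apply LinearMap.ext
    intro z
    apply Subtype.ext
    rw [Units.val_pow_eq_pow_val, H46.OrthDec.res_pow a7 k z, ← Units.val_pow_eq_pow_val, hk]
    rfl

/-- a unit of a line of odd order is trivial -/
theorem line_odd (h3 : Nat.card F = 3) {W : Type*} [AddCommGroup W] [Module F W]
    (hd : finrank F W = 1) (w : (Module.End F W)ˣ) {k : ℕ} (hk : Odd k) (hw : w ^ k = 1) : w = 1 := by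
  obtain ⟨v, hv, hspan⟩ := finrank_eq_one_iff'.mp hd
  obtain ⟨c, hc⟩ := hspan ((w : Module.End F W) v)
  have hall : ∀ z, (w : Module.End F W) z = c • z := by
    intro z
    obtain ⟨d, rfl⟩ := hspan z
    rw [map_smul, ← hc, smul_smul, smul_smul, mul_comm]
  have hpow : ∀ n : ℕ, ((w : Module.End F W) ^ n) v = c ^ n • v := by
    intro n
    induction n with
    | zero => simp
    | succ n ih => rw [pow_succ, Module.End.mul_apply, hall, map_smul, ih, smul_smul, pow_succ', mul_comm]
  have h1 : c ^ k = 1 := by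
    have h := hpow k
    rw [← Units.val_pow_eq_pow_val, hw] at h
    change v = _ at h
    have h5 : (c ^ k - 1) • v = 0 := by rw [sub_smul, one_smul, ← h, sub_self]
    exact sub_eq_zero.mp ((smul_eq_zero.mp h5).resolve_right hv)
  have hc0 : c ≠ 0 := by
    rintro rfl
    rw [zero_pow (by rintro rfl; exact absurd hk (by decide))] at h1
    exact zero_ne_one h1
  have h2 := sq_one h3 hc0
  have h4 : c = 1 := by
    obtain ⟨j, rfl⟩ := hk
    rw [pow_succ, pow_mul, pow_two, h2, one_pow, one_mul] at h1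
    exact h1
  apply Units.ext
  apply LinearMap.ext
  intro z
  rw [hall, h4, one_smul]
  rfl

theorem Setup.ext (S : Setup f x r) {y z : (Module.End F V)ˣ}
    (h1 : ∀ v ∈ comS x, (y : Module.End F V) v = (z : Module.End F V) v)
    (h2 : ∀ v ∈ fixS x, (y : Module.End F V) v = (z : Module.End F V) v) : y = z := by
  apply Units.ext
  apply LinearMap.ext
  intro v
  obtain ⟨a, ha, b, hb, rfl⟩ := H46.SForm.mem_sup_of_compl S.compl v
  rw [map_add, map_add, h1 a ha, h2 b hb]

/-- no commuting element of order three -/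
theorem Setup.no_three (S : Setup f x r) {y : (Module.End F V)ˣ} (hy : f.Isom y) (hc : Commute y x)
    (hy3 : y ^ 3 = 1) : y = 1 := by
  haveI := S.char
  haveI : Fact (Nat.Prime 3) := ⟨Nat.prime_three⟩
  obtain ⟨x₁, y₁, y₂, e1, e2, e3, h1, h2, -, h4, -, h6, h7⟩ := S.split y hy hc
  obtain ⟨i1, i2, i3, i4⟩ := S.ind x₁ e1
  have hy1 : y₁ = 1 := no_unip (f := f.pull (comS x).subtype) (fun v w => S.hs _ _) h2 i1 S.ne i2 i4
    S.odd i3 h1 h4 (fun v hv => exists_fixed 3 (h6 3 hy3) v hv)
  have hy2 : y₂ = 1 := line_odd S.h3 S.fix y₂ (by decide) (h7 3 hy3)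
  apply S.ext
  · intro v hv
    rw [← e2 ⟨v, hv⟩, hy1]; rfl
  · intro v hv
    rw [← e3 ⟨v, hv⟩, hy2]; rfl

/-- commuting involutions -/
theorem Setup.two (S : Setup f x r) {t : (Module.End F V)ˣ} (ht : f.Isom t) (hc : Commute t x)
    (ht2 : t ^ 2 = 1) (hdet : LinearMap.det (t : Module.End F V) = 1) (hne : t ≠ 1) :
    ∃ v : V, ∀ z, ∃ c : F, (t : Module.End F V) z + z = c • v := by
  obtain ⟨x₁, t₁, t₂, e1, e2, e3, h1, h2, -, h4, h5, h6, h7⟩ := S.split t ht hc
  obtain ⟨i1, i2, i3, i4⟩ := S.ind x₁ e1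
  have htt : ∀ z, (t₁ : Module.End F (comS x)) ((t₁ : Module.End F (comS x)) z) = z := by
    intro z
    have := congrArg (fun g : (Module.End F (comS x))ˣ => (g : Module.End F (comS x)) z) (h6 2 ht2)
    rw [pow_two] at this
    exact this
  have hcx : ∀ v, (t₁ : Module.End F (comS x)) ((x₁ : Module.End F (comS x)) v) =
      (x₁ : Module.End F (comS x)) ((t₁ : Module.End F (comS x)) v) := by
    intro v
    exact congrArg (fun z : (Module.End F (comS x))ˣ => (z : Module.End F (comS x)) v) h4.eq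
  obtain ⟨v, hv, hspan⟩ := finrank_eq_one_iff'.mp S.fix
  rcases i4 (fixS t₁) (fix_inv h4.symm) (by
    intro a ha hab
    apply h2
    intro z
    set g := f.pull (comS x).subtype with hg
    have hb : z + (t₁ : Module.End F (comS x)) z ∈ fixS t₁ := by
      rw [mem_fixS, map_add, htt, add_comm]
    have h8 := hab _ hb
    rw [g.add_right] at h8
    have h9 := h1 a z
    rw [mem_fixS.mp ha] at h9
    rw [h9] at h8
    have : (2 : F) * g.B a z = 0 := by linear_combination h8
    exact (mul_eq_zero.mp this).resolve_left S.h2) with hU | hU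
  · refine ⟨v.1, fun z => ?_⟩
    have hminus : ∀ a : comS x, (t₁ : Module.End F (comS x)) a = -a := by
      intro a
      have : (t₁ : Module.End F (comS x)) a + a ∈ fixS t₁ := by
        rw [mem_fixS, map_add, htt, add_comm]
      rw [hU, Submodule.mem_bot] at this
      exact eq_neg_of_add_eq_zero_left this
    obtain ⟨a, ha, b, hb, rfl⟩ := H46.SForm.mem_sup_of_compl S.compl z
    obtain ⟨c, hc'⟩ := hspan ((t₂ : Module.End F (fixS x)) ⟨b, hb⟩ + ⟨b, hb⟩)
    refine ⟨c, ?_⟩
    have h8 := congrArg Subtype.val hc'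
    rw [Submodule.coe_smul, Submodule.coe_add, e3] at h8
    have h9 := e2 ⟨a, ha⟩
    rw [hminus] at h9
    change -a = _ at h9
    rw [map_add, ← h9, h8]
    change -a + _ + (a + b) = _ + b
    abel
  · exfalso
    apply hne
    have ht1 : t₁ = 1 := by
      apply Units.ext
      apply LinearMap.ext
      intro z
      have : z ∈ fixS t₁ := by rw [hU]; trivial
      exact mem_fixS.mp this
    have ht2' : t₂ = 1 := by
      rw [hdet, ht1, Units.val_one, map_one, one_mul] at h5
      obtain ⟨c, hc'⟩ := hspan ((t₂ : Module.End F (fixS x)) v)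
      have hall : (t₂ : Module.End F (fixS x)) = c • LinearMap.id := by
        apply LinearMap.ext
        intro z
        obtain ⟨d, rfl⟩ := hspan z
        rw [map_smul, ← hc', smul_smul]
        change _ = c • (d • v)
        rw [smul_smul, mul_comm]
      rw [hall, LinearMap.det_smul, LinearMap.det_id, S.fix, pow_one, mul_one] at h5
      apply Units.ext
      rw [hall, ← h5, one_smul]
      rfl
    apply S.ext
    · intro v hv
      rw [← e2 ⟨v, hv⟩, ht1]; rfl
    · intro v hv
      rw [← e3 ⟨v, hv⟩, ht2']; rfl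

/-- a commuting element of odd order fixes the fixed line pointwise -/
theorem Setup.fix_le (S : Setup f x r) {y : (Module.End F V)ˣ} (hy : f.Isom y) (hc : Commute y x)
    {k : ℕ} (hk : Odd k) (hyk : y ^ k = 1) : fixS x ≤ fixS y := by
  obtain ⟨x₁, y₁, y₂, e1, e2, e3, h1, h2, -, h4, -, h6, h7⟩ := S.split y hy hc
  have hy2 : y₂ = 1 := line_odd S.h3 S.fix y₂ hk (h7 k hyk)
  intro v hv
  rw [mem_fixS, ← e3 ⟨v, hv⟩, hy2]
  rfl

/-- the congruence for the number of vectors of given norm -/
theorem Setup.count (S : Setup f x r) (c : F) : Nat.card {v : V // Qof f v = c} ≡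
    Nat.card {v : V // Qof f v = c ∧ v ∈ fixS x} [MOD r] := by
  haveI : Fact r.Prime := ⟨S.prime⟩
  have hV : Finite V := Module.finite_of_finite F
  have hQ : ∀ v, Qof f ((x : Module.End F V) v) = Qof f v := by
    intro v
    rw [Qof_apply, Qof_apply, S.hx]
  have hQ' : ∀ v, Qof f (((x⁻¹ : (Module.End F V)ˣ) : Module.End F V) v) = Qof f v := by
    intro v
    rw [← hQ, unit_inv_apply]
  let σ : Equiv.Perm {v : V // Qof f v = c} :=
    { toFun := fun v => ⟨(x : Module.End F V) v.1, by rw [hQ, v.2]⟩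
      invFun := fun v => ⟨((x⁻¹ : (Module.End F V)ˣ) : Module.End F V) v.1, by rw [hQ', v.2]⟩
      left_inv := fun v => Subtype.ext (unit_apply_inv x v.1)
      right_inv := fun v => Subtype.ext (unit_inv_apply x v.1) }
  have hσ : ∀ (k : ℕ) (v), ((σ ^ k) v).1 = ((x : Module.End F V) ^ k) v.1 := by
    intro k
    induction k with
    | zero => intro v; rfl
    | succ k ih =>
      intro v
      rw [pow_succ, Equiv.Perm.mul_apply, ih, pow_succ, Module.End.mul_apply]
      rfl
  have h1 := free_modEq σ r (by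
    ext v
    rw [hσ, ← Units.val_pow_eq_pow_val, S.pow]
    rfl)
  refine h1.trans ?_
  have : Nat.card {x : {v : V // Qof f v = c} // σ x = x} = Nat.card {v : V // Qof f v = c ∧ v ∈ fixS x} := by
    apply Nat.card_congr
    exact
      { toFun := fun v => ⟨v.1.1, v.1.2, mem_fixS.mpr (congrArg Subtype.val v.2)⟩
        invFun := fun v => ⟨⟨v.1, v.2.1⟩, Subtype.ext (mem_fixS.mp v.2.2)⟩
        left_inv := fun v => rfl
        right_inv := fun v => rfl }
  rw [this]

/-- elements of orders `7` and `13` do not commute -/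
theorem no_mixed {y : (Module.End F V)ˣ} (S : Setup f x 7) (T : Setup f y 13) (hc : Commute y x) : False := by
  have hfix : fixS x = fixS y :=
    le_antisymm (S.fix_le T.hx hc (by decide : Odd 13) T.pow)
      (T.fix_le S.hx hc.symm (by decide : Odd 7) S.pow)
  have c1 := S.count 1
  have c2 := T.count 1
  rw [← hfix] at c2
  obtain ⟨e, he, hN⟩ := SpecCount.card_norm S.h2 S.hs S.hnd (m := 3) (by rw [S.hd]) (one_ne_zero (α := F))
  haveI := S.nt
  obtain ⟨x₁, y₁, y₂, -, -, -, -, -, hnd2, -⟩ := S.split y T.hx hc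
  obtain ⟨e', he', hN'⟩ := SpecCount.card_norm S.h2 (f := f.pull (fixS x).subtype)
    (fun v w => S.hs _ _) hnd2 (m := 0) (by rw [S.fix]) (one_ne_zero (α := F))
  have hcardL : Nat.card {v : V // Qof f v = 1 ∧ v ∈ fixS x} =
      Nat.card {v : fixS x // Qof (f.pull (fixS x).subtype) v = 1} := by
    apply Nat.card_congr
    exact
      { toFun := fun v => ⟨⟨v.1, v.2.2⟩, v.2.1⟩
        invFun := fun v => ⟨v.1.1, v.2, v.1.2⟩
        left_inv := fun v => rfl
        right_inv := fun v => rfl }
  rw [hcardL] at c1 c2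
  set A := Nat.card {v : V // Qof f v = 1} with hA
  set B := Nat.card {v : fixS x // Qof (f.pull (fixS x).subtype) v = 1} with hB
  rw [S.h3] at hN hN'
  norm_num at hN hN'
  unfold Nat.ModEq at c1 c2
  rcases he with rfl | rfl <;> rcases he' with rfl | rfl <;> omega

end Three

end H17.GTwoThree
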