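import Cfsg.Agent.Lib.H17.GTwo3

set_option autoImplicit false
set_option linter.unusedSectionVars false

/-! Element orders of `G2` over the field with three elements. -/

namespace H17.GTwoFour

open Cfsg.Lie Matrix H24.ReeBlk H24.ReeAd H24.ReeAl H24.ReeGood H24.ReePts H24.ReeGrp H24.ReeAmb
  Module H46.SForm H46.SForm.SForm H17.GTwo H17.GTwoThree

variable {K : Type*} [Field K]

/-- the form -/
def fB (K : Type*) [Field K] : SForm K (Fin 7 → K) (RingHom.id K) where
  B := Bf
  add_left := fun a b c => by simp only [Bf, Pi.add_apply]; ring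
  add_right := fun a b c => by simp only [Bf, Pi.add_apply]; ring
  smul_left := fun c a b => by simp only [Bf, Pi.smul_apply, smul_eq_mul]; ring
  smul_right := fun c a b => by simp only [Bf, Pi.smul_apply, smul_eq_mul, RingHom.id_apply]; ring

theorem fB_sym : (fB K).Sym 1 := by
  intro a b
  rw [RingHom.id_apply, one_mul]
  change Bf b a = Bf a b
  unfold Bf
  ring

theorem fB_nd (h2 : (2 : K) ≠ 0) : (fB K).ND := by
  intro a ha
  have h : ∀ i, Bf a (Pi.single i 1) = 0 := fun i => ha _
  have h0 := h 0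
  have h1 := h 1
  have h2' := h 2
  have h3 := h 3
  have h4 := h 4
  have h5 := h 5
  have h6 := h 6
  simp [Bf] at h0 h1 h2' h3 h4 h5 h6
  funext i
  fin_cases i
  · exact h6
  · exact h5
  · exact h4
  · exact h3.resolve_left h2
  · exact h2'
  · exact h1
  · exact h0

/-- the representation -/
noncomputable def rho (K : Type*) [Field K] [CharP K 3] : chevG2.group K →* (Module.End K (Fin 7 → K))ˣ :=
  MonoidHom.toHomUnits
    { toFun := fun g => Matrix.toLin' (Ag (g : GL chevG2.Idx K))
      map_one' := by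
        rw [OneMemClass.coe_one, Ag_one, Matrix.toLin'_one]
        rfl
      map_mul' := fun a b => by
        rw [Subgroup.coe_mul, Ag_mul (mem_group a.2).1 (mem_group b.2).1, Matrix.toLin'_mul]
        rfl }

theorem rho_coe [CharP K 3] (g : chevG2.group K) :
    (rho K g : Module.End K (Fin 7 → K)) = Matrix.toLin' (Ag (g : GL chevG2.Idx K)) := rfl

theorem rho_apply [CharP K 3] (g : chevG2.group K) (v : Fin 7 → K) :
    (rho K g : Module.End K (Fin 7 → K)) v = Ag (g : GL chevG2.Idx K) *ᵥ v := rfl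

theorem rho_inj [CharP K 3] : Function.Injective (rho K) := by
  intro a b h
  apply Subtype.ext
  apply Ag_inj (mem_group a.2).1 (mem_group b.2).1
  apply Matrix.toLin'.injective
  rw [← rho_coe, ← rho_coe, h]

theorem rho_isom [CharP K 3] (g : chevG2.group K) : (fB K).Isom (rho K g) := by
  intro v w
  rw [rho_apply, rho_apply]
  exact (mem_group g.2).2.1 v w

theorem rho_det [CharP K 3] (g : chevG2.group K) :
    LinearMap.det (rho K g : Module.End K (Fin 7 → K)) = 1 := by
  rw [rho_coe, LinearMap.det_toLin']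
  exact (mem_group g.2).2.2

theorem rho_order [CharP K 3] (g : chevG2.group K) : orderOf (rho K g) = orderOf g :=
  orderOf_injective _ rho_inj g

variable [Finite K] [CharP K 3]

theorem setup (h3 : Nat.card K = 3) (x : chevG2.group K) {r : ℕ} (hr : r = 7 ∨ r = 13)
    (hx : orderOf x = r) : Setup (fB K) (rho K x) r where
  h3 := h3
  h2 := by
    have h3 : (3 : K) = 0 := by exact_mod_cast CharP.cast_eq_zero K 3
    intro h
    exact one_ne_zero (show (1 : K) = 0 by linear_combination h3 - h)
  hs := fB_sym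
  hnd := by
    apply fB_nd
    have h3 : (3 : K) = 0 := by exact_mod_cast CharP.cast_eq_zero K 3
    intro h
    exact one_ne_zero (show (1 : K) = 0 by linear_combination h3 - h)
  hd := by simp
  hx := rho_isom x
  hr := hr
  ho := by rw [rho_order]; exact hx

theorem no_three (h3 : Nat.card K = 3) {x y : chevG2.group K} {r : ℕ} (hr : r = 7 ∨ r = 13)
    (hx : orderOf x = r) (hc : Commute y x) (hy : y ^ 3 = 1) : y = 1 := by
  apply rho_inj
  rw [map_one]
  exact (setup h3 x hr hx).no_three (rho_isom y) (hc.map (rho K)) (by rw [← map_pow, hy, map_one])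

theorem no_two (h3 : Nat.card K = 3) {x y : chevG2.group K} {r : ℕ} (hr : r = 7 ∨ r = 13)
    (hx : orderOf x = r) (hc : Commute y x) (hy : y ^ 2 = 1) : y = 1 := by
  by_contra hne
  have S := setup h3 x hr hx
  obtain ⟨v, hv⟩ := S.two (rho_isom y) (hc.map (rho K)) (by rw [← map_pow, hy, map_one])
    (rho_det y) (fun h => hne (rho_inj (by rw [h, map_one])))
  apply no_bad S.h2 (A := Ag (y : GL chevG2.Idx K)) (bracket (mem_group y.2).1) ?_ v hv
  rw [← Ag_mul (mem_group y.2).1 (mem_group y.2).1, ← Subgroup.coe_mul, ← pow_two, hy,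
    OneMemClass.coe_one, Ag_one]

theorem no_mixed (h3 : Nat.card K = 3) {x y : chevG2.group K} (hx : orderOf x = 7)
    (hy : orderOf y = 13) (hc : Commute y x) : False :=
  GTwoThree.no_mixed (setup h3 x (Or.inl rfl) hx) (setup h3 y (Or.inr rfl) hy) (hc.map (rho K))

/-- the possible orders -/
theorem order_eq (h3 : Nat.card K = 3) {r s : ℕ} (hr : r = 2 ∨ r = 3 ∨ r = 7 ∨ r = 13)
    (hs : s = 2 ∨ s = 3 ∨ s = 7 ∨ s = 13) (hne : r ≠ s) (g : chevG2.group K) (hg : orderOf g = r * s) :
    r * s = 6 := by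
  have key : ∀ {a b : ℕ}, a ≠ 0 → b ≠ 0 → orderOf g = a * b → orderOf (g ^ b) = a ∧ orderOf (g ^ a) = b := by
    intro a b ha hb h
    constructor
    · rw [orderOf_pow_of_dvd hb (by rw [h]; exact dvd_mul_left _ _), h, Nat.mul_div_cancel _ (Nat.pos_of_ne_zero hb)]
    · rw [orderOf_pow_of_dvd ha (by rw [h]; exact dvd_mul_right _ _), h, Nat.mul_div_cancel_left _ (Nat.pos_of_ne_zero ha)]
  have hcom : ∀ a b : ℕ, Commute (g ^ a) (g ^ b) := fun a b => (Commute.refl g).pow_pow a b
  have hbad : ∀ {a b : ℕ}, (a = 7 ∨ a = 13) → (b = 2 ∨ b = 3) → orderOf g = a * b → False := by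
    intro a b ha hb h
    obtain ⟨k1, k2⟩ := key (by omega) (by omega) h
    have h5 : g ^ a = 1 := by
      rcases hb with rfl | rfl
      · exact no_two h3 ha k1 (hcom _ _) (by rw [← k2]; exact pow_orderOf_eq_one _)
      · exact no_three h3 ha k1 (hcom _ _) (by rw [← k2]; exact pow_orderOf_eq_one _)
    rw [h5, orderOf_one] at k2
    omega
  have hbad2 : orderOf g = 7 * 13 → False := by
    intro h
    obtain ⟨k1, k2⟩ := key (by norm_num) (by norm_num) h
    exact no_mixed h3 k1 k2 (hcom _ _)
  rcases hr with rfl | rfl | rfl | rfl <;> rcases hs with rfl | rfl | rfl | rfl <;>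
    first
    | rfl
    | exact absurd rfl hne
    | exact (hbad (Or.inl rfl) (Or.inl rfl) hg).elim
    | exact (hbad (Or.inl rfl) (Or.inr rfl) hg).elim
    | exact (hbad (Or.inr rfl) (Or.inl rfl) hg).elim
    | exact (hbad (Or.inr rfl) (Or.inr rfl) hg).elim
    | exact (hbad (Or.inl rfl) (Or.inl rfl) (hg.trans (mul_comm _ _))).elim
    | exact (hbad (Or.inl rfl) (Or.inr rfl) (hg.trans (mul_comm _ _))).elim
    | exact (hbad (Or.inr rfl) (Or.inl rfl) (hg.trans (mul_comm _ _))).elim
    | exact (hbad (Or.inr rfl) (Or.inr rfl) (hg.trans (mul_comm _ _))).elim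
    | exact (hbad2 hg).elim
    | exact (hbad2 (hg.trans (mul_comm _ _))).elim

end H17.GTwoFour
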