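import Mathlib
import Cfsg.Prelude
import Cfsg.Agent.Lib.H18.CharInd
import Cfsg.Agent.Lib.H18.CharQuot
import Cfsg.Agent.Lib.H82.Deg
import Cfsg.Agent.Lib.H5.BurnsideZero
import Cfsg.Agent.Lib.H4.Defect

set_option autoImplicit false
set_option linter.unusedSectionVars false

/-! Groups with the irreducible character degrees of `PSL₂(q)`, `q ≡ 1 mod 4`: values of the
character of degree `q` and centralizer orders. -/

namespace H17.PD

open Cfsg H18.CharBasic H18.CharOrtho H18.CharInd H82.Deg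

universe u

/-- degree data: `u = q - 1`, `m = (q + 1) / 2` odd -/
structure Dat (G : Type u) [Group G] (q u m : ℕ) (St : IrrCharacter G) : Prop where
  hq : q = u + 1
  hm : 2 * m = u + 2
  odd : Odd m
  big : 8 ≤ u
  card : Nat.card G = q * u * m
  deg : ∀ χ : IrrCharacter G, charDegree (χ : G → ℂ) = 1 ∨ charDegree (χ : G → ℂ) = q ∨
    charDegree (χ : G → ℂ) = 2 * m ∨ charDegree (χ : G → ℂ) = u ∨ charDegree (χ : G → ℂ) = m
  one : ∀ χ : IrrCharacter G, charDegree (χ : G → ℂ) = 1 → (χ : G → ℂ) = fun _ => 1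
  st : charDegree (St : G → ℂ) = q
  uniq : ∀ χ : IrrCharacter G, charDegree (χ : G → ℂ) = q → χ = St

variable {G : Type u} [Group G] [Finite G] {q u m : ℕ} {St : IrrCharacter G}

/-- the trivial character -/
def o (G : Type u) [Group G] : IrrCharacter G := ⟨fun _ => 1, isIrrCharacter_one⟩

theorem o_apply (x : G) : (o G : G → ℂ) x = 1 := rfl

theorem Dat.o_ne (D : Dat G q u m St) : o G ≠ St := by
  intro h
  have h1 := D.st
  rw [← h, charDegree_eq_of (n := 1) (by rw [o_apply]; simp)] at h1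
  have := D.hq
  have := D.big
  omega

theorem Dat.cqu (D : Dat G q u m St) : Nat.Coprime q u := by
  rw [D.hq]; simp

theorem Dat.cqm (D : Dat G q u m St) : Nat.Coprime q m := by
  rw [Nat.Coprime, ← Nat.dvd_one]
  have h1 : Nat.gcd q m ∣ 2 * m := (Nat.gcd_dvd_right q m).mul_left 2
  have h2 : Nat.gcd q m ∣ q := Nat.gcd_dvd_left q m
  have h3 := Nat.dvd_sub h1 h2
  rwa [show 2 * m - q = 1 by have := D.hq; have := D.hm; omega] at h3

theorem Dat.cum (D : Dat G q u m St) : Nat.Coprime u m := by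
  apply Nat.coprime_of_dvd
  intro r hr h1 h2
  have h3 := Nat.dvd_sub (h2.mul_left 2) h1
  rw [show 2 * m - u = 2 by have := D.hm; omega] at h3
  have h4 : r = 2 := (Nat.prime_dvd_prime_iff_eq hr Nat.prime_two).mp h3
  rw [h4] at h2
  exact absurd D.odd (Nat.not_odd_iff_even.mpr ((even_iff_two_dvd).mpr h2))

/-- the character of degree `q` is integer valued -/
theorem Dat.int (D : Dat G q u m St) (x : G) : ∃ n : ℤ, (n : ℂ) = (St : G → ℂ) x := by
  apply H5.BurnsideZero.int_of_fixed (char_isIntegral (isCharacter_of_isIrr St.2) x)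
  intro σ
  have h1 := H18.CharQuot.isIrrCharacter_ringHom (σ : ℂ →+* ℂ) St.2
  have h2 : (⟨_, h1⟩ : IrrCharacter G) = St := by
    apply D.uniq
    apply charDegree_eq_of
    change (σ : ℂ →+* ℂ) ((St : G → ℂ) 1) = _
    rw [← coe_charDegree' St, D.st]
    simp
  exact congrFun (congrArg Subtype.val h2) x

theorem isIntegral_natCast' (n : ℕ) : IsIntegral ℤ (n : ℂ) := by
  have := (isIntegral_algebraMap (R := ℤ) (A := ℂ) (x := (n : ℤ)))
  simpa using this

/-- the divisibility obtained from column orthogonality -/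
theorem Dat.dvd (D : Dat G q u m St) {x : G} (hx : x ≠ 1) {s : ℤ} (hs : (s : ℂ) = (St : G → ℂ) x)
    (M : ℕ) (hM : ∀ χ : IrrCharacter G, χ ≠ o G → χ ≠ St →
      (χ : G → ℂ) x = 0 ∨ M ∣ charDegree (χ : G → ℂ)) : (M : ℤ) ∣ 1 + q * s := by
  classical
  have := Fintype.ofFinite (IrrCharacter G)
  have hnc : ¬ IsConj x 1 := fun h => hx (isConj_one_right.mp h.symm)
  have h1 := column_of_not_isConj hnc
  rw [finsum_eq_sum_of_fintype, ← Finset.sum_sdiff (Finset.subset_univ ({o G, St} : Finset (IrrCharacter G))),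
    Finset.sum_pair D.o_ne] at h1
  have hΨ : ∃ Ψ : ℂ, IsIntegral ℤ Ψ ∧ ∑ χ ∈ Finset.univ \ ({o G, St} : Finset (IrrCharacter G)),
      (χ : G → ℂ) x * (starRingEnd ℂ) ((χ : G → ℂ) 1) = M * Ψ := by
    have : ∀ χ ∈ Finset.univ \ ({o G, St} : Finset (IrrCharacter G)), ∃ c : ℂ, IsIntegral ℤ c ∧
        (χ : G → ℂ) x * (starRingEnd ℂ) ((χ : G → ℂ) 1) = M * c := by
      intro χ hχ
      rw [Finset.mem_sdiff, Finset.mem_insert, Finset.mem_singleton] at hχ
      rcases hM χ (fun h => hχ.2 (Or.inl h)) (fun h => hχ.2 (Or.inr h)) with h | ⟨d, hd⟩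
      · exact ⟨0, isIntegral_zero, by rw [h]; ring⟩
      · refine ⟨(χ : G → ℂ) x * d, (char_isIntegral (isCharacter_of_isIrr χ.2) x).mul
          (isIntegral_natCast' d), ?_⟩
        rw [← coe_charDegree' χ, hd]
        push_cast
        simp
        ring
    choose! c hc1 hc2 using this
    refine ⟨∑ χ ∈ Finset.univ \ ({o G, St} : Finset (IrrCharacter G)), c χ, IsIntegral.sum _ hc1, ?_⟩
    rw [Finset.mul_sum]
    exact Finset.sum_congr rfl hc2
  obtain ⟨Ψ, hΨ1, hΨ2⟩ := hΨ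
  rw [hΨ2, o_apply, o_apply, ← hs, ← coe_charDegree' St, D.st] at h1
  simp only [map_one, mul_one, Complex.conj_natCast] at h1
  by_cases hM0 : M = 0
  · subst hM0
    have h2 : ((1 + q * s : ℤ) : ℂ) = ((0 : ℤ) : ℂ) := by
      push_cast
      linear_combination h1
    have h3 : (1 + q * s : ℤ) = 0 := by exact_mod_cast h2
    rw [h3]
    exact dvd_zero _
  · have hM' : (M : ℂ) ≠ 0 := Nat.cast_ne_zero.mpr hM0
    have h2 : Ψ = (((-(1 + q * s) : ℤ) / (M : ℤ) : ℚ) : ℂ) := by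
      push_cast
      field_simp
      linear_combination h1
    rw [h2] at hΨ1
    obtain ⟨n, hn⟩ := H4.Integral.exists_int_of_isIntegral_rat hΨ1
    have hM'' : ((M : ℤ) : ℚ) ≠ 0 := by exact_mod_cast hM0
    rw [div_eq_iff hM''] at hn
    refine ⟨-n, ?_⟩
    have h3 : (-(1 + q * s) : ℤ) = n * M := by exact_mod_cast hn
    linear_combination -h3

theorem Dat.vanish (D : Dat G q u m St) (χ : IrrCharacter G) {r c : ℕ} (hr : r.Prime)
    (hc : Nat.card G = c * charDegree (χ : G → ℂ)) (hcop : Nat.Coprime c r) {x : G} (hx : r ∣ orderOf x) :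
    (χ : G → ℂ) x = 0 := by
  haveI : Fact r.Prime := ⟨hr⟩
  exact H4.Defect.vanish χ.2 r (m := c) (by rw [hc, ← coe_charDegree' χ]; push_cast; ring) hcop hx

theorem ne_one_of_dvd {x : G} {r : ℕ} (hr : r.Prime) (h : r ∣ orderOf x) : x ≠ 1 := by
  rintro rfl
  rw [orderOf_one] at h
  exact hr.one_lt.ne' (Nat.dvd_one.mp h)

/-- elements of order divisible by a prime divisor of `q` -/
theorem Dat.valP (D : Dat G q u m St) {r : ℕ} (hr : r.Prime) (h : r ∣ q) {x : G} (hx : r ∣ orderOf x) :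
    (St : G → ℂ) x = 0 := by
  apply D.vanish St hr (c := u * m) ?_ ?_ hx
  · rw [D.card, D.st]; ring
  · exact (Nat.Coprime.mul_left D.cqu.symm D.cqm.symm).coprime_dvd_right h

theorem Dat.vanU (D : Dat G q u m St) {r : ℕ} (hr : r.Prime) (h : r ∣ u) {x : G} (hx : r ∣ orderOf x)
    (χ : IrrCharacter G) (h1 : χ ≠ o G) (h2 : χ ≠ St) : (χ : G → ℂ) x = 0 ∨ m ∣ charDegree (χ : G → ℂ) := by
  rcases D.deg χ with h3 | h3 | h3 | h3 | h3
  · exact absurd (Subtype.ext (D.one χ h3)) h1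
  · exact absurd (D.uniq χ h3) h2
  · right; rw [h3]; exact dvd_mul_left _ _
  · left
    apply D.vanish χ hr (c := q * m) ?_ ?_ hx
    · rw [D.card, h3]; ring
    · exact (Nat.Coprime.mul_left D.cqu D.cum.symm).coprime_dvd_right h
  · right; rw [h3]

theorem Dat.vanM (D : Dat G q u m St) {r : ℕ} (hr : r.Prime) (h : r ∣ m) {x : G} (hx : r ∣ orderOf x)
    (χ : IrrCharacter G) (h1 : χ ≠ o G) (h2 : χ ≠ St) : (χ : G → ℂ) x = 0 ∨ u ∣ charDegree (χ : G → ℂ) := by
  rcases D.deg χ with h3 | h3 | h3 | h3 | h3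
  · exact absurd (Subtype.ext (D.one χ h3)) h1
  · exact absurd (D.uniq χ h3) h2
  · left
    obtain ⟨k, hk⟩ : ∃ k, u = 2 * k := ⟨m - 1, by have := D.hm; omega⟩
    apply D.vanish χ hr (c := q * k) ?_ ?_ hx
    · rw [D.card, h3, hk]; ring
    · refine (Nat.Coprime.mul_left D.cqm ?_).coprime_dvd_right h
      exact D.cum.coprime_dvd_left (by rw [hk]; exact dvd_mul_left _ _)
  · right; rw [h3]
  · left
    apply D.vanish χ hr (c := q * u) ?_ ?_ hx
    · rw [D.card, h3]
    · exact (Nat.Coprime.mul_left D.cqm D.cum).coprime_dvd_right h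

/-- the three kinds of primes do not mix -/
theorem Dat.notUM (D : Dat G q u m St) {r l : ℕ} (hr : r.Prime) (hl : l.Prime) (h : r ∣ u) (h' : l ∣ m)
    {x : G} (hx : r ∣ orderOf x) (hx' : l ∣ orderOf x) : False := by
  obtain ⟨s, hs⟩ := D.int x
  have h1 := D.dvd (ne_one_of_dvd hr hx) hs 0 (by
    intro χ h1 h2
    left
    rcases D.vanU hr h hx χ h1 h2 with h3 | h3
    · exact h3
    · rcases D.vanM hl h' hx' χ h1 h2 with h4 | h4
      · exact h4
      · exfalso
        have h5 := D.cum.mul_dvd_of_dvd_of_dvd h4 h3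
        have h6 := Nat.le_of_dvd (charDegree_pos χ) h5
        have h7 := D.hm
        have h8 := D.big
        have h9 := D.hq
        have h10 : m * 8 ≤ u * m := by nlinarith
        rcases D.deg χ with h | h | h | h | h <;> rw [h] at h6 <;> omega)
  have h2 : (1 + q * s : ℤ) = 0 := by simpa using h1
  have h3 : (q : ℤ) ∣ 1 := ⟨-s, by linear_combination h2⟩
  have h4 : q ∣ 1 := by exact_mod_cast h3
  have h5 := Nat.dvd_one.mp h4
  have := D.hq
  have := D.big
  omega

theorem Dat.notPM (D : Dat G q u m St) {r l : ℕ} (hr : r.Prime) (hl : l.Prime) (h : r ∣ q) (h' : l ∣ m)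
    {x : G} (hx : r ∣ orderOf x) (hx' : l ∣ orderOf x) : False := by
  have h1 := D.dvd (ne_one_of_dvd hr hx) (s := 0) (by rw [D.valP hr h hx]; simp) u
    (D.vanM hl h' hx')
  rw [mul_zero, add_zero] at h1
  have h4 : u ∣ 1 := by exact_mod_cast h1
  have h5 := Nat.dvd_one.mp h4
  have := D.big
  omega

theorem Dat.notPU (D : Dat G q u m St) {r l : ℕ} (hr : r.Prime) (hl : l.Prime) (h : r ∣ q) (h' : l ∣ u)
    {x : G} (hx : r ∣ orderOf x) (hx' : l ∣ orderOf x) : False := by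
  have h1 := D.dvd (ne_one_of_dvd hr hx) (s := 0) (by rw [D.valP hr h hx]; simp) m
    (D.vanU hl h' hx')
  rw [mul_zero, add_zero] at h1
  have h4 : m ∣ 1 := by exact_mod_cast h1
  have h5 := Nat.dvd_one.mp h4
  have := D.big
  have := D.hm
  omega

/-- centralizer orders -/
theorem card_centralizer_dvd {a b : ℕ} (hab : Nat.card G = a * b)
    (hex : ∀ (z : G) (r l : ℕ), r.Prime → l.Prime → r ∣ a → l ∣ b → r ∣ orderOf z → l ∣ orderOf z → False)
    {x : G} {r : ℕ} (hr : r.Prime) (hra : r ∣ a) (hx : r ∣ orderOf x) :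
    Nat.card (Subgroup.centralizer ({x} : Set G)) ∣ a := by
  have h1 : Nat.card (Subgroup.centralizer ({x} : Set G)) ∣ a * b := by
    rw [← hab]; exact Subgroup.card_subgroup_dvd_card _
  apply Nat.Coprime.dvd_of_dvd_mul_right ?_ h1
  apply Nat.coprime_of_dvd
  intro l hl h2 h3
  haveI : Fact l.Prime := ⟨hl⟩
  obtain ⟨y, hy⟩ := exists_prime_orderOf_dvd_card' l h2
  have hyo : orderOf (y : G) = l := by rw [Subgroup.orderOf_coe, hy]
  have hcxy : Commute x y := (Subgroup.mem_centralizer_singleton_iff.mp y.2).symm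
  by_cases hrl : r = l
  · subst hrl
    exact hex x r r hr hr hra h3 hx hx
  · have hox : orderOf x ≠ 0 := (isOfFinOrder_of_finite x).orderOf_pos.ne'
    set k := orderOf x / r with hk
    have hkr : k * r = orderOf x := Nat.div_mul_cancel hx
    have hk0 : k ≠ 0 := by rintro h; rw [h, zero_mul] at hkr; exact hox hkr.symm
    have hxk : orderOf (x ^ k) = r := by
      rw [orderOf_pow_of_dvd hk0 ⟨r, hkr.symm⟩, ← hkr, Nat.mul_div_cancel_left _ (Nat.pos_of_ne_zero hk0)]
    have hc : Commute (x ^ k) (y : G) := hcxy.pow_left k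
    have hcop : Nat.Coprime (orderOf (x ^ k)) (orderOf (y : G)) := by
      rw [hxk, hyo]; exact (Nat.coprime_primes hr hl).mpr hrl
    have ho := hc.orderOf_mul_eq_mul_orderOf_of_coprime hcop
    rw [hxk, hyo] at ho
    exact hex (x ^ k * y) r l hr hl hra h3 (by rw [ho]; exact dvd_mul_right _ _)
      (by rw [ho]; exact dvd_mul_left _ _)

/-- the bound for the value -/
theorem Dat.bound (D : Dat G q u m St) {x : G} {s : ℤ} (hs : (s : ℂ) = (St : G → ℂ) x) :
    1 + s ^ 2 ≤ (Nat.card (Subgroup.centralizer ({x} : Set G)) : ℤ) := by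
  classical
  have := Fintype.ofFinite (IrrCharacter G)
  have h1 := column_of_isConj (IsConj.refl x)
  rw [finsum_eq_sum_of_fintype] at h1
  have h2 : ((∑ χ : IrrCharacter G, ‖(χ : G → ℂ) x‖ ^ 2 : ℝ) : ℂ) =
      ((Nat.card (Subgroup.centralizer ({x} : Set G)) : ℝ) : ℂ) := by
    push_cast
    rw [← h1]
    refine Finset.sum_congr rfl fun χ _ => ?_
    rw [Complex.mul_conj, Complex.normSq_eq_norm_sq]
    push_cast
    rfl
  have h3 : (∑ χ : IrrCharacter G, ‖(χ : G → ℂ) x‖ ^ 2 : ℝ) =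
      (Nat.card (Subgroup.centralizer ({x} : Set G)) : ℝ) := by exact_mod_cast h2
  have h4 : ∑ χ ∈ ({o G, St} : Finset (IrrCharacter G)), ‖(χ : G → ℂ) x‖ ^ 2 ≤
      ∑ χ : IrrCharacter G, ‖(χ : G → ℂ) x‖ ^ 2 :=
    Finset.sum_le_sum_of_subset_of_nonneg (Finset.subset_univ _) (fun _ _ _ => by positivity)
  rw [Finset.sum_pair D.o_ne, h3, o_apply, ← hs, norm_one, one_pow, Complex.norm_intCast, sq_abs] at h4
  exact_mod_cast h4

theorem Dat.valM (D : Dat G q u m St) {r : ℕ} (hr : r.Prime) (h : r ∣ m) {x : G} (hx : r ∣ orderOf x) :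
    (St : G → ℂ) x = -1 := by
  obtain ⟨s, hs⟩ := D.int x
  have h1 := D.dvd (ne_one_of_dvd hr hx) hs u (D.vanM hr h hx)
  have h2 := D.bound hs
  have h3 : Nat.card (Subgroup.centralizer ({x} : Set G)) ∣ m := by
    apply card_centralizer_dvd (b := q * u) (by rw [D.card]; ring) ?_ hr h hx
    intro z r' l hr' hl h4 h5 h6 h7
    rcases (Nat.Prime.dvd_mul hl).mp h5 with h5 | h5
    · exact D.notPM hl hr' h5 h4 h7 h6
    · exact D.notUM hl hr' h5 h4 h7 h6
  have hm0 : 0 < m := by have := D.hm; omega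
  have h4 : (Nat.card (Subgroup.centralizer ({x} : Set G)) : ℤ) ≤ m := by
    exact_mod_cast Nat.le_of_dvd hm0 h3
  have e1 : (q : ℤ) = u + 1 := by exact_mod_cast D.hq
  have e2 : 2 * (m : ℤ) = u + 2 := by exact_mod_cast D.hm
  have e3 : (8 : ℤ) ≤ u := by exact_mod_cast D.big
  have h5 : (u : ℤ) ∣ 1 + s := by
    have : (1 + s : ℤ) = (1 + q * s) - u * s := by rw [e1]; ring
    rw [this]
    exact dvd_sub h1 (dvd_mul_right _ _)
  have h6 : |1 + s| < (u : ℤ) := by
    rw [abs_lt]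
    constructor <;> nlinarith
  have h7 := Int.eq_zero_of_abs_lt_dvd h5 h6
  have : s = -1 := by omega
  rw [← hs, this]
  simp

theorem Dat.valU (D : Dat G q u m St) {r : ℕ} (hr : r.Prime) (h : r ∣ u) {x : G} (hx : r ∣ orderOf x) :
    (St : G → ℂ) x = 1 := by
  obtain ⟨s, hs⟩ := D.int x
  have h1 := D.dvd (ne_one_of_dvd hr hx) hs m (D.vanU hr h hx)
  have h2 := D.bound hs
  have h3 : Nat.card (Subgroup.centralizer ({x} : Set G)) ∣ u := by
    apply card_centralizer_dvd (b := q * m) (by rw [D.card]; ring) ?_ hr h hx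
    intro z r' l hr' hl h4 h5 h6 h7
    rcases (Nat.Prime.dvd_mul hl).mp h5 with h5 | h5
    · exact D.notPU hl hr' h5 h4 h7 h6
    · exact D.notUM hr' hl h4 h5 h6 h7
  have hu0 : 0 < u := by have := D.big; omega
  have h4 : (Nat.card (Subgroup.centralizer ({x} : Set G)) : ℤ) ≤ u := by
    exact_mod_cast Nat.le_of_dvd hu0 h3
  have e1 : (q : ℤ) = u + 1 := by exact_mod_cast D.hq
  have e2 : 2 * (m : ℤ) = u + 2 := by exact_mod_cast D.hm
  have e3 : (8 : ℤ) ≤ u := by exact_mod_cast D.big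
  have h5 : (m : ℤ) ∣ 1 - s := by
    have : (1 - s : ℤ) = (1 + q * s) - m * (2 * s) := by linear_combination (-s) * e1 + s * e2
    rw [this]
    exact dvd_sub h1 (dvd_mul_right _ _)
  have h6 : |1 - s| < (m : ℤ) := by
    rw [abs_lt]
    constructor <;> nlinarith
  have h7 := Int.eq_zero_of_abs_lt_dvd h5 h6
  have : s = 1 := by omega
  rw [← hs, this]
  simp

/-- number of elements -/
theorem Dat.count (D : Dat G q u m St) :
    Nat.card {x : G // x ≠ 1 ∧ ∃ r, r.Prime ∧ r ∣ q ∧ r ∣ orderOf x} = q ^ 2 - 1 := by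
  classical
  have := Fintype.ofFinite G
  have h1 := inner_irr_self St.2
  rw [inner_self_eq_sum] at h1
  have hval : ∀ x : G, ‖(St : G → ℂ) x‖ ^ 2 = if x = 1 then (q : ℝ) ^ 2 else
      if (∃ r, r.Prime ∧ r ∣ q ∧ r ∣ orderOf x) then 0 else 1 := by
    intro x
    by_cases hx : x = 1
    · rw [if_pos hx, hx, ← coe_charDegree' St, D.st, Complex.norm_natCast]
    · rw [if_neg hx]
      by_cases h : ∃ r, r.Prime ∧ r ∣ q ∧ r ∣ orderOf x
      · rw [if_pos h]
        obtain ⟨r, hr, h2, h3⟩ := h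
        rw [D.valP hr h2 h3]
        simp
      · rw [if_neg h]
        obtain ⟨r, hr, hrx⟩ := Nat.exists_prime_and_dvd (n := orderOf x) (by
          rw [Ne, orderOf_eq_one_iff]; exact hx)
        have h4 : r ∣ q * u * m := by rw [← D.card]; exact hrx.trans (orderOf_dvd_natCard x)
        rcases (Nat.Prime.dvd_mul hr).mp h4 with h4 | h4
        · rcases (Nat.Prime.dvd_mul hr).mp h4 with h4 | h4
          · exact absurd ⟨r, hr, h4, hrx⟩ h
          · rw [D.valU hr h4 hrx]; simp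
        · rw [D.valM hr h4 hrx]; simp
  have hsum : ∑ x : G, ‖(St : G → ℂ) x‖ ^ 2 = (Nat.card G : ℝ) := by
    have h0 : (Nat.card G : ℝ) ≠ 0 := Nat.cast_ne_zero.mpr Nat.card_pos.ne'
    have h2 : ((Nat.card G : ℝ))⁻¹ * ∑ g : G, ‖(St : G → ℂ) g‖ ^ 2 = 1 := by exact_mod_cast h1
    field_simp at h2
    linear_combination h2
  rw [Finset.sum_congr rfl (fun x _ => hval x)] at hsum
  rw [← Finset.add_sum_erase _ _ (Finset.mem_univ (1 : G)), if_pos rfl] at hsum
  have h3 : ∑ x ∈ Finset.univ.erase (1 : G), (if x = 1 then (q : ℝ) ^ 2 else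
      if (∃ r, r.Prime ∧ r ∣ q ∧ r ∣ orderOf x) then 0 else 1) =
      ((Finset.univ.erase (1 : G)).filter (fun x => ¬ ∃ r, r.Prime ∧ r ∣ q ∧ r ∣ orderOf x)).card := by
    rw [Finset.card_filter]
    push_cast
    apply Finset.sum_congr rfl
    intro x hx
    rw [if_neg (Finset.ne_of_mem_erase hx)]
    by_cases h : ∃ r, r.Prime ∧ r ∣ q ∧ r ∣ orderOf x
    · rw [if_pos h, if_neg (not_not.mpr h)]
    · rw [if_neg h, if_pos h]
  rw [h3] at hsum
  have h4 := Finset.card_filter_add_card_filter_not (s := Finset.univ.erase (1 : G))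
    (fun x => ∃ r, r.Prime ∧ r ∣ q ∧ r ∣ orderOf x)
  rw [Finset.card_erase_of_mem (Finset.mem_univ _), Finset.card_univ] at h4
  have h5 : Nat.card {x : G // x ≠ 1 ∧ ∃ r, r.Prime ∧ r ∣ q ∧ r ∣ orderOf x} =
      ((Finset.univ.erase (1 : G)).filter (fun x => ∃ r, r.Prime ∧ r ∣ q ∧ r ∣ orderOf x)).card := by
    rw [Nat.card_eq_fintype_card, Fintype.card_subtype]
    congr 1
    ext x
    simp
  rw [h5]
  rw [Nat.card_eq_fintype_card] at hsum
  have h6 : q ^ 2 + ((Finset.univ.erase (1 : G)).filter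
      (fun x => ¬ ∃ r, r.Prime ∧ r ∣ q ∧ r ∣ orderOf x)).card = Fintype.card G := by
    exact_mod_cast hsum
  have h7 : 0 < Fintype.card G := Fintype.card_pos
  have h8 : 1 ≤ q ^ 2 := Nat.one_le_pow _ _ (by have := D.hq; omega)
  omega

end H17.PD
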