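import Cfsg.Agent.Lib.H17.PD1
import Cfsg.Agent.S0742

set_option autoImplicit false
set_option linter.unusedSectionVars false

/-! Groups with the irreducible character degrees of `PSL₂(p²)`, `p` odd: the Zassenhaus group. -/

namespace H17.PD

open Cfsg H18.CharBasic H18.CharOrtho H18.CharInd H82.Deg

universe u

variable {G : Type u} [Group G] [Finite G] {q u m : ℕ} {St : IrrCharacter G}
  (D : Dat G q u m St) {p : ℕ} [hp : Fact p.Prime] (hqp : q = p ^ 2)

include D hqp

theorem prime_q {r : ℕ} (hr : r.Prime) (h : r ∣ q) : r = p := by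
  rw [hqp] at h
  exact (Nat.prime_dvd_prime_iff_eq hr hp.out).mp (hr.dvd_of_dvd_pow h)

theorem card_sylow (P : Sylow p G) : Nat.card P = q := by
  have h1 := P.card_eq_multiplicity
  have h2 : Nat.Coprime p (u * m) := by
    have := Nat.Coprime.mul_left D.cqu.symm D.cqm.symm
    rw [hqp] at this
    exact (this.coprime_dvd_right (dvd_pow_self p two_ne_zero)).symm
  have h3 : (Nat.card G).factorization p = 2 := by
    rw [D.card, mul_assoc, hqp, Nat.factorization_mul (by have := hp.out.pos; positivity) (by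
      have := D.big
      have := D.hm
      exact Nat.mul_ne_zero (by omega) (by omega)), Finsupp.add_apply, hp.out.factorization_pow,
      Finsupp.single_eq_same, Nat.factorization_eq_zero_of_not_dvd, add_zero]
    intro h
    exact hp.out.one_lt.ne' (Nat.dvd_one.mp (h2 ▸ Nat.dvd_gcd dvd_rfl h))
  change Nat.card (P : Subgroup G) = q
  rw [hqp]
  change Nat.card P = _
  rw [h1, h3]

theorem card_cent {x : G} (hx : p ∣ orderOf x) : Nat.card (Subgroup.centralizer ({x} : Set G)) ∣ q := by
  apply card_centralizer_dvd (b := u * m) (by rw [D.card]; ring) ?_ hp.out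
    (by rw [hqp]; exact dvd_pow_self p two_ne_zero) hx
  intro z r' l hr' hl h4 h5 h6 h7
  rcases (Nat.Prime.dvd_mul hl).mp h5 with h5 | h5
  · exact D.notPU hr' hl h4 h5 h6 h7
  · exact D.notPM hr' hl h4 h5 h6 h7

omit D hqp in
theorem dvd_order {P : Sylow p G} {x : G} (hx : x ∈ P) (h1 : x ≠ 1) : p ∣ orderOf x := by
  obtain ⟨k, hk⟩ := P.2 ⟨x, hx⟩
  have h2 : x ^ p ^ k = 1 := congrArg Subtype.val hk
  obtain ⟨j, -, hj⟩ := (Nat.dvd_prime_pow hp.out).mp (orderOf_dvd_of_pow_eq_one h2)
  rw [hj]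
  apply dvd_pow_self
  rintro rfl
  rw [pow_zero, orderOf_eq_one_iff] at hj
  exact h1 hj

theorem cent {P : Sylow p G} {x : G} (hx : x ∈ P) (h1 : x ≠ 1) :
    Subgroup.centralizer ({x} : Set G) = (P : Subgroup G) := by
  have hP := card_sylow D hqp P
  have hc : IsMulCommutative P := IsPGroup.isMulCommutative_of_card_eq_prime_sq (hP.trans hqp)
  symm
  apply Subgroup.eq_of_le_of_card_ge
  · intro y hy
    rw [Subgroup.mem_centralizer_singleton_iff]
    have := hc.is_comm.comm ⟨y, hy⟩ ⟨x, hx⟩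
    exact congrArg Subtype.val this
  · have h2 := card_cent D hqp (dvd_order hx h1)
    have h3 : 0 < q := by have := D.hq; omega
    change _ ≤ Nat.card P
    rw [hP]
    exact Nat.le_of_dvd h3 h2

theorem ti {P Q : Sylow p G} {x : G} (hP : x ∈ P) (hQ : x ∈ Q) (h1 : x ≠ 1) : P = Q :=
  Sylow.ext (by rw [← cent D hqp hP h1, cent D hqp hQ h1])

theorem exists_sylow {x : G} (hx : p ∣ orderOf x) : ∃ P : Sylow p G, x ∈ P := by
  have h1 : ∃ k, orderOf x = p ^ k := by
    refine ⟨_, (Nat.eq_prime_pow_of_unique_prime_dvd (isOfFinOrder_of_finite x).orderOf_pos.ne' ?_)⟩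
    intro r hr hrx
    by_contra hne
    have h4 : r ∣ q * u * m := by rw [← D.card]; exact hrx.trans (orderOf_dvd_natCard x)
    have hpq : p ∣ q := by rw [hqp]; exact dvd_pow_self p two_ne_zero
    rcases (Nat.Prime.dvd_mul hr).mp h4 with h4 | h4
    · rcases (Nat.Prime.dvd_mul hr).mp h4 with h4 | h4
      · exact hne (prime_q D hqp hr h4)
      · exact D.notPU hp.out hr hpq h4 hx hrx
    · exact D.notPM hp.out hr hpq h4 hx hrx
  obtain ⟨k, hk⟩ := h1
  have h2 : IsPGroup p (Subgroup.zpowers x) := by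
    rw [IsPGroup.iff_card]
    exact ⟨k, by rw [Nat.card_zpowers, hk]⟩
  obtain ⟨P, hP⟩ := h2.exists_le_sylow
  exact ⟨P, hP (Subgroup.mem_zpowers x)⟩

theorem card_sylows : Nat.card (Sylow p G) = q + 1 := by
  classical
  have := Fintype.ofFinite (Sylow p G)
  have hpq : p ∣ q := by rw [hqp]; exact dvd_pow_self p two_ne_zero
  let e : (Σ P : Sylow p G, {x : P // x ≠ 1}) → {x : G // x ≠ 1 ∧ ∃ r, r.Prime ∧ r ∣ q ∧ r ∣ orderOf x} :=
    fun a => ⟨a.2.1, fun h => a.2.2 (Subtype.ext h), p, hp.out, hpq,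
      dvd_order a.2.1.2 (fun h => a.2.2 (Subtype.ext h))⟩
  have he : Function.Bijective e := by
    constructor
    · rintro ⟨P, ⟨x, hx⟩, h1⟩ ⟨Q, ⟨y, hy⟩, h2⟩ h
      have hxy : x = y := congrArg Subtype.val h
      subst hxy
      have hPQ : P = Q := ti D hqp hx hy (fun h => h1 (Subtype.ext h))
      subst hPQ
      rfl
    · rintro ⟨x, h1, r, hr, hrq, hrx⟩
      have := prime_q D hqp hr hrq
      subst this
      obtain ⟨P, hP⟩ := exists_sylow D hqp hrx
      exact ⟨⟨P, ⟨x, hP⟩, fun h => h1 (congrArg Subtype.val h)⟩, rfl⟩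
  have h1 := Nat.card_congr (Equiv.ofBijective e he)
  rw [D.count, Nat.card_sigma] at h1
  have h2 : ∀ P : Sylow p G, Nat.card {x : P // x ≠ 1} = q - 1 := by
    intro P
    have := Fintype.ofFinite P
    rw [Nat.card_eq_fintype_card, Fintype.card_subtype,
      Finset.filter_ne', Finset.card_erase_of_mem (Finset.mem_univ _), Finset.card_univ,
      ← Nat.card_eq_fintype_card]
    exact congrArg (· - 1) (card_sylow D hqp P)
  rw [Finset.sum_congr rfl (fun P _ => h2 P), Finset.sum_const, Finset.card_univ, smul_eq_mul,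
    ← Nat.card_eq_fintype_card] at h1
  have h3 : q ^ 2 - 1 = (q + 1) * (q - 1) := by
    have := Nat.sq_sub_sq q 1
    simpa using this
  rw [h3] at h1
  have h4 : 0 < q - 1 := by have := D.hq; have := D.big; omega
  exact Nat.eq_of_mul_eq_mul_right h4 h1

theorem fix_eq {P Q : Sylow p G} {x : G} (hx : x ∈ P) (h1 : x ≠ 1) (h : x • Q = Q) : P = Q := by
  rw [Sylow.smul_eq_iff_mem_normalizer] at h
  have h2 : x ∈ (P : Subgroup G) ⊓ Subgroup.normalizer (Q : Set G) := ⟨hx, h⟩
  rw [P.2.inf_normalizer_sylow] at h2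
  exact ti D hqp hx h2.2 h1

omit D hqp in
theorem fix_self {P : Sylow p G} {x : G} (hx : x ∈ P) : x • P = P :=
  Sylow.smul_eq_iff_mem_normalizer.mpr (Subgroup.le_normalizer hx)

theorem regular {P Q R : Sylow p G} (hQ : Q ≠ P) (hR : R ≠ P) : ∃ x ∈ P, x • Q = R := by
  classical
  let f : P → {R : Sylow p G // R ≠ P} := fun x => ⟨(x : G) • Q, fun h => hQ (by
    have h1 : (x : G) • Q = (x : G) • P := by rw [h, fix_self x.2]
    exact smul_left_cancel _ h1)⟩
  have hf : Function.Injective f := by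
    intro x y h
    have h1 : (x : G) • Q = (y : G) • Q := congrArg Subtype.val h
    by_contra hne
    apply hQ
    symm
    apply fix_eq D hqp (P := P) (x := ((x : G))⁻¹ * y) (mul_mem (inv_mem x.2) y.2)
    · intro h2
      exact hne (Subtype.ext (by rw [inv_mul_eq_one] at h2; exact h2))
    · rw [mul_smul, ← h1, inv_smul_smul]
  have hc : Nat.card P = Nat.card {R : Sylow p G // R ≠ P} := by
    have := Fintype.ofFinite (Sylow p G)
    rw [card_sylow D hqp P]
    have h1 : Nat.card {R : Sylow p G // R ≠ P} = Nat.card (Sylow p G) - 1 := by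
      rw [Nat.card_eq_fintype_card, Nat.card_eq_fintype_card, Fintype.card_subtype,
        Finset.filter_ne', Finset.card_erase_of_mem (Finset.mem_univ _), Finset.card_univ]
    rw [h1, card_sylows D hqp]
    rfl
  have hb := (Nat.bijective_iff_injective_and_card f).mpr ⟨hf, hc⟩
  obtain ⟨x, hx⟩ := hb.2 ⟨R, hR⟩
  exact ⟨x, x.2, congrArg Subtype.val hx⟩

theorem three {P Q R : Sylow p G} {g : G} (hPQ : P ≠ Q) (hQR : Q ≠ R) (hPR : P ≠ R) (h1 : g • P = P)
    (h2 : g • Q = Q) (h3 : g • R = R) : g = 1 := by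
  obtain ⟨x, hx, hxR⟩ := regular D hqp hPQ.symm hPR.symm
  have hx1 : x ≠ 1 := by
    rintro rfl
    rw [one_smul] at hxR
    exact hQR hxR
  have hgx : g * x * g⁻¹ ∈ P := by
    have := Sylow.smul_eq_iff_mem_normalizer.mp h1
    exact (Subgroup.mem_normalizer_iff.mp this x).mp hx
  have h4 : (x⁻¹ * (g * x * g⁻¹)) • Q = Q := by
    have h5 : g⁻¹ • Q = Q := by rw [inv_smul_eq_iff, h2]
    rw [mul_smul, mul_smul, mul_smul, h5, hxR, h3, ← hxR, inv_smul_smul]
  have h5 : x⁻¹ * (g * x * g⁻¹) = 1 := by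
    by_contra hne
    exact hPQ (fix_eq D hqp (mul_mem (inv_mem hx) hgx) hne h4)
  have h6 : g ∈ Subgroup.centralizer ({x} : Set G) := by
    rw [Subgroup.mem_centralizer_singleton_iff]
    have : x = g * x * g⁻¹ := inv_mul_eq_one.mp h5
    exact (eq_mul_inv_iff_mul_eq.mp this).symm
  rw [cent D hqp hx hx1] at h6
  by_contra hg
  exact hPQ (fix_eq D hqp h6 hg h2)

theorem two_trans : MulAction.IsMultiplyPretransitive G (Sylow p G) 2 := by
  rw [MulAction.is_two_pretransitive_iff]
  intro a b c d hab hcd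
  obtain ⟨g, hg⟩ := MulAction.exists_smul_eq G a c
  have h1 : g • b ≠ c := fun h => hab (smul_left_cancel g (hg.trans h.symm))
  obtain ⟨x, hx, hxd⟩ := regular D hqp h1 hcd.symm
  exact ⟨x * g, by rw [mul_smul, hg, fix_self hx], by rw [mul_smul, hxd]⟩

theorem card_two {P Q : Sylow p G} (hPQ : P ≠ Q) :
    2 * Nat.card ↥(MulAction.stabilizer G P ⊓ MulAction.stabilizer G Q) = u := by
  set H := MulAction.stabilizer G P ⊓ MulAction.stabilizer G Q with hH
  have hN : (Nat.card (MulAction.stabilizer G P)) = q * Nat.card H := by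
    let f : P × H → MulAction.stabilizer G P := fun a => ⟨(a.1 : G) * a.2, by
      rw [MulAction.mem_stabilizer_iff, mul_smul, MulAction.mem_stabilizer_iff.mp a.2.2.1, fix_self a.1.2]⟩
    have hf : Function.Bijective f := by
      constructor
      · rintro ⟨x, h⟩ ⟨y, k⟩ he
        have h1 : (x : G) * h = (y : G) * k := congrArg Subtype.val he
        have hxy : (x : G) = y := by
          by_contra hne
          apply hPQ
          apply fix_eq D hqp (P := P) (x := ((x : G))⁻¹ * y) (mul_mem (inv_mem x.2) y.2)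
          · intro h2
            exact hne (by rw [inv_mul_eq_one] at h2; exact h2)
          · have h2 : (x : G)⁻¹ * y = h * (k : G)⁻¹ := by
              rw [inv_mul_eq_iff_eq_mul, ← mul_assoc, h1, mul_inv_cancel_right]
            have hk : (k : G)⁻¹ • Q = Q := by
              rw [inv_smul_eq_iff]; exact (MulAction.mem_stabilizer_iff.mp k.2.2).symm
            rw [h2, mul_smul, hk]
            exact MulAction.mem_stabilizer_iff.mp h.2.2
        have h3 : (h : G) = k := by rw [hxy] at h1; exact mul_left_cancel h1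
        exact Prod.ext (Subtype.ext hxy) (Subtype.ext h3)
      · rintro ⟨g, hg⟩
        have hgP := MulAction.mem_stabilizer_iff.mp hg
        have h1 : g • Q ≠ P := fun h => hPQ (smul_left_cancel g (hgP.trans h.symm))
        obtain ⟨x, hx, hxd⟩ := regular D hqp hPQ.symm h1
        refine ⟨⟨⟨x, hx⟩, ⟨x⁻¹ * g, ?_, ?_⟩⟩, Subtype.ext (mul_inv_cancel_left x g)⟩
        · change x⁻¹ * g ∈ MulAction.stabilizer G P
          rw [MulAction.mem_stabilizer_iff, mul_smul, hgP, inv_smul_eq_iff, fix_self hx]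
        · change x⁻¹ * g ∈ MulAction.stabilizer G Q
          rw [MulAction.mem_stabilizer_iff, mul_smul, ← hxd, inv_smul_smul]
    have h2 := Nat.card_congr (Equiv.ofBijective f hf)
    rw [Nat.card_prod, card_sylow D hqp P] at h2
    exact h2.symm
  have h1 : Nat.card G = (q + 1) * Nat.card (MulAction.stabilizer G P) := by
    rw [← Subgroup.card_mul_index (MulAction.stabilizer G P), Sylow.stabilizer_eq_normalizer,
      ← P.card_eq_index_normalizer, card_sylows D hqp, mul_comm]
  rw [D.card, hN] at h1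
  have e1 := D.hq
  have e2 := D.hm
  have e3 := D.big
  have hq0 : 0 < q := by omega
  have hm0 : 0 < m := by omega
  have h5 : q + 1 = 2 * m := by omega
  rw [h5] at h1
  have h6 : (q * m) * u = (q * m) * (2 * Nat.card H) := by
    rw [show (q * m) * u = q * u * m by ring, h1]; ring
  exact (Nat.eq_of_mul_eq_mul_left (Nat.mul_pos hq0 hm0) h6).symm

theorem exists_three : ∃ P Q R : Sylow p G, P ≠ Q ∧ Q ≠ R ∧ P ≠ R := by
  classical
  have := Fintype.ofFinite (Sylow p G)
  have h1 : 2 < Fintype.card (Sylow p G) := by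
    rw [← Nat.card_eq_fintype_card, card_sylows D hqp]
    have := D.hq; have := D.big; omega
  obtain ⟨a, b, c, h1, h2, h3⟩ := Fintype.two_lt_card_iff.mp h1
  exact ⟨a, b, c, h1, h3, h2⟩

theorem zassenhaus : IsZassenhausGroup G (Sylow p G) := by
  obtain ⟨P, Q, R, hPQ, hQR, hPR⟩ := exists_three D hqp
  have h2t := two_trans D hqp
  refine ⟨⟨fun {g h} hgh => ?_⟩, h2t, fun g a b c hab hbc hac h1 h2 h3 => three D hqp hab hbc hac h1 h2 h3,
    ?_, ?_⟩
  · have h1 : ∀ X : Sylow p G, (g⁻¹ * h) • X = X := by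
      intro X
      rw [mul_smul, inv_smul_eq_iff, hgh X]
    have := three D hqp hPQ hQR hPR (h1 P) (h1 Q) (h1 R)
    exact inv_mul_eq_one.mp this
  · have h1 := card_two D hqp hPQ
    have h2 : 1 < Nat.card ↥(MulAction.stabilizer G P ⊓ MulAction.stabilizer G Q) := by
      have := D.big; omega
    haveI : Nontrivial ↥(MulAction.stabilizer G P ⊓ MulAction.stabilizer G Q) :=
      Finite.one_lt_card_iff_nontrivial.mp h2
    obtain ⟨x, hx⟩ := exists_ne (1 : ↥(MulAction.stabilizer G P ⊓ MulAction.stabilizer G Q))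
    exact ⟨x, fun h => hx (Subtype.ext h), P, Q, hPQ, x.2.1, x.2.2⟩
  · intro N hN hNt
    by_contra hcon
    push Not at hcon
    have hfree : ∀ (n : G), n ∈ N → ∀ X : Sylow p G, n • X = X → n = 1 := by
      intro n hn X hX
      have : (⟨n, hn⟩ : N) ∈ MulAction.stabilizer N X := hX
      rw [hcon X, Subgroup.mem_bot] at this
      exact congrArg Subtype.val this
    have hcard : Nat.card N = 2 * m := by
      have h1 : Nat.card N = Nat.card (Sylow p G) := by
        apply Nat.card_congr
        refine Equiv.ofBijective (fun n : N => n • P) ⟨?_, fun X => MulAction.exists_smul_eq N P X⟩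
        intro a b hab
        have hab' : (a : G) • P = (b : G) • P := hab
        have : ((a : G)⁻¹ * b) • P = P := by rw [mul_smul, ← hab', inv_smul_smul]
        have h2 := hfree _ (mul_mem (inv_mem a.2) b.2) P this
        exact Subtype.ext (inv_mul_eq_one.mp h2)
      rw [h1, card_sylows D hqp]
      have := D.hq; have := D.hm; omega
    have hconj : ∀ a ∈ N, ∀ b ∈ N, a ≠ 1 → b ≠ 1 → ∃ g : G, g * a * g⁻¹ = b := by
      intro a ha b hb ha1 hb1
      rw [MulAction.is_two_pretransitive_iff] at h2t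
      obtain ⟨g, hg1, hg2⟩ := h2t (a := P) (b := a • P) (c := P) (d := b • P)
        (fun h => ha1 (hfree a ha P h.symm)) (fun h => hb1 (hfree b hb P h.symm))
      refine ⟨g, ?_⟩
      have h3 : (b⁻¹ * (g * a * g⁻¹)) • P = P := by
        have h4 : g⁻¹ • P = P := by rw [inv_smul_eq_iff, hg1]
        rw [mul_smul, mul_smul, mul_smul, h4, hg2, inv_smul_smul]
      have h5 := hfree _ (mul_mem (inv_mem hb) (hN.conj_mem a ha g)) P h3
      exact (inv_mul_eq_one.mp h5).symm
    haveI : Fact (Nat.Prime 2) := ⟨Nat.prime_two⟩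
    obtain ⟨a, ha⟩ := exists_prime_orderOf_dvd_card' (G := N) 2 (by rw [hcard]; exact dvd_mul_right _ _)
    obtain ⟨r, hr, hrm⟩ := Nat.exists_prime_and_dvd (n := m) (by
      have := D.big; have := D.hm; omega)
    haveI : Fact r.Prime := ⟨hr⟩
    obtain ⟨b, hb⟩ := exists_prime_orderOf_dvd_card' (G := N) r (by rw [hcard]; exact hrm.mul_left 2)
    have ha' : orderOf (a : G) = 2 := by rw [Subgroup.orderOf_coe, ha]
    have hb' : orderOf (b : G) = r := by rw [Subgroup.orderOf_coe, hb]
    obtain ⟨g, hg⟩ := hconj a a.2 b b.2 (by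
      intro h; rw [h, orderOf_one] at ha'; norm_num at ha') (by
      intro h; rw [h, orderOf_one] at hb'; exact hr.one_lt.ne hb')
    have h6 : orderOf (g * (a : G) * g⁻¹) = orderOf (a : G) :=
      (MulAut.conj g).orderOf_eq (a : G)
    rw [hg, ha', hb'] at h6
    rw [h6] at hrm
    exact absurd D.odd (Nat.not_odd_iff_even.mpr ((even_iff_two_dvd).mpr hrm))

theorem main : ∃ (K : Type) (_ : Field K) (_ : Fintype K), Fintype.card K = q ∧
    Nonempty (G ≃* Matrix.ProjectiveSpecialLinearGroup (Fin 2) K) := by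
  classical
  have hZ := zassenhaus D hqp
  obtain ⟨P, Q, R, hPQ, hQR, hPR⟩ := exists_three D hqp
  letI := Fintype.ofFinite (Sylow p G)
  have h1 := card_two D hqp hPQ
  have e1 := D.hq
  have e2 := D.hm
  have hc : Fintype.card (Sylow p G) = q + 1 := by
    rw [← Nat.card_eq_fintype_card, card_sylows D hqp]
  obtain ⟨p', f, K, _, _, -, -, hK, hΩ, he⟩ := Cfsg.Agent.S0742.result hZ hPQ (by
    obtain ⟨k, hk⟩ := D.odd
    exact ⟨k, by omega⟩) (by rw [hc]; omega)
  exact ⟨K, inferInstance, inferInstance, by rw [hK]; omega, he⟩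

end H17.PD
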