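import Cfsg.Agent.Lib.H17.PD2
import Cfsg.Agent.Lib.H81.PSL2Deg
import Cfsg.Agent.Lib.H43.SLOdd
import Cfsg.Agent.Lib.H6.SLCard
import Cfsg.Agent.Lib.H21.PSLTransport

set_option autoImplicit false
set_option linter.unusedSectionVars false

/-! The irreducible character degrees of `PSL₂(q)`, `q ≡ 1 mod 4`. -/

namespace H17.PD

open Cfsg H18.CharBasic H18.CharOrtho H18.CharInd H82.Deg H81.PSL2Deg H43.SLIrr H43.SLStruct

universe u v

local notation "SL2" => Matrix.SpecialLinearGroup (Fin 2)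
local notation "PSL2" => Matrix.ProjectiveSpecialLinearGroup (Fin 2)

section Fib

/-- sums over finite types with the same fibre cardinalities -/
theorem sum_eq_of_fib {X : Type u} {Y : Type v} [Fintype X] [Fintype Y] (a : X → ℕ) (b : Y → ℕ)
    (h : ∀ d, Nat.card {x : X // a x = d} = Nat.card {y : Y // b y = d}) (f : ℕ → ℕ) :
    ∑ x, f (a x) = ∑ y, f (b y) := by
  classical
  have key : ∀ {Z : Type u} [Fintype Z] (c : Z → ℕ) (N : ℕ), (∀ z, c z < N) →
      ∑ z, f (c z) = ∑ d ∈ Finset.range N, Nat.card {z : Z // c z = d} * f d := by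
    intro Z _ c N hN
    rw [← Finset.sum_fiberwise_of_maps_to (s := Finset.univ) (t := Finset.range N) (g := c)
      (fun z _ => Finset.mem_range.mpr (hN z))]
    apply Finset.sum_congr rfl
    intro d _
    rw [Finset.sum_congr rfl (fun z hz => by rw [(Finset.mem_filter.mp hz).2]), Finset.sum_const,
      smul_eq_mul, Nat.card_eq_fintype_card, Fintype.card_subtype]
  have key' : ∀ {Z : Type v} [Fintype Z] (c : Z → ℕ) (N : ℕ), (∀ z, c z < N) →
      ∑ z, f (c z) = ∑ d ∈ Finset.range N, Nat.card {z : Z // c z = d} * f d := by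
    intro Z _ c N hN
    rw [← Finset.sum_fiberwise_of_maps_to (s := Finset.univ) (t := Finset.range N) (g := c)
      (fun z _ => Finset.mem_range.mpr (hN z))]
    apply Finset.sum_congr rfl
    intro d _
    rw [Finset.sum_congr rfl (fun z hz => by rw [(Finset.mem_filter.mp hz).2]), Finset.sum_const,
      smul_eq_mul, Nat.card_eq_fintype_card, Fintype.card_subtype]
  set N := (∑ x, a x) + (∑ y, b y) + 1 with hN
  rw [key a N (fun x => by
    have := Finset.single_le_sum (f := a) (fun _ _ => Nat.zero_le _) (Finset.mem_univ x)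
    omega), key' b N (fun y => by
    have := Finset.single_le_sum (f := b) (fun _ _ => Nat.zero_le _) (Finset.mem_univ y)
    omega)]
  exact Finset.sum_congr rfl fun d _ => by rw [h d]

end Fib

variable {F : Type u} [Field F] [Fintype F]

theorem card_psl2 {q u m : ℕ} (hF : Fintype.card F = q) (hq : q = u + 1) (hm : 2 * m = u + 2)
    (h8 : 8 ≤ u) : Nat.card (PSL2 F) = q * u * m := by
  have h := H6.SLCard.card_psl (F := F) (n := 2) (by norm_num)
  rw [hF, Fin.prod_univ_two] at h
  have h1 : q - 1 = u := by omega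
  have h2 : Nat.gcd 2 u = 2 := Nat.gcd_eq_left ⟨m - 1, by omega⟩
  rw [h1, h2] at h
  have e1 : q ^ 2 - q ^ ((0 : Fin 2) : ℕ) = u * (2 * m) := by
    have : q ^ 2 = u * (2 * m) + 1 := by rw [hm, hq]; ring
    simp only [Fin.coe_ofNat_eq_mod, Nat.zero_mod, pow_zero]
    omega
  have e2 : q ^ 2 - q ^ ((1 : Fin 2) : ℕ) = q * u := by
    have : q ^ 2 = q * u + q := by rw [hq]; ring
    have e3 : ((1 : Fin 2) : ℕ) = 1 := rfl
    rw [e3, pow_one]
    omega
  rw [e1, e2] at h
  have hu : 0 < u := by omega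
  have h3 : (2 * u) * Nat.card (PSL2 F) = (2 * u) * (q * u * m) := by
    rw [mul_assoc, h]; ring
  exact Nat.eq_of_mul_eq_mul_left (by omega) h3

/-- degree of the inflation -/
theorem deg_cases {q u m : ℕ} (hF : Fintype.card F = q) (hq : q = u + 1) (hm : 2 * m = u + 2)
    (hmo : Odd m) (h8 : 8 ≤ u) (χ : IrrCharacter (PSL2 F)) :
    χ = o (PSL2 F) ∨ charDegree (χ : PSL2 F → ℂ) = q ∨ charDegree (χ : PSL2 F → ℂ) = 2 * m ∨
      charDegree (χ : PSL2 F → ℂ) = u ∨ charDegree (χ : PSL2 F → ℂ) = m ∨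
      charDegree (χ : PSL2 F → ℂ) = m - 1 := by
  letI : Fintype (SL2 F) := Fintype.ofFinite _
  have hd := degree_infl χ
  rcases degree_cases (infl χ) with h | h | h | h | h | h
  · left
    apply infl_injective
    apply Subtype.ext
    rw [h]
    rfl
  · right; left
    rw [← hd, h, H82.SL2Even.steinberg_degree isIrr_StS, hF]
  · right; right; left
    rw [hd, hF] at h; omega
  · right; right; right; left
    rw [hd, hF] at h; omega
  · right; right; right; right; left
    rw [hd, hF] at h; omega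
  · right; right; right; right; right
    rw [hd, hF] at h; omega

theorem card_deg_le {q : ℕ} (hF : Fintype.card F = q) (d : ℕ) :
    Nat.card {χ : IrrCharacter (PSL2 F) // charDegree (χ : PSL2 F → ℂ) = d} ≤
      Nat.card {χ : IrrCharacter (SL2 F) // (χ : SL2 F → ℂ) 1 = (d : ℂ)} := by
  let f : {χ : IrrCharacter (PSL2 F) // charDegree (χ : PSL2 F → ℂ) = d} →
      {χ : IrrCharacter (SL2 F) // (χ : SL2 F → ℂ) 1 = (d : ℂ)} := fun χ => ⟨infl χ.1, by
    rw [← coe_charDegree' (infl χ.1), degree_infl, χ.2]⟩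
  exact Nat.card_le_card_of_injective f (fun a b h => Subtype.ext (infl_injective (congrArg Subtype.val h)))

theorem neg_cjg (x : Matrix.GeneralLinearGroup (Fin 2) F) : cjg x (-1 : SL2 F) = -1 := by
  have h := cjg_mul x (-1 : SL2 F) (-1)
  rw [neg_mul_neg, one_mul, cjg_one] at h
  apply Matrix.SpecialLinearGroup.toGL_injective
  rw [toGL_cjg]
  have h1 : (Matrix.SpecialLinearGroup.toGL (-1 : SL2 F) : Matrix.GeneralLinearGroup (Fin 2) F) = -1 := by
    apply Units.ext
    simp
  rw [h1]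
  simp

/-- characters of degree `(q-1)/2` come in pairs -/
theorem exists_other [Fintype (SL2 F)] {q u m : ℕ} (hF : Fintype.card F = q) (hq : q = u + 1)
    (hm : 2 * m = u + 2) (hmo : Odd m) (h8 : 8 ≤ u) (χ : IrrCharacter (PSL2 F))
    (hd : charDegree (χ : PSL2 F → ℂ) = m - 1) :
    ∃ ψ : IrrCharacter (PSL2 F), ψ ≠ χ ∧ charDegree (ψ : PSL2 F → ℂ) = m - 1 := by
  classical
  letI : Fintype (Matrix.GeneralLinearGroup (Fin 2) F) := Fintype.ofFinite _
  have h0 : (infl χ : SL2 F → ℂ) 1 = ((m - 1 : ℕ) : ℂ) := by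
    rw [← coe_charDegree' (infl χ), degree_infl, hd]
  have hcast : ∀ k : ℕ, k ≠ m - 1 → (infl χ : SL2 F → ℂ) 1 ≠ (k : ℂ) := by
    intro k hk h
    rw [h0] at h
    exact hk (by exact_mod_cast h.symm)
  rcases cases' (infl χ).2 with h | h | ⟨γ, hγ, h⟩ | ⟨c, h⟩ | ⟨γ, φ, -, -, -, -, h, x, hx⟩ |
    ⟨c, φ, hφ, hne, h, x, hx⟩
  · exact absurd (by rw [h]; simp) (hcast 1 (by omega))
  · exact absurd (by rw [h, StS_one, hF]) (hcast q (by omega))
  · exact absurd (by rw [h, indS_one, hF]; push_cast; ring) (hcast (q + 1) (by omega))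
  · exact absurd (by rw [h, cusp_one, hF, hq]; push_cast; ring) (hcast u (by omega))
  · exfalso
    have h2 := half_degree h hx
    rw [indS_one, h0, hF] at h2
    have h3 : ((2 * (m - 1) : ℕ) : ℂ) = ((q + 1 : ℕ) : ℂ) := by push_cast; exact h2
    have h4 : 2 * (m - 1) = q + 1 := by exact_mod_cast h3
    omega
  · have hneg : φ (-1) = φ 1 := by
      rw [hx, hx, neg_cjg, cjg_one]
      change (χ : PSL2 F → ℂ) (QuotientGroup.mk' (Subgroup.center (SL2 F)) (-1)) =
        (χ : PSL2 F → ℂ) (QuotientGroup.mk' (Subgroup.center (SL2 F)) 1)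
      rw [map_one]
      have hc : QuotientGroup.mk' (Subgroup.center (SL2 F)) (-1) = 1 := by
        apply (QuotientGroup.eq_one_iff _).mpr
        rw [Subgroup.mem_center_iff]
        intro g
        simp
      rw [hc]
    obtain ⟨ψ, h3, h4⟩ := exists_PSL hφ hneg
    refine ⟨ψ, ?_, ?_⟩
    · rintro rfl
      apply hne
      funext g
      exact h4 g
    · rw [h3]
      apply charDegree_eq_of
      rw [hx, cjg_one, h0]

theorem no_small {q u m : ℕ} (hF : Fintype.card F = q) (hq : q = u + 1)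
    (hm : 2 * m = u + 2) (hmo : Odd m) (h8 : 8 ≤ u) (χ : IrrCharacter (PSL2 F)) :
    charDegree (χ : PSL2 F → ℂ) ≠ m - 1 := by
  classical
  intro hd
  letI : Fintype (SL2 F) := Fintype.ofFinite _
  letI : Fintype (IrrCharacter (PSL2 F)) := Fintype.ofFinite _
  obtain ⟨ψ, hne, hψ⟩ := exists_other hF hq hm hmo h8 χ hd
  have hodd : Odd (Fintype.card F) := by
    rw [hF]; exact ⟨m - 1, by omega⟩
  set deg : IrrCharacter (PSL2 F) → ℕ := fun χ => charDegree (χ : PSL2 F → ℂ) with hdeg
  set n : ℕ → ℕ := fun d => (Finset.univ.filter fun χ => deg χ = d).card with hn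
  have hnc : ∀ d, n d = Nat.card {χ : IrrCharacter (PSL2 F) // charDegree (χ : PSL2 F → ℂ) = d} := by
    intro d
    rw [Nat.card_eq_fintype_card, Fintype.card_subtype]
  have b1 : n u ≤ m - 1 := by
    rw [hnc]
    refine (card_deg_le hF u).trans ?_
    rw [H43.SLOdd.card_deg_odd hodd, hF]
    split_ifs <;> omega
  have b2 : n (m - 1) ≤ 2 := by
    rw [hnc]
    refine (card_deg_le hF (m - 1)).trans ?_
    rw [H43.SLOdd.card_deg_odd hodd, hF]
    split_ifs <;> omega
  have b3 : 2 ≤ n (m - 1) := by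
    have : ({ψ, χ} : Finset (IrrCharacter (PSL2 F))) ⊆ Finset.univ.filter fun χ => deg χ = m - 1 := by
      intro y hy
      rw [Finset.mem_insert, Finset.mem_singleton] at hy
      rw [Finset.mem_filter]
      rcases hy with rfl | rfl
      · exact ⟨Finset.mem_univ _, hψ⟩
      · exact ⟨Finset.mem_univ _, hd⟩
    have h := Finset.card_le_card this
    rwa [Finset.card_pair hne] at h
  have b4 : n 1 = 1 := by
    rw [hn]
    beta_reduce
    rw [Finset.card_eq_one]
    refine ⟨o (PSL2 F), ?_⟩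
    ext y
    rw [Finset.mem_filter, Finset.mem_singleton]
    constructor
    · rintro ⟨-, hy⟩
      change charDegree (y : PSL2 F → ℂ) = 1 at hy
      rcases deg_cases hF hq hm hmo h8 y with h | h | h | h | h | h
      · exact h
      all_goals omega
    · rintro rfl
      exact ⟨Finset.mem_univ _, charDegree_eq_of (by rw [o_apply]; simp)⟩
  have b5 : n q = 1 := by
    rw [hn]
    beta_reduce
    obtain ⟨s, hs, hs'⟩ := deg_q (F := F)
    rw [Finset.card_eq_one]
    refine ⟨s, ?_⟩
    ext y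
    rw [Finset.mem_filter, Finset.mem_singleton]
    constructor
    · rintro ⟨-, hy⟩
      change charDegree (y : PSL2 F → ℂ) = q at hy
      apply infl_injective
      apply Subtype.ext
      have e1 : (infl y : SL2 F → ℂ) = StS F := by
        apply eq_StS (infl y).2
        rw [← coe_charDegree' (infl y), degree_infl, hy, hF]
      have e2 : (infl s : SL2 F → ℂ) = StS F := by
        apply eq_StS (infl s).2
        rw [← coe_charDegree' (infl s), degree_infl, hs]
      rw [e1, e2]
    · rintro rfl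
      exact ⟨Finset.mem_univ _, by change charDegree _ = q; rw [hs, hF]⟩
  have hsum := sum_degree_sq_nat (G := PSL2 F)
  rw [card_psl2 hF hq hm h8, ← Finset.sum_fiberwise_of_maps_to (s := Finset.univ)
    (t := ({1, q, 2 * m, u, m, m - 1} : Finset ℕ)) (g := deg) (by
      intro y _
      simp only [Finset.mem_insert, Finset.mem_singleton]
      rcases deg_cases hF hq hm hmo h8 y with h | h | h | h | h | h
      · left
        rw [hdeg]
        beta_reduce
        rw [h]
        exact charDegree_eq_of (by rw [o_apply]; simp)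
      · exact Or.inr (Or.inl h)
      · exact Or.inr (Or.inr (Or.inl h))
      · exact Or.inr (Or.inr (Or.inr (Or.inl h)))
      · exact Or.inr (Or.inr (Or.inr (Or.inr (Or.inl h))))
      · exact Or.inr (Or.inr (Or.inr (Or.inr (Or.inr h)))))] at hsum
  have hfib : ∀ d, ∑ i with deg i = d, (charDegree (i : PSL2 F → ℂ)) ^ 2 = n d * d ^ 2 := by
    intro d
    rw [Finset.sum_congr rfl (fun z hz => by
      rw [show charDegree (z : PSL2 F → ℂ) = d from (Finset.mem_filter.mp hz).2]), Finset.sum_const,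
      smul_eq_mul]
  rw [Finset.sum_congr rfl (fun d _ => hfib d)] at hsum
  have hm5 : 5 ≤ m := by omega
  rw [Finset.sum_insert (by simp only [Finset.mem_insert, Finset.mem_singleton]; omega),
    Finset.sum_insert (by simp only [Finset.mem_insert, Finset.mem_singleton]; omega),
    Finset.sum_insert (by simp only [Finset.mem_insert, Finset.mem_singleton]; omega),
    Finset.sum_insert (by simp only [Finset.mem_insert, Finset.mem_singleton]; omega),
    Finset.sum_insert (by simp only [Finset.mem_singleton]; omega), Finset.sum_singleton, b4, b5,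
    show n (m - 1) = 2 by omega] at hsum
  obtain ⟨k, rfl⟩ : ∃ k, m = k + 1 := ⟨m - 1, by omega⟩
  have hu : u = 2 * k := by omega
  subst hu
  subst hq
  rw [Nat.add_sub_cancel] at hsum b1
  set a := n (2 * k) with ha
  have hmod : (k + 1 : ℤ) ∣ 4 * (1 + a) := by
    have hz : (1 * 1 ^ 2 + (1 * (2 * k + 1) ^ 2 + (n (2 * (k + 1)) * (2 * (k + 1)) ^ 2 +
        (a * (2 * k) ^ 2 + (n (k + 1) * (k + 1) ^ 2 + 2 * k ^ 2)))) : ℤ) =
        (2 * k + 1) * (2 * k) * (k + 1) := by exact_mod_cast hsum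
    refine ⟨(2 * k + 1) * (2 * k) - n (2 * (k + 1)) * 4 * (k + 1) - n (k + 1) * (k + 1) - 4 * k
      - 2 * k + 2 - a * 4 * k + a * 4, ?_⟩
    linear_combination hz
  have hcop : IsCoprime (k + 1 : ℤ) 4 := by
    have : Nat.Coprime (k + 1) 4 := by
      have h1 := (Nat.coprime_two_right.mpr hmo)
      have h2 := h1.pow_right 2
      exact h2
    exact_mod_cast Nat.isCoprime_iff_coprime.mpr this
  have hdvd : (k + 1 : ℤ) ∣ 1 + a := hcop.dvd_of_dvd_mul_left hmod
  have hdvd' : k + 1 ∣ 1 + a := by exact_mod_cast hdvd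
  have hle := Nat.le_of_dvd (by omega) hdvd'
  have hak : a = k := by omega
  rw [hak] at hsum
  have h9 : 1 * 1 ^ 2 + (1 * (2 * k + 1) ^ 2 + (k * (2 * k) ^ 2 + 2 * k ^ 2)) ≤
      (2 * k + 1) * (2 * k) * (k + 1) := by
    rw [← hsum]
    have := Nat.zero_le (n (2 * (k + 1)) * (2 * (k + 1)) ^ 2)
    have := Nat.zero_le (n (k + 1) * (k + 1) ^ 2)
    omega
  nlinarith

/-- the count of the hypothesis -/
def SameDeg (G : Type u) (H : Type v) [Group G] [Group H] : Prop :=
  ∀ d : ℕ, Nat.card {χ : IrrCharacter G // (χ : G → ℂ) 1 = (d : ℂ)} =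
      Nat.card {χ : IrrCharacter H // (χ : H → ℂ) 1 = (d : ℂ)}

theorem SameDeg.fib {G : Type u} {H : Type v} [Group G] [Group H] (h : SameDeg G H) (d : ℕ) :
    Nat.card {χ : IrrCharacter G // charDegree (χ : G → ℂ) = d} =
      Nat.card {χ : IrrCharacter H // charDegree (χ : H → ℂ) = d} := by
  have key : ∀ {K : Type u} [Group K], Nat.card {χ : IrrCharacter K // charDegree (χ : K → ℂ) = d} =
      Nat.card {χ : IrrCharacter K // (χ : K → ℂ) 1 = (d : ℂ)} := by
    intro K _
    apply Nat.card_congr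
    refine Equiv.subtypeEquivRight fun χ => ?_
    rw [← coe_charDegree' χ]
    norm_cast
  have key' : ∀ {K : Type v} [Group K], Nat.card {χ : IrrCharacter K // charDegree (χ : K → ℂ) = d} =
      Nat.card {χ : IrrCharacter K // (χ : K → ℂ) 1 = (d : ℂ)} := by
    intro K _
    apply Nat.card_congr
    refine Equiv.subtypeEquivRight fun χ => ?_
    rw [← coe_charDegree' χ]
    norm_cast
  rw [key, key', h d]

theorem SameDeg.card {G : Type u} {H : Type v} [Group G] [Group H] [Finite G] [Finite H]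
    (h : SameDeg G H) : Nat.card G = Nat.card H := by
  letI := Fintype.ofFinite (IrrCharacter G)
  letI := Fintype.ofFinite (IrrCharacter H)
  rw [← sum_degree_sq_nat (G := G), ← sum_degree_sq_nat (G := H)]
  exact sum_eq_of_fib (fun χ : IrrCharacter G => charDegree (χ : G → ℂ))
    (fun χ : IrrCharacter H => charDegree (χ : H → ℂ)) h.fib (fun d => d ^ 2)

theorem SameDeg.exists_of {G : Type u} {H : Type v} [Group G] [Group H] [Finite G] [Finite H]
    (h : SameDeg G H) (χ : IrrCharacter G) :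
    ∃ ψ : IrrCharacter H, charDegree (ψ : H → ℂ) = charDegree (χ : G → ℂ) := by
  have h1 := h.fib (charDegree (χ : G → ℂ))
  have h2 : 0 < Nat.card {ψ : IrrCharacter G // charDegree (ψ : G → ℂ) = charDegree (χ : G → ℂ)} := by
    haveI : Nonempty {ψ : IrrCharacter G // charDegree (ψ : G → ℂ) = charDegree (χ : G → ℂ)} := ⟨⟨χ, rfl⟩⟩
    exact Nat.card_pos
  rw [h1] at h2
  haveI : Nonempty {ψ : IrrCharacter H // charDegree (ψ : H → ℂ) = charDegree (χ : G → ℂ)} :=
    (Nat.card_pos_iff.mp h2).1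
  obtain ⟨ψ⟩ := this
  exact ⟨ψ.1, ψ.2⟩

theorem SameDeg.symm {G : Type u} {H : Type v} [Group G] [Group H] (h : SameDeg G H) : SameDeg H G :=
  fun d => (h d).symm

theorem SameDeg.charDegrees {G : Type u} {H : Type v} [Group G] [Group H] [Finite G] [Finite H]
    (h : SameDeg G H) : charDegrees G = charDegrees H := by
  ext d
  constructor
  · rintro ⟨χ, rfl⟩
    obtain ⟨ψ, hψ⟩ := h.exists_of χ
    exact ⟨ψ, hψ⟩
  · rintro ⟨χ, rfl⟩
    obtain ⟨ψ, hψ⟩ := h.symm.exists_of χ
    exact ⟨ψ, hψ⟩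

/-- uniqueness transfers -/
theorem SameDeg.unique {G : Type u} {H : Type v} [Group G] [Group H] [Finite G] [Finite H]
    (h : SameDeg G H) {d : ℕ} {ψ : IrrCharacter H} (h1 : charDegree (ψ : H → ℂ) = d)
    (h2 : ∀ φ : IrrCharacter H, charDegree (φ : H → ℂ) = d → φ = ψ) :
    ∃ χ : IrrCharacter G, charDegree (χ : G → ℂ) = d ∧
      ∀ φ : IrrCharacter G, charDegree (φ : G → ℂ) = d → φ = χ := by
  have h3 : Nat.card {φ : IrrCharacter H // charDegree (φ : H → ℂ) = d} = 1 := by
    rw [Nat.card_eq_one_iff_unique]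
    exact ⟨⟨fun a b => Subtype.ext ((h2 a.1 a.2).trans (h2 b.1 b.2).symm)⟩, ⟨⟨ψ, h1⟩⟩⟩
  rw [← h.fib d, Nat.card_eq_one_iff_unique] at h3
  obtain ⟨h4, ⟨χ⟩⟩ := h3
  exact ⟨χ.1, χ.2, fun φ hφ => congrArg Subtype.val (h4.elim ⟨φ, hφ⟩ χ)⟩

/-- main theorem, odd characteristic -/
theorem main_odd {p : ℕ} (hp : p.Prime) (hp2 : p ≠ 2) (hF : Fintype.card F = p ^ 2) {G : Type v} [Group G]
    [Finite G] (h : SameDeg G (PSL2 F)) : Nonempty (G ≃* PSL2 F) := by
  classical
  haveI : Fact p.Prime := ⟨hp⟩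
  letI : Fintype (SL2 F) := Fintype.ofFinite _
  obtain ⟨k, hk⟩ := hp.odd_of_ne_two hp2
  have hk1 : 1 ≤ k := by
    rcases Nat.eq_zero_or_pos k with h | h
    · rw [h] at hk
      exact absurd hp.one_lt (by omega)
    · exact h
  set u := 4 * k ^ 2 + 4 * k with hu
  set m := 2 * k ^ 2 + 2 * k + 1 with hm'
  have hq : p ^ 2 = u + 1 := by rw [hk, hu]; ring
  have hm : 2 * m = u + 2 := by rw [hm', hu]; ring
  have hmo : Odd m := ⟨k ^ 2 + k, by rw [hm']; ring⟩
  have h8 : 8 ≤ u := by rw [hu]; nlinarith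
  obtain ⟨s, hs, hs'⟩ := deg_q (F := F)
  obtain ⟨St, hSt1, hSt2⟩ := h.unique (d := p ^ 2) (ψ := s) (by rw [hs, hF]) (by
    intro y hy
    apply infl_injective
    apply Subtype.ext
    have e1 : (infl y : SL2 F → ℂ) = StS F := by
      apply eq_StS (infl y).2
      rw [← coe_charDegree' (infl y), degree_infl, hy, hF]
    have e2 : (infl s : SL2 F → ℂ) = StS F := by
      apply eq_StS (infl s).2
      rw [← coe_charDegree' (infl s), degree_infl, hs]
    rw [e1, e2])
  obtain ⟨t, ht1, ht2⟩ := h.unique (d := 1) (ψ := o (PSL2 F))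
    (charDegree_eq_of (by rw [o_apply]; simp)) (by
    intro y hy
    rcases deg_cases hF hq hm hmo h8 y with h | h | h | h | h | h
    · exact h
    all_goals omega)
  have D : Dat G (p ^ 2) u m St := by
    refine ⟨hq, hm, hmo, h8, ?_, ?_, ?_, hSt1, hSt2⟩
    · rw [h.card, card_psl2 hF hq hm h8]
    · intro χ
      obtain ⟨ψ, hψ⟩ := h.exists_of χ
      rw [← hψ]
      rcases deg_cases hF hq hm hmo h8 ψ with h | h | h | h | h | h
      · left; rw [h]; exact charDegree_eq_of (by rw [o_apply]; simp)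
      · exact Or.inr (Or.inl h)
      · exact Or.inr (Or.inr (Or.inl h))
      · exact Or.inr (Or.inr (Or.inr (Or.inl h)))
      · exact Or.inr (Or.inr (Or.inr (Or.inr h)))
      · exact absurd h (no_small hF hq hm hmo h8 ψ)
    · intro χ hχ
      have e1 := ht2 χ hχ
      have e2 := ht2 (o G) (charDegree_eq_of (by rw [o_apply]; simp))
      rw [e1, ← e2]
      rfl
  obtain ⟨K, _, _, hK, ⟨e⟩⟩ := main D (p := p) rfl
  obtain ⟨e'⟩ := H21.PSLTransport.psl_congr_card (K := K) (L := F) (hK.trans hF.symm) (Fin 2)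
  exact ⟨e.trans e'⟩

end H17.PD
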