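import Mathlib
import Cfsg.Agent.Lib.H17.SpecMain

set_option autoImplicit false
set_option linter.unusedSectionVars false

/-! The prime graphs of `PSp(2n,q)` and `PΩ(2n+1,q)`. -/

namespace H17.SpecMain2

open Module QuadraticMap H17.OrthAbs H46.SForm H46.SForm.SForm H46.ProdUnit H46.ProjOrder
  H17.SpecPO H17.SpecConv H17.SpecUni H17.SpecStr H46.Irr H17.SpecMain

universe u v

variable {F : Type u} [Field F] [Finite F] (h2 : (2 : F) ≠ 0)

theorem exists_torus (F : Type u) [Field F] [Finite F] {t d : ℕ} (hd : 0 < d)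
    (h : t ∣ Nat.card F ^ d - 1 ∨ t ∣ Nat.card F ^ d + 1) :
    ∃ (A : Type) (_ : AddCommGroup A) (_ : Module F A) (f : SForm F A (RingHom.id F))
      (b : (Module.End F A)ˣ), f.Alt ∧ f.ND ∧ finrank F A = 2 * d ∧ f.Isom b ∧ orderOf b = t := by
  rcases h with h | h
  · obtain ⟨A, _, _, _, f, ha, hnd, hA, ht⟩ := H46.SpModels.torus_minus F d hd
    obtain ⟨β, hβ, hβ'⟩ := ht t h
    exact ⟨A, inferInstance, inferInstance, f, H46.SpModels.mulUnit F β, ha, hnd, hA, hβ, by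
      rw [H46.SpModels.orderOf_mulUnit, hβ']⟩
  · obtain ⟨A, _, _, _, f, ha, hnd, hA, ht⟩ := H46.SpModels.torus_plus F d hd
    obtain ⟨β, hβ, hβ'⟩ := ht t h
    exact ⟨A, inferInstance, inferInstance, f, H46.SpModels.mulUnit F β, ha, hnd, hA, hβ, by
      rw [H46.SpModels.orderOf_mulUnit, hβ']⟩

include h2 in
theorem t1 (p : ℕ) [Fact p.Prime] [CharP F p] {n r d : ℕ} (hn : 2 ≤ n) (hr : Odd r)
    (hrp : Nat.Coprime r p) (hd0 : 0 < d) (hdn : d < n)
    (h : r ∣ Nat.card F ^ d - 1 ∨ r ∣ Nat.card F ^ d + 1) :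
    r * p ∈ oSp n F ∧ 2 * r ∈ oSp n F ∧ r * p ∈ oO n F ∧ 2 * r ∈ oO n F := by
  obtain ⟨A, _, _, f, b, ha, hnd, hA, hb, hbr⟩ := exists_torus F hd0 h
  haveI : FiniteDimensional F A := Module.finite_of_finrank_pos (by omega)
  haveI : Nontrivial A := Module.nontrivial_of_finrank_pos (R := F) (by omega)
  have h1 := sp_p h2 p ha hnd hA hd0 hdn hb (by rwa [hbr]) (by rwa [hbr])
  have h3 := sp_two h2 ha hnd hA hd0 hdn hb (by rwa [hbr])
  have hrF : (r : F) ≠ 0 := by
    intro h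
    rw [CharP.cast_eq_zero_iff F p] at h
    have := Nat.Coprime.eq_one_of_dvd hrp.symm h
    exact (Fact.out : p.Prime).one_lt.ne' this
  obtain ⟨g, w, hg1, hg2, hg3, hg4, -, -⟩ := res_tw ha.sym hnd hb hrF hr (by
    rw [← hbr]; exact pow_orderOf_eq_one b)
  rw [neg_neg] at hg1
  have hfin : finrank F (comS b) ≤ 2 * d := by
    rw [← hA]
    exact Submodule.finrank_le _
  have h4 := o_p h2 p hg1 hg2 hn (by omega) hg3 (by rwa [hg4, hbr]) (by rwa [hg4, hbr])
  have h5 := o_two h2 hg1 hg2 hn (by omega) hg3 (by rwa [hg4, hbr])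
  rw [hbr] at h1 h3
  rw [hg4, hbr] at h4 h5
  exact ⟨h1, h3, h4, h5⟩

/-- Splitting an element of order `r p`. -/
theorem split_rp {G : Type*} [Group G] {u : G} {r p : ℕ} (hr : 0 < r) (hp : 0 < p)
    (h : orderOf u = r * p) : orderOf (u ^ p) = r ∧ orderOf (u ^ r) = p := by
  constructor
  · rw [orderOf_pow_of_dvd hp.ne' (by rw [h]; exact dvd_mul_left _ _), h,
      Nat.mul_div_cancel _ hp]
  · rw [orderOf_pow_of_dvd hr.ne' (by rw [h]; exact dvd_mul_right _ _), h,
      Nat.mul_div_cancel_left _ hr]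

/-- In a one-dimensional space a unit of order dividing `p` is trivial. -/
theorem one_of_finrank_one {V : Type*} [AddCommGroup V] [Module F V] (hV : finrank F V = 1)
    (p : ℕ) [Fact p.Prime] [CharP F p] {y : (Module.End F V)ˣ} (hy : y ^ p = 1) : y = 1 := by
  haveI : FiniteDimensional F V := Module.finite_of_finrank_pos (by omega)
  haveI : Nontrivial V := Module.nontrivial_of_finrank_pos (R := F) (by omega)
  obtain ⟨v, hv⟩ := exists_ne (0 : V)
  obtain ⟨w, hw, hw0⟩ : ∃ w, (y : Module.End F V) w = w ∧ w ≠ 0 := by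
    by_contra hcon
    push Not at hcon
    exact hv (exists_fixed p hy v hcon)
  apply Units.ext
  apply LinearMap.ext
  intro z
  obtain ⟨c, rfl⟩ := exists_smul_eq_of_finrank_eq_one hV hw0 z
  rw [map_smul, hw]
  rfl

include h2 in
theorem nb_sp (p : ℕ) [Fact p.Prime] [CharP F p] {n r : ℕ} (hn : 2 ≤ n) [Fact r.Prime] (hr : Odd r)
    (hrp : Nat.Coprime r p) (hpo : Odd p)
    (hT : ∀ d, 0 < d → d < n → ¬ (r ∣ Nat.card F ^ d - 1 ∨ r ∣ Nat.card F ^ d + 1)) :
    r * p ∉ oSp n F := by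
  rintro ⟨x0, hx0⟩
  have hr0 : 0 < r := (Fact.out : r.Prime).pos
  have hp0 : 0 < p := (Fact.out : p.Prime).pos
  have hrF : (r : F) ≠ 0 := by
    intro h
    rw [CharP.cast_eq_zero_iff F p] at h
    exact (Fact.out : p.Prime).one_lt.ne' (Nat.Coprime.eq_one_of_dvd hrp.symm h)
  obtain ⟨u, hu, huo, -⟩ := H46.SpDich.exists_lift (by omega) x0 (by rw [hx0]; exact hr.mul hpo)
  rw [hx0] at huo
  obtain ⟨hx, hy⟩ := split_rp hr0 hp0 huo
  set x := u ^ p with hxdef
  set y := u ^ r with hydef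
  haveI : Nonempty (Fin n ⊕ Fin n) := ⟨Sum.inl ⟨0, by omega⟩⟩
  set f := H46.OrdPSp.stdForm n F with hf
  have hs : f.Sym (-1) := (H46.OrdPSp.stdForm_alt n).sym
  have hnd : f.ND := H46.OrdPSp.stdForm_nd n
  have hxr : x ^ r = 1 := by rw [← hx]; exact pow_orderOf_eq_one x
  have hyp : y ^ p = 1 := by rw [← hy]; exact pow_orderOf_eq_one y
  obtain ⟨h1, -, -⟩ := finrank_com h2 (Or.inr rfl) hs hnd (hu.pow p) hr hrF hx hT
  have hd : finrank F (Fin n ⊕ Fin n → F) = 2 * n := H17.PSpInvol.finrank_V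
  have hfix : ∀ v, (x : Module.End F (Fin n ⊕ Fin n → F)) v = v → v = 0 := by
    intro v hv
    apply fix_com hrF hxr (mem_fixS.mpr hv)
    have : comS x = ⊤ := by
      apply Submodule.eq_top_of_finrank_eq
      apply le_antisymm (Submodule.finrank_le _)
      rw [hd]
      exact h1
    rw [this]
    trivial
  have hind := indec h2 (Or.inr rfl) hs (hu.pow p) hr hrF hxr hfix hd.le hT
  have h3 := no_unip hs hnd (hu.pow p) hrF hxr hind hr hfix (hu.pow r)
    ((Commute.refl u).pow_pow r p) (fun v h => exists_fixed p hyp v h)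
  rw [← hydef] at h3
  rw [h3, orderOf_one] at hy
  exact (Fact.out : p.Prime).one_lt.ne hy

/-- Data of an element of order `r` in the odd orthogonal group. -/
theorem o_struct (h2 : (2 : F) ≠ 0) {n r : ℕ} [Fact r.Prime] (hr : Odd r) (hrF : (r : F) ≠ 0)
    (hT : ∀ d, 0 < d → d < n → ¬ (r ∣ Nat.card F ^ d - 1 ∨ r ∣ Nat.card F ^ d + 1))
    {V : Type*} [AddCommGroup V] [Module F V] [FiniteDimensional F V] [Nontrivial V]
    {f : SForm F V (RingHom.id F)} (hs : f.Sym 1) (hnd : f.ND) (hd : finrank F V = 2 * n + 1)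
    {x : (Module.End F V)ˣ} (hx : f.Isom x) (hxr : orderOf x = r) :
    finrank F (comS x) = 2 * n ∧ finrank F (fixS x) = 1 ∧ r ∣ Nat.card F ^ (2 * n) - 1 ∧
    ∀ y : (Module.End F V)ˣ, f.Isom y → Commute y x →
      ∃ (y₁ : (Module.End F (comS x))ˣ) (y₂ : (Module.End F (fixS x))ˣ)
        (x₁ : (Module.End F (comS x))ˣ),
      (f.pull (comS x).subtype).Isom y₁ ∧ (f.pull (comS x).subtype).Isom x₁ ∧
      (f.pull (fixS x).subtype).Isom y₂ ∧ (f.pull (fixS x).subtype).ND ∧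
      LinearMap.det (y : Module.End F V) = LinearMap.det (y₁ : Module.End F (comS x)) *
        LinearMap.det (y₂ : Module.End F (fixS x)) ∧
      (∀ w : comS x, (((y₁ : Module.End F (comS x)) w : comS x) : V) = (y : Module.End F V) w) ∧
      (∀ w : fixS x, (((y₂ : Module.End F (fixS x)) w : fixS x) : V) = (y : Module.End F V) w) ∧
      Commute y₁ x₁ ∧ x₁ ^ r = 1 ∧ (f.pull (comS x).subtype).ND ∧
      (∀ w, (x₁ : Module.End F (comS x)) w = w → w = 0) ∧
      (∀ U : Submodule F (comS x), (∀ v ∈ U, (x₁ : Module.End F (comS x)) v ∈ U) →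
        (∀ v ∈ U, (∀ w ∈ U, (f.pull (comS x).subtype).B v w = 0) → v = 0) → U = ⊥ ∨ U = ⊤) := by
  have hxr' : x ^ r = 1 := by rw [← hxr]; exact pow_orderOf_eq_one x
  obtain ⟨h1, h3, h4⟩ := finrank_com h2 (Or.inl rfl) hs hnd hx hr hrF hxr hT
  have hcompl := isCompl hrF hxr' (u := x) (V := V)
  have hsum : finrank F (comS x) + finrank F (fixS x) = 2 * n + 1 := by
    rw [← hd]
    exact Submodule.finrank_add_eq_of_isCompl hcompl
  have hcom : finrank F (comS x) = 2 * n := by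
    obtain ⟨e, he⟩ := h3
    omega
  refine ⟨hcom, by omega, by rwa [← hcom], ?_⟩
  intro y hy hc
  obtain ⟨y₁, y₂, a1, a2, a3, a4, a5, -, -, a6, a7⟩ := H46.OrthDec.decomp_isom hs hnd (comS x)
    (fixS x) hcompl (orth hs hx) y hy (com_inv hc) (fix_inv hc)
  obtain ⟨x₁, -, b1, -, -, -, -, -, -, b6, -⟩ := H46.OrthDec.decomp_isom hs hnd (comS x)
    (fixS x) hcompl (orth hs hx) x hx (com_inv (Commute.refl x)) (fix_inv (Commute.refl x))
  have hx1r : x₁ ^ r = 1 := by
    apply Units.ext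
    apply LinearMap.ext
    intro z
    apply Subtype.ext
    rw [Units.val_pow_eq_pow_val, H46.OrthDec.res_pow b6 r z, ← Units.val_pow_eq_pow_val, hxr']
    rfl
  have hfix1 : ∀ w, (x₁ : Module.End F (comS x)) w = w → w = 0 := by
    intro w hw
    apply Subtype.ext
    apply fix_com hrF hxr' _ w.2
    rw [mem_fixS, ← b6, hw]
  refine ⟨y₁, y₂, x₁, a1, b1, a2, a4, a5, a6, a7, ?_, hx1r, a3, hfix1, ?_⟩
  · apply Units.ext
    apply LinearMap.ext
    intro z
    apply Subtype.ext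
    change ((((y₁ : Module.End F (comS x)) ((x₁ : Module.End F (comS x)) z)) : comS x) : V) =
      ((((x₁ : Module.End F (comS x)) ((y₁ : Module.End F (comS x)) z)) : comS x) : V)
    rw [a6, b6, b6, a6]
    exact congrArg (fun t : (Module.End F V)ˣ => (t : Module.End F V) z) hc.eq
  · exact indec h2 (Or.inl rfl) (f := f.pull (comS x).subtype) (fun v w => hs _ _) b1 hr hrF hx1r
      hfix1 hcom.le hT

include h2 in
theorem nb_o (p : ℕ) [Fact p.Prime] [CharP F p] {n r : ℕ} (hn : 2 ≤ n) [Fact r.Prime] (hr : Odd r)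
    (hrp : Nat.Coprime r p)
    (hT : ∀ d, 0 < d → d < n → ¬ (r ∣ Nat.card F ^ d - 1 ∨ r ∣ Nat.card F ^ d + 1)) :
    r * p ∉ oO n F := by
  rintro ⟨x0, hx0⟩
  have hr0 : 0 < r := (Fact.out : r.Prime).pos
  have hp0 : 0 < p := (Fact.out : p.Prime).pos
  have hrF : (r : F) ≠ 0 := by
    intro h
    rw [CharP.cast_eq_zero_iff F p] at h
    exact (Fact.out : p.Prime).one_lt.ne' (Nat.Coprime.eq_one_of_dvd hrp.symm h)
  obtain ⟨u, hu, huo⟩ := SpecPO.exists_of_mem h2 hn x0
  rw [hx0] at huo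
  obtain ⟨hx, hy⟩ := split_rp hr0 hp0 huo
  set x := u ^ p with hxdef
  set y := u ^ r with hydef
  set f := stdO n F with hf
  have hs : f.Sym 1 := stdO_sym n F
  have hnd : f.ND := stdO_nd h2 n
  have hui := isom_of_mem h2 hs hu
  have hxr : x ^ r = 1 := by rw [← hx]; exact pow_orderOf_eq_one x
  have hyp : y ^ p = 1 := by rw [← hy]; exact pow_orderOf_eq_one y
  obtain ⟨h1, h3, -, h4⟩ := o_struct h2 hr hrF hT hs hnd (stdO_finrank n F) (hui.pow p) hx
  obtain ⟨y₁, y₂, x₁, a1, b1, -, -, -, a6, a7, hc, hx1r, a3, hfix1, hind⟩ :=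
    h4 y (hui.pow r) ((Commute.refl u).pow_pow r p)
  have hy1p : y₁ ^ p = 1 := by
    apply Units.ext
    apply LinearMap.ext
    intro z
    apply Subtype.ext
    rw [Units.val_pow_eq_pow_val, H46.OrthDec.res_pow a6 p z, ← Units.val_pow_eq_pow_val, hyp]
    rfl
  have hy2p : y₂ ^ p = 1 := by
    apply Units.ext
    apply LinearMap.ext
    intro z
    apply Subtype.ext
    rw [Units.val_pow_eq_pow_val, H46.OrthDec.res_pow a7 p z, ← Units.val_pow_eq_pow_val, hyp]
    rfl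
  have e1 : y₁ = 1 := no_unip (f := f.pull (comS x).subtype) (fun v w => hs _ _) a3 b1 hrF hx1r
    hind hr hfix1 a1 hc (fun v h => exists_fixed p hy1p v h)
  have e2 : y₂ = 1 := one_of_finrank_one h3 p hy2p
  have e3 : y = 1 := by
    apply Units.ext
    apply LinearMap.ext
    intro v
    have hcompl := isCompl hrF hxr (u := x) (V := Unit ⊕ (Fin n ⊕ Fin n) → F)
    obtain ⟨a, ha, b, hb, rfl⟩ := H46.SForm.mem_sup_of_compl hcompl v
    have h5 := a6 ⟨a, ha⟩
    have h6 := a7 ⟨b, hb⟩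
    rw [e1] at h5
    rw [e2] at h6
    rw [map_add]
    change a = _ at h5
    change b = _ at h6
    rw [← h5, ← h6]
    rfl
  rw [e3, orderOf_one] at hy
  exact (Fact.out : p.Prime).one_lt.ne hy

end H17.SpecMain2
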