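import Mathlib
import Cfsg.Agent.Lib.H17.SpecMain2

set_option autoImplicit false
set_option linter.unusedSectionVars false

/-! Elements of order `2r` in `PSp(2n,q)` and `PΩ(2n+1,q)`. -/

namespace H17.SpecMain3

open Module QuadraticMap H17.OrthAbs H46.SForm H46.SForm.SForm H46.ProdUnit H46.ProjOrder
  H17.SpecPO H17.SpecConv H17.SpecUni H17.SpecStr H46.Irr H17.SpecMain H17.SpecMain2

universe u v

variable {F : Type u} [Field F] [Finite F] (h2 : (2 : F) ≠ 0)

section Invol

variable {V : Type*} [AddCommGroup V] [Module F V] [FiniteDimensional F V]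

include h2 in
/-- A commuting involution is scalar on an indecomposable space. -/
theorem invol_scalar {f : SForm F V (RingHom.id F)} {ε : F} (hs : f.Sym ε) (hnd : f.ND)
    {x t : (Module.End F V)ˣ} (ht : f.Isom t) (hc : Commute t x) (ht2 : t ^ 2 = 1)
    (hind : ∀ U : Submodule F V, (∀ v ∈ U, (x : Module.End F V) v ∈ U) →
      (∀ v ∈ U, (∀ w ∈ U, f.B v w = 0) → v = 0) → U = ⊥ ∨ U = ⊤) :
    (∀ v, (t : Module.End F V) v = v) ∨ (∀ v, (t : Module.End F V) v = -v) := by
  have h22 : ((2 : ℕ) : F) ≠ 0 := by exact_mod_cast h2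
  have hcompl := isCompl h22 ht2 (u := t) (V := V)
  have horth := orth hs ht
  have h1 := hind (fixS t) (fix_inv hc.symm) (by
    intro v hv h
    apply hnd
    intro w
    obtain ⟨a, ha, b, hb, rfl⟩ := H46.SForm.mem_sup_of_compl hcompl w
    rw [f.add_right, h b hb, add_zero]
    exact swap0 hs (horth a ha v hv))
  rcases h1 with h1 | h1
  · right
    intro v
    have h3 : (t : Module.End F V) v + v ∈ fixS t := by
      rw [mem_fixS, map_add]
      have : (t : Module.End F V) ((t : Module.End F V) v) = v := by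
        change ((t : Module.End F V) * (t : Module.End F V)) v = v
        rw [← Units.val_mul, ← pow_two, ht2]
        rfl
      rw [this, add_comm]
    rw [h1, Submodule.mem_bot] at h3
    exact eq_neg_of_add_eq_zero_left h3
  · left
    intro v
    have : v ∈ fixS t := by rw [h1]; trivial
    exact mem_fixS.mp this

end Invol

include h2 in
/-- From the symplectic to the orthogonal side. -/
theorem sp_to_o {n r : ℕ} (hn : 2 ≤ n) [Fact r.Prime] (hr : Odd r) (hrF : (r : F) ≠ 0)
    (hT : ∀ d, 0 < d → d < n → ¬ (r ∣ Nat.card F ^ d - 1 ∨ r ∣ Nat.card F ^ d + 1))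
    (h : 2 * r ∈ oSp n F) : 2 * r ∈ oO n F := by
  obtain ⟨x0, hx0⟩ := h
  have hrp : r.Prime := Fact.out
  have hr1 : r ≠ 1 := hrp.one_lt.ne'
  have hrodd2 : ¬ 2 ∣ r := fun h => (Nat.not_even_iff_odd.mpr hr) (even_iff_two_dvd.mpr h)
  obtain ⟨u, hu, huo⟩ := H46.OrdPSp.exists_isom (by omega) x0
  rw [hx0] at huo
  haveI : Nonempty (Fin n ⊕ Fin n) := ⟨Sum.inl ⟨0, by omega⟩⟩
  set f := H46.OrdPSp.stdForm n F with hf
  have hs : f.Sym (-1) := (H46.OrdPSp.stdForm_alt n).sym
  have hnd : f.ND := H46.OrdPSp.stdForm_nd n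
  have hd : finrank F (Fin n ⊕ Fin n → F) = 2 * n := H17.PSpInvol.finrank_V
  have hfixgen : ∀ x : (Module.End F (Fin n ⊕ Fin n → F))ˣ, f.Isom x → orderOf x = r →
      ∀ v, (x : Module.End F (Fin n ⊕ Fin n → F)) v = v → v = 0 := by
    intro x hx hxo v hv
    have hxr : x ^ r = 1 := by rw [← hxo]; exact pow_orderOf_eq_one x
    obtain ⟨h1, -, -⟩ := finrank_com h2 (Or.inr rfl) hs hnd hx hr hrF hxo hT
    apply fix_com hrF hxr (mem_fixS.mpr hv)
    have : comS x = ⊤ := by
      apply Submodule.eq_top_of_finrank_eq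
      apply le_antisymm (Submodule.finrank_le _)
      rw [hd]
      exact h1
    rw [this]
    trivial
  obtain ⟨c, hc⟩ := (projOrder_dvd_iff u (2 * r)).mp (by rw [huo])
  rw [← Units.val_pow_eq_pow_val] at hc
  have hcc : c * c = 1 := norm_one_of_scalar hnd (hu.pow _) hc
  have hsc : ∀ (k : ℕ), (∃ c : F, ((u ^ k : (Module.End F (Fin n ⊕ Fin n → F))ˣ) :
      Module.End F (Fin n ⊕ Fin n → F)) = algebraMap F _ c) → 2 * r ∣ k := by
    rintro k ⟨c, hc⟩
    rw [← huo, projOrder_dvd_iff]
    exact ⟨c, by rw [← Units.val_pow_eq_pow_val, hc]⟩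
  rcases mul_self_eq_one_iff.mp hcc with hc1 | hc1
  · -- `u ^ (2 r) = 1`
    exfalso
    rw [hc1, map_one] at hc
    have hu2r : u ^ (2 * r) = 1 := Units.ext hc
    have hx : orderOf (u ^ 2) = r := by
      apply orderOf_eq_prime
      · rw [← pow_mul, hu2r]
      · intro h
        have := hsc 2 ⟨1, by rw [h, map_one]; rfl⟩
        have := Nat.le_of_dvd (by norm_num) this
        have := hrp.two_le
        omega
    have hxr : (u ^ 2) ^ r = 1 := by rw [← pow_mul, hu2r]
    have hfix := hfixgen (u ^ 2) (hu.pow 2) hx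
    have hind := indec h2 (Or.inr rfl) hs (hu.pow 2) hr hrF hxr hfix hd.le hT
    have ht2 : (u ^ r) ^ 2 = 1 := by rw [← pow_mul, mul_comm, hu2r]
    rcases invol_scalar h2 hs hnd (hu.pow r) ((Commute.refl u).pow_pow r 2) ht2 hind with h | h
    · have := hsc r ⟨1, by
        apply LinearMap.ext
        intro v
        rw [h, map_one]
        rfl⟩
      have := Nat.le_of_dvd hrp.pos this
      have := hrp.pos
      omega
    · have := hsc r ⟨-1, by
        apply LinearMap.ext
        intro v
        rw [h, Module.algebraMap_end_apply, neg_one_smul]⟩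
      have := Nat.le_of_dvd hrp.pos this
      have := hrp.pos
      omega
  · -- `u ^ (2 r) = -1`
    rw [hc1] at hc
    have hu2r : ∀ v, ((u ^ (2 * r) : (Module.End F (Fin n ⊕ Fin n → F))ˣ) :
        Module.End F (Fin n ⊕ Fin n → F)) v = -v := by
      intro v
      rw [hc, Module.algebraMap_end_apply, neg_one_smul]
    have hu4r : u ^ (4 * r) = 1 := by
      apply Units.ext
      apply LinearMap.ext
      intro v
      rw [show 4 * r = 2 * r + 2 * r by ring, pow_add, Units.val_mul, Module.End.mul_apply, hu2r,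
        hu2r, neg_neg]
      rfl
    have hx : orderOf (u ^ 4) = r := by
      apply orderOf_eq_prime
      · rw [← pow_mul, hu4r]
      · intro h
        have h3 := hsc 4 ⟨1, by rw [h, map_one]; rfl⟩
        have h4 : r ∣ 2 := Nat.dvd_of_mul_dvd_mul_left (by norm_num : 0 < 2) (by
          rw [show 2 * 2 = 4 by norm_num]; exact h3)
        have h5 := (Nat.prime_dvd_prime_iff_eq hrp Nat.prime_two).mp h4
        exact hrodd2 (by rw [h5])
    have hxr : (u ^ 4) ^ r = 1 := by rw [← pow_mul, hu4r]
    have hfix := hfixgen (u ^ 4) (hu.pow 4) hx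
    -- the twisted form
    set g := tw f (u ^ 4) with hg
    have hgs : g.Sym 1 := by
      have := tw_sym hs (hu.pow 4)
      rwa [neg_neg] at this
    have hgn : g.ND := tw_nd hnd (eq_zero_of_inv hr hxr hfix)
    have hgu : g.Isom u := tw_isom hu ((Commute.refl u).pow_right 4)
    have hone : Isom (dotF F 1) (1 : (Module.End F (Fin 1 → F))ˣ) := Isom.one
    have hs2 : (g.prod (dotF F 1)).Sym 1 := sym_prod hgs (dotF_sym F 1)
    have hn2 : (g.prod (dotF F 1)).ND := hgn.prod (dotF_nd F 1)
    have hd2 : finrank F ((Fin n ⊕ Fin n → F) × (Fin 1 → F)) = 2 * n + 1 := by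
      rw [finrank_prod, hd, dotF_finrank]
    have h5 := sq_mem h2 hs2 hn2 (by rw [hd2]; omega) (hgu.prod hone)
    have h6 := SpecPO.mem_orders h2 hn hs2 hn2 hd2 h5
    rw [prodUnit_pow, one_pow, orderOf_prodUnit, orderOf_one, Nat.lcm_one_right] at h6
    have h7 : orderOf (u ^ 2) = 2 * r := by
      apply Nat.dvd_antisymm
      · apply orderOf_dvd_of_pow_eq_one
        rw [← pow_mul, show 2 * (2 * r) = 4 * r by ring, hu4r]
      · apply Nat.Coprime.mul_dvd_of_dvd_of_dvd
        · exact (Nat.coprime_primes Nat.prime_two hrp).mpr (fun h => hrodd2 (by rw [← h]))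
        · by_contra hnd2
          have ho : orderOf (u ^ 2) ∣ 2 * r := by
            apply orderOf_dvd_of_pow_eq_one
            rw [← pow_mul, show 2 * (2 * r) = 4 * r by ring, hu4r]
          have h8 : orderOf (u ^ 2) ∣ r :=
            (Nat.Coprime.dvd_of_dvd_mul_left
              ((Nat.coprime_primes Nat.prime_two Nat.prime_two).not.mpr (by norm_num) |> fun _ =>
                ((Nat.Prime.coprime_iff_not_dvd Nat.prime_two).mpr hnd2).symm) ho)
          have h9 : (u ^ 2) ^ r = 1 := orderOf_dvd_iff_pow_eq_one.mp h8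
          rw [← pow_mul] at h9
          obtain ⟨v, hv⟩ := exists_ne (0 : Fin n ⊕ Fin n → F)
          have h10 := hu2r v
          rw [h9] at h10
          apply hv
          have h11 : (2 : F) • v = 0 := by
            rw [two_smul]
            nth_rewrite 1 [show v = -v from h10]
            simp
          exact (smul_eq_zero.mp h11).resolve_left h2
        · rw [← hx, show u ^ 4 = (u ^ 2) ^ 2 by rw [← pow_mul]]
          exact orderOf_pow_dvd 2
    rwa [h7] at h6

end H17.SpecMain3
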