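import Mathlib
import Cfsg.Agent.Lib.H17.SpecMain3

set_option autoImplicit false
set_option linter.unusedSectionVars false

/-! Elements of order `2r`: from `PΩ(2n+1,q)` to `PSp(2n,q)`, and odd coprime orders. -/

namespace H17.SpecMain4

open Module QuadraticMap H17.OrthAbs H46.SForm H46.SForm.SForm H46.ProdUnit H46.ProjOrder
  H17.SpecPO H17.SpecConv H17.SpecUni H17.SpecStr H46.Irr H17.SpecMain H17.SpecMain2 H17.SpecMain3

universe u v

variable {F : Type u} [Field F] [Finite F] (h2 : (2 : F) ≠ 0)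

/-- The arithmetic of the sign of `-1` on the commutator space. -/
theorem arith {Q r : ℤ} {e e' η j : ℤ} (hQ : Odd Q) (hr : 2 < r) (he : e = 1 ∨ e = -1)
    (he' : e' = 1 ∨ e' = -1) (hη : η = 1 ∨ η = -1) (hrq : r ∣ Q - η)
    (h1 : r ∣ Q ^ 2 + e * Q - (1 + e')) (h4 : Q ^ 2 + e * Q = 4 * j + (1 + e')) :
    (4 : ℤ) ∣ Q - η := by
  have hη2 : η * η = 1 := by rcases hη with rfl | rfl <;> norm_num
  have h5 : r ∣ e * η - e' := by
    have : e * η - e' = (Q ^ 2 + e * Q - (1 + e')) - (Q - η) * (Q + η + e) := by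
      linear_combination (-1 : ℤ) * hη2
    rw [this]
    exact dvd_sub h1 (Dvd.dvd.mul_right hrq _)
  have h6 : e' = e * η := by
    have h7 : e * η - e' = 0 ∨ 2 = |e * η - e'| := by
      rcases he with rfl | rfl <;> rcases he' with rfl | rfl <;> rcases hη with rfl | rfl <;> norm_num
    rcases h7 with h7 | h7
    · linarith
    · exfalso
      have h8 : r ∣ |e * η - e'| := (dvd_abs _ _).mpr h5
      rw [← h7] at h8
      have := Int.le_of_dvd (by norm_num) h8
      omega
  have h7 : (Q - η) * (Q + η + e) = 4 * j := by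
    rw [h6] at h4
    linear_combination h4 - hη2
  have h8 : Odd (Q + η + e) := by
    have : Even (η + e) := by
      rcases he with rfl | rfl <;> rcases hη with rfl | rfl <;> decide
    rw [add_assoc]
    exact hQ.add_even this
  have h9 : IsCoprime (4 : ℤ) (Q + η + e) := by
    have : (4 : ℤ) = 2 ^ 2 := by norm_num
    rw [this]
    apply IsCoprime.pow_left
    rw [Int.isCoprime_iff_gcd_eq_one, Int.gcd_comm]
    exact Nat.coprime_two_right.mpr (Int.natAbs_odd.mpr h8)
  exact h9.dvd_of_dvd_mul_right ⟨j, h7⟩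

include h2 in
theorem o_to_sp (p : ℕ) [Fact p.Prime] [CharP F p] {n r : ℕ} (hn : 2 ≤ n) [Fact r.Prime]
    (hr : Odd r) (hrp : Nat.Coprime r p)
    (hT : ∀ d, 0 < d → d < n → ¬ (r ∣ Nat.card F ^ d - 1 ∨ r ∣ Nat.card F ^ d + 1))
    (h : 2 * r ∈ oO n F) : 2 * r ∈ oSp n F := by
  obtain ⟨x0, hx0⟩ := h
  have hrP : r.Prime := Fact.out
  have hrF : (r : F) ≠ 0 := by
    intro h
    rw [CharP.cast_eq_zero_iff F p] at h
    exact (Fact.out : p.Prime).one_lt.ne' (Nat.Coprime.eq_one_of_dvd hrp.symm h)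
  have hr3 : 2 < r := by
    rcases hr with ⟨k, rfl⟩
    have := hrP.one_lt
    omega
  have hqodd : Odd (Nat.card F) := by
    have hf : Fintype F := Fintype.ofFinite F
    have hpo : Odd p := by
      rcases (Fact.out : p.Prime).eq_two_or_odd' with h | h
      · exfalso
        subst h
        exact h2 (by exact_mod_cast CharP.cast_eq_zero F 2)
      · exact h
    obtain ⟨k, -, hk⟩ := FiniteField.card F p
    rw [Nat.card_eq_fintype_card, hk]
    exact hpo.pow
  obtain ⟨u, hu, huo⟩ := SpecPO.exists_of_mem h2 hn x0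
  rw [hx0] at huo
  obtain ⟨ht, hx⟩ := split_rp (r := 2) (p := r) (by norm_num) hrP.pos huo
  set x := u ^ 2 with hxdef
  set t := u ^ r with htdef
  set f := stdO n F with hf
  have hs : f.Sym 1 := stdO_sym n F
  have hnd : f.ND := stdO_nd h2 n
  have hui := isom_of_mem h2 hs hu
  have hxr : x ^ r = 1 := by rw [← hx]; exact pow_orderOf_eq_one x
  have ht2 : t ^ 2 = 1 := by rw [← ht]; exact pow_orderOf_eq_one t
  have htO : t ∈ Om f := pow_mem hu r
  have hd := stdO_finrank n F
  have hcompl := isCompl hrF hxr (u := x) (V := Unit ⊕ (Fin n ⊕ Fin n) → F)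
  obtain ⟨h1, h3, hdvd, h4⟩ := o_struct h2 hr hrF hT hs hnd hd (hui.pow 2) hx
  obtain ⟨t₁, t₂, x₁, a1, b1, a2, a4, a5, a6, a7, hc, hx1r, a3, hfix1, hind⟩ :=
    h4 t (hui.pow r) ((Commute.refl u).pow_pow r 2)
  have ht12 : t₁ ^ 2 = 1 := by
    apply Units.ext
    apply LinearMap.ext
    intro z
    apply Subtype.ext
    rw [Units.val_pow_eq_pow_val, H46.OrthDec.res_pow a6 2 z, ← Units.val_pow_eq_pow_val, ht2]
    rfl
  have ht22 : t₂ ^ 2 = 1 := by
    apply Units.ext
    apply LinearMap.ext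
    intro z
    apply Subtype.ext
    rw [Units.val_pow_eq_pow_val, H46.OrthDec.res_pow a7 2 z, ← Units.val_pow_eq_pow_val, ht2]
    rfl
  have hdet : LinearMap.det (t : Module.End F (Unit ⊕ (Fin n ⊕ Fin n) → F)) = 1 := det_of_mem htO
  -- on the fixed space
  have hL : (∀ v, (t₂ : Module.End F (fixS x)) v = v) ∨
      (∀ v, (t₂ : Module.End F (fixS x)) v = -v) := by
    haveI : Nontrivial (fixS x) := Module.nontrivial_of_finrank_pos (R := F) (by rw [h3]; norm_num)
    obtain ⟨v, hv⟩ := exists_ne (0 : fixS x)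
    obtain ⟨c, hcv⟩ := exists_smul_eq_of_finrank_eq_one h3 hv ((t₂ : Module.End F (fixS x)) v)
    have h5 : (t₂ : Module.End F (fixS x)) ((t₂ : Module.End F (fixS x)) v) = v := by
      change ((t₂ : Module.End F (fixS x)) * (t₂ : Module.End F (fixS x))) v = v
      rw [← Units.val_mul, ← pow_two, ht22]
      rfl
    rw [← hcv, map_smul, ← hcv, smul_smul] at h5
    have hcc : c * c = 1 := by
      have : (c * c - 1 : F) • v = 0 := by
        rw [sub_smul (c * c) (1 : F) v, h5, one_smul, sub_self]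
      exact sub_eq_zero.mp ((smul_eq_zero.mp this).resolve_right hv)
    rcases mul_self_eq_one_iff.mp hcc with rfl | rfl
    · left
      intro w
      obtain ⟨a, rfl⟩ := exists_smul_eq_of_finrank_eq_one h3 hv w
      rw [map_smul, ← hcv, one_smul]
    · right
      intro w
      obtain ⟨a, rfl⟩ := exists_smul_eq_of_finrank_eq_one h3 hv w
      rw [map_smul, ← hcv, neg_one_smul, smul_neg]
  have hW := invol_scalar h2 (f := f.pull (comS x).subtype) (fun v w => hs _ _) a3 a1 hc ht12 hind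
  have hdet2 : ∀ {W : Submodule F (Unit ⊕ (Fin n ⊕ Fin n) → F)} (s : (Module.End F W)ˣ),
      (∀ v, (s : Module.End F W) v = -v) →
      LinearMap.det (s : Module.End F W) = (-1) ^ finrank F W := by
    intro W s hsv
    have : (s : Module.End F W) = (-1 : F) • LinearMap.id := by
      apply LinearMap.ext
      intro v
      rw [hsv, LinearMap.smul_apply, LinearMap.id_apply, neg_one_smul]
    rw [this, LinearMap.det_smul, LinearMap.det_id, mul_one]
  have hdet1 : ∀ {W : Submodule F (Unit ⊕ (Fin n ⊕ Fin n) → F)} (s : (Module.End F W)ˣ),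
      (∀ v, (s : Module.End F W) v = v) → LinearMap.det (s : Module.End F W) = 1 := by
    intro W s hsv
    have : (s : Module.End F W) = LinearMap.id := LinearMap.ext hsv
    rw [this, LinearMap.det_id]
  have hL1 : ∀ v, (t₂ : Module.End F (fixS x)) v = v := by
    rcases hL with hL | hL
    · exact hL
    · exfalso
      have h5 := hdet2 t₂ hL
      rw [h3, pow_one] at h5
      have h6 : LinearMap.det (t₁ : Module.End F (comS x)) = 1 := by
        rcases hW with hW | hW
        · exact hdet1 t₁ hW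
        · rw [hdet2 t₁ hW, h1, pow_mul, neg_one_sq, one_pow]
      rw [h6, h5, hdet, one_mul] at a5
      apply h2
      linear_combination a5
  have hW1 : ∀ v, (t₁ : Module.End F (comS x)) v = -v := by
    rcases hW with hW | hW
    · exfalso
      have : t = 1 := by
        apply Units.ext
        apply LinearMap.ext
        intro v
        obtain ⟨a, ha, b, hb, rfl⟩ := H46.SForm.mem_sup_of_compl hcompl v
        have h5 := a6 ⟨a, ha⟩
        have h6 := a7 ⟨b, hb⟩
        rw [hW] at h5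
        rw [hL1] at h6
        rw [map_add]
        change a = _ at h5
        change b = _ at h6
        rw [← h5, ← h6]
        rfl
      rw [this, orderOf_one] at ht
      norm_num at ht
    · exact hW
  -- fixed vectors of `t` are those of `x`
  have hfixeq : ∀ v, (t : Module.End F (Unit ⊕ (Fin n ⊕ Fin n) → F)) v = v ↔
      (x : Module.End F (Unit ⊕ (Fin n ⊕ Fin n) → F)) v = v := by
    intro v
    rw [← mem_fixS (u := x)]
    obtain ⟨a, ha, b, hb, rfl⟩ := H46.SForm.mem_sup_of_compl hcompl v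
    have h5 := a6 ⟨a, ha⟩
    have h6 := a7 ⟨b, hb⟩
    rw [hW1] at h5
    rw [hL1] at h6
    change -a = _ at h5
    change b = _ at h6
    constructor
    · intro h
      rw [map_add, ← h5, ← h6] at h
      have h7 : -a = a := add_right_cancel h
      have h8 : (2 : F) • a = 0 := by
        rw [two_smul]
        nth_rewrite 1 [← h7]
        simp
      rw [(smul_eq_zero.mp h8).resolve_left h2, zero_add]
      exact hb
    · intro h
      have h7 : a ∈ fixS x := by
        have := (fixS x).sub_mem h hb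
        rwa [add_sub_cancel_right] at this
      have h8 : a = 0 := fix_com hrF hxr h7 ha
      rw [h8, zero_add, ← h6]
  -- counting
  have hcne : (1 : F) ≠ 0 := one_ne_zero
  obtain ⟨j, hj⟩ := SpecCount.sign_free h2 hs htO (1 : F) (N := 2) (by decide) (by norm_num) ht2 (by
    intro v hv k hk
    by_contra hodd
    have hko : Odd k := Nat.not_even_iff_odd.mp (fun h => hodd (even_iff_two_dvd.mp h))
    obtain ⟨i, rfl⟩ := hko
    apply hv
    rw [pow_succ, Module.End.mul_apply, pow_mul, ← Units.val_pow_eq_pow_val t 2, ht2, Units.val_one,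
      one_pow, Module.End.one_apply] at hk
    exact hk)
  obtain ⟨e, he, hcard⟩ := SpecCount.card_norm h2 hs hnd (m := n) hd hcne
  obtain ⟨e', he', hcard'⟩ := SpecCount.card_norm h2 (f := f.pull (fixS x).subtype)
    (fun v w => hs _ _) a4 (m := 0) (by rw [h3]) hcne
  have hcardL : Nat.card {v : Unit ⊕ (Fin n ⊕ Fin n) → F // Qof f v = 1 ∧
      (t : Module.End F (Unit ⊕ (Fin n ⊕ Fin n) → F)) v = v} =
      Nat.card {v : fixS x // Qof (f.pull (fixS x).subtype) v = 1} := by
    apply Nat.card_congr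
    exact
      { toFun := fun v => ⟨⟨v.1, mem_fixS.mpr ((hfixeq _).mp v.2.2)⟩, v.2.1⟩
        invFun := fun v => ⟨v.1.1, v.2, (hfixeq _).mpr (mem_fixS.mp v.1.2)⟩
        left_inv := fun v => rfl
        right_inv := fun v => rfl }
  -- the action of `x`
  have hV : Finite (Unit ⊕ (Fin n ⊕ Fin n) → F) := Module.finite_of_finite F
  let σ : Equiv.Perm {v : Unit ⊕ (Fin n ⊕ Fin n) → F // Qof f v = 1} :=
    H17.OrthTheta.permX (Qof f) 1 (toO f x (hui.pow 2))
  have hσ : ∀ v, (σ v).1 = (x : Module.End F (Unit ⊕ (Fin n ⊕ Fin n) → F)) v.1 := fun v => rfl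
  have hσp : ∀ (k : ℕ) (v), ((σ ^ k) v).1 =
      ((x : Module.End F (Unit ⊕ (Fin n ⊕ Fin n) → F)) ^ k) v.1 := by
    intro k
    induction k with
    | zero => intro v; rfl
    | succ k ih =>
      intro v
      rw [pow_succ, Equiv.Perm.mul_apply, ih, pow_succ, Module.End.mul_apply]
      rfl
  have hmod := free_modEq σ r (by
    ext1 v
    apply Subtype.ext
    rw [hσp, ← Units.val_pow_eq_pow_val, hxr]
    rfl)
  have hcardσ : Nat.card {v // σ v = v} =
      Nat.card {v : fixS x // Qof (f.pull (fixS x).subtype) v = 1} := by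
    apply Nat.card_congr
    exact
      { toFun := fun v => ⟨⟨v.1.1, mem_fixS.mpr (congrArg Subtype.val v.2)⟩, v.1.2⟩
        invFun := fun v => ⟨⟨v.1.1, v.2⟩, Subtype.ext (mem_fixS.mp v.1.2)⟩
        left_inv := fun v => rfl
        right_inv := fun v => rfl }
  rw [hcardσ] at hmod
  rw [hcardL] at hj
  -- pass to integers
  set q := Nat.card F with hq
  set X := Nat.card {v : Unit ⊕ (Fin n ⊕ Fin n) → F // Qof f v = 1} with hX
  set L := Nat.card {v : fixS x // Qof (f.pull (fixS x).subtype) v = 1} with hLdef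
  have hLe : (L : ℤ) = 1 + e' := by
    rw [hcard']
    simp
  have hXe : (X : ℤ) = ((q : ℤ) ^ n) ^ 2 + e * (q : ℤ) ^ n := by
    rw [hcard, ← pow_mul, mul_comm n 2]
  have hXj : (X : ℤ) = 4 * (j : ℤ) + (1 + e') := by
    rw [← hLe]
    have : X = 4 * j + L := by rw [hj]
    exact_mod_cast this
  have hrX : (r : ℤ) ∣ (X : ℤ) - L := by
    have := (Nat.modEq_iff_dvd.mp hmod.symm)
    exact this
  have hq1 : 1 ≤ q := Nat.card_pos
  have hηr : ∃ η : ℤ, (η = 1 ∨ η = -1) ∧ (r : ℤ) ∣ (q : ℤ) ^ n - η := by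
    rcases dvd_half hrP hq1 hdvd with h | h
    · refine ⟨1, Or.inl rfl, ?_⟩
      have := Int.natCast_dvd_natCast.mpr h
      rwa [Nat.cast_sub (Nat.one_le_pow _ _ hq1), Nat.cast_pow, Nat.cast_one] at this
    · refine ⟨-1, Or.inr rfl, ?_⟩
      have := Int.natCast_dvd_natCast.mpr h
      rw [Nat.cast_add, Nat.cast_pow, Nat.cast_one] at this
      rwa [sub_neg_eq_add]
  obtain ⟨η, hη, hrη⟩ := hηr
  have h44 : (4 : ℤ) ∣ (q : ℤ) ^ n - η := by
    apply arith (r := (r : ℤ)) (e := e) (e' := e') (j := (j : ℤ))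
      (by
        have : Odd (q ^ n) := hqodd.pow
        exact_mod_cast this)
      (by exact_mod_cast hr3) he he' hη hrη
    · rw [← hXe, ← hLe]; exact hrX
    · rw [← hXe]; exact hXj
  have h4r : (4 * r : ℕ) ∣ q ^ n - 1 ∨ (4 * r : ℕ) ∣ q ^ n + 1 := by
    have hcop : IsCoprime (4 : ℤ) (r : ℤ) := by
      have : Nat.Coprime 4 r := by
        rw [show 4 = 2 ^ 2 by norm_num]
        exact Nat.Coprime.pow_left 2 (Nat.coprime_two_left.mpr hr)
      exact_mod_cast Nat.isCoprime_iff_coprime.mpr this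
    have h5 := hcop.mul_dvd h44 hrη
    rcases hη with rfl | rfl
    · left
      have : ((4 * r : ℕ) : ℤ) ∣ ((q ^ n - 1 : ℕ) : ℤ) := by
        rw [Nat.cast_sub (Nat.one_le_pow _ _ hq1)]
        push_cast
        exact h5
      exact_mod_cast this
    · right
      have : ((4 * r : ℕ) : ℤ) ∣ ((q ^ n + 1 : ℕ) : ℤ) := by
        push_cast
        rwa [sub_neg_eq_add] at h5
      exact_mod_cast this
  obtain ⟨A, _, _, g, b, ha, hgn, hA, hb, hbr⟩ := exists_torus F (d := n) (by omega) h4r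
  haveI : Nontrivial A := Module.nontrivial_of_finrank_pos (R := F) (by omega)
  have h6 := H46.OrdPSp.mem_orders (n := n) (by omega) g ha hgn hA b hb
  refine H46.Orders.mem_of_dvd h6 ?_
  obtain ⟨c, hc⟩ := (projOrder_dvd_iff b (projOrder F b)).mp dvd_rfl
  rw [← Units.val_pow_eq_pow_val] at hc
  have hcc : c * c = 1 := norm_one_of_scalar hgn (hb.pow _) hc
  have h7 : b ^ (projOrder F b * 2) = 1 := by
    apply Units.ext
    rw [pow_mul, Units.val_pow_eq_pow_val, hc, ← map_pow, pow_two, hcc, map_one, Units.val_one]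
  have h8 := orderOf_dvd_of_pow_eq_one h7
  rw [hbr] at h8
  exact Nat.dvd_of_mul_dvd_mul_right (by norm_num : 0 < 2) (by
    rw [show 2 * r * 2 = 4 * r by ring]; exact h8)

/-- A unit of the required parity on a complement. -/
theorem odd_sp_to_o (h2 : (2 : F) ≠ 0) {n N : ℕ} (hn : 2 ≤ n) (hN : Odd N) (hNF : (N : F) ≠ 0)
    (h : N ∈ oSp n F) : N ∈ oO n F := by
  obtain ⟨x0, hx0⟩ := h
  obtain ⟨u, hu, huo, -⟩ := H46.SpDich.exists_lift (by omega) x0 (by rwa [hx0])
  rw [hx0] at huo
  haveI : Nonempty (Fin n ⊕ Fin n) := ⟨Sum.inl ⟨0, by omega⟩⟩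
  have hd : finrank F (Fin n ⊕ Fin n → F) = 2 * n := H17.PSpInvol.finrank_V
  obtain ⟨g, w, hg1, hg2, hg3, hg4, -, -⟩ := res_tw (H46.OrdPSp.stdForm_alt n).sym
    (H46.OrdPSp.stdForm_nd n) hu hNF hN (by rw [← huo]; exact pow_orderOf_eq_one u)
  rw [neg_neg] at hg1
  have hfin : finrank F (comS u) ≤ 2 * n := by
    rw [← hd]
    exact Submodule.finrank_le _
  set k := 2 * n + 1 - finrank F (comS u) with hk
  have hone : Isom (dotF F k) (1 : (Module.End F (Fin k → F))ˣ) := Isom.one
  have hs2 : (g.prod (dotF F k)).Sym 1 := sym_prod hg1 (dotF_sym F k)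
  have hn2 : (g.prod (dotF F k)).ND := hg2.prod (dotF_nd F k)
  have hd2 : finrank F ((comS u) × (Fin k → F)) = 2 * n + 1 := by
    rw [finrank_prod, dotF_finrank]
    omega
  have h1 : orderOf (prodUnit w (1 : (Module.End F (Fin k → F))ˣ)) = N := by
    rw [orderOf_prodUnit, orderOf_one, Nat.lcm_one_right, hg4, huo]
  have h5 := odd_mem h2 hs2 hn2 (by rw [hd2]; omega) (hg3.prod hone) (by rwa [h1])
  have h6 := SpecPO.mem_orders h2 hn hs2 hn2 hd2 h5
  rwa [h1] at h6

theorem odd_o_to_sp (h2 : (2 : F) ≠ 0) {n N : ℕ} (hn : 2 ≤ n) (hN : Odd N) (hNF : (N : F) ≠ 0)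
    (h : N ∈ oO n F) : N ∈ oSp n F := by
  obtain ⟨x0, hx0⟩ := h
  obtain ⟨u, hu, huo⟩ := SpecPO.exists_of_mem h2 hn x0
  rw [hx0] at huo
  have hs := stdO_sym n F
  have hui := isom_of_mem h2 hs hu
  have hd := stdO_finrank n F
  obtain ⟨g, w, hg1, hg2, hg3, hg4, -, -⟩ := res_tw hs (stdO_nd h2 n) hui hNF hN
    (by rw [← huo]; exact pow_orderOf_eq_one u)
  have hga := alt_of_sym h2 hg1
  obtain ⟨e, he⟩ := even_finrank hga hg2
  have hfin : finrank F (comS u) ≤ 2 * n + 1 := by
    rw [← hd]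
    exact Submodule.finrank_le _
  have hone : Isom (H46.OrdPSp.stdForm (n - e) F)
    (1 : (Module.End F (Fin (n - e) ⊕ Fin (n - e) → F))ˣ) := Isom.one
  have h1 : orderOf (prodUnit w (1 : (Module.End F (Fin (n - e) ⊕ Fin (n - e) → F))ˣ)) = N := by
    rw [orderOf_prodUnit, orderOf_one, Nat.lcm_one_right, hg4, huo]
  have hn2 := hg2.prod (H46.OrdPSp.stdForm_nd (F := F) (n - e))
  have hd2 : finrank F ((comS u) × (Fin (n - e) ⊕ Fin (n - e) → F)) = 2 * n := by
    rw [finrank_prod, H17.PSpInvol.finrank_V]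
    omega
  haveI : Nontrivial ((comS u) × (Fin (n - e) ⊕ Fin (n - e) → F)) :=
    Module.nontrivial_of_finrank_pos (R := F) (by omega)
  have h6 := H46.OrdPSp.mem_orders (n := n) (by omega) _ (hga.prod (H46.OrdPSp.stdForm_alt _))
    hn2 hd2 _ (hg3.prod hone)
  rwa [projOrder_of_odd h2 hn2 (hg3.prod hone) (by rwa [h1]), h1] at h6

end H17.SpecMain4
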