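import Mathlib
import Cfsg.Agent.Lib.H17.SpecMain4

set_option autoImplicit false
set_option linter.unusedSectionVars false

/-! Equality of the prime graphs of `PSp(2n,q)` and `PΩ(2n+1,q)`, `q` odd. -/

namespace H17.SpecMain5

open Module QuadraticMap H17.OrthAbs H46.SForm H46.SForm.SForm H46.ProdUnit H46.ProjOrder
  H17.SpecPO H17.SpecConv H17.SpecUni H17.SpecStr H46.Irr H17.SpecMain H17.SpecMain2 H17.SpecMain3
  H17.SpecMain4

universe u

variable {F : Type u} [Field F] [Finite F] (h2 : (2 : F) ≠ 0)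

include h2 in
theorem two_p (p : ℕ) [Fact p.Prime] [CharP F p] (hpo : Odd p) {n : ℕ} (hn : 3 ≤ n) :
    2 * p ∈ oSp n F ∧ 2 * p ∈ oO n F := by
  constructor
  · obtain ⟨A', _, _, f', u', E, ha', hnd', hd', hu', ho', hE⟩ :=
      H46.UnipModel.exists_unip_sp (K := F) p h2 1 1 (by omega) (Or.inr (by
        rw [Nat.sub_self, pow_zero]; omega))
    have h := sp_two h2 ha' hnd' (n := n) (d := 1) hd' (by norm_num) (by omega) hu' (by
      rw [ho']; exact hpo.pow)
    rw [ho'] at h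
    exact H46.Orders.mem_of_dvd h (Nat.mul_dvd_mul_left _ (dvd_pow_self p (by omega)))
  · obtain ⟨A₃, _, _, f₃, u₃, E, hs₃, hnd₃, hd₃, hu₃, ho₃, hE⟩ := exists_three F p h2
    haveI : FiniteDimensional F A₃ := Module.finite_of_finrank_pos (by omega)
    have h := o_two h2 hs₃ hnd₃ (n := n) (by omega) (by omega) hu₃ (by rw [ho₃]; exact hpo.pow)
    rw [ho₃] at h
    exact H46.Orders.mem_of_dvd h (Nat.mul_dvd_mul_left _ (dvd_pow_self p (by omega)))

include h2 in
theorem main (p : ℕ) [Fact p.Prime] [CharP F p] (hpo : Odd p) {n : ℕ} (hn : 3 ≤ n) (r s : ℕ)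
    (hr : r.Prime) (hs : s.Prime) (hrs : r ≠ s) : r * s ∈ oO n F ↔ r * s ∈ oSp n F := by
  have hpP : p.Prime := Fact.out
  -- `r` odd, different from `p`; `s = p`
  have hA : ∀ r : ℕ, r.Prime → Odd r → r ≠ p → (r * p ∈ oO n F ↔ r * p ∈ oSp n F) := by
    intro r hr hro hrp
    have hc : Nat.Coprime r p := (Nat.coprime_primes hr hpP).mpr hrp
    haveI : Fact r.Prime := ⟨hr⟩
    by_cases hT : ∃ d, 0 < d ∧ d < n ∧ (r ∣ Nat.card F ^ d - 1 ∨ r ∣ Nat.card F ^ d + 1)
    · obtain ⟨d, hd0, hdn, hd⟩ := hT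
      obtain ⟨h1, -, h3, -⟩ := t1 h2 p (by omega : 2 ≤ n) hro hc hd0 hdn hd
      exact ⟨fun _ => h1, fun _ => h3⟩
    · push Not at hT
      have hT' : ∀ d, 0 < d → d < n → ¬ (r ∣ Nat.card F ^ d - 1 ∨ r ∣ Nat.card F ^ d + 1) := by
        intro d h0 h1 h
        rcases h with h | h
        · exact (hT d h0 h1).1 h
        · exact (hT d h0 h1).2 h
      exact ⟨fun h => absurd h (nb_o h2 p (by omega) hro hc hT'),
        fun h => absurd h (nb_sp h2 p (by omega) hro hc hpo hT')⟩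
  have hB : ∀ r : ℕ, r.Prime → Odd r → r ≠ p → (2 * r ∈ oO n F ↔ 2 * r ∈ oSp n F) := by
    intro r hr hro hrp
    have hc : Nat.Coprime r p := (Nat.coprime_primes hr hpP).mpr hrp
    haveI : Fact r.Prime := ⟨hr⟩
    have hrF : (r : F) ≠ 0 := by
      intro h
      rw [CharP.cast_eq_zero_iff F p] at h
      exact hpP.one_lt.ne' (Nat.Coprime.eq_one_of_dvd hc.symm h)
    by_cases hT : ∃ d, 0 < d ∧ d < n ∧ (r ∣ Nat.card F ^ d - 1 ∨ r ∣ Nat.card F ^ d + 1)
    · obtain ⟨d, hd0, hdn, hd⟩ := hT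
      obtain ⟨-, h1, -, h3⟩ := t1 h2 p (by omega : 2 ≤ n) hro hc hd0 hdn hd
      exact ⟨fun _ => h1, fun _ => h3⟩
    · push Not at hT
      have hT' : ∀ d, 0 < d → d < n → ¬ (r ∣ Nat.card F ^ d - 1 ∨ r ∣ Nat.card F ^ d + 1) := by
        intro d h0 h1 h
        rcases h with h | h
        · exact (hT d h0 h1).1 h
        · exact (hT d h0 h1).2 h
      exact ⟨o_to_sp h2 p (by omega) hro hc hT', sp_to_o h2 (by omega) hro hrF hT'⟩
  have hodd : ∀ r : ℕ, r.Prime → r ≠ 2 → Odd r := fun r hr h => hr.odd_of_ne_two h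
  have h2p := two_p h2 p hpo hn
  by_cases hrp : r = p
  · subst hrp
    by_cases hs2 : s = 2
    · subst hs2
      rw [mul_comm]
      exact ⟨fun _ => h2p.1, fun _ => h2p.2⟩
    · rw [mul_comm]
      exact hA s hs (hodd s hs hs2) (Ne.symm hrs)
  by_cases hsp : s = p
  · subst hsp
    by_cases hr2 : r = 2
    · subst hr2
      exact ⟨fun _ => h2p.1, fun _ => h2p.2⟩
    · exact hA r hr (hodd r hr hr2) hrs
  by_cases hr2 : r = 2
  · subst hr2
    exact hB s hs (hodd s hs (Ne.symm hrs)) hsp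
  by_cases hs2 : s = 2
  · subst hs2
    rw [mul_comm]
    exact hB r hr (hodd r hr hrs) hrp
  have hro := hodd r hr hr2
  have hso := hodd s hs hs2
  have hN : ((r * s : ℕ) : F) ≠ 0 := by
    intro h
    rw [CharP.cast_eq_zero_iff F p] at h
    rcases (Nat.Prime.dvd_mul hpP).mp h with h | h
    · exact hrp ((Nat.prime_dvd_prime_iff_eq hpP hr).mp h).symm
    · exact hsp ((Nat.prime_dvd_prime_iff_eq hpP hs).mp h).symm
  exact ⟨odd_o_to_sp h2 (by omega) (hro.mul hso) hN, odd_sp_to_o h2 (by omega) (hro.mul hso) hN⟩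

end H17.SpecMain5
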