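import Mathlib
import Cfsg.Prelude.Def_Transfer
import Cfsg.Agent.Lib.H1.Frat
import Cfsg.Agent.Lib.H1.Hall

set_option autoImplicit false

/-! A group of order 512 with a good elementary abelian normal subgroup of order 64. -/

namespace H17.SylAb64

open Subgroup

variable {S : Type*} [Group S] [Finite S]

/-- elements outside two cosets -/
theorem exists_third {A₀ H : Subgroup S} {s : S} (hs : s ∈ H)
    (h : 2 * Nat.card (H ⊓ A₀ : Subgroup S) < Nat.card H) : ∃ t ∈ H, t ∉ A₀ ∧ s⁻¹ * t ∉ A₀ := by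
  classical
  by_contra hcon
  push Not at hcon
  have hsub : (H : Set S) ⊆ ((H ⊓ A₀ : Subgroup S) : Set S) ∪ (fun x => s * x) '' ((H ⊓ A₀ : Subgroup S) : Set S) := by
    intro t ht
    by_cases hta : t ∈ A₀
    · exact Or.inl ⟨ht, hta⟩
    · right
      exact ⟨s⁻¹ * t, ⟨H.mul_mem (H.inv_mem hs) ht, hcon t ht hta⟩, by simp⟩
  have h1 := Set.ncard_le_ncard hsub (Set.toFinite _)
  have h2 := Set.ncard_union_le ((H ⊓ A₀ : Subgroup S) : Set S) ((fun x => s * x) '' ((H ⊓ A₀ : Subgroup S) : Set S))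
  have h3 : ((fun x => s * x) '' ((H ⊓ A₀ : Subgroup S) : Set S)).ncard ≤ ((H ⊓ A₀ : Subgroup S) : Set S).ncard :=
    Set.ncard_image_le (Set.toFinite _)
  have e1 : (H : Set S).ncard = Nat.card H := rfl
  have e2 : ((H ⊓ A₀ : Subgroup S) : Set S).ncard = Nat.card (H ⊓ A₀ : Subgroup S) := rfl
  rw [e1] at h1
  rw [e2] at h2 h3
  omega

/-- the good situation -/
structure Good (A₀ : Subgroup S) : Prop where
  card_S : Nat.card S = 512
  normal : A₀.Normal
  elem : Cfsg.IsElementaryAbelian 2 A₀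
  card_A : Nat.card A₀ = 64
  one : ∀ s, s ∉ A₀ → Nat.card (A₀ ⊓ centralizer {s} : Subgroup S) ≤ 16
  two : ∀ s t, s ∉ A₀ → t ∉ A₀ → s⁻¹ * t ∉ A₀ → Nat.card (A₀ ⊓ centralizer {s, t} : Subgroup S) ≤ 8
  nonab : ∃ s t : S, s * t * s⁻¹ * t⁻¹ ∉ A₀

variable {A₀ : Subgroup S}

theorem Good.center_le (h : Good A₀) {M : Subgroup S} (hM : IsCoatom M) : Nat.card (center M) ≤ 8 := by
  have := h.normal
  haveI : Fact (Nat.Prime 2) := ⟨Nat.prime_two⟩
  have hp : IsPGroup 2 S := IsPGroup.of_card (n := 9) (by rw [h.card_S]; norm_num)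
  have hi := H1.Frat.index_eq_of_isCoatom hp hM
  have hMc : Nat.card M = 256 := by
    have h1 := M.card_mul_index
    rw [hi, h.card_S] at h1
    omega
  have hMA : 32 ≤ Nat.card (M ⊓ A₀ : Subgroup S) := by
    have h1 := H1.Hall.card_sup_mul_card_inf M A₀
    have h2 : Nat.card (M ⊔ A₀ : Subgroup S) ≤ 512 := by
      rw [← h.card_S]
      exact Subgroup.card_le_card_group _
    rw [hMc, h.card_A] at h1
    nlinarith
  have hcard : Nat.card (center M) = Nat.card ((center M).map M.subtype) :=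
    (Nat.card_congr ((center M).equivMapOfInjective _ M.subtype_injective).toEquiv)
  rw [hcard]
  have hcomm : ∀ z ∈ (center M).map M.subtype, ∀ m ∈ M, m * z = z * m := by
    rintro _ ⟨z, hz, rfl⟩ m hm
    exact congrArg Subtype.val (mem_center_iff.mp hz ⟨m, hm⟩)
  have hle : (center M).map M.subtype ≤ A₀ := by
    intro z hz
    by_contra hza
    have h1 := h.one z hza
    have h2 : (M ⊓ A₀ : Subgroup S) ≤ A₀ ⊓ centralizer {z} := by
      rintro m ⟨hm, ha⟩
      exact ⟨ha, mem_centralizer_singleton_iff.mpr (hcomm z hz m hm)⟩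
    have h3 := Subgroup.card_le_of_le h2
    omega
  have hMA64 : Nat.card (M ⊓ A₀ : Subgroup S) ≤ 64 := by
    rw [← h.card_A]
    exact Subgroup.card_le_of_le inf_le_right
  obtain ⟨s, hs, hsA, -⟩ := exists_third (A₀ := A₀) (H := M) M.one_mem (by omega)
  obtain ⟨t, ht, htA, hst⟩ := exists_third (A₀ := A₀) hs (by omega)
  refine le_trans (Subgroup.card_le_of_le ?_) (h.two s t hsA htA hst)
  intro z hz
  refine ⟨hle hz, mem_centralizer_iff.mpr ?_⟩
  rintro y (rfl | rfl)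
  · exact hcomm z hz _ hs
  · exact hcomm z hz _ ht

theorem Good.eq_of_comm (h : Good A₀) {A : Subgroup S} (hA : IsMulCommutative A) (hc : Nat.card A = 64) : A = A₀ := by
  have := h.normal
  by_contra hne
  have hcomm : ∀ a ∈ A, ∀ b ∈ A, a * b = b * a := fun a ha b hb =>
    congrArg Subtype.val (hA.1.1 ⟨a, ha⟩ ⟨b, hb⟩)
  obtain ⟨s, hs, hsA⟩ : ∃ s ∈ A, s ∉ A₀ := by
    by_contra hcon
    push Not at hcon
    exact hne (Subgroup.eq_of_le_of_card_ge hcon (by rw [hc, h.card_A]))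
  have h1 : Nat.card (A ⊓ A₀ : Subgroup S) ≤ 16 := by
    refine le_trans (Subgroup.card_le_of_le ?_) (h.one s hsA)
    rintro a ⟨ha, ha0⟩
    exact ⟨ha0, mem_centralizer_singleton_iff.mpr (hcomm a ha s hs)⟩
  obtain ⟨t, ht, htA, hst⟩ := exists_third (A₀ := A₀) hs (by omega)
  have h2 : Nat.card (A ⊓ A₀ : Subgroup S) ≤ 8 := by
    refine le_trans (Subgroup.card_le_of_le ?_) (h.two s t hsA htA hst)
    rintro a ⟨ha, ha0⟩
    refine ⟨ha0, mem_centralizer_iff.mpr ?_⟩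
    rintro y (rfl | rfl)
    · exact (hcomm a ha _ hs).symm
    · exact (hcomm a ha _ ht).symm
  have htop : A ⊔ A₀ = ⊤ := by
    apply Subgroup.eq_top_of_le_card
    have h1 := H1.Hall.card_sup_mul_card_inf A A₀
    rw [hc, h.card_A] at h1
    rw [h.card_S]
    nlinarith
  obtain ⟨x, y, hxy⟩ := h.nonab
  have hmem : ∀ x : S, ∃ a ∈ A, ∃ b ∈ A₀, a * b = x := by
    intro x
    have : x ∈ A ⊔ A₀ := by rw [htop]; trivial
    rwa [Subgroup.mem_sup_of_normal_right] at this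
  obtain ⟨a, ha, b, hb, rfl⟩ := hmem x
  obtain ⟨a', ha', b', hb', rfl⟩ := hmem y
  apply hxy
  rw [← QuotientGroup.eq_one_iff]
  have e1 : ((b : S) : S ⧸ A₀) = 1 := (QuotientGroup.eq_one_iff b).mpr hb
  have e2 : ((b' : S) : S ⧸ A₀) = 1 := (QuotientGroup.eq_one_iff b').mpr hb'
  have e3 : (a : S ⧸ A₀) * (a' : S ⧸ A₀) = (a' : S ⧸ A₀) * (a : S ⧸ A₀) :=
    congrArg (QuotientGroup.mk (s := A₀)) (hcomm a ha a' ha')
  simp only [QuotientGroup.mk_mul, QuotientGroup.mk_inv, e1, e2, mul_one]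
  rw [e3]
  group

end H17.SylAb64
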