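import Cfsg.Agent.Lib.H79.GLWr
import Cfsg.Agent.Lib.H17.OrthTrans
import Cfsg.Agent.Lib.H17.OrthOmega

/-! Block subgroups of the isometry group of a diagonal form `⟨1,…,1,w⟩`, odd characteristic. -/

set_option autoImplicit false
set_option linter.unusedSectionVars false

namespace H17.SylOrth

open Subgroup Matrix Equiv QuadraticMap H79.GLWr

variable {F : Type*} [Field F] {k d : ℕ}

/-- the index set -/
abbrev I (k d : ℕ) : Type := J (Fin 2) k (Fin d)

/-- `x² + y²` -/
def q2 (F : Type*) [Field F] : QuadraticForm F (Fin 2 → F) := weightedSumSquares F (fun _ => (1 : F))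

/-- the remaining diagonal part -/
def qR (w : Fin d → F) : QuadraticForm F (Fin d → F) := weightedSumSquares F w

/-- the full form -/
def qJ (k : ℕ) (w : Fin d → F) : QuadraticForm F (I k d → F) :=
  weightedSumSquares F (Sum.elim (fun _ => (1 : F)) w)

/-- coordinates in a block -/
def blk (v : I k d → F) (i : Fin k) : Fin 2 → F := fun b => v (Sum.inl (b, i))

theorem q2_apply (v : Fin 2 → F) : q2 F v = v 0 * v 0 + v 1 * v 1 := by
  rw [q2, weightedSumSquares_apply, Fin.sum_univ_two]
  simp

theorem qJ_split (w : Fin d → F) (v : I k d → F) :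
    qJ k w v = ∑ i, q2 F (blk v i) + qR w (fun j => v (Sum.inr j)) := by
  rw [qJ, weightedSumSquares_apply, Fintype.sum_sum_type, Fintype.sum_prod_type_right, qR,
    weightedSumSquares_apply]
  congr 1

theorem eHom_mulVec (f : (Fin k → GL (Fin 2) F) × GL (Fin d) F) (v : I k d → F) (i : Fin k) :
    blk ((eHom f : Matrix (I k d) (I k d) F) *ᵥ v) i = (f.1 i : Matrix (Fin 2) (Fin 2) F) *ᵥ blk v i := by
  funext b
  rw [blk, eHom_val, fromBlocks_mulVec]
  simp only [Sum.elim_inl, Matrix.zero_mulVec, add_zero]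
  rw [mulVec, dotProduct, Fintype.sum_prod_type, mulVec, dotProduct]
  refine Finset.sum_congr rfl fun b' _ => ?_
  rw [Finset.sum_eq_single i]
  · rw [blockDiagonal_apply_eq]; rfl
  · intro j _ hj
    rw [blockDiagonal_apply_ne _ _ _ hj.symm, zero_mul]
  · simp

theorem eHom_mulVec_inr (f : (Fin k → GL (Fin 2) F) × GL (Fin d) F) (v : I k d → F) :
    (fun j => ((eHom f : Matrix (I k d) (I k d) F) *ᵥ v) (Sum.inr j)) =
      (f.2 : Matrix (Fin d) (Fin d) F) *ᵥ (fun j => v (Sum.inr j)) := by
  funext j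
  rw [eHom_val, fromBlocks_mulVec]
  simp only [Sum.elim_inr, Matrix.zero_mulVec, zero_add]
  rfl

/-- the isometry group of `x² + y²` -/
abbrev A (F : Type*) [Field F] := Cfsg.isometryGroup F (⇑(q2 F))
abbrev B (w : Fin d → F) := Cfsg.isometryGroup F (⇑(qR w))
abbrev G (k : ℕ) (w : Fin d → F) := Cfsg.isometryGroup F (⇑(qJ k w))

/-- the block embedding -/
def e (k : ℕ) (w : Fin d → F) : (Fin k → A F) × B w →* G k w where
  toFun f := ⟨eHom ((fun i => (f.1 i : GL (Fin 2) F)), (f.2 : GL (Fin d) F)), by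
    rw [OrthDet.mem_isometryGroup_iff]
    intro x
    rw [qJ_split, qJ_split, eHom_mulVec_inr]
    congr 1
    · refine Finset.sum_congr rfl fun i _ => ?_
      rw [eHom_mulVec]
      exact (OrthDet.mem_isometryGroup_iff _ _).1 (f.1 i).2 _
    · exact (OrthDet.mem_isometryGroup_iff _ _).1 f.2.2 _⟩
  map_one' := Subtype.ext (map_one eHom)
  map_mul' f g := Subtype.ext (map_mul eHom ((fun i => (f.1 i : GL (Fin 2) F)), (f.2 : GL (Fin d) F))
    ((fun i => (g.1 i : GL (Fin 2) F)), (g.2 : GL (Fin d) F)))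

theorem e_val (w : Fin d → F) (f : (Fin k → A F) × B w) :
    ((e k w f : G k w) : GL (I k d) F) =
      eHom ((fun i => (f.1 i : GL (Fin 2) F)), (f.2 : GL (Fin d) F)) := rfl

theorem e_injective (w : Fin d → F) : Function.Injective (e k w) := by
  intro f g h
  have h1 := eHom_injective (congrArg Subtype.val h)
  rw [Prod.mk.injEq] at h1
  refine Prod.ext (funext fun i => Subtype.ext ?_) (Subtype.ext h1.2)
  exact congrFun h1.1 i

/-- a permutation of the unit coordinates -/
def ext' (τ : Perm (Fin 2 × Fin k)) : Perm (I k d) := Equiv.sumCongr τ (Equiv.refl _)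

theorem pmat_mulVec (τ : Perm (I k d)) (v : I k d → F) (j : I k d) :
    (pmat F τ *ᵥ v) j = v (τ⁻¹ j) := by
  rw [mulVec, dotProduct, Finset.sum_eq_single (τ⁻¹ j)]
  · rw [pmat_apply, if_pos (by simp), one_mul]
  · intro b _ hb
    rw [pmat_apply, if_neg, zero_mul]
    rintro rfl
    exact hb (by simp)
  · simp

/-- permutation matrices as isometries -/
def P (k : ℕ) (w : Fin d → F) : Perm (Fin 2 × Fin k) →* G k w where
  toFun τ := ⟨(MonoidHom.toHomUnits
    { toFun := fun σ : Perm (I k d) => pmat F σ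
      map_one' := by rw [pmat_one]
      map_mul' := fun σ τ => by rw [pmat_mul] } : Perm (I k d) →* GL (I k d) F) (ext' τ), by
    rw [OrthDet.mem_isometryGroup_iff]
    intro x
    change qJ k w (pmat F (ext' τ) *ᵥ x) = qJ k w x
    rw [qJ, weightedSumSquares_apply, weightedSumSquares_apply]
    rw [← Equiv.sum_comp (ext' τ)]
    refine Finset.sum_congr rfl fun j _ => ?_
    rw [pmat_mulVec, show (ext' τ : Perm (I k d))⁻¹ (ext' τ j) = j from Equiv.symm_apply_apply _ _]
    rcases j with j | j
    · rfl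
    · rfl⟩
  map_one' := by
    apply Subtype.ext
    have h : (ext' 1 : Perm (I k d)) = 1 := by
      apply Equiv.ext
      rintro (j | j) <;> rfl
    change (MonoidHom.toHomUnits _ : Perm (I k d) →* GL (I k d) F) (ext' 1) = 1
    rw [h, map_one]
  map_mul' σ τ := by
    apply Subtype.ext
    have h : (ext' (σ * τ) : Perm (I k d)) = ext' σ * ext' τ := by
      apply Equiv.ext
      rintro (j | j) <;> rfl
    change (MonoidHom.toHomUnits _ : Perm (I k d) →* GL (I k d) F) (ext' (σ * τ)) = _
    rw [h, map_mul]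
    rfl

theorem P_val (w : Fin d → F) (τ : Perm (Fin 2 × Fin k)) :
    (((P k w τ : G k w) : GL (I k d) F) : Matrix (I k d) (I k d) F) = pmat F (ext' τ) := rfl

/-- the block permutation of pairs -/
def dbl : Perm (Fin k) →* Perm (Fin 2 × Fin k) where
  toFun σ := Equiv.prodCongr (Equiv.refl _) σ
  map_one' := rfl
  map_mul' _ _ := rfl

/-- block permutations as isometries -/
def p (k : ℕ) (w : Fin d → F) : Perm (Fin k) →* G k w := (P k w).comp dbl

theorem p_val (w : Fin d → F) (σ : Perm (Fin k)) :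
    ((p k w σ : G k w) : GL (I k d) F) = pHom (β := Fin 2) (R := Fin d) σ := by
  apply Units.ext
  rfl

theorem p_injective (w : Fin d → F) : Function.Injective (p k w) := by
  intro σ τ h
  have h1 := congrArg Subtype.val h
  rw [p_val, p_val] at h1
  exact pHom_injective h1

theorem conj_rel' (w : Fin d → F) (σ : Perm (Fin k)) (f : Fin k → A F) (x : B w) :
    p k w σ * e k w (f, x) * (p k w σ)⁻¹ = e k w (fun i => f (σ⁻¹ i), x) := by
  apply Subtype.ext
  rw [Subgroup.coe_mul, Subgroup.coe_mul, Subgroup.coe_inv, p_val, e_val, e_val]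
  exact conj_rel σ _ _

theorem meet' (w : Fin d → F) (f : (Fin k → A F) × B w) (σ : Perm (Fin k)) (h : e k w f = p k w σ) :
    σ = 1 := by
  have h1 := congrArg Subtype.val h
  rw [p_val, e_val] at h1
  exact meet _ _ h1

end H17.SylOrth
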