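import Cfsg.Agent.Lib.H17.SylOrth1
import Cfsg.Agent.Lib.H48.QuadSim

/-! The abelianization of the isometry group seen from a block. -/

set_option autoImplicit false
set_option linter.unusedSectionVars false

namespace H17.SylOrth

open Subgroup Matrix Equiv QuadraticMap H79.GLWr H79.WrGd

variable {F : Type*} [Field F] {k d : ℕ}

/-- the class in the abelianization -/
abbrev ofG (k : ℕ) (w : Fin d → F) : G k w →* Abelianization (G k w) := Abelianization.of

theorem ofG_conj (w : Fin d → F) (g x : G k w) : ofG k w (g * x * g⁻¹) = ofG k w x := by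
  rw [map_mul, map_mul, map_inv, mul_comm (ofG k w g), mul_assoc, mul_inv_cancel, mul_one]

theorem ofG_P_swap (w : Fin d → F) {a b a' b' : Fin 2 × Fin k} (h : a ≠ b) (h' : a' ≠ b') :
    ofG k w (P k w (swap a b)) = ofG k w (P k w (swap a' b')) := by
  obtain ⟨c, hc⟩ := isConj_iff.1 (Equiv.Perm.isConj_swap h h')
  rw [← hc, map_mul (P k w), map_mul (P k w), map_inv (P k w), ofG_conj]

theorem dbl_swap {i j : Fin k} (h : i ≠ j) :
    dbl (swap i j) = (swap ((0 : Fin 2), i) (0, j) : Perm (Fin 2 × Fin k)) * swap ((1 : Fin 2), i) (1, j) := by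
  apply Equiv.ext
  rintro ⟨b, x⟩
  change (b, swap i j x) = swap ((0 : Fin 2), i) (0, j) (swap ((1 : Fin 2), i) (1, j) (b, x))
  simp only [swap_apply_def, Prod.mk.injEq]
  fin_cases b <;> by_cases h1 : x = i <;> by_cases h2 : x = j <;> simp [h1, h2, h, h.symm]

theorem ofG_p (w : Fin d → F) (σ : Perm (Fin k)) : ofG k w (p k w σ) = 1 := by
  induction σ using Equiv.Perm.swap_induction_on with
  | one => rw [map_one, map_one]
  | swap_mul f x y hxy hf =>
    rw [map_mul, map_mul, hf, mul_one]
    change ofG k w (P k w (dbl (swap x y))) = 1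
    have hne : ((0 : Fin 2), x) ≠ (0, y) := fun h => hxy (Prod.mk.inj h).2
    have hne' : ((1 : Fin 2), x) ≠ (1, y) := fun h => hxy (Prod.mk.inj h).2
    rw [dbl_swap hxy, map_mul, map_mul, ofG_P_swap w hne' hne, ← map_mul, ← map_mul, Equiv.swap_mul_self,
      map_one, map_one]

/-- the character of a block -/
def th (w : Fin d → F) (i₀ : Fin k) : A F →* Abelianization (G k w) :=
  (ofG k w).comp ((e k w).comp ((MonoidHom.inl (Fin k → A F) (B w)).comp
    (MonoidHom.mulSingle (fun _ => A F) i₀)))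

theorem th_apply (w : Fin d → F) (i₀ : Fin k) (a : A F) :
    th w i₀ a = ofG k w (e k w (Pi.mulSingle i₀ a, 1)) := rfl

/-- the character of the remaining part -/
def th' (k : ℕ) (w : Fin d → F) : B w →* Abelianization (G k w) :=
  (ofG k w).comp ((e k w).comp (MonoidHom.inr (Fin k → A F) (B w)))

theorem th'_apply (w : Fin d → F) (b : B w) : th' k w b = ofG k w (e k w (1, b)) := rfl

theorem ofG_single (w : Fin d → F) (i j : Fin k) (a : A F) :
    ofG k w (e k w (Pi.mulSingle i a, 1)) = ofG k w (e k w (Pi.mulSingle j a, 1)) := by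
  have h := conj_rel' w (swap i j) (Pi.mulSingle i a) 1
  have h2 : (fun x => (Pi.mulSingle i a : Fin k → A F) ((swap i j)⁻¹ x)) = Pi.mulSingle j a := by
    funext x
    rw [swap_inv]
    by_cases hx : x = j
    · subst hx
      rw [swap_apply_right, Pi.mulSingle_eq_same, Pi.mulSingle_eq_same]
    · rw [Pi.mulSingle_eq_of_ne hx, Pi.mulSingle_eq_of_ne]
      intro h3
      apply hx
      have h4 := congrArg (swap i j) h3
      rwa [swap_apply_self, swap_apply_left] at h4
  rw [h2] at h
  rw [← h, ofG_conj]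

theorem hom_ext {ι A K : Type*} [Fintype ι] [DecidableEq ι] [Group A] [Group K] (g h : (ι → A) →* K)
    (H : ∀ i x, g (Pi.mulSingle i x) = h (Pi.mulSingle i x)) : g = h := by
  have key : ∀ s : Finset ι, ∀ f : ι → A, (∀ i, i ∉ s → f i = 1) → g f = h f := by
    intro s
    induction s using Finset.induction_on with
    | empty =>
      intro f hf
      have : f = 1 := funext fun i => hf i (Finset.notMem_empty i)
      rw [this, map_one, map_one]
    | insert a s ha ih =>
      intro f hf
      have h1 : f = Pi.mulSingle a (f a) * Function.update f a 1 := by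
        funext i
        by_cases hi : i = a
        · subst hi; simp
        · simp [Pi.mulSingle_eq_of_ne hi, Function.update_of_ne hi]
      rw [h1, map_mul, map_mul, H, ih]
      intro i hi
      by_cases hia : i = a
      · subst hia; simp
      · rw [Function.update_of_ne hia]
        exact hf i (by rw [Finset.mem_insert]; tauto)
  exact MonoidHom.ext fun f => key Finset.univ f (fun i hi => absurd (Finset.mem_univ i) hi)

theorem chi_eq (w : Fin d → F) (i₀ : Fin k) (x : (Fin k → A F) × B w) :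
    chi (th w i₀) (th' k w) x = ofG k w (e k w x) := by
  have h1 : (chi (th w i₀) (th' k w)).comp (MonoidHom.inl (Fin k → A F) (B w)) =
      ((ofG k w).comp (e k w)).comp (MonoidHom.inl (Fin k → A F) (B w)) := by
    apply hom_ext
    intro i a
    change chi (th w i₀) (th' k w) (Pi.mulSingle i a, 1) = ofG k w (e k w (Pi.mulSingle i a, 1))
    rw [chi_single, map_one, mul_one, th_apply]
    exact ofG_single w _ _ _
  have h2 : x = (x.1, 1) * (1, x.2) := by simp
  have h3 := DFunLike.congr_fun h1 x.1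
  change chi (th w i₀) (th' k w) (x.1, 1) = ofG k w (e k w (x.1, 1)) at h3
  rw [h2, map_mul, map_mul, map_mul, h3]
  congr 1
  rw [chi_apply]
  simp [th'_apply]

/-- extension of a block vector -/
def ex (i₀ : Fin k) (u : Fin 2 → F) : I k d → F :=
  Sum.elim (fun x => if x.2 = i₀ then u x.1 else 0) 0

theorem blk_ex (i₀ i : Fin k) (u : Fin 2 → F) : blk (ex (d := d) i₀ u) i = if i = i₀ then u else 0 := by
  funext b
  change (if i = i₀ then u b else 0) = _
  split_ifs <;> rfl

theorem qJ_ex (w : Fin d → F) (i₀ : Fin k) (u : Fin 2 → F) : qJ k w (ex i₀ u) = q2 F u := by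
  rw [qJ_split, Finset.sum_eq_single i₀]
  · rw [blk_ex, if_pos rfl]
    have : (fun j => (ex i₀ u : I k d → F) (Sum.inr j)) = 0 := rfl
    rw [this, QuadraticMap.map_zero, add_zero]
  · intro i _ hi
    rw [blk_ex, if_neg hi, QuadraticMap.map_zero]
  · simp

theorem polar_ex (w : Fin d → F) (i₀ : Fin k) (u : Fin 2 → F) (x : I k d → F) :
    polar (qJ k w) (ex i₀ u) x = polar (q2 F) u (blk x i₀) := by
  have h1 : ∀ i, q2 F (blk (ex i₀ u + x) i) = q2 F (blk x i) +
      (if i = i₀ then q2 F (u + blk x i₀) - q2 F (blk x i₀) else 0) := by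
    intro i
    have h2 : blk (ex i₀ u + x) i = blk (ex i₀ u) i + blk x i := rfl
    rw [h2, blk_ex]
    split_ifs with h
    · subst h; ring
    · rw [zero_add, add_zero]
  have h3 : (fun j => (ex i₀ u + x : I k d → F) (Sum.inr j)) = fun j => x (Sum.inr j) := by
    funext j
    change 0 + x (Sum.inr j) = _
    rw [zero_add]
  rw [polar, qJ_ex, qJ_split w (ex i₀ u + x), qJ_split w x, h3]
  simp only [h1, Finset.sum_add_distrib]
  rw [Finset.sum_ite_eq' Finset.univ i₀, if_pos (Finset.mem_univ _), polar]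
  ring

theorem e_refl (w : Fin d → F) (i₀ : Fin k) (u : Fin 2 → F) (hu : q2 F u ≠ 0)
    (hu' : qJ k w (ex i₀ u) ≠ 0) :
    e k w (Pi.mulSingle i₀ (OrthDet.refl (q2 F) u hu), 1) = OrthDet.refl (qJ k w) (ex i₀ u) hu' := by
  apply (OrthTrans.equiv (qJ k w)).injective
  apply Subtype.ext
  apply LinearEquiv.ext
  intro x
  rw [OrthTrans.equiv_apply, OrthTrans.equiv_apply, OrthDet.refl_coe, OrthMat.reflectionMatrix_mulVec,
    e_val, polar_ex, qJ_ex]
  have h1 : ∀ i, blk ((eHom ((fun i => ((Pi.mulSingle i₀ (OrthDet.refl (q2 F) u hu) : Fin k → A F) i :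
      GL (Fin 2) F)), ((1 : B w) : GL (Fin d) F)) : Matrix (I k d) (I k d) F) *ᵥ x) i =
      blk (x - ((q2 F u)⁻¹ * polar (q2 F) u (blk x i₀)) • ex i₀ u) i := by
    intro i
    rw [eHom_mulVec]
    have h2 : blk (x - ((q2 F u)⁻¹ * polar (q2 F) u (blk x i₀)) • ex i₀ u) i =
      blk x i - ((q2 F u)⁻¹ * polar (q2 F) u (blk x i₀)) • blk (ex i₀ u) i := rfl
    rw [h2, blk_ex]
    by_cases hi : i = i₀
    · subst hi
      rw [if_pos rfl]
      change (((Pi.mulSingle i (OrthDet.refl (q2 F) u hu) : Fin k → A F) i : GL (Fin 2) F) : Matrix (Fin 2) (Fin 2) F) *ᵥ _ = _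
      rw [Pi.mulSingle_eq_same, OrthDet.refl_coe, OrthMat.reflectionMatrix_mulVec]
    · rw [if_neg hi]
      change (((Pi.mulSingle i₀ (OrthDet.refl (q2 F) u hu) : Fin k → A F) i : GL (Fin 2) F) : Matrix (Fin 2) (Fin 2) F) *ᵥ _ = _
      rw [Pi.mulSingle_eq_of_ne hi, smul_zero, sub_zero]
      exact Matrix.one_mulVec _
  funext j
  rcases j with ⟨b, i⟩ | j
  · exact congrFun (h1 i) b
  · have h3 := congrFun (eHom_mulVec_inr ((fun i => ((Pi.mulSingle i₀ (OrthDet.refl (q2 F) u hu) : Fin k → A F) i :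
      GL (Fin 2) F)), ((1 : B w) : GL (Fin d) F)) x) j
    refine h3.trans ?_
    change ((1 : Matrix (Fin d) (Fin d) F) *ᵥ (fun j => x (Sum.inr j))) j =
      x (Sum.inr j) - ((q2 F u)⁻¹ * polar (q2 F) u (blk x i₀)) • (0 : F)
    rw [smul_zero, sub_zero, Matrix.one_mulVec]

end H17.SylOrth
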