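import Cfsg.Agent.Lib.H17.SylOrth2
import Cfsg.Agent.Lib.H17.SylOrth3

/-! Sylow 2-subgroups of `Ω` of a diagonal form `⟨1,…,1,w⟩`, odd characteristic. -/

set_option autoImplicit false
set_option linter.unusedSectionVars false

namespace H17.SylOrth

open Subgroup Matrix Equiv QuadraticMap H79.GLWr H79.WrGd H79.SylElem H79.WrSyl H79.ValQ
open scoped commutatorElement

section forms

variable {F : Type*} [Field F] {ι : Type*} [Fintype ι] [DecidableEq ι]

theorem polar_wss (w : ι → F) (x y : ι → F) :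
    polar (weightedSumSquares F w) x y = ∑ i, 2 * w i * x i * y i := by
  simp only [polar, weightedSumSquares_apply, Pi.add_apply, smul_eq_mul, ← Finset.sum_sub_distrib]
  refine Finset.sum_congr rfl fun i _ => ?_
  ring

theorem nd_wss (h2 : (2 : F) ≠ 0) (w : ι → F) (hw : ∀ i, w i ≠ 0) :
    H48.QuadSplit.ND (weightedSumSquares F w) := by
  intro x hx
  funext i
  have h := hx (Pi.single i 1)
  rw [polar_wss, Finset.sum_eq_single i] at h
  · rw [Pi.single_eq_same, mul_one] at h
    exact (mul_eq_zero.1 h).resolve_left (mul_ne_zero h2 (hw i))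
  · intro j _ hj
    rw [Pi.single_eq_of_ne hj, mul_zero]
  · simp

theorem gdet_wss (w : ι → F) :
    H48.Gram.gdet (weightedSumSquares F w) (Pi.basisFun F ι) = ∏ i, (2 * w i) := by
  rw [H48.Gram.gdet]
  have h : (Matrix.of fun i j => polar (weightedSumSquares F w) (Pi.basisFun F ι i) (Pi.basisFun F ι j)) =
      Matrix.diagonal (fun i => 2 * w i) := by
    ext i j
    rw [Matrix.of_apply, polar_wss, Pi.basisFun_apply, Pi.basisFun_apply, Finset.sum_eq_single i]
    · rw [Pi.single_eq_same, mul_one]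
      by_cases hij : i = j
      · subst hij; simp
      · rw [Matrix.diagonal_apply_ne _ hij, Pi.single_eq_of_ne hij, mul_zero]
    · intro b _ hb
      rw [Pi.single_eq_of_ne hb, mul_zero, zero_mul]
    · simp
  rw [h, Matrix.det_diagonal]

end forms

variable {F : Type*} [Field F] [Fintype F] {k d : ℕ}

theorem nd_qJ (h2 : (2 : F) ≠ 0) (w : Fin d → F) (hw : ∀ i, w i ≠ 0) : H48.QuadSplit.ND (qJ k w) := by
  apply nd_wss h2
  rintro (i | i)
  · exact one_ne_zero
  · exact hw i

theorem nd_q2 (h2 : (2 : F) ≠ 0) : H48.QuadSplit.ND (q2 F) :=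
  nd_wss h2 _ (fun _ => one_ne_zero)

/-- the block character is surjective -/
theorem th_surj (h2 : (2 : F) ≠ 0) (w : Fin d → F) (hw : ∀ i, w i ≠ 0) (i₀ : Fin k) :
    Function.Surjective (th w i₀) := by
  have hcard : Fintype.card F ≠ 2 := by
    intro h
    apply h2
    have : (Fintype.card F : F) = 0 := Nat.cast_card_eq_zero F
    rw [h] at this
    exact_mod_cast this
  have hQ := H48.QuadSplit.nd_iff.1 (nd_qJ (k := k) h2 w hw)
  have h1 : (⊤ : Subgroup (G k w)) ≤ (th w i₀).range.comap (ofG k w) := by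
    rw [← OrthTrans.closure_refl_eq_top (qJ k w) hQ (Or.inl hcard), closure_le]
    rintro g ⟨v, hv, hg⟩
    have h3 := OrthTrans.eq_refl_of_coe (qJ k w) v hv g hg
    subst h3
    obtain ⟨u, hu⟩ := H48.QuadStd.exists_eq (nd_q2 (F := F) h2) (by simp) hv
    have hu0 : q2 F u ≠ 0 := by rw [hu]; exact hv
    have hu0' : qJ k w (ex i₀ u) ≠ 0 := by rw [qJ_ex]; exact hu0
    change ofG k w _ ∈ (th w i₀).range
    refine ⟨OrthDet.refl (q2 F) u hu0, ?_⟩
    rw [th_apply, e_refl w i₀ u hu0 hu0']
    obtain ⟨g, hg⟩ := OrthOmega.conj_of_class h2 (qJ k w) (ex i₀ u) v hu0' hv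
      ⟨1, one_ne_zero, by rw [qJ_ex, hu]; ring⟩
    have h4 := congrArg (OrthTrans.equiv (qJ k w)).symm hg
    have h5 : ∀ (x : I k d → F) (hx : qJ k w x ≠ 0), (OrthTrans.equiv (qJ k w)).symm (OrthTheta.rf (qJ k w) x hx) =
        OrthDet.refl (qJ k w) x hx := by
      intro x hx
      rw [MulEquiv.symm_apply_eq]
      exact (OrthTrans.equiv_refl _ _ _).symm
    rw [map_mul, map_mul, map_inv, h5, h5] at h4
    rw [← h4, ofG_conj]
  intro y
  obtain ⟨g, rfl⟩ := QuotientGroup.mk_surjective y
  exact h1 (mem_top g)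

theorem card_ab (h2 : (2 : F) ≠ 0) (w : Fin d → F) (hw : ∀ i, w i ≠ 0) (hk : 1 ≤ k) :
    (commutator (G k w)).index = 4 := by
  have hQ := H48.QuadSplit.nd_iff.1 (nd_qJ (k := k) h2 w hw)
  have hd : 2 ≤ Module.finrank F (I k d → F) := by
    simp only [Module.finrank_fintype_fun_eq_card, Fintype.card_sum, Fintype.card_prod, Fintype.card_fin]
    omega
  rw [← OrthOmega.index_commutator h2 (qJ k w) hQ hd]
  have h1 : (commutator (G k w)).map (OrthTrans.equiv (qJ k w)).toMonoidHom =
      commutator (OrthAbs.O (qJ k w)) := by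
    rw [commutator_def, commutator_def, Subgroup.map_commutator, ← MonoidHom.range_eq_map,
      MonoidHom.range_eq_top.2 (OrthTrans.equiv (qJ k w)).surjective]
  rw [← h1]
  exact (Subgroup.index_map_equiv _ (OrthTrans.equiv (qJ k w))).symm

/-- elements of `O_2` of determinant `-1` are involutions -/
theorem sq_of_det (h2 : (2 : F) ≠ 0) (a : A F)
    (h : ((a : GL (Fin 2) F) : Matrix (Fin 2) (Fin 2) F).det = -1) : a * a = 1 := by
  have hh := (OrthDet.mem_isometryGroup_iff _ _).1 a.2
  have key : ((a : GL (Fin 2) F) : Matrix (Fin 2) (Fin 2) F) * ((a : GL (Fin 2) F) : Matrix (Fin 2) (Fin 2) F) = 1 := by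
    generalize ((a : GL (Fin 2) F) : Matrix (Fin 2) (Fin 2) F) = M at hh h ⊢
    have h0 := hh ![1, 0]
    have h1 := hh ![0, 1]
    have h01 := hh ![1, 1]
    rw [q2_apply, q2_apply] at h0 h1 h01
    simp [Matrix.mulVec, dotProduct, Fin.sum_univ_two] at h0 h1 h01
    rw [Matrix.det_fin_two] at h
    have hx : M 0 0 * M 0 1 + M 1 0 * M 1 1 = 0 := by
      apply mul_left_cancel₀ h2
      linear_combination h01 - h0 - h1
    have ha : M 0 0 = - M 1 1 := by
      linear_combination (-(M 0 0)) * h1 + M 0 1 * hx + M 1 1 * h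
    have hb : M 0 1 = M 1 0 := by
      linear_combination (-(M 0 1)) * h0 + M 0 0 * hx - M 1 0 * h
    ext i j
    rw [Matrix.mul_apply, Fin.sum_univ_two]
    fin_cases i <;> fin_cases j <;> simp
    · linear_combination h0 + M 1 0 * hb
    · linear_combination M 0 1 * ha
    · linear_combination M 1 0 * ha
    · linear_combination h1 - M 0 1 * hb
  exact Subtype.ext (Units.ext key)

/-- sign matrices -/
def sgn (w : Fin d → F) : (Fin d → ℤˣ) →* B w where
  toFun s := ⟨(MonoidHom.toHomUnits
    { toFun := fun s : Fin d → ℤˣ => Matrix.diagonal (fun j => (((s j : ℤˣ) : ℤ) : F))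
      map_one' := by simp
      map_mul' := fun s t => by simp [Matrix.diagonal_mul_diagonal] } : (Fin d → ℤˣ) →* GL (Fin d) F) s, by
    rw [OrthDet.mem_isometryGroup_iff]
    intro x
    change qR w (Matrix.diagonal (fun j => (((s j : ℤˣ) : ℤ) : F)) *ᵥ x) = qR w x
    rw [qR, weightedSumSquares_apply, weightedSumSquares_apply]
    refine Finset.sum_congr rfl fun j _ => ?_
    rw [Matrix.mulVec_diagonal]
    rcases Int.units_eq_one_or (s j) with h | h <;> rw [h] <;> simp⟩
  map_one' := Subtype.ext (map_one _)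
  map_mul' _ _ := Subtype.ext (map_mul _ _ _)

theorem sgn_val (w : Fin d → F) (s : Fin d → ℤˣ) :
    (((sgn w s : B w) : GL (Fin d) F) : Matrix (Fin d) (Fin d) F) =
      Matrix.diagonal (fun j => (((s j : ℤˣ) : ℤ) : F)) := rfl

theorem sgn_injective (h2 : (2 : F) ≠ 0) (w : Fin d → F) : Function.Injective (sgn w) := by
  intro s t h
  have h1 : Matrix.diagonal (fun j => (((s j : ℤˣ) : ℤ) : F)) =
      Matrix.diagonal (fun j => (((t j : ℤˣ) : ℤ) : F)) :=
    congrArg (fun x : B w => ((x : GL (Fin d) F) : Matrix (Fin d) (Fin d) F)) h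
  have h3 := Matrix.diagonal_injective h1
  funext j
  have h4 : (((s j : ℤˣ) : ℤ) : F) = (((t j : ℤˣ) : ℤ) : F) := congrFun h3 j
  rcases Int.units_eq_one_or (s j) with h5 | h5 <;> rcases Int.units_eq_one_or (t j) with h6 | h6 <;>
    rw [h5, h6] at h4 ⊢
  · exfalso
    apply h2
    simp at h4
    linear_combination h4
  · exfalso
    apply h2
    simp at h4
    linear_combination -h4

theorem det_sgn_single (w : Fin d → F) (j : Fin d) :
    (((sgn w (Pi.mulSingle j (-1)) : B w) : GL (Fin d) F) : Matrix (Fin d) (Fin d) F).det = -1 := by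
  rw [sgn_val, Matrix.det_diagonal, Finset.prod_eq_single j]
  · simp
  · intro i _ hi
    rw [Pi.mulSingle_eq_of_ne hi]
    simp
  · simp

theorem sgn_sq (w : Fin d → F) (s : Fin d → ℤˣ) : sgn w s ^ 2 = 1 := by
  rw [← map_pow]
  have : s ^ 2 = 1 := by
    funext j
    exact Int.units_sq (s j)
  rw [this, map_one]

theorem sgn_range_le (w : Fin d → F) :
    (sgn w).range ≤ closure {y | ∃ j, y = sgn w (Pi.mulSingle j (-1))} := by
  rintro _ ⟨s, rfl⟩
  set H := (closure {y : B w | ∃ j, y = sgn w (Pi.mulSingle j (-1))}).comap (sgn w) with hH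
  have key : ∀ t : Finset (Fin d), ∀ f : Fin d → ℤˣ, (∀ i, i ∉ t → f i = 1) → f ∈ H := by
    intro t
    induction t using Finset.induction_on with
    | empty =>
      intro f hf
      have : f = 1 := funext fun i => hf i (Finset.notMem_empty i)
      rw [this]
      exact one_mem _
    | insert a t ha ih =>
      intro f hf
      have h1 : f = Pi.mulSingle a (f a) * Function.update f a 1 := by
        funext i
        by_cases hi : i = a
        · subst hi; simp
        · simp [Pi.mulSingle_eq_of_ne hi, Function.update_of_ne hi]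
      rw [h1]
      refine mul_mem ?_ (ih _ ?_)
      · rcases Int.units_eq_one_or (f a) with h | h
        · rw [h, Pi.mulSingle_one]
          exact one_mem _
        · rw [h]
          exact subset_closure ⟨a, rfl⟩
      · intro i hi
        by_cases hia : i = a
        · subst hia; simp
        · rw [Function.update_of_ne hia]
          exact hf i (by rw [Finset.mem_insert]; tauto)
  exact key Finset.univ s (fun i hi => absurd (Finset.mem_univ i) hi)

/-- determinant one on the commutator subgroup -/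
theorem det_of_ofG (w : Fin d → F) (g : G k w) (h : ofG k w g = 1) :
    GeneralLinearGroup.det (g : GL (I k d) F) = 1 := by
  have h1 : g ∈ commutator (G k w) := by
    rwa [← MonoidHom.mem_ker, Abelianization.ker_of] at h
  have h2 : commutator (G k w) ≤ ((GeneralLinearGroup.det).comp (G k w).subtype).ker :=
    Abelianization.commutator_subset_ker _
  exact h2 h1

theorem det_e (w : Fin d → F) (i₀ : Fin k) (a : A F) (b : B w)
    (h : th w i₀ a * th' k w b = 1) :
    ((a : GL (Fin 2) F) : Matrix (Fin 2) (Fin 2) F).det * ((b : GL (Fin d) F) : Matrix (Fin d) (Fin d) F).det = 1 := by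
  have h1 : ofG k w (e k w (Pi.mulSingle i₀ a, b)) = 1 := by
    rw [← chi_eq w i₀, chi_single, h]
  have h2 := det_of_ofG w _ h1
  rw [e_val, det_eHom] at h2
  have h3 : (((fun i => ((Pi.mulSingle i₀ a : Fin k → A F) i : GL (Fin 2) F)), (b : GL (Fin d) F)) :
      (Fin k → GL (Fin 2) F) × GL (Fin d) F) = (Pi.mulSingle i₀ (a : GL (Fin 2) F), (b : GL (Fin d) F)) := by
    refine Prod.ext (funext fun i => ?_) rfl
    by_cases hi : i = i₀
    · subst hi
      simp
    · simp [Pi.mulSingle_eq_of_ne hi]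
  rw [h3, chi_single] at h2
  exact congrArg Units.val h2

/-- the main step -/
theorem main (hF : Odd (Fintype.card F)) (w : Fin d → F) (hw : ∀ i, w i ≠ 0) (hk : 2 ≤ k)
    (hv : padicValNat 2 (Nat.card (G k w)) =
      k * padicValNat 2 (Fintype.card F ^ 2 - 1) + d + padicValNat 2 k.factorial)
    (P : Sylow 2 (commutator (G k w))) :
    ∀ x : (P : Subgroup (commutator (G k w))), x ^ 2 ∈ commutator (P : Subgroup (commutator (G k w))) := by
  have : Fact (Nat.Prime 2) := ⟨Nat.prime_two⟩
  have hq1 : 1 < Fintype.card F := Fintype.one_lt_card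
  have h2 : (2 : F) ≠ 0 := H6.SL2Tor.two_ne_zero_of_odd hF
  let i₀ : Fin k := ⟨0, by omega⟩
  let i₁ : Fin k := ⟨1, by omega⟩
  have hi : i₁ ≠ i₀ := by
    intro h
    exact absurd (Fin.mk.inj_iff.1 h) (by norm_num)
  set θ := th w i₀ with hθ
  set θ' := th' k w with hθ'
  have hind := card_ab (k := k) h2 w hw (by omega)
  have hcK : Nat.card (Abelianization (G k w)) = 4 := hind
  obtain ⟨D⟩ : Nonempty (Sylow 2 (A F)) := inferInstance
  -- order of `D`
  set v := padicValNat 2 (Fintype.card F ^ 2 - 1) with hvdef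
  have hcD : Nat.card D = 2 ^ v := by
    rw [D.card_eq_multiplicity, pow_fact (k := v)]
    rw [H7.HypOrd.card_isometryGroup]
    have h3 := (SylOrth3.val_even hF (q2 F) (nd_q2 h2) 0 (by simp) (Pi.basisFun F (Fin 2))).1 (by
      rw [q2, gdet_wss, Fin.prod_univ_two]
      exact ⟨2, by ring⟩)
    rw [h3]
    simp [hvdef]
  -- the image of `D`
  have hDK : (D : Subgroup (A F)).map θ = ⊤ := by
    rw [← Subgroup.index_eq_one]
    have h3 : ((D : Subgroup (A F)).map θ).index ∣ (D : Subgroup (A F)).index :=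
      Subgroup.index_map_dvd _ (th_surj h2 w hw i₀)
    have h4 : ((D : Subgroup (A F)).map θ).index ∣ 2 ^ 2 := by
      have := Subgroup.index_dvd_card ((D : Subgroup (A F)).map θ)
      rw [hcK] at this
      exact this
    have h5 : ¬ 2 ∣ (D : Subgroup (A F)).index := D.not_dvd_index
    obtain ⟨j, _, hj⟩ := (Nat.dvd_prime_pow Nat.prime_two).1 h4
    rw [hj]
    rcases j with _ | j
    · rfl
    · exfalso
      apply h5
      refine Dvd.dvd.trans ?_ h3
      rw [hj]
      exact ⟨2 ^ j, by ring⟩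
  have hsurj : ∀ y, ∃ g ∈ (D : Subgroup (A F)), θ g = y := by
    intro y
    have : y ∈ (D : Subgroup (A F)).map θ := by rw [hDK]; trivial
    exact this
  set det2 : A F → F := fun a => ((a : GL (Fin 2) F) : Matrix (Fin 2) (Fin 2) F).det with hdet2
  have hdmul : ∀ a b : A F, det2 (a * b) = det2 a * det2 b := fun a b => Matrix.det_mul _ _
  have hd1 : ((1 : B w) : GL (Fin d) F).1.det = 1 := Matrix.det_one
  have hdθ : ∀ a : A F, θ a = 1 → det2 a = 1 := by
    intro a ha
    have h3 := det_e w i₀ a 1 (by rw [map_one, mul_one]; exact ha)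
    rw [hd1, mul_one] at h3
    exact h3
  -- an element of determinant `-1`
  obtain ⟨s, hsD, hsd⟩ : ∃ s ∈ (D : Subgroup (A F)), det2 s = -1 := by
    obtain ⟨u, hu⟩ := H48.QuadStd.exists_eq (nd_q2 (F := F) h2) (by simp) (one_ne_zero (α := F))
    have hu0 : q2 F u ≠ 0 := by rw [hu]; exact one_ne_zero
    obtain ⟨s, hsD, hs⟩ := hsurj (θ (OrthDet.refl (q2 F) u hu0))
    refine ⟨s, hsD, ?_⟩
    have h3 := hdθ (s * (OrthDet.refl (q2 F) u hu0)⁻¹) (by rw [map_mul, map_inv, hs, mul_inv_cancel])
    have h4 : det2 s = det2 (OrthDet.refl (q2 F) u hu0) := by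
      have h5 : s = s * (OrthDet.refl (q2 F) u hu0)⁻¹ * OrthDet.refl (q2 F) u hu0 := by group
      rw [h5, hdmul, h3, one_mul]
    rw [h4]
    exact OrthMat.reflection_det (q2 F) u hu0
  have hss := sq_of_det h2 s hsd
  have hdpm : ∀ a : A F, det2 a = 1 ∨ det2 a = -1 := fun a =>
    OrthDet.det_eq (q2 F) (H48.QuadSplit.nd_iff.1 (nd_q2 h2)) _ ((OrthDet.mem_isometryGroup_iff _ _).1 a.2)
  set C := (sgn w).range with hC
  have hcC : Nat.card C = 2 ^ d := by
    rw [hC, ← Nat.card_congr (MonoidHom.ofInjective (sgn_injective h2 w)).toEquiv, Nat.card_pi]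
    simp
  have hG : Gd 2 (E0 (ι := Fin k) θ θ' (D : Subgroup (A F)) C) := by
    apply gd_E0 θ θ' (D : Subgroup (A F)) C i₀ {g | g ∈ (D : Subgroup (A F)) ∧ det2 g = -1}
      (fun g hg => hg.1) ?_ {y | ∃ j, y = sgn w (Pi.mulSingle j (-1))} ?_ (sgn_range_le w)
    · -- base kernel
      intro n hn hn1
      have hnd := hdθ n hn1
      have h3 := sq_of_det h2 (s * n) (by
        change det2 (s * n) = -1
        rw [hdmul, hsd, hnd, mul_one])
      have h4 : s * n * s⁻¹ = n⁻¹ := by
        have h5 : s⁻¹ = s := inv_eq_of_mul_eq_one_left hss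
        rw [h5, eq_inv_iff_mul_eq_one]
        rw [← h3]
        group
      have hmt : ((Pi.mulSingle i₀ s * Pi.mulSingle i₁ s⁻¹ : Fin k → A F), (1 : B w)) ∈
          E0 (ι := Fin k) θ θ' (D : Subgroup (A F)) C := by
        have e3 : ((Pi.mulSingle i₀ s * Pi.mulSingle i₁ s⁻¹ : Fin k → A F), (1 : B w)) =
            ((Pi.mulSingle i₀ s : Fin k → A F), (1 : B w)) * ((Pi.mulSingle i₁ s⁻¹ : Fin k → A F), (1 : B w)) :=
          Prod.ext rfl (by simp)
        rw [e3]
        refine ⟨mul_mem (single_mem_full _ C i₀ hsD (one_mem _))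
          (single_mem_full _ C i₁ (inv_mem hsD) (one_mem _)), ?_⟩
        show _ ∈ (chi θ θ').ker
        rw [MonoidHom.mem_ker, map_mul, chi_single, chi_single]
        simp
      have hmx : ((Pi.mulSingle i₀ n : Fin k → A F), (1 : B w)) ∈ E0 (ι := Fin k) θ θ' (D : Subgroup (A F)) C := by
        refine ⟨single_mem_full _ C i₀ hn (one_mem _), ?_⟩
        show _ ∈ (chi θ θ').ker
        rw [MonoidHom.mem_ker, chi_single, hn1, map_one, one_mul]
      have hcm := commutator_mem_commutator hmt hmx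
      have e4 : ⁅((Pi.mulSingle i₀ s * Pi.mulSingle i₁ s⁻¹ : Fin k → A F), (1 : B w)),
          ((Pi.mulSingle i₀ n : Fin k → A F), (1 : B w))⁆ = ((Pi.mulSingle i₀ (n ^ 2) : Fin k → A F), (1 : B w))⁻¹ := by
        rw [commutatorElement_def]
        refine Prod.ext (funext fun i => ?_) (by simp)
        simp only [Prod.fst_mul, Prod.fst_inv, Pi.mul_apply, Pi.inv_apply]
        by_cases h5 : i = i₀
        · subst h5
          rw [Pi.mulSingle_eq_same, Pi.mulSingle_eq_same, Pi.mulSingle_eq_same, Pi.mulSingle_eq_of_ne hi.symm,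
            mul_one, h4]
          group
        · by_cases h6 : i = i₁
          · subst h6
            rw [Pi.mulSingle_eq_of_ne hi, Pi.mulSingle_eq_of_ne hi, Pi.mulSingle_eq_of_ne hi, Pi.mulSingle_eq_same]
            group
          · rw [Pi.mulSingle_eq_of_ne h5, Pi.mulSingle_eq_of_ne h5, Pi.mulSingle_eq_of_ne h5,
              Pi.mulSingle_eq_of_ne h6]
            group
      rw [e4] at hcm
      have := inv_mem hcm
      rwa [inv_inv] at this
    · -- differences
      rintro g ⟨_, hg⟩ i _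
      have h3 : g ^ 2 = 1 := by rw [pow_two]; exact sq_of_det h2 g hg
      rw [h3, inv_one, Pi.mulSingle_one, Pi.mulSingle_one, one_mul]
      exact one_mem _
    · -- remaining part
      rintro _ ⟨j, rfl⟩
      obtain ⟨g, hgD, hg⟩ := hsurj (θ' (sgn w (Pi.mulSingle j (-1))))⁻¹
      have h3 : θ g * θ' (sgn w (Pi.mulSingle j (-1))) = 1 := by rw [hg, inv_mul_cancel]
      refine ⟨g, hgD, h3, ?_⟩
      have h4 := det_e w i₀ g _ h3
      rw [det_sgn_single] at h4
      have h5 : g ^ 2 = 1 := by
        rw [pow_two]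
        apply sq_of_det h2
        linear_combination -h4
      rw [h5, sgn_sq, Pi.mulSingle_one]
      exact one_mem _
    · -- generation of `D`
      intro g hg
      rcases hdpm g with h | h
      · have h3 : g = s * (s * g) := by rw [← mul_assoc, hss, one_mul]
        rw [h3]
        refine mul_mem (subset_closure ⟨hsD, hsd⟩) (subset_closure ⟨mul_mem hsD hg, ?_⟩)
        rw [hdmul, hsd, h, mul_one]
      · exact subset_closure ⟨hg, h⟩
    · rintro _ ⟨j, rfl⟩
      exact ⟨_, rfl⟩
  have hmapF : (full (ι := Fin k) (D : Subgroup (A F)) C).map (chi θ θ') = ⊤ :=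
    card_full_map_le θ θ' _ C i₀ ⊤ hDK le_top
  have hE := card_E0 (ι := Fin k) θ θ' (D : Subgroup (A F)) C 4 (by rw [hmapF, Subgroup.card_top, hcK])
  rw [show Nat.card (D : Subgroup (A F)) = 2 ^ v from hcD, hcC, Fintype.card_fin, ← pow_mul, ← pow_add] at hE
  have hΩ : Nat.card (commutator (G k w)) * 4 = Nat.card (G k w) := by
    rw [← hind]
    exact Subgroup.card_mul_index _
  have hvΩ : padicValNat 2 (Nat.card (commutator (G k w))) + 2 = k * v + d + padicValNat 2 k.factorial := by
    rw [← hv, ← hΩ, padicValNat.mul Nat.card_pos.ne' (by norm_num), show (4 : ℕ) = 2 ^ 2 by norm_num,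
      padicValNat.prime_pow]
  have hv1 : 1 ≤ v := by
    rw [hvdef, val_sq hq1]
    have : 1 ≤ padicValNat 2 (Fintype.card F + 1) := by
      apply one_le_padicValNat_of_dvd (by omega)
      obtain ⟨r, hr⟩ := hF
      exact ⟨r + 1, by omega⟩
    omega
  have hpos : 2 ≤ v * k + d := by
    have : 1 * 2 ≤ v * k := Nat.mul_le_mul hv1 hk
    omega
  obtain ⟨t, ht⟩ : ∃ t, v * k + d = t + 2 := ⟨_, (Nat.sub_add_cancel hpos).symm⟩
  have hE' : Nat.card (E0 (ι := Fin k) θ θ' (D : Subgroup (A F)) C) = 2 ^ t := by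
    rw [ht, pow_add, mul_comm] at hE
    exact Nat.eq_of_mul_eq_mul_right (by norm_num) hE
  refine wreath θ θ' (D : Subgroup (A F)) C (r := 2) (e k w) (p k w) (e_injective w) (p_injective w)
    (conj_rel' w) (meet' w) _ ?_ ?_ ?_ hG P
  · rintro _ ⟨f, hf, rfl⟩
    have h3 := ((mem_E0 _ _ _ _ f).1 hf).2
    rw [chi_eq] at h3
    rwa [← MonoidHom.mem_ker, Abelianization.ker_of] at h3
  · intro σ
    have h3 := ofG_p w σ
    rwa [← MonoidHom.mem_ker, Abelianization.ker_of] at h3
  · rw [hE', pow_fact (n := Nat.card (commutator (G k w))) rfl, pow_fact (n := k.factorial) rfl, ← pow_add]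
    congr 1
    have : k * v = v * k := mul_comm _ _
    omega

end H17.SylOrth
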