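import Cfsg.Agent.Lib.H17.SylOrth4

/-! Sylow 2-subgroups of `Ω(Q)`, odd characteristic, have elementary abelian abelianization. -/

set_option autoImplicit false
set_option linter.unusedSectionVars false

namespace H17.SylOrth

open Subgroup QuadraticMap H79.SylElem H48.QuadStd H48.Gram

variable {F : Type*} [Field F] [Fintype F] {κ : Type} [Fintype κ] [DecidableEq κ]

/-- transfer along an isometry -/
theorem transfer {κ' : Type} [Fintype κ'] [DecidableEq κ'] (Q : QuadraticForm F (κ → F))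
    (Q' : QuadraticForm F (κ' → F)) (h : Q'.Equivalent Q)
    (hP : ∀ P : Sylow 2 (commutator (Cfsg.isometryGroup F (⇑Q'))),
      ∀ x : (P : Subgroup (commutator (Cfsg.isometryGroup F (⇑Q')))),
        x ^ 2 ∈ commutator (P : Subgroup (commutator (Cfsg.isometryGroup F (⇑Q')))))
    (P : Sylow 2 (commutator (Cfsg.isometryGroup F (⇑Q)))) :
    ∀ x : (P : Subgroup (commutator (Cfsg.isometryGroup F (⇑Q)))),
        x ^ 2 ∈ commutator (P : Subgroup (commutator (Cfsg.isometryGroup F (⇑Q)))) := by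
  have : Fact (Nat.Prime 2) := ⟨Nat.prime_two⟩
  obtain ⟨e₀⟩ := H7.HypStd.nonempty_congrO h
  let e : Cfsg.isometryGroup F (⇑Q') ≃* Cfsg.isometryGroup F (⇑Q) :=
    (H7.HypOrd.matEquiv (⇑Q')).trans (e₀.trans (H7.HypOrd.matEquiv (⇑Q)).symm)
  have h1 : (commutator (Cfsg.isometryGroup F (⇑Q'))).map e.toMonoidHom =
      commutator (Cfsg.isometryGroup F (⇑Q)) := by
    rw [commutator_def, commutator_def, Subgroup.map_commutator, ← MonoidHom.range_eq_map,
      MonoidHom.range_eq_top.2 e.surjective]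
  let e' : commutator (Cfsg.isometryGroup F (⇑Q')) ≃* commutator (Cfsg.isometryGroup F (⇑Q)) :=
    (e.subgroupMap _).trans (MulEquiv.subgroupCongr h1)
  obtain ⟨P₁⟩ : Nonempty (Sylow 2 (commutator (Cfsg.isometryGroup F (⇑Q')))) := inferInstance
  exact gd_iff.1 (gd_sylow_of_equiv e' P₁ (gd_iff.2 (hP P₁)) P)

theorem gdet_qJ {k d : ℕ} (w : Fin d → F) :
    gdet (qJ k w) (Pi.basisFun F (I k d)) = 2 ^ (2 * k) * ∏ j, (2 * w j) := by
  rw [qJ, gdet_wss, Fintype.prod_sum_type]
  simp [Finset.prod_const, Finset.card_univ]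

theorem finrank_qJ (k d : ℕ) : Module.finrank F (I k d → F) = 2 * k + d := by
  simp only [Module.finrank_fintype_fun_eq_card, Fintype.card_sum, Fintype.card_prod, Fintype.card_fin]

theorem odd_case (hF : Odd (Fintype.card F)) (Q : QuadraticForm F (κ → F))
    (hQ : H48.QuadSplit.ND Q) (m : ℕ) (hm : 2 ≤ m) (hκ : Fintype.card κ = 2 * m + 1)
    (P : Sylow 2 (commutator (Cfsg.isometryGroup F (⇑Q)))) :
    ∀ x : (P : Subgroup (commutator (Cfsg.isometryGroup F (⇑Q)))),
        x ^ 2 ∈ commutator (P : Subgroup (commutator (Cfsg.isometryGroup F (⇑Q)))) := by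
  have h2 : (2 : F) ≠ 0 := H6.SL2Tor.two_ne_zero_of_odd hF
  have hg := gdet_ne_zero hQ (Pi.basisFun F κ)
  set c := gdet Q (Pi.basisFun F κ) with hc
  let w : Fin 1 → F := fun _ => 2 * c
  have hw : ∀ i, w i ≠ 0 := fun _ => mul_ne_zero h2 hg
  have hdim : Module.finrank F (I m 1 → F) = Module.finrank F (κ → F) := by
    rw [finrank_qJ, Module.finrank_fintype_fun_eq_card, hκ]
  have heq : (qJ m w).Equivalent Q := by
    rw [H48.QuadSim.equivalent_iff_gdet h2 (nd_qJ h2 w hw) hQ hdim (Pi.basisFun F _) (Pi.basisFun F _),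
      gdet_qJ, ← hc]
    refine ⟨2 ^ m * 2 * c, ?_⟩
    simp only [Fin.prod_univ_one, w]
    ring
  apply transfer Q (qJ m w) heq
  apply main hF w hw hm
  rw [H7.HypOrd.card_isometryGroup, H7.HypStd.card_O_congr heq]
  obtain ⟨-, c', hc', h'⟩ := classify_odd m (κ → F) Q hQ (by rw [← hdim, finrank_qJ])
  rw [H7.HypStd.card_O_congr h', SylOrth3.val_odd hF m h2 hc']
  ring

theorem even_case (hF : Odd (Fintype.card F)) (Q : QuadraticForm F (κ → F))
    (hQ : H48.QuadSplit.ND Q) (m : ℕ) (hm : 2 ≤ m) (hκ : Fintype.card κ = 2 * m)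
    (hsq : IsSquare (gdet Q (Pi.basisFun F κ)) ∨ 3 ≤ m)
    (P : Sylow 2 (commutator (Cfsg.isometryGroup F (⇑Q)))) :
    ∀ x : (P : Subgroup (commutator (Cfsg.isometryGroup F (⇑Q)))),
        x ^ 2 ∈ commutator (P : Subgroup (commutator (Cfsg.isometryGroup F (⇑Q)))) := by
  have h2 : (2 : F) ≠ 0 := H6.SL2Tor.two_ne_zero_of_odd hF
  have hg := gdet_ne_zero hQ (Pi.basisFun F κ)
  obtain ⟨n, rfl⟩ : ∃ n, m = n + 1 := ⟨m - 1, by omega⟩
  have hv := SylOrth3.val_even hF Q hQ n (by rw [Module.finrank_fintype_fun_eq_card, hκ]) (Pi.basisFun F κ)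
  by_cases h : IsSquare (gdet Q (Pi.basisFun F κ))
  · let w : Fin 0 → F := fun _ => 1
    have hw : ∀ i, w i ≠ 0 := fun i => i.elim0
    have hdim : Module.finrank F (I (n + 1) 0 → F) = Module.finrank F (κ → F) := by
      rw [finrank_qJ, Module.finrank_fintype_fun_eq_card, hκ, add_zero]
    have heq : (qJ (n + 1) w).Equivalent Q := by
      rw [H48.QuadSim.equivalent_iff_gdet h2 (nd_qJ h2 w hw) hQ hdim (Pi.basisFun F _) (Pi.basisFun F _),
        gdet_qJ]
      obtain ⟨r, hr⟩ := h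
      refine ⟨2 ^ (n + 1) * r, ?_⟩
      rw [hr]
      simp
      ring
    apply transfer Q (qJ (n + 1) w) heq
    apply main hF w hw hm
    rw [H7.HypOrd.card_isometryGroup, H7.HypStd.card_O_congr heq, hv.1 h]
    ring
  · have hm3 : 3 ≤ n + 1 := hsq.resolve_left h
    set c := gdet Q (Pi.basisFun F κ) with hc
    let w : Fin 2 → F := ![1, c]
    have hw : ∀ i, w i ≠ 0 := by
      intro i
      fin_cases i
      · exact one_ne_zero
      · exact hg
    have hdim : Module.finrank F (I n 2 → F) = Module.finrank F (κ → F) := by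
      rw [finrank_qJ, Module.finrank_fintype_fun_eq_card, hκ]
      ring
    have heq : (qJ n w).Equivalent Q := by
      rw [H48.QuadSim.equivalent_iff_gdet h2 (nd_qJ h2 w hw) hQ hdim (Pi.basisFun F _) (Pi.basisFun F _),
        gdet_qJ, ← hc]
      refine ⟨2 ^ n * 2 * c, ?_⟩
      simp only [Fin.prod_univ_two, Fin.isValue, w, Matrix.cons_val_zero, Matrix.cons_val_one]
      ring
    apply transfer Q (qJ n w) heq
    apply main hF w hw (by omega)
    rw [H7.HypOrd.card_isometryGroup, H7.HypStd.card_O_congr heq, hv.2 h]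
    ring

end H17.SylOrth
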