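import Mathlib
import Cfsg.Agent.Lib.H17.SylAb64

set_option autoImplicit false

/-! The unitriangular group of degree 5 over the field with two elements, by coordinates, and its central quotient. -/

namespace H17.UT5

abbrev F := ZMod 2

/-- the matrix `[[1,a,b,c,d],[0,1,e,f,g],[0,0,1,h,i],[0,0,0,1,j],[0,0,0,0,1]]` -/
@[ext] structure X10 where
  (a b c d e f g h i j : F)
  deriving DecidableEq

/-- the same without `d` -/
@[ext] structure X9 where
  (a b c e f g h i j : F)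
  deriving DecidableEq

def eqv10 : X10 ≃ (F × F × F × F × F) × (F × F × F × F × F) where
  toFun x := ((x.a, x.b, x.c, x.d, x.e), (x.f, x.g, x.h, x.i, x.j))
  invFun y := ⟨y.1.1, y.1.2.1, y.1.2.2.1, y.1.2.2.2.1, y.1.2.2.2.2, y.2.1, y.2.2.1, y.2.2.2.1, y.2.2.2.2.1, y.2.2.2.2.2⟩
  left_inv _ := rfl
  right_inv _ := rfl

def eqv9 : X9 ≃ (F × F × F × F × F) × (F × F × F × F) where
  toFun x := ((x.a, x.b, x.c, x.e, x.f), (x.g, x.h, x.i, x.j))
  invFun y := ⟨y.1.1, y.1.2.1, y.1.2.2.1, y.1.2.2.2.1, y.1.2.2.2.2, y.2.1, y.2.2.1, y.2.2.2.1, y.2.2.2.2⟩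
  left_inv _ := rfl
  right_inv _ := rfl

instance : Finite X10 := Finite.of_equiv _ eqv10.symm
instance : Finite X9 := Finite.of_equiv _ eqv9.symm

theorem card_X10 : Nat.card X10 = 1024 := by
  rw [Nat.card_congr eqv10]
  simp [Nat.card_eq_fintype_card, Fintype.card_prod, ZMod.card]

theorem card_X9 : Nat.card X9 = 512 := by
  rw [Nat.card_congr eqv9]
  simp [Nat.card_eq_fintype_card, Fintype.card_prod, ZMod.card]

instance : Mul X10 := ⟨fun x y =>
  ⟨x.a + y.a, y.b + x.a * y.e + x.b, y.c + x.a * y.f + x.b * y.h + x.c,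
    y.d + x.a * y.g + x.b * y.i + x.c * y.j + x.d, x.e + y.e, y.f + x.e * y.h + x.f,
    y.g + x.e * y.i + x.f * y.j + x.g, x.h + y.h, y.i + x.h * y.j + x.i, x.j + y.j⟩⟩
instance : One X10 := ⟨⟨0, 0, 0, 0, 0, 0, 0, 0, 0, 0⟩⟩
instance : Inv X10 := ⟨fun x =>
  ⟨-x.a, -x.b + x.a * x.e, -x.c + x.a * x.f - (-x.b + x.a * x.e) * x.h,
    -x.d + x.a * x.g - (-x.b + x.a * x.e) * x.i - (-x.c + x.a * x.f - (-x.b + x.a * x.e) * x.h) * x.j,
    -x.e, -x.f + x.e * x.h, -x.g + x.e * x.i - (-x.f + x.e * x.h) * x.j, -x.h, -x.i + x.h * x.j, -x.j⟩⟩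

instance : Mul X9 := ⟨fun x y =>
  ⟨x.a + y.a, y.b + x.a * y.e + x.b, y.c + x.a * y.f + x.b * y.h + x.c,
    x.e + y.e, y.f + x.e * y.h + x.f,
    y.g + x.e * y.i + x.f * y.j + x.g, x.h + y.h, y.i + x.h * y.j + x.i, x.j + y.j⟩⟩
instance : One X9 := ⟨⟨0, 0, 0, 0, 0, 0, 0, 0, 0⟩⟩
instance : Inv X9 := ⟨fun x =>
  ⟨-x.a, -x.b + x.a * x.e, -x.c + x.a * x.f - (-x.b + x.a * x.e) * x.h,
    -x.e, -x.f + x.e * x.h, -x.g + x.e * x.i - (-x.f + x.e * x.h) * x.j, -x.h, -x.i + x.h * x.j, -x.j⟩⟩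

theorem mul10 (x y : X10) : x * y = ⟨x.a + y.a, y.b + x.a * y.e + x.b, y.c + x.a * y.f + x.b * y.h + x.c,
    y.d + x.a * y.g + x.b * y.i + x.c * y.j + x.d, x.e + y.e, y.f + x.e * y.h + x.f,
    y.g + x.e * y.i + x.f * y.j + x.g, x.h + y.h, y.i + x.h * y.j + x.i, x.j + y.j⟩ := rfl
theorem one10 : (1 : X10) = ⟨0, 0, 0, 0, 0, 0, 0, 0, 0, 0⟩ := rfl
theorem inv10 (x : X10) : x⁻¹ = ⟨-x.a, -x.b + x.a * x.e, -x.c + x.a * x.f - (-x.b + x.a * x.e) * x.h,
    -x.d + x.a * x.g - (-x.b + x.a * x.e) * x.i - (-x.c + x.a * x.f - (-x.b + x.a * x.e) * x.h) * x.j,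
    -x.e, -x.f + x.e * x.h, -x.g + x.e * x.i - (-x.f + x.e * x.h) * x.j, -x.h, -x.i + x.h * x.j, -x.j⟩ := rfl
theorem mul9 (x y : X9) : x * y = ⟨x.a + y.a, y.b + x.a * y.e + x.b, y.c + x.a * y.f + x.b * y.h + x.c,
    x.e + y.e, y.f + x.e * y.h + x.f,
    y.g + x.e * y.i + x.f * y.j + x.g, x.h + y.h, y.i + x.h * y.j + x.i, x.j + y.j⟩ := rfl
theorem one9 : (1 : X9) = ⟨0, 0, 0, 0, 0, 0, 0, 0, 0⟩ := rfl
theorem inv9 (x : X9) : x⁻¹ = ⟨-x.a, -x.b + x.a * x.e, -x.c + x.a * x.f - (-x.b + x.a * x.e) * x.h,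
    -x.e, -x.f + x.e * x.h, -x.g + x.e * x.i - (-x.f + x.e * x.h) * x.j, -x.h, -x.i + x.h * x.j, -x.j⟩ := rfl

instance : Group X10 := Group.ofLeftAxioms
  (by intro x y z; rw [mul10, mul10, mul10, mul10]; ext <;> simp only <;> ring)
  (by intro x; rw [mul10, one10]; ext <;> simp only <;> ring)
  (by intro x; rw [mul10, inv10, one10]; ext <;> simp only <;> ring)

instance : Group X9 := Group.ofLeftAxioms
  (by intro x y z; rw [mul9, mul9, mul9, mul9]; ext <;> simp only <;> ring)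
  (by intro x; rw [mul9, one9]; ext <;> simp only <;> ring)
  (by intro x; rw [mul9, inv9, one9]; ext <;> simp only <;> ring)

/-- forget `d` -/
def drop : X10 →* X9 where
  toFun x := ⟨x.a, x.b, x.c, x.e, x.f, x.g, x.h, x.i, x.j⟩
  map_one' := rfl
  map_mul' _ _ := rfl

theorem drop_surj : Function.Surjective drop := fun x => ⟨⟨x.a, x.b, x.c, 0, x.e, x.f, x.g, x.h, x.i, x.j⟩, rfl⟩

theorem ker_drop : drop.ker = Subgroup.center X10 := by
  ext x
  rw [MonoidHom.mem_ker, Subgroup.mem_center_iff]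
  constructor
  · intro h y
    have h1 : drop x = ⟨0, 0, 0, 0, 0, 0, 0, 0, 0⟩ := h
    have ha : x.a = 0 := congrArg X9.a h1
    have hb : x.b = 0 := congrArg X9.b h1
    have hc : x.c = 0 := congrArg X9.c h1
    have he : x.e = 0 := congrArg X9.e h1
    have hf : x.f = 0 := congrArg X9.f h1
    have hg : x.g = 0 := congrArg X9.g h1
    have hh : x.h = 0 := congrArg X9.h h1
    have hi : x.i = 0 := congrArg X9.i h1
    have hj : x.j = 0 := congrArg X9.j h1
    rw [mul10, mul10]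
    ext <;> simp only [ha, hb, hc, he, hf, hg, hh, hi, hj] <;> ring
  · intro h
    have h1 := h ⟨1, 0, 0, 0, 0, 0, 0, 0, 0, 0⟩
    have h2 := h ⟨0, 0, 0, 0, 1, 0, 0, 0, 0, 0⟩
    have h3 := h ⟨0, 0, 0, 0, 0, 0, 0, 1, 0, 0⟩
    have h4 := h ⟨0, 0, 0, 0, 0, 0, 0, 0, 0, 1⟩
    rw [mul10, mul10] at h1 h2 h3 h4
    have he : x.e = 0 := by simpa using congrArg X10.b h1
    have hf : x.f = 0 := by simpa using congrArg X10.c h1
    have hg : x.g = 0 := by simpa using congrArg X10.d h1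
    have ha : x.a = 0 := by simpa using congrArg X10.b h2
    have hh : x.h = 0 := by simpa using congrArg X10.f h2
    have hi : x.i = 0 := by simpa using congrArg X10.g h2
    have hb : x.b = 0 := by simpa using congrArg X10.c h3
    have hj : x.j = 0 := by simpa using congrArg X10.i h3
    have hc : x.c = 0 := by simpa using congrArg X10.d h4
    show (⟨x.a, x.b, x.c, x.e, x.f, x.g, x.h, x.i, x.j⟩ : X9) = ⟨0, 0, 0, 0, 0, 0, 0, 0, 0⟩
    rw [ha, hb, hc, he, hf, hg, hh, hi, hj]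

/-- the elementary abelian subgroup -/
def A0 : Subgroup X9 where
  carrier := {x | x.e = 0 ∧ x.f = 0 ∧ x.h = 0}
  one_mem' := ⟨rfl, rfl, rfl⟩
  mul_mem' := by
    rintro x y ⟨h1, h2, h3⟩ ⟨h4, h5, h6⟩
    rw [mul9]
    exact ⟨by simp [h1, h4], by simp [h1, h2, h5], by simp [h3, h6]⟩
  inv_mem' := by
    rintro x ⟨h1, h2, h3⟩
    rw [inv9]
    exact ⟨by simp [h1], by simp [h1, h2], by simp [h3]⟩

theorem mem_A0 {x : X9} : x ∈ A0 ↔ x.e = 0 ∧ x.f = 0 ∧ x.h = 0 := Iff.rfl

def eqvA : A0 ≃ (F × F × F) × (F × F × F) where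
  toFun x := ((x.1.a, x.1.b, x.1.c), (x.1.g, x.1.i, x.1.j))
  invFun y := ⟨⟨y.1.1, y.1.2.1, y.1.2.2, 0, 0, y.2.1, 0, y.2.2.1, y.2.2.2⟩, rfl, rfl, rfl⟩
  left_inv := by
    rintro ⟨x, h1, h2, h3⟩
    apply Subtype.ext
    ext
    · rfl
    · rfl
    · rfl
    · exact h1.symm
    · exact h2.symm
    · rfl
    · exact h3.symm
    · rfl
    · rfl
  right_inv _ := rfl

theorem card_A0 : Nat.card A0 = 64 := by
  rw [Nat.card_congr eqvA]
  simp [Nat.card_eq_fintype_card, Fintype.card_prod, ZMod.card]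

theorem two_mul' (x : F) : x + x = 0 := CharTwo.add_self_eq_zero x

theorem elem : Cfsg.IsElementaryAbelian 2 A0 := by
  refine ⟨⟨⟨?_⟩⟩, ?_⟩
  · rintro ⟨x, h1, h2, h3⟩ ⟨y, h4, h5, h6⟩
    apply Subtype.ext
    show x * y = y * x
    rw [mul9, mul9]
    ext <;> simp only [h1, h2, h3, h4, h5, h6] <;> ring
  · rintro x ⟨h1, h2, h3⟩
    rw [pow_two, mul9, one9]
    ext <;> simp only [h1, h2, h3, mul_zero, zero_mul, add_zero, two_mul']

theorem normal : A0.Normal := by
  constructor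
  rintro x ⟨h1, h2, h3⟩ y
  rw [mul9, mul9, inv9, mem_A0]
  refine ⟨?_, ?_, ?_⟩ <;> simp only [h1, h2, h3] <;> ring

/-- the commuting condition -/
theorem comm_iff {s x : X9} (hx : x ∈ A0) : s * x = x * s ↔
    x.a * s.e = 0 ∧ x.a * s.f + x.b * s.h = 0 ∧ s.e * x.i + s.f * x.j = 0 ∧ s.h * x.j = 0 := by
  obtain ⟨h1, h2, h3⟩ := hx
  rw [mul9, mul9, X9.mk.injEq]
  simp only [h1, h2, h3, mul_zero, zero_mul, add_zero, zero_add]
  constructor
  · rintro ⟨-, h4, h5, -, -, h6, -, h7, -⟩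
    refine ⟨?_, ?_, ?_, ?_⟩
    · linear_combination -h4
    · linear_combination -h5
    · linear_combination h6
    · linear_combination h7
  · rintro ⟨h4, h5, h6, h7⟩
    refine ⟨add_comm _ _, ?_, ?_, trivial, trivial, ?_, trivial, ?_, add_comm _ _⟩
    · linear_combination -h4
    · linear_combination -h5
    · linear_combination h6
    · linear_combination h7

/-- the commuting condition as a test on coordinates -/
def test (e f h : F) (x : (F × F × F) × (F × F × F)) : Bool :=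
  decide (x.1.1 * e = 0) && decide (x.1.1 * f + x.1.2.1 * h = 0) && decide (e * x.2.2.1 + f * x.2.2.2 = 0) &&
    decide (h * x.2.2.2 = 0)

theorem test_iff {s x : X9} (hx : x ∈ A0) : s * x = x * s ↔ test s.e s.f s.h (eqvA ⟨x, hx⟩) = true := by
  rw [comm_iff hx]
  constructor
  · rintro ⟨h1, h2, h3, h4⟩
    simp only [test, Bool.and_eq_true]
    exact ⟨⟨⟨decide_eq_true h1, decide_eq_true h2⟩, decide_eq_true h3⟩, decide_eq_true h4⟩
  · intro h
    simp only [test, Bool.and_eq_true] at h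
    exact ⟨of_decide_eq_true h.1.1.1, of_decide_eq_true h.1.1.2, of_decide_eq_true h.1.2, of_decide_eq_true h.2⟩

theorem count_one : ∀ e f h : F, (e = 0 ∧ f = 0 ∧ h = 0) ∨
    (Finset.univ.filter (fun x => test e f h x = true)).card ≤ 16 := by decide +kernel

theorem count_two : ∀ e f h e' f' h' : F, (e = 0 ∧ f = 0 ∧ h = 0) ∨ (e' = 0 ∧ f' = 0 ∧ h' = 0) ∨
    (e = e' ∧ f = f' ∧ h = h') ∨
    (Finset.univ.filter (fun x => test e f h x = true ∧ test e' f' h' x = true)).card ≤ 8 := by decide +kernel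

theorem good : H17.SylAb64.Good A0 where
  card_S := card_X9
  normal := normal
  elem := elem
  card_A := card_A0
  one := by
    intro s hs
    rcases count_one s.e s.f s.h with h | h
    · exact absurd h hs
    · refine le_trans ?_ h
      rw [← Nat.card_eq_finsetCard]
      refine Nat.card_le_card_of_injective
        (fun x : (A0 ⊓ Subgroup.centralizer {s} : Subgroup X9) =>
          (⟨eqvA ⟨x.1, x.2.1⟩, by
            rw [Finset.mem_filter]
            refine ⟨Finset.mem_univ _, (test_iff x.2.1).mp ?_⟩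
            exact (Subgroup.mem_centralizer_singleton_iff.mp x.2.2).symm⟩ :
            (Finset.univ.filter (fun x => test s.e s.f s.h x = true) : Finset _))) ?_
      intro x y hxy
      have h1 : (⟨x.1, x.2.1⟩ : A0) = ⟨y.1, y.2.1⟩ := eqvA.injective (congrArg Subtype.val hxy)
      exact Subtype.ext (congrArg (fun z : A0 => (z : X9)) h1)
  two := by
    intro s t hs ht hst
    rcases count_two s.e s.f s.h t.e t.f t.h with h | h | h | h
    · exact absurd h hs
    · exact absurd h ht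
    · exfalso
      apply hst
      obtain ⟨h1, h2, h3⟩ := h
      rw [mul9, inv9, mem_A0]
      refine ⟨?_, ?_, ?_⟩ <;> simp only [h1, h2, h3] <;> ring
    · refine le_trans ?_ h
      rw [← Nat.card_eq_finsetCard]
      refine Nat.card_le_card_of_injective
        (fun x : (A0 ⊓ Subgroup.centralizer {s, t} : Subgroup X9) =>
          (⟨eqvA ⟨x.1, x.2.1⟩, by
            rw [Finset.mem_filter]
            have h1 := Subgroup.mem_centralizer_iff.mp x.2.2
            exact ⟨Finset.mem_univ _, (test_iff x.2.1).mp (h1 s (by simp)), (test_iff x.2.1).mp (h1 t (by simp))⟩⟩ :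
            (Finset.univ.filter (fun x => test s.e s.f s.h x = true ∧ test t.e t.f t.h x = true) : Finset _))) ?_
      intro x y hxy
      have h1 : (⟨x.1, x.2.1⟩ : A0) = ⟨y.1, y.2.1⟩ := eqvA.injective (congrArg Subtype.val hxy)
      exact Subtype.ext (congrArg (fun z : A0 => (z : X9)) h1)
  nonab := by
    refine ⟨⟨0, 0, 0, 1, 0, 0, 0, 0, 0⟩, ⟨0, 0, 0, 0, 0, 0, 1, 0, 0⟩, ?_⟩
    rw [mul9, mul9, mul9, inv9, inv9, mem_A0]
    intro h
    have h1 := h.2.1
    revert h1
    decide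

/-- transport -/
theorem good_congr {S T : Type*} [Group S] [Group T] [Finite S] [Finite T] (e : S ≃* T) {A : Subgroup T}
    (h : H17.SylAb64.Good A) : H17.SylAb64.Good (A.comap e.toMonoidHom) where
  card_S := (Nat.card_congr e.toEquiv).trans h.card_S
  normal := by
    have := h.normal
    exact Subgroup.Normal.comap this _
  elem := by
    refine ⟨⟨⟨?_⟩⟩, ?_⟩
    · rintro ⟨x, hx⟩ ⟨y, hy⟩
      apply Subtype.ext
      apply e.injective
      show e (x * y) = e (y * x)
      rw [map_mul, map_mul]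
      exact congrArg Subtype.val (h.elem.1.1.1 ⟨e x, hx⟩ ⟨e y, hy⟩)
    · intro x hx
      apply e.injective
      rw [map_pow, map_one]
      exact h.elem.2 _ hx
  card_A := by
    rw [← h.card_A]
    exact Nat.card_congr
      { toFun := fun x => ⟨e x.1, x.2⟩
        invFun := fun y => ⟨e.symm y.1, by
          show e (e.symm y.1) ∈ A
          rw [MulEquiv.apply_symm_apply]; exact y.2⟩
        left_inv := fun x => Subtype.ext (e.symm_apply_apply _)
        right_inv := fun x => Subtype.ext (e.apply_symm_apply _) }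
  one := by
    intro s hs
    refine le_trans ?_ (h.one (e s) hs)
    refine Nat.card_le_card_of_injective (fun x => ⟨e x.1, x.2.1, ?_⟩) ?_
    · show e x.1 ∈ Subgroup.centralizer {e s}
      rw [Subgroup.mem_centralizer_singleton_iff, ← map_mul, ← map_mul]
      exact congrArg e (Subgroup.mem_centralizer_singleton_iff.mp x.2.2)
    · intro x y hxy
      exact Subtype.ext (e.injective (congrArg Subtype.val hxy))
  two := by
    intro s t hs ht hst
    refine le_trans ?_ (h.two (e s) (e t) hs ht (by rw [← map_inv, ← map_mul]; exact hst))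
    refine Nat.card_le_card_of_injective (fun x => ⟨e x.1, x.2.1, ?_⟩) ?_
    · show e x.1 ∈ Subgroup.centralizer {e s, e t}
      rw [Subgroup.mem_centralizer_iff]
      have h1 := Subgroup.mem_centralizer_iff.mp x.2.2
      rintro y (rfl | rfl)
      · rw [← map_mul, ← map_mul]
        exact congrArg e (h1 s (by simp))
      · rw [← map_mul, ← map_mul]
        exact congrArg e (h1 t (by simp))
    · intro x y hxy
      exact Subtype.ext (e.injective (congrArg Subtype.val hxy))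
  nonab := by
    obtain ⟨s, t, hst⟩ := h.nonab
    refine ⟨e.symm s, e.symm t, fun h1 => hst ?_⟩
    have h2 : e (e.symm s * e.symm t * (e.symm s)⁻¹ * (e.symm t)⁻¹) ∈ A := h1
    rw [map_mul, map_mul, map_mul, map_inv, map_inv, MulEquiv.apply_symm_apply, MulEquiv.apply_symm_apply] at h2
    exact h2

/-- the quotient by the centre -/
noncomputable def quo : X10 ⧸ Subgroup.center X10 ≃* X9 :=
  (QuotientGroup.quotientMulEquivOfEq ker_drop.symm).trans (QuotientGroup.quotientKerEquivOfSurjective drop drop_surj)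

end H17.UT5
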