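import Mathlib
import Cfsg.Prelude.Def_G2

/-! The Zorn algebra: identities. -/

set_option autoImplicit false
set_option linter.unusedSectionVars false

namespace H17.Zorn

open Cfsg.Lie Matrix

variable {F : Type*} [Field F]

abbrev O (F : Type*) := Fin 8 → F

theorem mul_def (x y : O F) : zornMul x y =
    ![x 0 * y 0 + (x 1 * y 4 + x 2 * y 5 + x 3 * y 6),
      x 0 * y 1 + y 7 * x 1 - (x 5 * y 6 - x 6 * y 5),
      x 0 * y 2 + y 7 * x 2 - (x 6 * y 4 - x 4 * y 6),
      x 0 * y 3 + y 7 * x 3 - (x 4 * y 5 - x 5 * y 4),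
      y 0 * x 4 + x 7 * y 4 + (x 2 * y 3 - x 3 * y 2),
      y 0 * x 5 + x 7 * y 5 + (x 3 * y 1 - x 1 * y 3),
      y 0 * x 6 + x 7 * y 6 + (x 1 * y 2 - x 2 * y 1),
      (x 4 * y 1 + x 5 * y 2 + x 6 * y 3) + x 7 * y 7] := by
  ext i
  fin_cases i <;> simp [zornMul, dot3, cross3]

/-- the identity -/
def one : O F := ![1, 0, 0, 0, 0, 0, 0, 1]

/-- conjugation -/
def cj (x : O F) : O F := ![x 7, -x 1, -x 2, -x 3, -x 4, -x 5, -x 6, x 0]

/-- trace -/
def T (x : O F) : F := x 0 + x 7

/-- norm -/
def N (x : O F) : F := x 0 * x 7 - (x 1 * x 4 + x 2 * x 5 + x 3 * x 6)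

/-- polar form of the norm -/
def B (x y : O F) : F := x 0 * y 7 + x 7 * y 0 - (x 1 * y 4 + x 4 * y 1 + x 2 * y 5 + x 5 * y 2 +
  x 3 * y 6 + x 6 * y 3)

theorem mul_one' (x : O F) : zornMul x one = x := by
  rw [mul_def]
  ext i
  fin_cases i <;> simp [one]

theorem one_mul' (x : O F) : zornMul one x = x := by
  rw [mul_def]
  ext i
  fin_cases i <;> simp [one]

theorem add_mul' (x y z : O F) : zornMul (x + y) z = zornMul x z + zornMul y z := by
  simp only [mul_def]
  ext i
  fin_cases i <;> simp <;> ring

theorem mul_add' (x y z : O F) : zornMul x (y + z) = zornMul x y + zornMul x z := by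
  simp only [mul_def]
  ext i
  fin_cases i <;> simp <;> ring

theorem smul_mul' (c : F) (x y : O F) : zornMul (c • x) y = c • zornMul x y := by
  simp only [mul_def]
  ext i
  fin_cases i <;> simp <;> ring

theorem mul_smul' (c : F) (x y : O F) : zornMul x (c • y) = c • zornMul x y := by
  simp only [mul_def]
  ext i
  fin_cases i <;> simp <;> ring

theorem sq (x : O F) : zornMul x x = T x • x - N x • one := by
  rw [mul_def]
  ext i
  fin_cases i <;> simp [one, T, N] <;> ring

theorem alt_left (x y : O F) : zornMul x (zornMul x y) = zornMul (zornMul x x) y := by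
  simp only [mul_def]
  ext i
  fin_cases i <;> simp <;> ring

theorem alt_right (x y : O F) : zornMul (zornMul y x) x = zornMul y (zornMul x x) := by
  simp only [mul_def]
  ext i
  fin_cases i <;> simp <;> ring

theorem mul_mul_cj (x y : O F) : zornMul (zornMul x y) (cj y) = N y • x := by
  simp only [mul_def]
  ext i
  fin_cases i <;> simp [cj, N] <;> ring

theorem B_mul_left (x y z : O F) : B (zornMul x y) z = B y (zornMul (cj x) z) := by
  simp only [mul_def, B, cj]
  simp
  ring

theorem B_mul_right (x y z : O F) : B (zornMul x y) z = B x (zornMul z (cj y)) := by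
  simp only [mul_def, B, cj]
  simp
  ring

theorem N_mul (x y : O F) : N (zornMul x y) = N x * N y := by
  simp only [mul_def, N]
  simp
  ring

theorem mul_comm' (x y : O F) : zornMul x y + zornMul y x = T x • y + T y • x - B x y • one := by
  simp only [mul_def]
  ext i
  fin_cases i <;> simp [one, T, B] <;> ring

theorem cj_eq (x : O F) : cj x = T x • one - x := by
  ext i
  fin_cases i <;> simp [one, T, cj]

theorem N_add (x y : O F) : N (x + y) = N x + N y + B x y := by
  simp only [N, B, Pi.add_apply]
  ring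

theorem N_smul (c : F) (x : O F) : N (c • x) = c ^ 2 * N x := by
  simp only [N, Pi.smul_apply, smul_eq_mul]
  ring

theorem B_comm (x y : O F) : B x y = B y x := by
  simp only [B]
  ring

theorem B_add (x y z : O F) : B x (y + z) = B x y + B x z := by
  simp only [B, Pi.add_apply]
  ring

theorem B_smul (c : F) (x y : O F) : B x (c • y) = c * B x y := by
  simp only [B, Pi.smul_apply, smul_eq_mul]
  ring

theorem add_B (x y z : O F) : B (x + y) z = B x z + B y z := by
  simp only [B, Pi.add_apply]
  ring

theorem smul_B (c : F) (x y : O F) : B (c • x) y = c * B x y := by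
  simp only [B, Pi.smul_apply, smul_eq_mul]
  ring

theorem B_self (x : O F) : B x x = 2 * N x := by
  simp only [B, N]
  ring

theorem T_eq (x : O F) : T x = B x one := by
  simp [B, one, T]

theorem N_one : N (one : O F) = 1 := by simp [N, one]

theorem B_nondeg {x : O F} (h : ∀ y, B x y = 0) : x = 0 := by
  have h0 := h (Pi.single 0 1)
  have h1 := h (Pi.single 1 1)
  have h2 := h (Pi.single 2 1)
  have h3 := h (Pi.single 3 1)
  have h4 := h (Pi.single 4 1)
  have h5 := h (Pi.single 5 1)
  have h6 := h (Pi.single 6 1)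
  have h7 := h (Pi.single 7 1)
  simp [B] at h0 h1 h2 h3 h4 h5 h6 h7
  ext i
  fin_cases i <;> simp [*]

end H17.Zorn
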