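import Cfsg.Agent.Lib.H17.ZornPair
import Cfsg.Agent.Lib.H17.LineCount
import Cfsg.Agent.Lib.H73.GenTuples
import Cfsg.Agent.Lib.H7.HypStd

/-! The order of `G₂(q)` divides `(q^6-1) q^5 |SL₂(q)|`. -/

set_option autoImplicit false
set_option linter.unusedSectionVars false

namespace H17.Zorn

open Cfsg.Lie Matrix

variable {F : Type*} [Field F]

local infixl:70 " ⋆ " => zornMul

/-- the action of a matrix -/
abbrev act (g : G2 F) (x : O F) : O F := ((g : GL (Fin 8) F) : Matrix (Fin 8) (Fin 8) F) *ᵥ x

theorem act_mul (g : G2 F) (x y : O F) : act g (x ⋆ y) = act g x ⋆ act g y := g.2 x y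

theorem act_act (g h : G2 F) (x : O F) : act (g * h) x = act g (act h x) :=
  (mulVec_mulVec x ((g : GL (Fin 8) F) : Matrix (Fin 8) (Fin 8) F) ((h : GL (Fin 8) F) : Matrix (Fin 8) (Fin 8) F)).symm

theorem act_inv (g : G2 F) (x : O F) : act g (act g⁻¹ x) = x := by
  rw [act, act, mulVec_mulVec, ← Units.val_mul, ← Subgroup.coe_mul, mul_inv_cancel]
  simp

theorem act_inv' (g : G2 F) (x : O F) : act g⁻¹ (act g x) = x := by
  have := act_inv g⁻¹ x
  rwa [inv_inv] at this

theorem act_inj (g : G2 F) : Function.Injective (act g) := fun x y h => by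
  rw [← act_inv' g x, ← act_inv' g y, h]

theorem act_add (g : G2 F) (x y : O F) : act g (x + y) = act g x + act g y := mulVec_add _ _ _
theorem act_smul (g : G2 F) (c : F) (x : O F) : act g (c • x) = c • act g x := mulVec_smul _ _ _

theorem act_one (g : G2 F) : act g one = one := by
  have h : ∀ y, act g one ⋆ y = y := by
    intro y
    rw [← act_inv g y, ← act_mul, one_mul']
  rw [← mul_one' (act g one), h]

theorem act_TN (g : G2 F) (x : O F) : T (act g x) = T x ∧ N (act g x) = N x := by
  have h1 : act g (x ⋆ x) = T x • act g x - N x • one := by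
    rw [sq, sub_eq_add_neg, act_add, act_smul, ← neg_smul, act_smul, act_one, neg_smul, sub_eq_add_neg]
  rw [act_mul, sq] at h1
  have h2 : (T (act g x) - T x) • act g x = (N (act g x) - N x) • one := by
    rw [sub_smul, sub_smul, sub_eq_sub_iff_sub_eq_sub]
    rw [← h1]
  have one0 : (one : O F) ≠ 0 := by
    intro h
    have := congrFun h 0
    simp [one] at this
  by_cases hT : T (act g x) = T x
  · refine ⟨hT, ?_⟩
    rw [hT, sub_self, zero_smul] at h2
    exact sub_eq_zero.1 ((smul_eq_zero.1 h2.symm).resolve_right one0)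
  · exfalso
    have h3 : act g x = ((T (act g x) - T x)⁻¹ * (N (act g x) - N x)) • one := by
      rw [mul_smul, ← h2, smul_smul, inv_mul_cancel₀ (sub_ne_zero.2 hT), one_smul]
    set c := (T (act g x) - T x)⁻¹ * (N (act g x) - N x)
    have h4 : x = c • one := by
      apply act_inj g
      rw [h3, act_smul, act_one]
    apply hT
    rw [h3, h4]

theorem act_B (g : G2 F) (x y : O F) : B (act g x) (act g y) = B x y := by
  have h1 := N_add (act g x) (act g y)
  rw [← act_add, (act_TN g _).2, (act_TN g _).2, (act_TN g _).2, N_add] at h1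
  exact (add_left_cancel h1).symm

theorem act_pair (g : G2 F) {a b : O F} (h : Pair a b) : Pair (act g a) (act g b) where
  Ta := by rw [(act_TN g _).1, h.Ta]
  Na := by rw [(act_TN g _).2, h.Na]
  Tb := by rw [(act_TN g _).1, h.Tb]
  Nb := by rw [(act_TN g _).2, h.Nb]
  Bab := by rw [act_B, h.Bab]

theorem act_hh (g : G2 F) (a b : O F) (x : Fin 4 → F) :
    act g (hh a b x) = hh (act g a) (act g b) x := by
  simp only [hh, act_add, act_smul, act_one, act_mul]

/-- the type of frames -/
def Fr (F : Type*) [Field F] : Type _ :=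
  {p : O F × O F × O F // Pair p.1 p.2.1 ∧ (∀ x, B p.2.2 (hh p.1 p.2.1 x) = 0) ∧ N p.2.2 = 1}

instance : MulAction (G2 F) (Fr F) where
  smul g p := ⟨(act g p.1.1, act g p.1.2.1, act g p.1.2.2), act_pair g p.2.1, fun x => by
    rw [← act_hh, act_B]
    exact p.2.2.1 x, by rw [(act_TN g _).2]; exact p.2.2.2⟩
  one_smul p := by
    apply Subtype.ext
    exact Prod.ext (one_mulVec p.1.1) (Prod.ext (one_mulVec p.1.2.1) (one_mulVec p.1.2.2))
  mul_smul g h p := by
    apply Subtype.ext
    exact Prod.ext (act_act g h p.1.1) (Prod.ext (act_act g h p.1.2.1) (act_act g h p.1.2.2))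

theorem free {g : G2 F} {p : Fr F} (h : g • p = p) : g = 1 := by
  obtain ⟨⟨a, b, c⟩, hab, hc, hN⟩ := p
  have h0 := congrArg Subtype.val h
  have ha : act g a = a := congrArg Prod.fst h0
  have hb : act g b = b := congrArg (fun t => t.2.1) h0
  have hc' : act g c = c := congrArg (fun t => t.2.2) h0
  have hfix : ∀ v, act g v = v := by
    intro v
    obtain ⟨q, rfl⟩ := Phi_surj hab hc (by rw [show N c = 1 from hN]; exact one_ne_zero) v
    rw [Phi_apply, act_add, act_mul, act_hh, act_hh, ha, hb, hc']
  apply Subtype.ext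
  apply Units.ext
  apply Matrix.mulVec_injective.eq_iff.1
  funext v
  exact (hfix v).trans (one_mulVec v).symm

theorem card_dvd [Finite F] : Nat.card (G2 F) ∣ Nat.card (Fr F) := by
  have : Finite (Fr F) := by unfold Fr; infer_instance
  apply H73.GenTuples.card_dvd_of_free (G2 F) (Fr F)
  intro g p hgp
  exact free hgp

end H17.Zorn
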