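import Cfsg.Agent.Lib.H17.ZornAlg
import Cfsg.Agent.Lib.H17.OrthTrans

/-! The Zorn algebra as a double of the matrix algebra; automorphisms from `SL₂` and `GL₂`. -/

set_option autoImplicit false
set_option linter.unusedSectionVars false

namespace H17.Zorn

open Cfsg.Lie Matrix

variable {F : Type*} [Field F]

local infixl:70 " ⋆ " => zornMul

abbrev M2 (F : Type*) := Matrix (Fin 2) (Fin 2) F

/-- `x + y l` -/
def Psi (x y : M2 F) : O F := ![x 0 0, x 0 1, y 0 0, y 1 0, x 1 0, -y 1 1, y 0 1, x 1 1]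

theorem Psi_mul (x y z w : M2 F) :
    Psi x y ⋆ Psi z w = Psi (x * z - w.adjugate * y) (w * x + y * z.adjugate) := by
  rw [mul_def]
  ext i
  fin_cases i <;> simp [Psi, adjugate_fin_two, Matrix.mul_apply, Fin.sum_univ_two, vecMul, dotProduct] <;> ring

/-- the linear equivalence -/
def PsiE : (M2 F × M2 F) ≃ₗ[F] O F where
  toFun p := Psi p.1 p.2
  map_add' p q := by
    ext i
    fin_cases i <;> simp [Psi]
    ring
  map_smul' c p := by
    ext i
    fin_cases i <;> simp [Psi]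
  invFun v := (!![v 0, v 1; v 4, v 7], !![v 2, v 6; v 3, -v 5])
  left_inv p := by
    refine Prod.ext ?_ ?_
    · ext i j
      fin_cases i <;> fin_cases j <;> simp [Psi]
    · ext i j
      fin_cases i <;> fin_cases j <;> simp [Psi]
  right_inv v := by
    ext i
    fin_cases i <;> simp [Psi]

theorem PsiE_apply (p : M2 F × M2 F) : PsiE p = Psi p.1 p.2 := rfl

/-- a pair of linear automorphisms as an element of `GL₈` -/
noncomputable def lift (f : (M2 F × M2 F) ≃ₗ[F] (M2 F × M2 F)) : GL (Fin 8) F :=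
  (OrthTrans.phi (Fin 8) F).symm (PsiE.symm.trans (f.trans PsiE))

theorem lift_act (f : (M2 F × M2 F) ≃ₗ[F] (M2 F × M2 F)) (x y : M2 F) :
    (lift f : Matrix (Fin 8) (Fin 8) F) *ᵥ Psi x y = Psi (f (x, y)).1 (f (x, y)).2 := by
  rw [← OrthTrans.phi_apply, lift, MulEquiv.apply_symm_apply]
  change PsiE (f (PsiE.symm (PsiE (x, y)))) = _
  rw [LinearEquiv.symm_apply_apply]
  rfl

theorem lift_mul (f g : (M2 F × M2 F) ≃ₗ[F] (M2 F × M2 F)) : lift (f * g) = lift f * lift g := by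
  rw [lift, lift, lift, ← map_mul]
  congr 1
  apply LinearEquiv.ext
  intro v
  change PsiE (f (g (PsiE.symm v))) = PsiE (f (PsiE.symm (PsiE (g (PsiE.symm v)))))
  rw [LinearEquiv.symm_apply_apply]

theorem lift_one : lift (1 : (M2 F × M2 F) ≃ₗ[F] (M2 F × M2 F)) = 1 := by
  rw [lift, ← map_one (OrthTrans.phi (Fin 8) F).symm]
  congr 1
  apply LinearEquiv.ext
  intro v
  change PsiE (PsiE.symm v) = v
  rw [LinearEquiv.apply_symm_apply]

theorem lift_mem (f : (M2 F × M2 F) ≃ₗ[F] (M2 F × M2 F))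
    (h : ∀ x y z w : M2 F, f (x * z - w.adjugate * y, w * x + y * z.adjugate) =
      ((f (x, y)).1 * (f (z, w)).1 - (f (z, w)).2.adjugate * (f (x, y)).2,
        (f (z, w)).2 * (f (x, y)).1 + (f (x, y)).2 * (f (z, w)).1.adjugate)) :
    lift f ∈ G2 F := by
  intro u v
  obtain ⟨⟨x, y⟩, rfl⟩ := PsiE.surjective u
  obtain ⟨⟨z, w⟩, rfl⟩ := PsiE.surjective v
  change (lift f : Matrix (Fin 8) (Fin 8) F) *ᵥ (Psi x y ⋆ Psi z w) =
    ((lift f : Matrix (Fin 8) (Fin 8) F) *ᵥ Psi x y) ⋆ ((lift f : Matrix (Fin 8) (Fin 8) F) *ᵥ Psi z w)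
  rw [Psi_mul, lift_act, lift_act, lift_act, Psi_mul, h]

/-- left multiplication by a unit of norm one on the second component -/
def fE (p : SpecialLinearGroup (Fin 2) F) : (M2 F × M2 F) ≃ₗ[F] (M2 F × M2 F) where
  toFun v := (v.1, p.1 * v.2)
  map_add' v w := by simp [mul_add]
  map_smul' c v := by simp
  invFun v := (v.1, (p⁻¹).1 * v.2)
  left_inv v := by
    refine Prod.ext rfl ?_
    change (p⁻¹).1 * (p.1 * v.2) = v.2
    have h1 : (p⁻¹).1 * p.1 = 1 := congrArg Subtype.val (inv_mul_cancel p)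
    rw [← mul_assoc, h1, one_mul]
  right_inv v := by
    refine Prod.ext rfl ?_
    change p.1 * ((p⁻¹).1 * v.2) = v.2
    have h1 : p.1 * (p⁻¹).1 = 1 := congrArg Subtype.val (mul_inv_cancel p)
    rw [← mul_assoc, h1, one_mul]

/-- conjugation on both components -/
def fT (h : GL (Fin 2) F) : (M2 F × M2 F) ≃ₗ[F] (M2 F × M2 F) where
  toFun v := (h.1 * v.1 * (h⁻¹).1, h.1 * v.2 * (h⁻¹).1)
  map_add' v w := by simp [mul_add, add_mul]
  map_smul' c v := by simp
  invFun v := ((h⁻¹).1 * v.1 * h.1, (h⁻¹).1 * v.2 * h.1)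
  left_inv v := by
    refine Prod.ext ?_ ?_
    · change (h⁻¹).1 * (h.1 * v.1 * (h⁻¹).1) * h.1 = v.1
      rw [← mul_assoc, ← mul_assoc, Units.inv_mul, one_mul, mul_assoc, Units.inv_mul, mul_one]
    · change (h⁻¹).1 * (h.1 * v.2 * (h⁻¹).1) * h.1 = v.2
      rw [← mul_assoc, ← mul_assoc, Units.inv_mul, one_mul, mul_assoc, Units.inv_mul, mul_one]
  right_inv v := by
    refine Prod.ext ?_ ?_
    · change h.1 * ((h⁻¹).1 * v.1 * h.1) * (h⁻¹).1 = v.1
      rw [← mul_assoc, ← mul_assoc, Units.mul_inv, one_mul, mul_assoc, Units.mul_inv, mul_one]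
    · change h.1 * ((h⁻¹).1 * v.2 * h.1) * (h⁻¹).1 = v.2
      rw [← mul_assoc, ← mul_assoc, Units.mul_inv, one_mul, mul_assoc, Units.mul_inv, mul_one]

theorem adj_mul' (x y : M2 F) : (x * y).adjugate = y.adjugate * x.adjugate := adjugate_mul_distrib x y

theorem adj_conj (h : GL (Fin 2) F) (x : M2 F) :
    (h.1 * x * (h⁻¹).1).adjugate = h.1 * x.adjugate * (h⁻¹).1 := by
  rw [adj_mul', adj_mul', ← mul_assoc]
  have h1 : (h⁻¹).1 * h.1 = 1 := Units.inv_mul h
  have h2 : h.1 * (h⁻¹).1 = 1 := Units.mul_inv h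
  have h3 : (h⁻¹).1.adjugate = (h⁻¹).1.det • h.1 := by
    have : (h⁻¹).1.adjugate = (h⁻¹).1.adjugate * ((h⁻¹).1 * h.1) := by rw [h1, mul_one]
    rw [this, ← mul_assoc, adjugate_mul, smul_mul_assoc, one_mul]
  have h4 : h.1.adjugate = h.1.det • (h⁻¹).1 := by
    have : h.1.adjugate = h.1.adjugate * (h.1 * (h⁻¹).1) := by rw [h2, mul_one]
    rw [this, ← mul_assoc, adjugate_mul, smul_mul_assoc, one_mul]
  have h5 : (h⁻¹).1.det * h.1.det = 1 := by rw [← det_mul, h1, det_one]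
  rw [h3, h4, smul_mul_assoc, smul_mul_assoc, mul_smul_comm, smul_smul, h5, one_smul]

theorem fE_mem (p : SpecialLinearGroup (Fin 2) F) : lift (fE p) ∈ G2 F := by
  apply lift_mem
  intro x y z w
  change (x * z - w.adjugate * y, p.1 * (w * x + y * z.adjugate)) =
    (x * z - (p.1 * w).adjugate * (p.1 * y), p.1 * w * x + p.1 * y * z.adjugate)
  have h1 : (p.1).adjugate * p.1 = 1 := by rw [adjugate_mul, p.2, one_smul]
  refine Prod.ext ?_ ?_
  · simp only
    rw [adj_mul', mul_assoc, ← mul_assoc (p.1).adjugate, h1, one_mul]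
  · simp only
    rw [mul_add, mul_assoc, mul_assoc]

theorem fT_mem (h : GL (Fin 2) F) : lift (fT h) ∈ G2 F := by
  apply lift_mem
  intro x y z w
  have h1 : (h⁻¹).1 * h.1 = 1 := Units.inv_mul h
  have key : ∀ a b : M2 F, h.1 * a * (h⁻¹).1 * (h.1 * b * (h⁻¹).1) = h.1 * (a * b) * (h⁻¹).1 := by
    intro a b
    rw [show h.1 * a * (h⁻¹).1 * (h.1 * b * (h⁻¹).1) = h.1 * a * ((h⁻¹).1 * h.1) * b * (h⁻¹).1 by
      simp only [mul_assoc], h1, mul_one]
    simp only [mul_assoc]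
  change (h.1 * (x * z - w.adjugate * y) * (h⁻¹).1, h.1 * (w * x + y * z.adjugate) * (h⁻¹).1) =
    (h.1 * x * (h⁻¹).1 * (h.1 * z * (h⁻¹).1) - (h.1 * w * (h⁻¹).1).adjugate * (h.1 * y * (h⁻¹).1),
      h.1 * w * (h⁻¹).1 * (h.1 * x * (h⁻¹).1) + h.1 * y * (h⁻¹).1 * (h.1 * z * (h⁻¹).1).adjugate)
  rw [adj_conj, adj_conj, key, key, key, key, mul_sub, sub_mul, mul_add, add_mul]

/-- the homomorphism from `SL₂` -/
noncomputable def phiE : SpecialLinearGroup (Fin 2) F →* G2 F where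
  toFun p := ⟨lift (fE p), fE_mem p⟩
  map_one' := by
    apply Subtype.ext
    change lift (fE 1) = 1
    rw [← lift_one]
    congr 1
    apply LinearEquiv.ext
    intro v
    refine Prod.ext rfl ?_
    change ((1 : SpecialLinearGroup (Fin 2) F).1) * v.2 = v.2
    simp
  map_mul' p q := by
    apply Subtype.ext
    change lift (fE (p * q)) = lift (fE p) * lift (fE q)
    rw [← lift_mul]
    congr 1
    apply LinearEquiv.ext
    intro v
    refine Prod.ext rfl ?_
    change (p * q).1 * v.2 = p.1 * (q.1 * v.2)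
    rw [← mul_assoc]
    rfl

/-- the homomorphism from `GL₂` -/
noncomputable def phiT : GL (Fin 2) F →* G2 F where
  toFun h := ⟨lift (fT h), fT_mem h⟩
  map_one' := by
    apply Subtype.ext
    change lift (fT 1) = 1
    rw [← lift_one]
    congr 1
    apply LinearEquiv.ext
    intro v
    refine Prod.ext ?_ ?_
    · change (1 : GL (Fin 2) F).1 * v.1 * ((1 : GL (Fin 2) F)⁻¹).1 = v.1
      simp
    · change (1 : GL (Fin 2) F).1 * v.2 * ((1 : GL (Fin 2) F)⁻¹).1 = v.2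
      simp
  map_mul' p q := by
    apply Subtype.ext
    change lift (fT (p * q)) = lift (fT p) * lift (fT q)
    rw [← lift_mul]
    congr 1
    apply LinearEquiv.ext
    intro v
    have h1 : (p * q).1 = p.1 * q.1 := rfl
    have h2 : ((p * q)⁻¹).1 = (q⁻¹).1 * (p⁻¹).1 := by rw [_root_.mul_inv_rev]; rfl
    refine Prod.ext ?_ ?_
    · change (p * q).1 * v.1 * ((p * q)⁻¹).1 = p.1 * (q.1 * v.1 * (q⁻¹).1) * (p⁻¹).1
      rw [h1, h2]
      simp only [mul_assoc]
    · change (p * q).1 * v.2 * ((p * q)⁻¹).1 = p.1 * (q.1 * v.2 * (q⁻¹).1) * (p⁻¹).1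
      rw [h1, h2]
      simp only [mul_assoc]

theorem phiE_act (p : SpecialLinearGroup (Fin 2) F) (x y : M2 F) :
    ((phiE p : G2 F) : GL (Fin 8) F).1 *ᵥ Psi x y = Psi x (p.1 * y) := lift_act _ _ _

theorem phiT_act (h : GL (Fin 2) F) (x y : M2 F) :
    ((phiT h : G2 F) : GL (Fin 8) F).1 *ᵥ Psi x y = Psi (h.1 * x * (h⁻¹).1) (h.1 * y * (h⁻¹).1) :=
  lift_act _ _ _

theorem G2_ext {g g' : G2 F} (h : ∀ x y : M2 F, ((g : GL (Fin 8) F).1 *ᵥ Psi x y) = ((g' : GL (Fin 8) F).1 *ᵥ Psi x y)) :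
    g = g' := by
  apply Subtype.ext
  apply Units.ext
  apply Matrix.mulVec_injective.eq_iff.1
  funext v
  obtain ⟨⟨x, y⟩, rfl⟩ := PsiE.surjective v
  exact h x y

theorem Psi_inj {x y x' y' : M2 F} (h : Psi x y = Psi x' y') : x = x' ∧ y = y' := by
  have := PsiE.injective (show PsiE (x, y) = PsiE (x', y') from h)
  exact Prod.mk.inj this

end H17.Zorn
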