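import Cfsg.Agent.Lib.H17.ZornAlg

/-! Hyperbolic pairs of null imaginary elements of the Zorn algebra. -/

set_option autoImplicit false
set_option linter.unusedSectionVars false

namespace H17.Zorn

open Cfsg.Lie Matrix

variable {F : Type*} [Field F]

local infixl:70 " ⋆ " => zornMul

theorem T_add (x y : O F) : T (x + y) = T x + T y := by simp [T]; ring
theorem T_smul (c : F) (x : O F) : T (c • x) = c * T x := by simp [T]; ring

theorem zero_mul' (x : O F) : (0 : O F) ⋆ x = 0 := by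
  have := smul_mul' (0 : F) 0 x
  simpa using this

theorem mul_zero' (x : O F) : x ⋆ (0 : O F) = 0 := by
  have := mul_smul' (0 : F) x 0
  simpa using this

/-- a hyperbolic pair of null imaginary elements -/
structure Pair (a b : O F) : Prop where
  Ta : T a = 0
  Na : N a = 0
  Tb : T b = 0
  Nb : N b = 0
  Bab : B a b = 1

/-- the quaternion subalgebra -/
def hh (a b : O F) (x : Fin 4 → F) : O F := x 0 • one + x 1 • a + x 2 • b + x 3 • (a ⋆ b)

namespace Pair

variable {a b : O F} (h : Pair a b)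
include h

theorem aa : a ⋆ a = 0 := by rw [sq, h.Ta, h.Na]; simp
theorem bb : b ⋆ b = 0 := by rw [sq, h.Tb, h.Nb]; simp
theorem ba : b ⋆ a = -(one) - a ⋆ b := by
  have h1 := mul_comm' a b
  rw [h.Ta, h.Tb, h.Bab, zero_smul, zero_smul, one_smul] at h1
  rw [eq_sub_iff_add_eq, add_comm, h1]
  simp
theorem a_ab : a ⋆ (a ⋆ b) = 0 := by rw [alt_left, h.aa, zero_mul']
theorem ab_b : (a ⋆ b) ⋆ b = 0 := by rw [alt_right, h.bb, mul_zero']
theorem b_ab : b ⋆ (a ⋆ b) = -b := by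
  have h1 : a ⋆ b = -(one) - b ⋆ a := by rw [h.ba]; abel
  have h2 : b ⋆ (b ⋆ a) = 0 := by rw [alt_left, h.bb, zero_mul']
  rw [h1, show (-(one) - b ⋆ a : O F) = (-1 : F) • one + (-1 : F) • (b ⋆ a) by simp [sub_eq_add_neg],
    mul_add', mul_smul', mul_smul', h2, mul_one']
  simp
theorem ab_a : (a ⋆ b) ⋆ a = -a := by
  have h1 : a ⋆ b = -(one) - b ⋆ a := by rw [h.ba]; abel
  have h2 : (b ⋆ a) ⋆ a = 0 := by rw [alt_right, h.aa, mul_zero']
  rw [h1, show (-(one) - b ⋆ a : O F) = (-1 : F) • one + (-1 : F) • (b ⋆ a) by simp [sub_eq_add_neg],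
    add_mul', smul_mul', smul_mul', h2, one_mul']
  simp

theorem Tab : T (a ⋆ b) = -1 := by
  rw [T_eq, B_mul_left, mul_one', cj_eq, h.Ta, zero_smul, zero_sub]
  rw [show (-a : O F) = (-1 : F) • a by simp, B_smul, B_comm, h.Bab]
  simp

theorem Nab : N (a ⋆ b) = 0 := by rw [N_mul, h.Na, zero_mul]

theorem ab_ab : (a ⋆ b) ⋆ (a ⋆ b) = -(a ⋆ b) := by
  rw [sq, h.Tab, h.Nab]
  simp

theorem B_ab_a : B (a ⋆ b) a = 0 := by
  rw [B_mul_left, cj_eq, h.Ta, zero_smul, zero_sub, show (-a : O F) = (-1 : F) • a by simp, smul_mul',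
    h.aa, smul_zero]
  simp [B]

theorem B_ab_b : B (a ⋆ b) b = 0 := by
  rw [B_mul_right, cj_eq, h.Tb, zero_smul, zero_sub, show (-b : O F) = (-1 : F) • b by simp, mul_smul',
    h.bb, smul_zero]
  simp [B]

/-- multiplication in the quaternion subalgebra -/
theorem hh_mul (x y : Fin 4 → F) : hh a b x ⋆ hh a b y =
    hh a b ![x 0 * y 0 - x 2 * y 1, x 0 * y 1 + x 1 * y 0 - x 3 * y 1,
      x 0 * y 2 + x 2 * y 0 - x 2 * y 3, x 0 * y 3 + x 3 * y 0 + x 1 * y 2 - x 2 * y 1 - x 3 * y 3] := by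
  simp only [hh, add_mul', mul_add', smul_mul', mul_smul', one_mul', mul_one', h.aa, h.bb, h.ba, h.a_ab,
    h.ab_b, h.b_ab, h.ab_a, h.ab_ab]
  simp only [cons_val_zero, cons_val_one, cons_val]
  module

theorem cj_hh (x : Fin 4 → F) : cj (hh a b x) = hh a b ![x 0 - x 3, -x 1, -x 2, -x 3] := by
  have hT : T (hh a b x) = 2 * x 0 - x 3 := by
    rw [hh, T_add, T_add, T_add, T_smul, T_smul, T_smul, T_smul, h.Ta, h.Tb, h.Tab]
    simp [T, one]
    ring
  rw [cj_eq, hT]
  simp only [hh, cons_val_zero, cons_val_one, cons_val]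
  module

theorem B_one (x : Fin 4 → F) : B (hh a b x) one = 2 * x 0 - x 3 := by
  rw [← T_eq, hh, T_add, T_add, T_add, T_smul, T_smul, T_smul, T_smul, h.Ta, h.Tb, h.Tab]
  simp [T, one]
  ring

theorem B_a (x : Fin 4 → F) : B (hh a b x) a = x 2 := by
  rw [hh, add_B, add_B, add_B, smul_B, smul_B, smul_B, smul_B, h.B_ab_a, B_comm one a, ← T_eq, h.Ta,
    B_comm b a, h.Bab, B_self, h.Na]
  ring

theorem B_b (x : Fin 4 → F) : B (hh a b x) b = x 1 := by
  rw [hh, add_B, add_B, add_B, smul_B, smul_B, smul_B, smul_B, h.B_ab_b, B_comm one b, ← T_eq, h.Tb,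
    h.Bab, B_self, h.Nb]
  ring

theorem B_ab (x : Fin 4 → F) : B (hh a b x) (a ⋆ b) = - x 0 := by
  rw [hh, add_B, add_B, add_B, smul_B, smul_B, smul_B, smul_B, B_comm a, h.B_ab_a, B_comm b, h.B_ab_b,
    B_comm one, ← T_eq, h.Tab, B_self, h.Nab]
  ring

theorem N_hh (x : Fin 4 → F) : N (hh a b x) = x 0 * (x 0 - x 3) + x 1 * x 2 := by
  have e1 : B one a = 0 := by rw [B_comm, ← T_eq, h.Ta]
  have e2 : B one b = 0 := by rw [B_comm, ← T_eq, h.Tb]
  have e3 : B one (a ⋆ b) = -1 := by rw [B_comm, ← T_eq, h.Tab]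
  have e4 : B a (a ⋆ b) = 0 := by rw [B_comm, h.B_ab_a]
  have e5 : B b (a ⋆ b) = 0 := by rw [B_comm, h.B_ab_b]
  simp only [hh, N_add, N_smul, h.Na, h.Nb, h.Nab, N_one, add_B, smul_B, B_smul, e1, e2, e3, e4, e5, h.Bab]
  ring

/-- orthogonality of `c` to the subalgebra -/
theorem perp_iff (c : O F) : (∀ x, B c (hh a b x) = 0) ↔
    B c one = 0 ∧ B c a = 0 ∧ B c b = 0 ∧ B c (a ⋆ b) = 0 := by
  constructor
  · intro hc
    refine ⟨?_, ?_, ?_, ?_⟩
    · have := hc ![1, 0, 0, 0]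
      simpa [hh] using this
    · have := hc ![0, 1, 0, 0]
      simpa [hh] using this
    · have := hc ![0, 0, 1, 0]
      simpa [hh] using this
    · have := hc ![0, 0, 0, 1]
      simpa [hh] using this
  · rintro ⟨h1, h2, h3, h4⟩ x
    rw [hh, B_add, B_add, B_add, B_smul, B_smul, B_smul, B_smul, h1, h2, h3, h4]
    ring

/-- `H c ⊥ H` -/
theorem perp_mul {c : O F} (hc : ∀ x, B c (hh a b x) = 0) (x y : Fin 4 → F) :
    B (hh a b x ⋆ c) (hh a b y) = 0 := by
  rw [B_mul_left, h.cj_hh, h.hh_mul]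
  exact hc _

theorem hh_eq_zero {x : Fin 4 → F} (hx : ∀ y, B (hh a b x) (hh a b y) = 0) : x = 0 := by
  obtain ⟨h1, h2, h3, h4⟩ := (h.perp_iff _).1 hx
  rw [h.B_one] at h1
  rw [h.B_a] at h2
  rw [h.B_b] at h3
  rw [h.B_ab] at h4
  have h5 : x 0 = 0 := neg_eq_zero.1 h4
  rw [h5] at h1
  ext i
  fin_cases i
  · exact h5
  · exact h3
  · exact h2
  · change x 3 = 0
    linear_combination -h1

theorem hh_inj : Function.Injective (hh a b) := by
  intro x y hxy
  have h1 : hh a b (x - y) = 0 := by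
    have : hh a b (x - y) = hh a b x - hh a b y := by
      simp only [hh, Pi.sub_apply]
      module
    rw [this, hxy, sub_self]
  have h2 : x - y = 0 := h.hh_eq_zero (fun z => by rw [h1]; simp [B])
  exact sub_eq_zero.1 h2

end Pair

/-- the linear parametrization by the doubling -/
def Phi (a b c : O F) : ((Fin 4 → F) × (Fin 4 → F)) →ₗ[F] O F where
  toFun p := hh a b p.1 + hh a b p.2 ⋆ c
  map_add' p q := by
    simp only [hh, Prod.fst_add, Prod.snd_add, Pi.add_apply, add_smul, add_mul']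
    abel
  map_smul' r p := by
    simp only [hh, Prod.smul_fst, Prod.smul_snd, Pi.smul_apply, smul_eq_mul, mul_smul, add_mul', smul_mul',
      smul_add, RingHom.id_apply]

theorem Phi_apply (a b c : O F) (p : (Fin 4 → F) × (Fin 4 → F)) :
    Phi a b c p = hh a b p.1 + hh a b p.2 ⋆ c := rfl

theorem Phi_surj {a b c : O F} (h : Pair a b) (hc : ∀ x, B c (hh a b x) = 0) (hN : N c ≠ 0) :
    Function.Surjective (Phi a b c) := by
  rw [← LinearMap.injective_iff_surjective_of_finrank_eq_finrank (by simp)]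
  rw [← LinearMap.ker_eq_bot, LinearMap.ker_eq_bot']
  rintro ⟨x, y⟩ hp
  rw [Phi_apply] at hp
  have h1 : x = 0 := by
    apply h.hh_eq_zero
    intro z
    have h2 : B (hh a b x + hh a b y ⋆ c) (hh a b z) = 0 := by
      rw [hp]; simp [B]
    rw [add_B, h.perp_mul hc, add_zero] at h2
    exact h2
  subst h1
  have h3 : hh a b (0 : Fin 4 → F) = 0 := by simp [hh]
  rw [h3, zero_add] at hp
  have h4 := mul_mul_cj (hh a b y) c
  rw [hp, zero_mul'] at h4
  have h5 : hh a b y = 0 := (smul_eq_zero.1 h4.symm).resolve_left hN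
  have h6 : y = 0 := h.hh_inj (by rw [h5, h3])
  rw [h6]
  rfl

end H17.Zorn
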